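import Cfsg.Agent.H9.SyR1

/-! S3580, reduction to a Sylow subgroup of prime order. -/

set_option autoImplicit false
set_option linter.unusedSectionVars false

namespace Cfsg.Agent.H9.SyR

open Finset MulAction

variable {G : Type*} [Group G] [Finite G] {p : ℕ} [Fact p.Prime]
  {Ω : Type*} [Fintype Ω] [DecidableEq Ω] [MulAction G Ω]

/-- stabiliser in `P` -/
def St (P : Sylow p G) (x : Ω) : Subgroup G := (P : Subgroup G) ⊓ stabilizer G x

theorem mem_St {P : Sylow p G} {x : Ω} {u : G} : u ∈ St P x ↔ u ∈ P ∧ u • x = x := Iff.rfl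

/-- orbit length -/
noncomputable def ix (P : Sylow p G) (x : Ω) : ℕ := (St P x).relIndex P

variable {P : Sylow p G} {x y : Ω}

theorem ix_eq : ix P x = (orbit (P : Subgroup G) x).ncard := by
  rw [← index_stabilizer, ix, Subgroup.relIndex]
  congr 1
  ext u
  simp [Subgroup.mem_subgroupOf, mem_St, Subgroup.smul_def]

theorem ix_one : ix P x = 1 ↔ ∀ u ∈ P, u • x = x := by
  rw [ix, Subgroup.relIndex_eq_one]
  exact ⟨fun h u hu => (h hu).2, fun h u hu => ⟨hu, h u hu⟩⟩

theorem ix_cases (P : Sylow p G) (x : Ω) : ix P x = 1 ∨ ix P x = p ∨ p ^ 2 ≤ ix P x := by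
  have hp : p.Prime := Fact.out
  obtain ⟨k, hk⟩ := IsPGroup.iff_card.mp P.isPGroup'
  have hd : ix P x ∣ p ^ k := hk ▸ Subgroup.index_dvd_card ((St P x).subgroupOf P)
  obtain ⟨j, -, hj⟩ := (Nat.dvd_prime_pow hp).mp hd
  rw [hj]
  rcases j with _ | _ | j
  · simp
  · simp
  · exact Or.inr (Or.inr (Nat.pow_le_pow_right hp.pos (by omega)))

theorem card_St (P : Sylow p G) (x : Ω) : Nat.card (St P x) * ix P x = Nat.card P := by
  have := Subgroup.card_mul_index ((St P x).subgroupOf P)
  rwa [Nat.card_congr (Subgroup.subgroupOfEquivOfLe (H := St P x) (K := P) inf_le_left).toEquiv] at this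

open Classical in
/-- orbit of `x` under the normaliser of `P_x` -/
noncomputable def Th (P : Sylow p G) (x : Ω) : Finset Ω :=
  univ.filter fun y => ∃ h ∈ Subgroup.normalizer (St P x : Set G), h • x = y

theorem mem_Th : y ∈ Th P x ↔ ∃ h ∈ Subgroup.normalizer (St P x : Set G), h • x = y := by
  classical simp [Th]

theorem th_fix (hy : y ∈ Th P x) {q : G} (hq : q ∈ St P x) : q • y = y := by
  obtain ⟨h, hh, rfl⟩ := mem_Th.mp hy
  have : h⁻¹ * q * h ∈ St P x := by
    rw [Subgroup.mem_normalizer_iff''] at hh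
    exact (hh q).mp hq
  have h2 := (mem_St.mp this).2
  rw [mul_smul, mul_smul, inv_smul_eq_iff] at h2
  exact h2

theorem th_eq (hx : ix P x = p) (hy : y ∈ Th P x) (h1 : ix P y ≠ 1) :
    ix P y = p ∧ Th P y = Th P x := by
  have hp : p.Prime := Fact.out
  have hle : St P x ≤ St P y := fun q hq => ⟨hq.1, th_fix hy hq⟩
  have hd : ix P y ∣ p := by
    have := Subgroup.relIndex_dvd_of_le_left (P : Subgroup G) hle
    change ix P y ∣ ix P x at this
    rwa [hx] at this
  have h2 : ix P y = p := ((Nat.dvd_prime hp).mp hd).resolve_left h1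
  have e : St P x = St P y := by
    refine Subgroup.eq_of_le_of_card_ge hle ?_
    have c1 := card_St P x
    have c2 := card_St P y
    rw [hx] at c1
    rw [h2, ← c1] at c2
    exact (Nat.eq_of_mul_eq_mul_right hp.pos c2).le
  refine ⟨h2, ?_⟩
  obtain ⟨h, hh, rfl⟩ := mem_Th.mp hy
  ext z
  rw [mem_Th, mem_Th, ← e]
  constructor
  · rintro ⟨w, hw, rfl⟩
    exact ⟨w * h, mul_mem hw hh, mul_smul _ _ _⟩
  · rintro ⟨w, hw, rfl⟩
    exact ⟨w * h⁻¹, mul_mem hw (inv_mem hh), by simp [mul_smul]⟩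

theorem th_core (hc : Core p) (hx : ix P x = p) :
    p * #((Th P x).filter fun y => ix P y = 1) ≤ (p - 1) * #((Th P x).filter fun y => ¬ ix P y = 1) := by
  classical
  have hp : p.Prime := Fact.out
  set N := Subgroup.normalizer (St P x : Set G) with hN
  have hPN : (P : Subgroup G) ≤ N := norm_of_idx P.isPGroup' inf_le_left hx
  have h1 : ¬ ix P x = 1 := by rw [hx]; exact hp.one_lt.ne'
  rw [ix_one] at h1
  push Not at h1
  obtain ⟨g, hg, hgx⟩ := h1
  have hmem : ∀ y : Ω, y ∈ orbit N x ↔ y ∈ Th P x := fun y => by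
    rw [mem_Th]
    exact ⟨fun ⟨h, e⟩ => ⟨h, h.2, e⟩, fun ⟨h, hh, e⟩ => ⟨⟨h, hh⟩, e⟩⟩
  have h2 := core2 hc (G := N) (Θ := orbit N x) (fun a b => exists_smul_eq N a b)
    ((St P x).subgroupOf N) (fun q hq a => Subtype.ext (th_fix ((hmem _).mp a.2) hq)) ?_
    (g := ⟨g, hPN hg⟩) ?_ ⟨⟨x, mem_orbit_self x⟩, fun h => hgx (congrArg Subtype.val h)⟩
  · have c1 : Nat.card (orbit N x) = #(Th P x) := by
      rw [← Nat.card_eq_finsetCard]
      exact Nat.card_congr (Equiv.subtypeEquivRight hmem)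
    have c2 : #((Th P x).filter fun y => ix P y = 1) ≤
        Nat.card {a : orbit N x // (⟨g, hPN hg⟩ : N) • a = a} := by
      rw [← Nat.card_eq_finsetCard]
      refine Nat.card_le_card_of_injective
        (fun a => ⟨⟨a.1, (hmem _).mpr (mem_filter.mp a.2).1⟩,
          Subtype.ext (ix_one.mp (mem_filter.mp a.2).2 g hg)⟩) ?_
      intro a b h
      exact Subtype.ext (congrArg (fun z => z.1.1) h)
    have c3 := card_filter_add_card_filter_not (s := Th P x) (fun y => ix P y = 1)
    rw [c1, ← c3] at h2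
    obtain ⟨r, rfl⟩ : ∃ r, p = r + 1 := ⟨p - 1, by have := hp.pos; omega⟩
    have e1 : 2 * (r + 1) - 1 = 2 * r + 1 := by omega
    rw [e1] at h2
    simp only [Nat.add_sub_cancel] at h2 ⊢
    nlinarith
  · intro h
    have c1 := Subgroup.card_mul_index ((St P x).subgroupOf N)
    rw [Nat.card_congr (Subgroup.subgroupOfEquivOfLe (Subgroup.le_normalizer)).toEquiv] at c1
    have c2 := card_St P x
    have c3 := Subgroup.card_mul_index (P : Subgroup G)
    obtain ⟨c, hc⟩ := h
    obtain ⟨d, hd⟩ := Subgroup.card_subgroup_dvd_card N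
    refine P.not_dvd_index ⟨c * d, Nat.eq_of_mul_eq_mul_left (Nat.card_pos (α := P)) ?_⟩
    rw [hx] at c2
    have c3' : Nat.card P * (P : Subgroup G).index = Nat.card G := c3
    rw [c3', hd, ← c1, hc, ← c2]
    ring
  · have : ((St P x).subgroupOf P).Normal :=
      (Subgroup.normal_subgroupOf_iff_le_normalizer inf_le_left).mpr hPN
    have h3 := Subgroup.pow_index_mem ((St P x).subgroupOf P) ⟨g, hg⟩
    have h4 : ((St P x).subgroupOf P).index = p := hx
    rw [h4] at h3
    exact h3

theorem cover (ht : ∀ x y : Ω, ∃ h : G, h • x = y) (hx : ix P x = p) (hy : ix P y = 1) :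
    ∃ z, ix P z = p ∧ y ∈ Th P z := by
  have hp : p.Prime := Fact.out
  obtain ⟨h, rfl⟩ := ht y x
  have h1 : ((h • P : Sylow p G) : Subgroup G) ≤ stabilizer G (h • y) := fun u hu => by
    have := ix_one.mp hy _ (mem_smul_syl.mp hu)
    rwa [mul_smul, mul_smul, inv_smul_eq_iff] at this
  obtain ⟨s, hs, h2⟩ := syl_le h1 (Q := St P (h • y)) (P.isPGroup'.to_le inf_le_left) inf_le_right
  have h3 : (St P (h • y)).relIndex ((s • h • P : Sylow p G) : Subgroup G) = p := by
    have c1 := Subgroup.card_mul_index ((St P (h • y)).subgroupOf ((s • h • P : Sylow p G) : Subgroup G))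
    rw [Nat.card_congr (Subgroup.subgroupOfEquivOfLe h2).toEquiv] at c1
    have c2 := card_St P (h • y)
    have c3 : Nat.card ((s • h • P : Sylow p G) : Subgroup G) = Nat.card P := by
      rw [Sylow.card_eq_multiplicity P]; exact Sylow.card_eq_multiplicity (s • h • P)
    rw [hx, ← c3, ← c1] at c2
    exact (Nat.eq_of_mul_eq_mul_left Nat.card_pos c2).symm
  obtain ⟨n, hn, h4⟩ := syl_conj (norm_of_idx (s • h • P).isPGroup' h2 h3)
    (norm_of_idx P.isPGroup' inf_le_left hx)
  rw [← mul_smul, ← mul_smul] at h4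
  set m := n * s * h with hm
  have hP : ∀ u, u ∈ P ↔ m⁻¹ * u * m ∈ P := fun u => by rw [← mem_smul_syl, h4]
  have hS : ∀ u, u ∈ St P (m⁻¹ • h • y) ↔ m * u * m⁻¹ ∈ St P (h • y) := fun u => by
    rw [mem_St, mem_St, hP (m * u * m⁻¹), mul_smul, mul_smul, smul_eq_iff_eq_inv_smul m]
    simp [mul_assoc]
  refine ⟨m⁻¹ • h • y, ?_, mem_Th.mpr ⟨m⁻¹ * n * m, ?_, ?_⟩⟩
  · have c1 := card_St P (h • y)
    have c2 := card_St P (m⁻¹ • h • y)
    have c3 : Nat.card (St P (m⁻¹ • h • y)) = Nat.card (St P (h • y)) :=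
      Nat.card_congr ((MulAut.conj m).toEquiv.subtypeEquiv hS)
    rw [c3, ← c1, hx] at c2
    exact Nat.eq_of_mul_eq_mul_left Nat.card_pos c2
  · rw [Subgroup.mem_normalizer_iff] at hn ⊢
    intro u
    rw [hS, hS, hn]
    simp [mul_assoc]
  · have : s • h • y = h • y := hs
    rw [mul_smul, smul_inv_smul, mul_smul, inv_smul_eq_iff, hm, mul_smul, mul_smul, this]

theorem fix_le (hc : Core p) (ht : ∀ x y : Ω, ∃ h : G, h • x = y) (hx : ix P x = p) :
    p * #(univ.filter fun y : Ω => ix P y = 1) ≤ (p - 1) * #(univ.filter fun y : Ω => ix P y = p) := by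
  classical
  have hp : p.Prime := Fact.out
  set S := univ.filter fun y : Ω => ix P y = p with hS
  have h1 : (univ.filter fun y : Ω => ix P y = 1) ⊆
      (S.image (Th P)).biUnion fun T => T.filter fun y => ix P y = 1 := by
    intro y hy
    have hy1 := (mem_filter.mp hy).2
    obtain ⟨z, hz, hyz⟩ := cover ht hx hy1
    exact mem_biUnion.mpr ⟨_, mem_image_of_mem _ (mem_filter.mpr ⟨mem_univ _, hz⟩),
      mem_filter.mpr ⟨hyz, hy1⟩⟩
  refine (Nat.mul_le_mul_left p ((card_le_card h1).trans card_biUnion_le)).trans ?_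
  rw [card_eq_sum_card_image (Th P) S, mul_sum, mul_sum]
  refine sum_le_sum fun T hT => ?_
  obtain ⟨z, hz, rfl⟩ := mem_image.mp hT
  have hz' := (mem_filter.mp hz).2
  refine (th_core hc hz').trans (Nat.mul_le_mul_left _ (card_le_card fun y hy => ?_))
  obtain ⟨h2, h3⟩ := mem_filter.mp hy
  obtain ⟨h4, h5⟩ := th_eq hz' h2 h3
  exact mem_filter.mpr ⟨mem_filter.mpr ⟨mem_univ _, h4⟩, h5⟩

theorem red' (hc : Core p) (ht : ∀ x y : Ω, ∃ h : G, h • x = y) (P : Sylow p G)
    (hm : ∃ u ∈ P, ∃ x : Ω, u • x ≠ x) :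
    (2 * p - 1) * Nat.card (orbitRel.Quotient (P : Subgroup G) Ω) ≤ p * Nat.card Ω := by
  classical
  have hp : p.Prime := Fact.out
  let π : Ω → orbitRel.Quotient (P : Subgroup G) Ω := Quotient.mk''
  have := Fintype.ofFinite (orbitRel.Quotient (P : Subgroup G) Ω)
  have hfib : ∀ (R : ℕ → Prop) [DecidablePred R] (x : Ω), R (ix P x) →
      #((univ.filter fun y : Ω => R (ix P y)).filter fun y => π y = π x) = ix P x := by
    intro R _ x hx
    rw [ix_eq, ← Set.ncard_coe_finset]
    congr 1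
    ext y
    simp only [coe_filter, mem_filter, mem_univ, true_and, Set.mem_ofPred_eq]
    have e : π y = π x ↔ y ∈ orbit (P : Subgroup G) x := Quotient.eq''.trans orbitRel_apply
    rw [e]
    refine ⟨fun h => h.2, fun h => ⟨?_, h⟩⟩
    rwa [ix_eq, orbit_eq_iff.mpr h, ← ix_eq]
  have hcnt : ∀ (R : ℕ → Prop) [DecidablePred R] (c : ℕ), (∀ k, R k → c ≤ k) →
      c * #((univ.filter fun y : Ω => R (ix P y)).image π) ≤ #(univ.filter fun y : Ω => R (ix P y)) := by
    intro R _ c h
    rw [card_eq_sum_card_image π (univ.filter fun y : Ω => R (ix P y)), mul_comm, ← smul_eq_mul,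
      ← sum_const]
    refine sum_le_sum fun ω hω => ?_
    obtain ⟨x, hx, rfl⟩ := mem_image.mp hω
    rw [hfib R x (mem_filter.mp hx).2]
    exact h _ (mem_filter.mp hx).2
  have h0 := hcnt (fun k => k = 1) 1 (fun k h => h.ge)
  have h1 := hcnt (fun k => k = p) p (fun k h => h.ge)
  have h1' : #(univ.filter fun y : Ω => ix P y = p) ≤
      p * #((univ.filter fun y : Ω => ix P y = p).image π) := by
    rw [card_eq_sum_card_image π (univ.filter fun y : Ω => ix P y = p), mul_comm, ← smul_eq_mul,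
      ← sum_const]
    refine sum_le_sum fun ω hω => ?_
    obtain ⟨x, hx, rfl⟩ := mem_image.mp hω
    rw [hfib (fun k => k = p) x (mem_filter.mp hx).2]
    exact (mem_filter.mp hx).2.le
  have h2 := hcnt (fun k => p ^ 2 ≤ k) (p ^ 2) (fun k h => h)
  have hp2 : p < p ^ 2 := by have := hp.one_lt; nlinarith
  have hT : Nat.card (orbitRel.Quotient (P : Subgroup G) Ω) ≤
      #((univ.filter fun y : Ω => ix P y = 1).image π) + #((univ.filter fun y : Ω => ix P y = p).image π) +
        #((univ.filter fun y : Ω => p ^ 2 ≤ ix P y).image π) := by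
    rw [Nat.card_eq_fintype_card, ← card_univ]
    refine le_trans (card_le_card fun ω _ => ?_)
      ((card_union_le _ _).trans (Nat.add_le_add_right (card_union_le _ _) _))
    induction ω using Quotient.inductionOn' with
    | h x =>
      simp only [mem_union]
      rcases ix_cases P x with h | h | h
      · exact Or.inl (Or.inl (mem_image_of_mem π (mem_filter.mpr ⟨mem_univ _, h⟩)))
      · exact Or.inl (Or.inr (mem_image_of_mem π (mem_filter.mpr ⟨mem_univ _, h⟩)))
      · exact Or.inr (mem_image_of_mem π (mem_filter.mpr ⟨mem_univ _, h⟩))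
  have hn : Nat.card Ω = #(univ.filter fun y : Ω => ix P y = 1) + #(univ.filter fun y : Ω => ix P y = p) +
      #(univ.filter fun y : Ω => p ^ 2 ≤ ix P y) := by
    rw [Nat.card_eq_fintype_card, ← card_univ, ← card_union_of_disjoint, ← card_union_of_disjoint]
    · congr 1
      ext x
      simpa [or_assoc] using ix_cases P x
    · rw [disjoint_left]
      intro x hx hx'
      simp only [mem_union, mem_filter, mem_univ, true_and] at hx hx'
      have := hp.one_lt
      omega
    · rw [disjoint_left]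
      intro x hx hx'
      simp only [mem_filter, mem_univ, true_and] at hx hx'
      have := hp.one_lt
      omega
  have key : (#(univ.filter fun y : Ω => ix P y = p) = 0 ∧
      2 * #(univ.filter fun y : Ω => ix P y = 1) + 1 ≤ Nat.card Ω) ∨
      p * #(univ.filter fun y : Ω => ix P y = 1) ≤ (p - 1) * #(univ.filter fun y : Ω => ix P y = p) := by
    by_cases h : ∃ x : Ω, ix P x = p
    · obtain ⟨x, hx⟩ := h
      exact Or.inr (fix_le hc ht hx)
    · refine Or.inl ⟨by rw [card_eq_zero, filter_eq_empty_iff]; exact fun x _ e => h ⟨x, e⟩, ?_⟩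
      convert half ht P hm using 3
      rw [← Fintype.card_subtype, ← Nat.card_eq_fintype_card]
      exact Nat.card_congr (Equiv.subtypeEquivRight fun x => ix_one)
  generalize #((univ.filter fun y : Ω => ix P y = 1).image π) = a0 at *
  generalize #((univ.filter fun y : Ω => ix P y = p).image π) = a1 at *
  generalize #((univ.filter fun y : Ω => p ^ 2 ≤ ix P y).image π) = a2 at *
  generalize #(univ.filter fun y : Ω => ix P y = 1) = f at *
  generalize #(univ.filter fun y : Ω => ix P y = p) = s1 at *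
  generalize #(univ.filter fun y : Ω => p ^ 2 ≤ ix P y) = s2 at *
  refine (Nat.mul_le_mul_left _ hT).trans ?_
  rw [hn] at key ⊢
  obtain ⟨r, rfl⟩ : ∃ r, p = r + 1 := ⟨p - 1, by have := hp.pos; omega⟩
  have e1 : 2 * (r + 1) - 1 = 2 * r + 1 := by omega
  rw [e1]
  simp only [Nat.add_sub_cancel] at key
  have e2 : s1 = (r + 1) * a1 := le_antisymm h1' h1
  subst e2
  have h3 : (2 * r + 1) * a2 ≤ s2 := le_trans (Nat.mul_le_mul_right _ (by nlinarith)) h2
  rcases key with ⟨k1, k2⟩ | k
  · have : a1 = 0 := by simpa using k1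
    subst this
    have : r * f ≤ r * s2 := Nat.mul_le_mul_left _ (by omega)
    have : (2 * r + 1) * a0 ≤ (2 * r + 1) * f := Nat.mul_le_mul_left _ (by omega)
    nlinarith
  · have k' : f ≤ r * a1 := Nat.le_of_mul_le_mul_left (by nlinarith) (Nat.succ_pos r)
    have : r * f ≤ r * (r * a1) := Nat.mul_le_mul_left _ k'
    have : (2 * r + 1) * a0 ≤ (2 * r + 1) * f := Nat.mul_le_mul_left _ (by omega)
    nlinarith

/-- S3580 from the core statement -/
theorem red {G Ω : Type*} [Group G] [Finite G] [MulAction G Ω] [FaithfulSMul G Ω] [Finite Ω]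
    (htrans : IsPretransitive G Ω) (p : ℕ) [Fact p.Prime] (hc : Core p) (hpG : p ∣ Nat.card G)
    (P : Sylow p G) :
    (2 * p - 1) * Nat.card (orbitRel.Quotient (P : Subgroup G) Ω) ≤ p * Nat.card Ω := by
  classical
  have := Fintype.ofFinite Ω
  refine red' hc (fun x y => htrans.exists_smul_eq x y) P ?_
  obtain ⟨u, hu, h1⟩ := (Subgroup.bot_or_exists_ne_one (P : Subgroup G)).resolve_left
    (P.ne_bot_of_dvd_card hpG)
  refine ⟨u, hu, ?_⟩
  by_contra h
  push Not at h
  exact h1 (FaithfulSMul.eq_of_smul_eq_smul (α := Ω) fun x => by rw [h x, one_smul])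

end Cfsg.Agent.H9.SyR
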