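import Cfsg.Agent.H9.O11Case

/-! Lines of type `J1` for S3403. -/

set_option autoImplicit false

namespace Cfsg.Agent.H9.O11

open Subgroup MulAction Cfsg.Agent.H7
open MulAut (conj)
open scoped Pointwise

variable {G : Type*} [Group G] {X Y : Subgroup G} {Ω : Type*} [MulAction G Ω]
  {A : Ω → Subgroup G} {α β γ δ : Ω} {a g x y h u w r : G} {ι : alternatingGroup (Fin 5) →* G}

theorem ncard_class (H : Subgroup G) (u : G) :
    {v | ∃ x ∈ H, x * u * x⁻¹ = v}.ncard * Nat.card ↥(H ⊓ C₁[u]) = Nat.card H := by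
  letI : MulAction G G := MulAction.compHom G (MulAut.conj : G →* MulAut G)
  have := ncard_orbit H u
  rwa [show stabilizer G u = C₁[u] from Subgroup.ext fun x => by
    rw [mem_cent1_iff, ← mul_inv_eq_iff_eq_mul]; rfl] at this

theorem a5_pow : ∀ c : alternatingGroup (Fin 5), c ^ 6 = 1 ∨ c ^ 5 = 1 := by decide +kernel

theorem split_eq {x' k k' : G} (hb : ∀ z ∈ X, z ∈ C[X] → z = 1) (hx : x ∈ X) (hx' : x' ∈ X)
    (hk : k ∈ C[X]) (hk' : k' ∈ C[X]) (e : x * k = x' * k') : x = x' ∧ k = k' := by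
  have e1 : x'⁻¹ * x = k' * k⁻¹ := by rw [inv_mul_eq_iff_eq_mul, ← mul_assoc, ← e]; group
  have e2 := hb _ (mul_mem (inv_mem hx') hx) (e1 ▸ mul_mem hk' (inv_mem hk))
  rw [e2] at e1
  exact ⟨(inv_mul_eq_one.1 e2).symm, (mul_inv_eq_one.1 e1.symm).symm⟩

theorem split_pow {k : G} {n : ℕ} (hb : ∀ z ∈ X, z ∈ C[X] → z = 1) (hx : x ∈ X) (hk : k ∈ C[X])
    (e : (x * k) ^ n = 1) : x ^ n = 1 ∧ k ^ n = 1 :=
  split_eq hb (pow_mem hx n) (one_mem _) (pow_mem hk n) (one_mem _) (by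
    rw [← (commute_of_mem_cent hk hx).mul_pow, e, one_mul])

namespace JR

variable (H : JR X a g w r ι)
include H

theorem ot : orderOf (g ^ 5) = 2 := by rw [orderOf_pow' g (by norm_num), H.og]; norm_num

theorem oh : orderOf (g ^ 2) = 5 := by rw [orderOf_pow' g (by norm_num), H.og]; norm_num

theorem mw : w ∈ X := let ⟨c, e⟩ := H.wι; e ▸ H.mι c

theorem tw : Commute (g ^ 5) w := let ⟨c, e⟩ := H.wι; e ▸ H.cι c

theorem ln : Ln X := .inr ⟨_, _, _, _, _, H⟩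

theorem g_eq : g = g ^ 5 * (g ^ 2) ^ 3 := by
  rw [← pow_mul, ← pow_add, show 5 + 2 * 3 = 10 + 1 from rfl, pow_succ, ← H.og,
    pow_orderOf_eq_one, one_mul]

variable [Finite G]

theorem gn : g ∈ N[zpowers a] := mem_norm_of_conj_smul_le (by
  rw [conj_smul_zpowers, H.ga]; exact zpowers_le_of_mem (pow_mem (mem_zpowers a) 2))

theorem cent_g (hy : y ∈ X) (h1 : Commute y (g ^ 5)) (h2 : Commute y (g ^ 2)) : y ∈ zpowers g := by
  obtain ⟨d, hd⟩ := H.hι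
  have k : ∀ c, Commute (ι c) (g ^ 2) → ι c ∈ zpowers g := fun c hc => by
    have k1 : ι c ^ 5 = 1 := by
      rcases a5_pow c with e | e
      · rcases a5_pow (c * d) with e' | e' <;> replace e' := congrArg ι e' <;>
          rw [map_pow, map_mul, hd, hc.mul_pow, map_one] at e'
        · rw [← map_pow, e, map_one, one_mul, pow_succ, pow5 H.oh, one_mul] at e'
          exact absurd e' (ne_one_of_ord H.oh)
        · rwa [pow5 H.oh, mul_one] at e'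
      · rw [← map_pow, e, map_one]
    exact zpowers_le_of_mem (pow_mem (mem_zpowers g) 2) (H.ln.mem_zpowers (n := 1) (by norm_num)
      (pow_mem H.mg 2) (H.mι c) H.oh k1 (cent_le_norm _ (by rw [cent_zpowers]; exact mem_cent1_iff.2 hc)))
  obtain ⟨c, rfl | rfl⟩ := H.cent y hy h1
  · exact k c h2
  · exact mul_mem (pow_mem (mem_zpowers g) 5) (k c (by
      simpa using ((Commute.pow_pow_self g 5 2).inv_left).mul_left h2))

theorem cent_or (hy : y ∈ X) (hn : y ∈ N[zpowers (g ^ 2)]) :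
    Commute y (g ^ 2) ∨ Commute (w * y) (g ^ 2) := by
  obtain ⟨i, e⟩ := exists_pow_of_mem (conj_mem_of_norm hn (mem_zpowers _))
  have k : ∀ n : ℕ, y ^ n * g ^ 2 * (y ^ n)⁻¹ = (g ^ 2) ^ i ^ n := fun n => by
    induction n with
    | zero => simp
    | succ n ih => rw [pow_succ' y, pow_succ' i, pow_mul, ← e, conj_pow, ← ih]; group
  have o := H.ord y hy
  have k2 : i ^ 2 ≡ 1 [MOD 5] := by
    have k3 := k (orderOf y)
    rw [pow_orderOf_eq_one, one_mul, inv_one, mul_one, eq_comm] at k3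
    nth_rewrite 2 [← pow_one (g ^ 2)] at k3
    rw [pow_eq_pow_iff_modEq, H.oh] at k3
    have k4 : ∀ j : Fin 5, ∀ n ∈ [1, 2, 3, 5, 6, 7, 10, 11, 15, 19], j.1 ^ n ≡ 1 [MOD 5] →
        j.1 ^ 2 ≡ 1 [MOD 5] := by decide
    exact ((Nat.mod_modEq i 5).pow 2).symm.trans (k4 ⟨i % 5, Nat.mod_lt _ (by norm_num)⟩ _ o
      (((Nat.mod_modEq i 5).pow _).trans k3))
  have k5 : ∀ j : Fin 5, j.1 ^ 2 ≡ 1 [MOD 5] → j.1 = 1 ∨ j.1 = 4 := by decide
  rw [← pow_mod_orderOf _ i, H.oh] at e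
  rcases k5 ⟨i % 5, Nat.mod_lt _ (by norm_num)⟩ (((Nat.mod_modEq i 5).pow 2).trans k2) with c | c <;>
    rw [show i % 5 = _ from c] at e
  · exact .inl (mul_inv_eq_iff_eq_mul.1 (e.trans (pow_one _)))
  · refine .inr (mul_inv_eq_iff_eq_mul.1 ?_)
    calc _ = w * (y * g ^ 2 * y⁻¹) * w⁻¹ := by group
      _ = ((g ^ 2) ^ 5)⁻¹ * g ^ 2 := by rw [e, ← conj_pow, H.wh]; group
      _ = _ := by rw [pow5 H.oh, inv_one, one_mul]

/-- the involutions of `C_X(h)` are conjugate in `C_X(h)` -/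
theorem conj_inv (hu : u ∈ X) (ou : orderOf u = 2) (hc : Commute u (g ^ 2)) :
    ∃ c ∈ X, Commute c (g ^ 2) ∧ c * g ^ 5 * c⁻¹ = u := by
  have k : IsSylowIn 2 (zpowers (g ^ 5)) (X ⊓ C₁[g ^ 2]) := by
    have k1 : zpowers (g ^ 5) ≤ X ⊓ C₁[g ^ 2] ⊓ N[zpowers (g ^ 5)] := zpowers_le_of_mem
      ⟨⟨pow_mem H.mg 5, mem_cent1_iff.2 (Commute.pow_pow_self g 5 2)⟩, le_norm_self _ (mem_zpowers _)⟩
    refine IsSylowIn.of_norm (IsSylowIn.mono (H := zpowers g) ⟨zpowers_le_of_mem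
      (pow_mem (mem_zpowers g) 5), IsPGroup.of_card (n := 1) (by rw [Nat.card_zpowers, H.ot]; rfl),
      fun c => ?_⟩ k1 fun y hy => H.cent_g hy.1.1 ?_ (mem_cent1_iff.1 hy.1.2))
    · have := card_mul_relIndex (zpowers_le_of_mem (pow_mem (mem_zpowers g) 5))
      rw [Nat.card_zpowers, Nat.card_zpowers, H.ot, H.og] at this
      omega
    · obtain ⟨i, e⟩ := exists_pow_of_mem (conj_mem_of_norm hy.2 (mem_zpowers _))
      have o := orderOf_cj y (g ^ 5)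
      rw [← pow_mod_orderOf _ i, H.ot] at e
      rcases Nat.mod_two_eq_zero_or_one i with c | c <;> rw [c] at e
      · rw [e, H.ot] at o; simp at o
      · exact mul_inv_eq_iff_eq_mul.1 (e.trans (pow_one _))
  obtain ⟨c, hc', e⟩ := k.exists_le_conj (P := zpowers u) (IsPGroup.of_card (n := 1)
    (by rw [Nat.card_zpowers, ou]; rfl)) (zpowers_le_of_mem ⟨hu, mem_cent1_iff.2 hc⟩)
  refine ⟨c, hc'.1, mem_cent1_iff.1 hc'.2, ?_⟩
  rw [conj_smul_zpowers] at e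
  obtain ⟨i, e⟩ := exists_pow_of_mem (e (mem_zpowers u))
  rw [← pow_mod_orderOf _ i, orderOf_cj, H.ot] at e
  rcases Nat.mod_two_eq_zero_or_one i with c | c <;> rw [c] at e
  · rw [e] at ou; simp at ou
  · rw [e, pow_one]

end JR

variable [Finite G]

namespace Geo

variable (hA : Geo A)
include hA

theorem bot (hX : Ln X) (hα : A α ≤ X) : ∀ z ∈ X, z ∈ C[X] → z = 1 :=
  fun _ h1 h2 => hA.eq_one_of_cent hX hα h1 h2

theorem eq_one_of_comm (hx : x ∈ A α) (h1 : h ∉ C[A α]) (hc : Commute x h) : x = 1 :=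
  by_contra fun k => h1 (by rw [← hA.zp_eq hx k, cent_zpowers]; exact mem_cent1_iff.2 hc.symm)

theorem jr_at_h (hX : JF X) (hα : A α ≤ X) (hh : h ∈ X) (oh : orderOf h = 5) (e : h • α = α) :
    ∃ a g w r ι, JR X a g w r ι ∧ A α = zpowers a ∧ zpowers (g ^ 2) = zpowers h := by
  obtain ⟨a, g, w, r, ι, H, e'⟩ := hA.jr_at hX hα
  have k : ∀ y ∈ X, orderOf y = 5 → y ∈ N[A α] → IsSylowIn 5 (zpowers y) (X ⊓ N[A α]) :=
    fun y hy oy hn => (H.ln.sylow (by norm_num) (zpowers_le_of_mem hy)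
      (by rw [Nat.card_zpowers, oy])).mono (zpowers_le_of_mem ⟨hy, hn⟩) inf_le_left
  obtain ⟨x, hx, e2⟩ := (k _ (pow_mem H.mg 2) H.oh (e' ▸ pow_mem H.gn 2)).exists_conj
    (k h hh oh (hA.fix_iff.1 e))
  have := H.smul x
  rw [conj_smul_of_norm (le_norm_self _ hx.1)] at this
  refine ⟨_, _, _, _, _, this, ?_, by rw [← e2, conj_smul_zpowers, ← map_pow]; rfl⟩
  rw [← conj_smul_of_norm hx.2, e', conj_smul_zpowers]; rfl

theorem g_fix (H : JR X a g w r ι) (e : A α = zpowers a) : g • α = α := hA.fix_iff.2 (e ▸ H.gn)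

theorem t_fix (H : JR X a g w r ι) (e : A α = zpowers a) : g ^ 5 • α = α :=
  pow_mem (mem_stabilizer_iff.2 (hA.g_fix H e)) 5

/-- two involutions inverting `A α` -/
theorem mul_mem_cent {t t' : G} (e : t • α = α) (e' : t' • α = α) (h2 : t * t = 1)
    (h2' : t' * t' = 1) (h1 : t ∉ C[A α]) (h1' : t' ∉ C[A α]) : t'⁻¹ * t ∈ C[A α] := by
  obtain ⟨a, oa, k⟩ := hA.exists_gen α
  rw [hA.fix_iff] at e e'
  rw [k] at e e' h1 h1' ⊢
  exact mul_inv_mem_of_ch oa e e' ((inverts_of_sq oa e (h2 ▸ one_mem _) h1).trans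
    (inverts_of_sq oa e' (h2' ▸ one_mem _) h1').symm)

theorem inv_unique {t t' : G} (hX : Ln X) (hα : A α ≤ X) (ht : t ∈ X) (ht' : t' ∈ X)
    (o : orderOf t = 2) (o' : orderOf t' = 2) (e : t • α = α) (e' : t' • α = α) (h1 : h ∉ C[A α])
    (c : Commute t h) (c' : Commute t' h) : t = t' :=
  (inv_mul_eq_one.1 (hA.eq_one_of_comm (hA.cent_pt hX hα (mul_mem (inv_mem ht') ht)
    (hA.mul_mem_cent e e' (sq_of_ord o) (sq_of_ord o')
      (hA.not_cent hX hα ht (ne_one_of_ord o) (by omega))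
      (hA.not_cent hX hα ht' (ne_one_of_ord o') (by omega)))) h1 (c'.inv_left.mul_left c))).symm

/-- the points of `X` fixed by `g` -/
theorem fix_g (H : JR X a g w r ι) (e : A α = zpowers a) (hγ : A γ ≤ X) (f : g • γ = γ) :
    γ = α ∨ γ = w • α := by
  have hα : A α ≤ X := e ▸ zpowers_le_of_mem H.ma
  have k : ∀ y ∈ X, orderOf y = 5 → y ∈ N[A α] → IsSylowIn 5 (zpowers y) (X ⊓ N[A α]) :=
    fun y hy oy hn => (H.ln.sylow (by norm_num) (zpowers_le_of_mem hy)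
      (by rw [Nat.card_zpowers, oy])).mono (zpowers_le_of_mem ⟨hy, hn⟩) inf_le_left
  obtain ⟨y, hy, rfl⟩ := hA.conj_in H.ln hγ hα
  have f' : ∀ n : ℕ, (y * g ^ n * y⁻¹) • y • γ = y • γ := fun n => by
    rw [mul_smul, mul_smul, inv_smul_smul, (pow_mem (mem_stabilizer_iff.2 f) n :)]
  obtain ⟨x, hx, e2⟩ := (k _ (mul_mem (mul_mem hy (pow_mem H.mg 2)) (inv_mem hy))
    (by rw [orderOf_cj, H.oh]) (hA.fix_iff.1 (f' 2))).exists_conj
    (k _ (pow_mem H.mg 2) H.oh (e ▸ pow_mem H.gn 2))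
  have hz := mul_mem hx.1 hy
  have n1 : x * y ∈ N[zpowers (g ^ 2)] := mem_norm_of_conj_smul_eq (by
    rw [← conj_smul_smul, conj_smul_zpowers y, e2])
  have h1 := hA.not_cent H.ln hα (pow_mem H.mg 2) (ne_one_of_ord H.oh) (by rw [H.oh]; omega)
  have e3 : (x * y) • γ = y • γ := by rw [mul_smul, hA.fix_iff.2 hx.2]
  have c1 : x * y * g ^ 5 * (x * y)⁻¹ = g ^ 5 := hA.inv_unique H.ln hα
    (mul_mem (mul_mem hz (pow_mem H.mg 5)) (inv_mem hz)) (pow_mem H.mg 5)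
    (by rw [orderOf_cj, H.ot]) H.ot (by
      rw [← e3, mul_smul, mul_smul, inv_smul_smul, (pow_mem (mem_stabilizer_iff.2 f) 5 :)])
    (hA.t_fix H e) h1 (by
      obtain ⟨i, hi⟩ := exists_pow_of_mem (conj_mem_of_norm' n1 (mem_zpowers _))
      rw [show g ^ 2 = x * y * ((x * y)⁻¹ * g ^ 2 * (x * y)) * (x * y)⁻¹ by group, hi, ← pow_mul]
      exact (Commute.pow_pow_self g 5 (2 * i)).map (conj (x * y))) (Commute.pow_pow_self g 5 2)
  have c2 : Commute (x * y) (g ^ 5) := mul_inv_eq_iff_eq_mul.1 c1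
  have gf : ∀ z ∈ zpowers g, z • γ = γ := fun z hz =>
    zpowers_le_of_mem (H := stabilizer G γ) f hz
  rcases H.cent_or hz n1 with c | c
  · exact .inl (by rw [← e3, gf _ (H.cent_g hz c2 c)])
  · exact .inr (by rw [← e3, ← mul_smul, gf _ (H.cent_g (mul_mem H.mw hz) (H.tw.symm.mul_left c2) c)])

theorem J_inv_fix (hX : JF X) (hα : A α ≤ X) (hx : x ∈ X) (ox : orderOf x = 2) :
    ∃ γ, A γ ≤ X ∧ x • γ = γ := by
  obtain ⟨a, g, w, r, ι, H, e⟩ := hA.jr_at hX hα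
  obtain ⟨y, hy, rfl⟩ := H.cls x hx ox
  exact ⟨y • α, hA.smul_le' hy hα, by rw [mul_smul, mul_smul, inv_smul_smul, hA.t_fix H e]⟩

theorem inv_in_K (hX : JF X) (hα : A α ≤ X) (hu : u ∈ N[X]) (u2 : u * u = 1) (hc : u ∈ C[A δ]) :
    u ∈ C[X] := by
  obtain ⟨x, hx, k, hk, rfl⟩ := mem_XK.1 (hA.J_mem hX hα hu)
  by_cases x1 : x = 1
  · rwa [x1, one_mul]
  have ox := ord_two (sq x ▸ (split_pow (hA.bot (.inr hX) hα) hx hk (sq (x * k) ▸ u2)).1) x1
  obtain ⟨γ, hγ, e⟩ := hA.J_inv_fix hX hα hx ox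
  have := hA.fp hc (β := γ) (by rw [mul_smul, hA.fix_of_centX hγ hk, e])
  exact absurd ((mul_mem_cancel_right (cent_anti hγ hk)).1 this)
    (hA.not_cent (.inr hX) hγ hx x1 (by omega))

theorem exists_inverter (hX : Ln X) (hα : A α ≤ X) (hh : h ∈ X) (oh : orderOf h = 5)
    (e : h • α = α) : ∃ w ∈ X, w * h * w⁻¹ = h⁻¹ := by
  rcases hX with hX | hX
  · obtain ⟨β, h1, hβ, e'⟩ := hA.L_h0 hX hα hh oh e
    obtain ⟨w, hw, ow, e1, e2⟩ := hA.L_w hX hα hβ h1.symm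
    exact ⟨w, hw, hA.L_swap hX hα h1.symm hh oh e e' hw ow e1 e2⟩
  · obtain ⟨a, g, w, r, ι, H, -, e2⟩ := hA.jr_at_h hX hα hh oh e
    obtain ⟨i, rfl⟩ := exists_pow_of_mem (e2 ▸ mem_zpowers h)
    exact ⟨w, H.mw, by rw [← conj_pow, H.wh, inv_pow]⟩

end Geo

end Cfsg.Agent.H9.O11
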