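import Cfsg.Agent.H9.O11L
import Cfsg.Agent.H9.ZassClass
import Cfsg.Agent.H2.SuzThm
import Cfsg.Agent.H3.PSL2Card
import Cfsg.Agent.H3.PSL2Cent
import Cfsg.Agent.H6.Transfer

/-! Zassenhaus groups with two-point stabilizers of order 5; raw facts on `PSL(2,11)`. -/

set_option autoImplicit false

namespace Cfsg.Agent.H9.O11

open Subgroup MulAction Cfsg.Agent.H7 Cfsg.Agent.H3

theorem z5f {M Ω : Type*} [Group M] [Finite M] [MulAction M Ω] [FaithfulSMul M Ω] {α β : Ω}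
    {h w : M} (hab : α ≠ β) (two : ∀ a b c d : Ω, a ≠ b → c ≠ d → ∃ g : M, g • a = c ∧ g • b = d)
    (h5 : h ^ 5 = 1) (ha : h • α = α) (hb : h • β = β)
    (hfix : ∀ γ, h • γ = γ → γ = α ∨ γ = β) (three : ∃ γ, γ ≠ α ∧ γ ≠ β)
    (hst : ∀ g : M, g • α = α → g • β = β → g ∈ zpowers h)
    (wa : w • α = β) (wb : w • β = α) (wh : w * h * w⁻¹ = h⁻¹) : Nat.card Ω = 12 := by
  obtain ⟨γ, c1, c2⟩ := three
  have h1 : h ≠ 1 := by rintro rfl; exact (hfix γ (one_smul _ _)).elim c1 c2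
  have oh : orderOf h = 5 := orderOf_eq_prime h5 h1
  have ch : Nat.card (zpowers h) = 5 := by rw [Nat.card_zpowers, oh]
  have nc : ¬ Commute w h := fun c => by
    rw [c.eq, mul_inv_cancel_right, eq_inv_iff_mul_eq_one, ← sq] at wh
    have := orderOf_dvd_of_pow_eq_one wh
    rw [oh] at this
    omega
  have cj : ∀ (g : M) a b, a ≠ b → g • a = a → g • b = b → g ≠ 1 →
      ∃ k : M, k • α = a ∧ k • β = b ∧ h ∈ zpowers (k⁻¹ * g * k) := fun g a b h1 h2 h3 h4 => by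
    obtain ⟨k, rfl, rfl⟩ := two α β a b hab h1
    refine ⟨k, rfl, rfl, ?_⟩
    rw [zpowers_eq_of_card_prime (by rw [ch]; norm_num) (hst _ (by
      rw [mul_smul, mul_smul, h2, inv_smul_smul]) (by rw [mul_smul, mul_smul, h3, inv_smul_smul]))
      (by simpa [mul_assoc, inv_mul_eq_one] using h4)]
    exact mem_zpowers h
  have hZ : Cfsg.IsZassenhausGroup M Ω := by
    refine ⟨inferInstance, is_two_pretransitive_iff.2 fun {a b c d} => two a b c d,
      fun g a b c h1 h2 h3 h4 h5 h6 => by_contra fun k => ?_, ⟨h, h1, α, β, hab, ha, hb⟩,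
      fun N hN tN => by_contra fun k => ?_⟩
    · obtain ⟨k, rfl, rfl, e⟩ := cj g a b h1 h4 h5 k
      rcases hfix (k⁻¹ • c) (zpowers_le_of_mem (H := stabilizer M (k⁻¹ • c)) (show _ • _ = _ by
        rw [mul_smul, mul_smul, smul_inv_smul, h6]) e) with e | e <;> rw [inv_smul_eq_iff] at e
      exacts [h3 e.symm, h2 e.symm]
    · push Not at k
      obtain ⟨n, e⟩ := tN.exists_smul_eq α β
      replace e : (n : M) • α = β := e
      have k2 : (n⁻¹ * ⟨_, hN.conj_mem _ n.2 h⟩ : N) ∈ stabilizer N α := by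
        change ((n : M)⁻¹ * (h * n * h⁻¹)) • α = α
        rw [mul_smul, mul_smul, mul_smul, inv_smul_eq_iff.2 ha.symm, e, hb, inv_smul_eq_iff, e]
      rw [k α, mem_bot, inv_mul_eq_one] at k2
      have c : Commute (n : M) h := (mul_inv_eq_iff_eq_mul.1 (congrArg Subtype.val k2).symm).symm
      have e2 := (hfix ((n : M) • β) (by rw [smul_smul, ← c.eq, mul_smul, hb])).resolve_right
        fun k => hab (smul_left_cancel (n : M) (e.trans k.symm))
      obtain ⟨i, hi⟩ := hst ((n : M)⁻¹ * w) (by rw [mul_smul, wa, inv_smul_eq_iff, e])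
        (by rw [mul_smul, wb, inv_smul_eq_iff, e2])
      exact nc (by
        rw [← mul_inv_cancel_left (n : M) w, ← hi]; exact c.mul_left (Commute.zpow_self h i))
  have Z := Zs.of_isZassenhaus hZ
  have : Nontrivial M := ⟨⟨h, 1, h1⟩⟩
  have : IsSimpleGroup M := ⟨fun N hN => or_iff_not_imp_left.2 fun k => eq_top_iff.2 fun g _ => by
    obtain ⟨x, hx, x1, a, b, h1, h2, h3⟩ := exists_fix_two_of_normal hZ k
    obtain ⟨y, -, -, e⟩ := cj x a b h1 h2 h3 x1
    have hh : h ∈ N := zpowers_le_of_mem (by simpa using hN.conj_mem x hx y⁻¹) e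
    have hr := root_le_of_normal_of_isZassenhaus hZ k
    obtain ⟨δ, d1, d2⟩ : ∃ δ, α ≠ δ ∧ g • α ≠ δ := by
      by_cases k : g • α = β
      · exact ⟨γ, c1.symm, k ▸ c2.symm⟩
      · exact ⟨β, hab, k⟩
    obtain ⟨u, hu, e⟩ := Z.root_trans d1 d2
    obtain ⟨v, hv, s, s1, s2, e'⟩ := Z.exists_root_mul hab (g := u⁻¹ * g)
      (by rw [mul_smul, ← e, inv_smul_smul])
    rw [← mul_inv_cancel_left u g, e']
    exact mul_mem (hr _ hu) (mul_mem (hr _ hv) (zpowers_le_of_mem hh (hst s s1 s2)))⟩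
  have cM := Z.card_eq hab
  rw [show stabilizer M α ⊓ stabilizer M β = zpowers h from le_antisymm
    (fun g hg => hst g hg.1 hg.2) (zpowers_le_of_mem ⟨ha, hb⟩), ch] at cM
  rw [← Z.card_root hab]
  rcases psl_or_two_of_isZassenhaus hZ α with ⟨F, _, _, cF, ⟨e⟩⟩ | ⟨p2, na⟩
  · have k := card_psl2_mul F
    have pp := FiniteField.isPrimePow_card F
    have := Fintype.one_lt_card (α := F)
    rw [← Nat.card_congr e.toEquiv, cM, ← cF] at k
    rw [← cF]
    obtain ⟨r, hr⟩ : ∃ r, Fintype.card F = r + 1 := ⟨Fintype.card F - 1, by omega⟩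
    rw [hr] at k pp ⊢
    rw [Nat.add_sub_cancel] at k
    have k2 : 5 * Nat.gcd r 2 = r := Nat.eq_of_mul_eq_mul_left (n := (r + 1 + 1) * (r + 1))
      (by positivity) (by rw [← mul_assoc, k]; ring)
    have k3 := Nat.le_of_dvd two_pos (Nat.gcd_dvd_right r 2)
    have k4 := Nat.gcd_pos_of_pos_right r two_pos
    have : r ≠ 5 := by rintro rfl; exact absurd pp (by decide)
    omega
  · exfalso
    obtain ⟨m, hm, k⟩ := H2.Suz.card_of_nonabelian Z hab p2 na ⟨h, h1, ha, hb⟩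
    obtain ⟨n, hn⟩ := p2.exists_card_eq
    have n0 : n ≠ 0 := by
      rintro rfl
      obtain ⟨x, y, c⟩ := na
      have := (Nat.card_eq_one_iff_unique.1 hn).1
      exact c (Subsingleton.elim _ _)
    rw [cM, hn] at k
    obtain ⟨q, hq⟩ : ∃ q, 2 ^ (2 * m + 1) = q + 1 := ⟨2 ^ (2 * m + 1) - 1, by
      have := Nat.one_le_two_pow (n := 2 * m + 1); omega⟩
    have o1 : Odd ((2 ^ n + 1) * 5) := ((Nat.even_pow.2 ⟨even_two, n0⟩).add_one).mul (by decide)
    have e1 : Even (2 ^ (2 * m + 1)) := Nat.even_pow.2 ⟨even_two, by omega⟩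
    have o2 : Odd (((2 ^ (2 * m + 1)) ^ 2 + 1) * (2 ^ (2 * m + 1) - 1)) :=
      ((Nat.even_pow.2 ⟨e1, two_ne_zero⟩).add_one).mul (Nat.Even.sub_odd Nat.one_le_two_pow e1 odd_one)
    have k2 : 2 ^ n = (2 ^ (2 * m + 1)) ^ 2 := Nat.dvd_antisymm
      (((Nat.coprime_two_left.2 o2).pow_left n).dvd_of_dvd_mul_right ⟨(2 ^ n + 1) * 5, by
        rw [← mul_assoc, ← k]; ring⟩)
      ((((Nat.coprime_two_left.2 o1).pow_left _).pow_left 2).dvd_of_dvd_mul_right
        ⟨((2 ^ (2 * m + 1)) ^ 2 + 1) * (2 ^ (2 * m + 1) - 1), by rw [← mul_assoc, ← mul_assoc, ← k]; ring⟩)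
    rw [k2, mul_comm (_ + 1)] at k
    have k3 := Nat.eq_of_mul_eq_mul_left (by positivity) k
    rw [hq] at k3 e1
    have : 2 ^ 3 ≤ 2 ^ (2 * m + 1) := Nat.pow_le_pow_right two_pos (by omega)
    omega

theorem z5 {M Ω : Type*} [Group M] [Finite M] [MulAction M Ω] [Finite Ω] {α β : Ω} {h w : M}
    (hab : α ≠ β) (two : ∀ a b c d : Ω, a ≠ b → c ≠ d → ∃ g : M, g • a = c ∧ g • b = d)
    (h5 : h ^ 5 = 1) (ha : h • α = α) (hb : h • β = β)
    (hfix : ∀ γ, h • γ = γ → γ = α ∨ γ = β) (three : ∃ γ, γ ≠ α ∧ γ ≠ β)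
    (hst : ∀ g : M, g • α = α → g • β = β → ∃ i : ℕ, ∀ γ : Ω, g • γ = h ^ i • γ)
    (wa : w • α = β) (wb : w • β = α) (wh : w * h * w⁻¹ = h⁻¹) : Nat.card Ω = 12 := by
  let φ := (toPermHom M Ω).rangeRestrict
  refine z5f (M := (toPermHom M Ω).range) (h := φ h) (w := φ w) hab (fun a b c d h1 h2 => ?_)
    (by rw [← map_pow, h5, map_one]) ha hb hfix three (fun g h1 h2 => ?_) wa wb
    (by rw [← map_inv, ← map_mul, ← map_mul, wh, map_inv])
  · obtain ⟨g, e⟩ := two a b c d h1 h2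
    exact ⟨φ g, e⟩
  · obtain ⟨g, rfl⟩ := (toPermHom M Ω).rangeRestrict_surjective g
    obtain ⟨i, e⟩ := hst g h1 h2
    rw [show (toPermHom M Ω).rangeRestrict g = φ h ^ i by
      rw [← map_pow]; exact Subtype.ext (Equiv.ext e)]
    exact pow_mem (mem_zpowers _) i

/-- seven involutions and an element of order 3 -/
def m7 : Fin 9 → Matrix.SpecialLinearGroup (Fin 2) (ZMod 11) :=
  ![⟨!![0, 10; 1, 0], by decide⟩, ⟨!![1, 3; 3, 10], by decide⟩, ⟨!![1, 8; 8, 10], by decide⟩,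
    ⟨!![3, 1; 1, 8], by decide⟩, ⟨!![3, 10; 10, 8], by decide⟩, ⟨!![4, 4; 4, 7], by decide⟩,
    ⟨!![4, 7; 7, 7], by decide⟩, ⟨!![5, 3; 8, 5], by decide⟩, 1]

theorem lr_of_iso {G : Type*} [Group G] {X : Subgroup G} {F : Type*} [Field F] [Fintype F]
    (hF : Fintype.card F = 11)
    (h : Nonempty (X ≃* Matrix.ProjectiveSpecialLinearGroup (Fin 2) F)) : LR X := by
  classical
  obtain ⟨e⟩ := h
  let e := e.trans (H6.pslCongr (FiniteField.ringEquivOfCardEq (K' := ZMod 11)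
    (by rw [hF, ZMod.card])))
  have cX : Nat.card X = 660 := by
    have := card_psl2_mul (ZMod 11)
    rw [ZMod.card, ← Nat.card_congr e.toEquiv, show Nat.gcd (11 - 1) 2 = 2 from rfl] at this
    omega
  have : Finite X := Nat.finite_of_card_ne_zero (by omega)
  let f : Matrix.SpecialLinearGroup (Fin 2) (ZMod 11) →* X :=
    e.symm.toMonoidHom.comp (QuotientGroup.mk' _)
  have hf : ∀ a b, f a = f b ↔ ∃ r : ZMod 11, r ^ 2 = 1 ∧ b.1 = r • a.1 := fun a b => by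
    rw [← psl_mk_eq_iff]; exact e.symm.injective.eq_iff
  have k1 : ∀ i j, f (m7 i) = f (m7 j) → i = j := by simp only [hf]; decide +kernel
  have k2 : ∀ i : Fin 7, f (m7 i.castSucc.castSucc * m7 i.castSucc.castSucc) = f 1 ∧
      f (m7 0 * m7 i.castSucc.castSucc) = f (m7 i.castSucc.castSucc * m7 0) := by
    simp only [hf]; decide +kernel
  have k3 : f (m7 7 ^ 3) = f 1 ∧ f (m7 1 * m7 7 * m7 1 * m7 7) = f 1 := by
    simp only [hf]; decide +kernel
  have n1 : ∀ i, i ≠ 8 → f (m7 i) ≠ 1 := fun i hi c => hi (k1 i 8 (c.trans (map_one f).symm))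
  have o2 : ∀ i : Fin 7, orderOf (f (m7 i.castSucc.castSucc)) = 2 := fun i =>
    ord_two (by rw [← map_mul, (k2 i).1, map_one]) (n1 _ (by revert i; decide))
  refine ⟨cX, fun x hx => ?_, ?_, ⟨f (m7 0), (f _).2, by rw [orderOf_coe]; exact o2 0,
    Finset.univ.image fun i : Fin 7 => (f (m7 i.castSucc.castSucc) : G), ?_, fun y hy => ?_⟩,
    fun z hz oz => ?_, ⟨e⟩⟩
  · have : orderOf (e ⟨x, hx⟩) ∈ Set.range _ := ⟨_, rfl⟩
    rw [H6.spec_psl2, ZMod.ringChar_zmod_n, ZMod.card, MulEquiv.orderOf_eq, orderOf_mk] at this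
    have k : ∀ m ∈ [11, 5, 6], ∀ d ∈ Nat.divisors m, d ∈ [1, 2, 3, 5, 6, 11] := by decide
    rcases this with c | c | c <;> exact k _ (by simp) _ (Nat.mem_divisors.2 ⟨c, by norm_num⟩)
  · haveI := Matrix.ProjectiveSpecialLinearGroup.rank_two_simple (F := ZMod 11) (by simp)
    exact e.isSimpleGroup
  · rw [Finset.card_image_of_injective _ fun i j c => Fin.castSucc_injective _
      (Fin.castSucc_injective _ (k1 _ _ (Subtype.ext c)))]
    rfl
  · obtain ⟨i, -, rfl⟩ := Finset.mem_image.1 hy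
    exact ⟨(f _).2, by rw [orderOf_coe]; exact o2 i, by
      simpa only [map_mul, coe_mul, commute_iff_eq] using congrArg Subtype.val (k2 i).2⟩
  · haveI : Fact (Nat.Prime 3) := ⟨by norm_num⟩
    have sy : ∀ y : X, orderOf y = 3 → IsSylowIn 3 (zpowers y) ⊤ := fun y oy =>
      ⟨le_top, IsPGroup.of_card (n := 1) (by rw [Nat.card_zpowers, oy, pow_one]), fun c => by
        have := card_mul_relIndex (le_top (a := zpowers y))
        rw [Nat.card_zpowers, oy, card_top, cX] at this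
        omega⟩
    obtain ⟨c, -, k⟩ := (sy (f (m7 7)) (orderOf_eq_prime (by rw [← map_pow, k3.1, map_one])
      (n1 _ (by decide)))).exists_conj (sy ⟨z, hz⟩ (by rw [orderOf_mk, oz]))
    rw [conj_smul_zpowers] at k
    obtain ⟨i, hi⟩ := exists_pow_of_mem (k ▸ mem_zpowers _ : (⟨z, hz⟩ : X) ∈ zpowers (c * f (m7 7) * c⁻¹))
    have k4 : f (m7 1) * f (m7 7) * (f (m7 1))⁻¹ = (f (m7 7))⁻¹ := by
      rw [inv_of_ord (x := f (m7 1)) (o2 1), eq_inv_iff_mul_eq_one, ← map_mul, ← map_mul, ← map_mul, k3.2, map_one]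
    have k5 : c * f (m7 1) * c⁻¹ * ⟨z, hz⟩ * (c * f (m7 1) * c⁻¹)⁻¹ = (⟨z, hz⟩ : X)⁻¹ := by
      rw [hi, ← conj_pow, ← inv_pow, show (c * f (m7 7) * c⁻¹)⁻¹ = c * (f (m7 7))⁻¹ * c⁻¹ by group,
        ← k4]
      congr 1; group
    exact ⟨_, (c * f (m7 1) * c⁻¹).2, congrArg Subtype.val k5⟩

end Cfsg.Agent.H9.O11
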