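import Mathlib
import Cfsg.Agent.H3.Derangement
import Cfsg.Agent.H3.Zass2
import Cfsg.Agent.H7.SylowIn

/-!
Doubly transitive groups with an involution whose centralizer has constant fixity: only the
identity fixes three points.
-/

set_option autoImplicit false

namespace Cfsg.Agent.H9

open Cfsg Cfsg.Agent.H3 MulAction
open scoped Pointwise

/-- `G` is faithful and doubly transitive and every nonidentity element of the centralizer of the
involution `t` fixes exactly `i` points. -/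
structure CFix (G Ω : Type*) [Group G] [MulAction G Ω] (i : ℕ) (t : G) : Prop where
  two : ∀ {a b c d : Ω}, a ≠ b → c ≠ d → ∃ g : G, g • a = c ∧ g • b = d
  faith : ∀ g : G, (∀ x : Ω, g • x = x) → g = 1
  ne : t ≠ 1
  sq : t * t = 1
  fix : ∀ g : G, Commute g t → g ≠ 1 → (fixedBy Ω g).ncard = i

variable {G Ω : Type*} [Group G] [MulAction G Ω]

theorem cfix_ncard_conj (g x : G) : (fixedBy Ω (g * x * g⁻¹)).ncard = (fixedBy Ω x).ncard := by
  have : fixedBy Ω (g * x * g⁻¹) = (fun a => g • a) '' fixedBy Ω x := by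
    ext a
    simp only [mem_fixedBy, Set.mem_image]
    constructor
    · intro h
      refine ⟨g⁻¹ • a, ?_, smul_inv_smul g a⟩
      rw [mul_smul, mul_smul] at h
      rw [eq_inv_smul_iff, h]
    · rintro ⟨b, hb, rfl⟩
      rw [mul_smul, mul_smul, inv_smul_smul, hb]
  rw [this, Set.ncard_image_of_injective _ (MulAction.injective g)]

namespace CFix

variable {i : ℕ} {t : G} (h : CFix G Ω i t)
include h

theorem conj (g : G) : CFix G Ω i (g * t * g⁻¹) where
  two := h.two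
  faith := h.faith
  ne := fun e => h.ne (by simpa [mul_assoc] using congrArg (fun x => g⁻¹ * x * g) e)
  sq := by
    calc g * t * g⁻¹ * (g * t * g⁻¹) = g * (t * t) * g⁻¹ := by group
      _ = 1 := by rw [h.sq]; group
  fix := fun x hx h1 => by
    have h2 : Commute (g⁻¹ * x * g) t := by
      have := hx.eq
      show g⁻¹ * x * g * t = t * (g⁻¹ * x * g)
      calc g⁻¹ * x * g * t = g⁻¹ * (x * (g * t * g⁻¹)) * g := by group
        _ = g⁻¹ * ((g * t * g⁻¹) * x) * g := by rw [this]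
        _ = _ := by group
    have h3 := h.fix _ h2 (fun e => h1 (by simpa [mul_assoc] using congrArg (fun y => g * y * g⁻¹) e))
    rw [← h3, ← cfix_ncard_conj g (g⁻¹ * x * g)]
    congr 2; group

theorem exists_move {g : G} (hg : g ≠ 1) : ∃ x : Ω, g • x ≠ x := by
  by_contra hn
  push Not at hn
  exact hg (h.faith g hn)

variable [Finite G] [Finite Ω]

theorem card_stab_eq {a b c d : Ω} (hab : a ≠ b) (hcd : c ≠ d) :
    Nat.card (stabilizer G a ⊓ stabilizer G b : Subgroup G) =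
      Nat.card (stabilizer G c ⊓ stabilizer G d : Subgroup G) := by
  obtain ⟨g, rfl, rfl⟩ := h.two hab hcd
  refine Nat.card_congr ⟨fun x => ⟨g * x * g⁻¹, ?_, ?_⟩, fun x => ⟨g⁻¹ * x * g, ?_, ?_⟩, ?_, ?_⟩
  · have : (x : G) • a = a := x.2.1
    show (g * x * g⁻¹) • g • a = g • a
    rw [mul_smul, mul_smul, inv_smul_smul, this]
  · have : (x : G) • b = b := x.2.2
    show (g * x * g⁻¹) • g • b = g • b
    rw [mul_smul, mul_smul, inv_smul_smul, this]
  · have : (x : G) • g • a = g • a := x.2.1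
    show (g⁻¹ * x * g) • a = a
    rw [mul_smul, mul_smul, this, inv_smul_smul]
  · have : (x : G) • g • b = g • b := x.2.2
    show (g⁻¹ * x * g) • b = b
    rw [mul_smul, mul_smul, this, inv_smul_smul]
  · intro x; ext; simp [mul_assoc]
  · intro x; ext; simp [mul_assoc]

theorem lt_card : i < Nat.card Ω := by
  obtain ⟨x, hx⟩ := h.exists_move h.ne
  rw [← h.fix t (Commute.refl t) h.ne, ← Set.ncard_univ]
  exact Set.ncard_lt_ncard ⟨Set.subset_univ _, fun e => hx (e (Set.mem_univ x))⟩ Set.finite_univ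

theorem card_dvd : Nat.card (Subgroup.centralizer ({t} : Set G)) ∣ Nat.card Ω - i := by
  classical
  set C := Subgroup.centralizer ({t} : Set G)
  have := Fintype.ofFinite C
  have h1 := sum_card_fixedBy (G := C) (Ω := Ω)
  have h2 : ∀ g : C, Nat.card (fixedBy Ω g) = i + if g = 1 then Nat.card Ω - i else 0 := by
    intro g
    split_ifs with hg
    · rw [hg, card_fixedBy_one]; have := h.lt_card; omega
    · have h3 : Commute (g : G) t := ((Subgroup.mem_centralizer_singleton_iff).mp g.2)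
      have := h.fix g h3 (fun e => hg (Subtype.ext e))
      rw [add_zero, ← this]
      rfl
  simp only [h2, Finset.sum_add_distrib, Finset.sum_const, Finset.card_univ, smul_eq_mul,
    Finset.sum_ite_eq', Finset.mem_univ, if_true] at h1
  rw [← Nat.card_eq_fintype_card] at h1
  have h3 : Nat.card C ∣ Nat.card C * i + (Nat.card Ω - i) := h1 ▸ Dvd.intro_left _ rfl
  exact (Nat.dvd_add_right (Dvd.intro _ rfl)).mp h3

theorem count {a b : Ω} (hab : a ≠ b) :
    Nat.card (Subgroup.centralizer ({t} : Set G)) = Nat.card Ω - i ∧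
      ∀ w : G, w • a = b → w • b = a → ∃ g : G, w = g * t * g⁻¹ := by
  classical
  have := Fintype.ofFinite G
  have := Fintype.ofFinite Ω
  set C := Subgroup.centralizer ({t} : Set G)
  set H : Subgroup G := stabilizer G a ⊓ stabilizer G b
  set m := Nat.card Ω - i with hm
  have hm0 : 0 < m := by have := h.lt_card; omega
  have hCm : Nat.card C ≤ m := Nat.le_of_dvd hm0 h.card_dvd
  set P : Finset G := Finset.univ.filter fun g => (g * t * g⁻¹) • a = b with hP
  set M : Finset Ω := Finset.univ.filter fun x => t • x ≠ x with hM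
  set W : Finset G := Finset.univ.filter fun w => w • a = b ∧ w • b = a with hW
  have hMc : M.card = m := by
    have h1 := h.fix t (Commute.refl t) h.ne
    have h2 : (fixedBy Ω t).ncard = (Finset.univ.filter fun x : Ω => t • x = x).card := by
      rw [← Set.ncard_coe_finset]; congr 1; ext x; simp
    have h3 := Finset.card_filter_add_card_filter_not (s := (Finset.univ : Finset Ω))
      (fun x => t • x = x)
    rw [Finset.card_univ, ← Nat.card_eq_fintype_card, ← h2, h1] at h3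
    have h4 : M.card = (Finset.univ.filter fun x : Ω => ¬ t • x = x).card := rfl
    omega
  have coset : ∀ (K : Subgroup G) (g₀ : G) (S : Finset G), (∀ g, g ∈ S ↔ g * g₀⁻¹ ∈ K) →
      S.card = Nat.card K := by
    intro K g₀ S hS
    rw [← Nat.card_eq_finsetCard]
    exact Nat.card_congr ⟨fun x => ⟨x * g₀⁻¹, (hS _).1 x.2⟩,
      fun x => ⟨x * g₀, (hS _).2 (by simp)⟩, fun x => by ext; simp, fun x => by ext; simp⟩
  have hWc : W.card = Nat.card H := by
    obtain ⟨w, hw1, hw2⟩ := h.two hab hab.symm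
    refine coset H w W fun g => ?_
    simp only [hW, Finset.mem_filter, Finset.mem_univ, true_and, H, Subgroup.mem_inf,
      mem_stabilizer_iff, mul_smul]
    have e1 : w⁻¹ • a = b := by rw [inv_smul_eq_iff, hw2]
    have e2 : w⁻¹ • b = a := by rw [inv_smul_eq_iff, hw1]
    rw [e1, e2]; tauto
  have hP1 : P.card = m * Nat.card H := by
    rw [Finset.card_eq_sum_card_fiberwise (f := fun g => g⁻¹ • a) (t := M), ← hMc,
      Finset.sum_const_nat (m := Nat.card H)]
    · intro x hx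
      have hx' : x ≠ t • x := fun e => (Finset.mem_filter.mp hx).2 e.symm
      obtain ⟨g₀, h1, h2⟩ := h.two hx' hab
      refine coset H g₀ _ fun g => ?_
      simp only [hP, Finset.mem_filter, Finset.mem_univ, true_and, H, Subgroup.mem_inf,
        mem_stabilizer_iff, mul_smul]
      have e1 : g₀⁻¹ • a = x := by rw [inv_smul_eq_iff, h1]
      have e2 : g₀⁻¹ • b = t • x := by rw [inv_smul_eq_iff, h2]
      rw [e1, e2]
      constructor
      · rintro ⟨h3, h4⟩
        rw [h4] at h3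
        exact ⟨by rw [← h4, smul_inv_smul], h3⟩
      · rintro ⟨h3, h4⟩
        have : g⁻¹ • a = x := by rw [inv_smul_eq_iff, h3]
        exact ⟨by rw [this, h4], this⟩
    · intro g hg
      simp only [hP, Finset.coe_filter, Finset.mem_univ, true_and, Set.mem_ofPred_eq,
        mul_smul] at hg
      simp only [hM, Finset.coe_filter, Finset.mem_univ, true_and, Set.mem_ofPred_eq]
      intro e
      rw [e, smul_inv_smul] at hg
      exact hab hg
  have hmaps : ∀ g ∈ P, g * t * g⁻¹ ∈ W := by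
    intro g hg
    have h1 := (Finset.mem_filter.mp hg).2
    refine Finset.mem_filter.mpr ⟨Finset.mem_univ _, h1, ?_⟩
    rw [← h1, ← mul_smul, (h.conj g).sq, one_smul]
  have hP2 : P.card = ∑ w ∈ W, (P.filter fun g => g * t * g⁻¹ = w).card :=
    Finset.card_eq_sum_card_fiberwise hmaps
  have hfib : ∀ w ∈ W, (P.filter fun g => g * t * g⁻¹ = w).card ≤ Nat.card C := by
    intro w _
    rcases (P.filter fun g => g * t * g⁻¹ = w).eq_empty_or_nonempty with e | ⟨g₀, hg₀⟩
    · rw [e]; simp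
    · have h0 := (Finset.mem_filter.mp hg₀).2
      rw [← Nat.card_eq_finsetCard]
      refine Nat.card_le_card_of_injective (fun x => ⟨g₀⁻¹ * x, ?_⟩) fun x y e => ?_
      · have h1 := (Finset.mem_filter.mp x.2).2
        rw [Subgroup.mem_centralizer_singleton_iff]
        calc g₀⁻¹ * x * t = g₀⁻¹ * (x * t * (x : G)⁻¹) * x := by group
          _ = g₀⁻¹ * (g₀ * t * g₀⁻¹) * x := by rw [h1, h0]
          _ = _ := by group
      · exact Subtype.ext (mul_left_cancel (congrArg Subtype.val e))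
  have hall : ∀ w ∈ W, (P.filter fun g => g * t * g⁻¹ = w).card = m := by
    have := (Finset.sum_eq_sum_iff_of_le (s := W) (g := fun _ => m)
      (fun w hw => (hfib w hw).trans hCm)).mp (by
        rw [← hP2, hP1, Finset.sum_const, hWc, smul_eq_mul, mul_comm])
    exact this
  obtain ⟨w₀, hw1, hw2⟩ := h.two hab hab.symm
  have hw₀ : w₀ ∈ W := Finset.mem_filter.mpr ⟨Finset.mem_univ _, hw1, hw2⟩
  refine ⟨le_antisymm hCm (hall w₀ hw₀ ▸ hfib w₀ hw₀), fun w h1 h2 => ?_⟩
  have hw : w ∈ W := Finset.mem_filter.mpr ⟨Finset.mem_univ _, h1, h2⟩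
  obtain ⟨g, hg⟩ := Finset.card_pos.mp (hall w hw ▸ hm0)
  exact ⟨g, (Finset.mem_filter.mp hg).2.symm⟩

theorem card_cent : Nat.card (Subgroup.centralizer ({t} : Set G)) = Nat.card Ω - i := by
  obtain ⟨x, hx⟩ := h.exists_move h.ne
  exact (h.count hx).1

theorem swap_sq {a b : Ω} (hab : a ≠ b) {w : G} (h1 : w • a = b) (h2 : w • b = a) :
    w * w = 1 := by
  obtain ⟨g, rfl⟩ := (h.count hab).2 w h1 h2
  exact (h.conj g).sq

theorem inverts {a b : Ω} (hab : a ≠ b) {w x : G} (h1 : w • a = b) (h2 : w • b = a)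
    (ha : x • a = a) (hb : x • b = b) : w * x * w⁻¹ = x⁻¹ := by
  have h3 := h.swap_sq hab (w := w * x) (by rw [mul_smul, ha, h1]) (by rw [mul_smul, hb, h2])
  have h4 := h.swap_sq hab h1 h2
  rw [inv_eq_of_mul_eq_one_right h4]
  exact eq_inv_of_mul_eq_one_left (by rw [← h3]; group)

theorem comm {a b : Ω} (hab : a ≠ b) {x y : G} (ha : x • a = a) (hb : x • b = b)
    (ha' : y • a = a) (hb' : y • b = b) : x * y = y * x := by
  obtain ⟨w, h1, h2⟩ := h.two hab hab.symm
  exact comm_of_inverts (H := stabilizer G a ⊓ stabilizer G b) (w := w)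
    (fun z hz => h.inverts hab h1 h2 hz.1 hz.2) ⟨ha, hb⟩ ⟨ha', hb'⟩

theorem of_invol {u : G} (h1 : u ≠ 1) (h2 : u * u = 1) : ∃ g : G, u = g * t * g⁻¹ := by
  obtain ⟨x, hx⟩ := h.exists_move h1
  exact (h.count hx.symm).2 u rfl (by rw [← mul_smul, h2, one_smul])

theorem cfix_of_invol {u : G} (h1 : u ≠ 1) (h2 : u * u = 1) : CFix G Ω i u := by
  obtain ⟨g, rfl⟩ := h.of_invol h1 h2
  exact h.conj g

/-- An element fixing `b` and inverting everything that fixes `a, b, c`. -/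
theorem exists_triple {a b c : Ω} (hab : a ≠ b) (hbc : b ≠ c) (hac : a ≠ c) :
    ∃ y : G, y • b = b ∧ ∀ x : G, x • a = a → x • b = b → x • c = c → y * x * y⁻¹ = x⁻¹ := by
  obtain ⟨s₁, h1, h1'⟩ := h.two hab hab.symm
  obtain ⟨s₂, h2, h2'⟩ := h.two hac hac.symm
  obtain ⟨s₃, h3, h3'⟩ := h.two hbc hbc.symm
  refine ⟨s₃ * s₂ * s₁, by rw [mul_smul, mul_smul, h1', h2, h3'], fun x ha hb hc => ?_⟩
  have e1 := h.inverts hab h1 h1' ha hb
  have e2 := h.inverts hac h2 h2' ha hc
  have e3 := h.inverts hbc h3 h3' hb hc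
  calc s₃ * s₂ * s₁ * x * (s₃ * s₂ * s₁)⁻¹ = s₃ * (s₂ * (s₁ * x * s₁⁻¹) * s₂⁻¹) * s₃⁻¹ := by group
    _ = s₃ * (s₂ * x * s₂⁻¹)⁻¹ * s₃⁻¹ := by rw [e1]; group
    _ = x⁻¹ := by rw [e2, inv_inv, e3]

theorem fixedBy_pow {g : G} (hg : Commute g t) {k : ℕ} (hk : g ^ k ≠ 1) :
    fixedBy Ω g = fixedBy Ω (g ^ k) := by
  have h1 : g ≠ 1 := fun e => hk (by rw [e, one_pow])
  refine Set.eq_of_subset_of_ncard_le (fun x hx => ?_) ?_ (Set.toFinite _)
  · exact (stabilizer G x).pow_mem hx k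
  · rw [h.fix g hg h1, h.fix _ (hg.pow_left k) hk]

theorem fix_of_odd {x : G} (hx : Commute x t) (ho : Odd (orderOf x)) {d : Ω} (hd : t • d = d) :
    x • d = d := by
  obtain ⟨r, hr⟩ := ho
  have ht2 : ∀ k, t ^ (2 * k) = 1 := fun k => by rw [pow_mul, pow_two, h.sq, one_pow]
  have e1 : (x * t) ^ orderOf x = t := by
    rw [hx.mul_pow, pow_orderOf_eq_one, one_mul, hr, pow_succ, ht2, one_mul]
  have e2 : (x * t) ^ (orderOf x + 1) = x := by
    rw [pow_succ, e1, ← mul_assoc, ← hx.eq, mul_assoc, h.sq, mul_one]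
  have e3 := h.fixedBy_pow (g := x * t) (hx.mul_left (Commute.refl t)) (k := orderOf x)
    (by rw [e1]; exact h.ne)
  rw [e1] at e3
  have : d ∈ fixedBy Ω (x * t) := e3 ▸ hd
  rw [← e2]
  exact (stabilizer G d).pow_mem this _

theorem exists_fix {D : Subgroup G} (hD : ∀ x ∈ D, Commute x t) {Γ : Set Ω}
    (hΓ : Γ ⊆ fixedBy Ω t) (hinv : ∀ x ∈ D, ∀ d ∈ Γ, x • d ∈ Γ) (ho : Odd Γ.ncard) :
    ∃ d ∈ Γ, ∀ x ∈ D, x • d = d := by
  obtain ⟨P⟩ : Nonempty (Sylow 2 D) := inferInstance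
  let S : SubMulAction (P : Subgroup D) Ω := ⟨Γ, fun c {x} hx => hinv _ (c : D).2 x hx⟩
  obtain ⟨d, hd⟩ := P.isPGroup'.nonempty_fixed_point_of_prime_not_dvd_card S (by
    have : Nat.card S = Γ.ncard := rfl
    rw [this]; exact ho.not_two_dvd_nat)
  refine ⟨d, d.2, ?_⟩
  set T : Subgroup D := stabilizer D (d : Ω)
  have hT : T.index = 1 := by
    by_contra hne
    obtain ⟨p, hp, hpd⟩ := Nat.exists_prime_and_dvd hne
    have := Fact.mk hp
    obtain ⟨Q⟩ : Nonempty (Sylow p D) := inferInstance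
    have key : ∀ Q : Sylow p D, ¬ (Q : Subgroup D) ≤ T := fun Q hQ =>
      Q.not_dvd_index (hpd.trans (Subgroup.index_dvd_of_le hQ))
    by_cases h2 : p = 2
    · subst h2
      exact key P fun x hx => congrArg Subtype.val (hd ⟨x, hx⟩)
    · refine key Q fun x hx => ?_
      obtain ⟨k, hk⟩ := (IsPGroup.iff_orderOf.mp Q.isPGroup') ⟨x, hx⟩
      have e : orderOf (x : G) = p ^ k := by
        rw [← hk, Subgroup.orderOf_coe, ← Subgroup.orderOf_coe (⟨x, hx⟩ : (Q : Subgroup D))]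
      exact h.fix_of_odd (hD _ x.2) (e ▸ (hp.odd_of_ne_two h2).pow) (hΓ d.2)
  intro x hx
  have : (⟨x, hx⟩ : D) ∈ T := by rw [Subgroup.index_eq_one.mp hT]; trivial
  exact this

theorem le_two {a b : Ω} (hab : a ≠ b) (ha : t • a = a) (hb : t • b = b) : i ≤ 2 := by
  by_contra hi
  push Not at hi
  set Δ := fixedBy Ω t with hΔ
  have hΔc : Δ.ncard = i := h.fix t (Commute.refl t) h.ne
  set C := Subgroup.centralizer ({t} : Set G) with hC
  have hCm : ∀ x, x ∈ C ↔ Commute x t := fun x => Subgroup.mem_centralizer_singleton_iff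
  have hinvΔ : ∀ x, Commute x t → ∀ d ∈ Δ, x • d ∈ Δ := fun x hx d hd => by
    show t • x • d = x • d
    rw [← mul_smul, ← hx.eq, mul_smul, show t • d = d from hd]
  have htinv : t⁻¹ = t := inv_eq_of_mul_eq_one_right h.sq
  have hswap : ∀ d ∈ Δ, ∀ e ∈ Δ, d ≠ e → ∀ w : G, w • d = e → w • e = d → Commute w t := by
    intro d hd e he hde w h1 h2
    have := h.inverts hde h1 h2 hd he
    rw [htinv] at this
    exact mul_inv_eq_iff_eq_mul.mp this
  have hstab : ∀ d ∈ Δ, ∀ e ∈ Δ, d ≠ e → ∀ x : G, x • d = d → x • e = e → Commute x t :=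
    fun d hd e he hde x h1 h2 => h.comm hde h1 h2 hd he
  have hex : ∀ d : Ω, ∀ e : Ω, ∃ c ∈ Δ, c ≠ d ∧ c ≠ e := by
    intro d e
    by_contra hn
    push Not at hn
    have : Δ ⊆ {d, e} := fun c hc => by
      by_cases hcd : c = d
      · exact Or.inl hcd
      · exact Or.inr (hn c hc hcd)
    have h1 := Set.ncard_le_ncard this (Set.toFinite _)
    have h2 : ({d, e} : Set Ω).ncard ≤ 2 := (Set.ncard_insert_le _ _).trans (by simp)
    omega
  have hev : Even i := by
    by_contra ho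
    obtain ⟨d, hd, hfix⟩ := h.exists_fix (D := C) (fun x hx => (hCm x).1 hx) subset_rfl
      (fun x hx => hinvΔ x ((hCm x).1 hx)) (by rw [hΔc]; exact Nat.not_even_iff_odd.mp ho)
    obtain ⟨e, he, hed, -⟩ := hex d d
    obtain ⟨w, h1, h2⟩ := h.two hed hed.symm
    exact hed (h2.symm.trans (hfix w ((hCm w).2 (hswap e he d hd hed w h1 h2))))
  have hdiff : ∀ d ∈ Δ, (Δ \ {d}).ncard = i - 1 := fun d hd => by
    rw [Set.ncard_sdiff_singleton_of_mem hd, hΔc]
  have hodd : Odd (i - 1) := Nat.Even.sub_odd (by omega) hev odd_one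
  have key : ∀ d ∈ Δ, ∀ e ∈ Δ, e ≠ d →
      (stabilizer G d ⊓ stabilizer G e : Subgroup G) = C ⊓ stabilizer G d := by
    intro d hd
    obtain ⟨e₀, he₀, hfix⟩ := h.exists_fix (D := C ⊓ stabilizer G d) (Γ := Δ \ {d})
      (fun x hx => (hCm x).1 hx.1) Set.sdiff_subset
      (fun x hx c hc => ⟨hinvΔ x ((hCm x).1 hx.1) c hc.1, fun e => hc.2 (by
        have h1 : x • d = d := hx.2
        have h2 : x • c = d := e
        exact smul_left_cancel x (h2.trans h1.symm))⟩) (by rw [hdiff d hd]; exact hodd)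
    intro e he hed
    refine Subgroup.eq_of_le_of_card_ge
      (fun x hx => ⟨(hCm x).2 (hstab d hd e he hed.symm x hx.1 hx.2), hx.1⟩) ?_
    rw [h.card_stab_eq hed.symm (fun e' : d = e₀ => he₀.2 e'.symm)]
    exact Subgroup.card_le_of_le fun x hx => ⟨hx.2, hfix x hx⟩
  have hpt : ∀ d ∈ Δ, ∀ x, Commute x t → x • d = d → ∀ e ∈ Δ, x • e = e := by
    intro d hd x hx h1 e he
    by_cases hed : e = d
    · rw [hed, h1]
    · have : x ∈ (C ⊓ stabilizer G d : Subgroup G) := ⟨(hCm x).2 hx, h1⟩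
      rw [← key d hd e he hed] at this
      exact this.2
  set H : Subgroup G := stabilizer G a ⊓ stabilizer G b with hH
  have hHfix : ∀ x ∈ H, ∀ e ∈ Δ, x • e = e := fun x hx =>
    hpt a ha x (hstab a ha b hb hab x hx.1 hx.2) hx.1
  have hH2 : IsPGroup 2 H := by
    obtain ⟨c, hc, hca, hcb⟩ := hex a b
    obtain ⟨y, hy, hy'⟩ := h.exists_triple hab hcb.symm hca.symm
    have h1 : Commute y t := by
      have := hy' t ha hb hc
      rw [htinv] at this
      exact mul_inv_eq_iff_eq_mul.mp this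
    intro x
    refine ⟨1, Subtype.ext ?_⟩
    have h2 := hy' x x.2.1 x.2.2 (hHfix x x.2 c hc)
    rw [h.comm hab (hpt b hb y h1 hy a ha) hy x.2.1 x.2.2, mul_inv_cancel_right] at h2
    show (x : G) ^ 2 ^ 1 = 1
    rw [pow_one, pow_two]
    exact mul_eq_one_iff_eq_inv.mpr h2
  have hCc : Nat.card C = Nat.card H * i := by
    have h1 := H7.relIndex_stabilizer C a
    have h2 : orbit C a = Δ := by
      ext e
      constructor
      · rintro ⟨x, rfl⟩
        exact hinvΔ x ((hCm x).1 x.2) a ha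
      · intro he
        by_cases hea : a = e
        · exact hea ▸ mem_orbit_self a
        · obtain ⟨w, h1, h2⟩ := h.two hea (Ne.symm hea)
          exact ⟨⟨w, (hCm w).2 (hswap a ha e he hea w h1 h2)⟩, h1⟩
    rw [h2, hΔc, ← Subgroup.inf_relIndex_left, ← key a ha b hb hab.symm] at h1
    rw [← h1]
    exact (H7.card_mul_relIndex (by rw [hH, key a ha b hb hab.symm]; exact inf_le_left)).symm
  let N : Subgroup G := stabilizer G a ⊓ stabilizer G Δ
  have hN : (stabilizer G b).relIndex N = i - 1 := by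
    rw [H7.relIndex_stabilizer, ← hdiff a ha]
    congr 1
    ext e
    constructor
    · rintro ⟨x, rfl⟩
      have h1 : (x : G) • a = a := x.2.1
      have h2 : (x : G) • Δ = Δ := x.2.2
      refine ⟨h2 ▸ Set.smul_mem_smul_set hb, fun e => hab ?_⟩
      exact smul_left_cancel (x : G) (h1.trans (show (x : G) • b = a from e).symm)
    · rintro ⟨he, hea⟩
      obtain ⟨g, h1, h2⟩ := h.two hab (Ne.symm hea)
      refine ⟨⟨g, h1, ?_⟩, h2⟩
      have h3 : Δ ⊆ g • Δ := by
        intro d hd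
        rw [Set.mem_smul_set_iff_inv_smul_mem]
        have h4 : (g * t * g⁻¹) • a = a := by
          rw [mul_smul, mul_smul, inv_smul_eq_iff.mpr h1.symm, ha, h1]
        have h5 : (g * t * g⁻¹) • e = e := by
          rw [mul_smul, mul_smul, inv_smul_eq_iff.mpr h2.symm, hb, h2]
        have h6 := hpt a ha _ (hstab a ha e he (Ne.symm hea) _ h4 h5) h4 d hd
        show t • g⁻¹ • d = g⁻¹ • d
        rw [eq_inv_smul_iff, ← mul_smul, ← mul_smul, h6]
      exact (Set.eq_of_subset_of_ncard_le h3 (Set.ncard_smul_set g Δ).le (Set.toFinite _)).symm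
  have hGa : (stabilizer G b).relIndex (stabilizer G a) = Nat.card Ω - 1 := by
    rw [H7.relIndex_stabilizer, ← Set.ncard_univ,
      ← Set.ncard_sdiff_singleton_of_mem (Set.mem_univ a)]
    congr 1
    ext e
    constructor
    · rintro ⟨x, rfl⟩
      have h1 : (x : G) • a = a := x.2
      exact ⟨trivial, fun e => hab
        (smul_left_cancel (x : G) (h1.trans (show (x : G) • b = a from e).symm))⟩
    · rintro ⟨-, hea⟩
      obtain ⟨g, h1, h2⟩ := h.two hab (Ne.symm hea)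
      exact ⟨⟨g, h1⟩, h2⟩
  have hHN : H ≤ N := fun x hx => ⟨hx.1, by
    refine Set.eq_of_subset_of_ncard_le ?_ (Set.ncard_smul_set x Δ).ge (Set.toFinite _)
    rintro _ ⟨d, hd, rfl⟩
    show x • d ∈ Δ
    rw [hHfix x hx d hd]; exact hd⟩
  have hdvd : i - 1 ∣ Nat.card Ω - 1 := by
    have h1 := Subgroup.relIndex_mul_relIndex H N (stabilizer G a) hHN inf_le_left
    have h2 : H.relIndex N = i - 1 := by
      rw [← hN, ← Subgroup.inf_relIndex_right (stabilizer G b) N]
      congr 1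
      exact le_antisymm (le_inf inf_le_right hHN) fun x hx => ⟨hx.2.1, hx.1⟩
    have h3 : H.relIndex (stabilizer G a) = Nat.card Ω - 1 := by
      rw [← hGa, hH, Subgroup.inf_relIndex_left]
    rw [← h2, ← h3, ← h1]
    exact Dvd.intro _ rfl
  have h1 := h.card_cent
  have h2 := h.lt_card
  have h3 : Nat.card Ω - 1 = (i - 1) + Nat.card H * i := by
    rw [← hCc, hC, h1]; omega
  rw [h3] at hdvd
  have h4 : i - 1 ∣ Nat.card H := by
    refine Nat.Coprime.dvd_of_dvd_mul_right ?_ ((Nat.dvd_add_right dvd_rfl).mp hdvd)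
    obtain ⟨j, rfl⟩ : ∃ j, i = j + 1 := ⟨i - 1, by omega⟩
    simp
  obtain ⟨k, hk⟩ := IsPGroup.iff_card.mp hH2
  rw [hk] at h4
  have h5 : i - 1 = 1 := Nat.Coprime.eq_one_of_dvd
    (Nat.Coprime.pow_right k (Nat.coprime_two_right.mpr hodd)) h4
  omega

omit h [Finite Ω] in
theorem exists_invol_pow {y : G} (hy : Even (orderOf y)) :
    ∃ k, y ^ k ≠ 1 ∧ y ^ k * y ^ k = 1 := by
  obtain ⟨k, hk⟩ := hy
  have := orderOf_pos y
  refine ⟨k, pow_ne_one_of_lt_orderOf (by omega) (by omega), ?_⟩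
  rw [← pow_add, ← hk, pow_orderOf_eq_one]

theorem three_of_le_one
    (hi : ∀ u : G, u ≠ 1 → u * u = 1 → ∀ a b : Ω, a ≠ b → u • a = a → u • b = b → False)
    {g : G} {a b c : Ω} (hab : a ≠ b) (hbc : b ≠ c) (hac : a ≠ c) (ha : g • a = a)
    (hb : g • b = b) (hc : g • c = c) : g = 1 := by
  by_contra hg
  have hodd : ∀ x : G, ∀ a b : Ω, a ≠ b → x • a = a → x • b = b → Odd (orderOf x) := by
    intro x a b hab ha hb
    by_contra he
    obtain ⟨k, h1, h2⟩ := exists_invol_pow (Nat.not_odd_iff_even.mp he)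
    exact hi _ h1 h2 a b hab ((stabilizer G a).pow_mem ha k) ((stabilizer G b).pow_mem hb k)
  have hcomm : ∀ x y : G, Odd (orderOf x) → Commute (x * x) y → Commute x y := by
    intro x y ⟨r, hr⟩ hxy
    have : x = (x * x) ^ (r + 1) := by
      rw [← pow_two, ← pow_mul, show 2 * (r + 1) = orderOf x + 1 by omega, pow_succ,
        pow_orderOf_eq_one, one_mul]
    rw [this]; exact hxy.pow_left _
  have hcent : ∀ u : G, u ≠ 1 → u * u = 1 → ∀ d : Ω, u • d = d → i = 1 ∧
      ∀ x, Commute x u → x • d = d ∧ (x ≠ 1 → ∀ e, x • e = e → e = d) := by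
    intro u h1 h2 d hd
    have hu := h.cfix_of_invol h1 h2
    have h3 : fixedBy Ω u = {d} := by
      refine Set.eq_singleton_iff_unique_mem.mpr ⟨hd, fun e he => ?_⟩
      by_contra hne
      exact hi u h1 h2 e d hne he hd
    have h4 : i = 1 := by rw [← hu.fix u (Commute.refl u) h1, h3, Set.ncard_singleton]
    refine ⟨h4, fun x hx => ?_⟩
    have h5 : x • d = d := by
      have : x • d ∈ fixedBy Ω u := by
        show u • x • d = x • d
        rw [← mul_smul, ← hx.eq, mul_smul, hd]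
      rwa [h3] at this
    refine ⟨h5, fun hx1 e he => ?_⟩
    have h6 := hu.fix x hx hx1
    rw [h4, Set.ncard_eq_one] at h6
    obtain ⟨z, hz⟩ := h6
    have e1 : e ∈ fixedBy Ω x := he
    have e2 : d ∈ fixedBy Ω x := h5
    rw [hz] at e1 e2
    exact e1.trans e2.symm
  have htrans : ∀ u : G, u ≠ 1 → u * u = 1 → ∀ d : Ω, u • d = d → ∀ e f : Ω, e ≠ d → f ≠ d →
      ∃ x, Commute x u ∧ x • e = f := by
    intro u h1 h2 d hd e f he hf
    obtain ⟨h4, h5⟩ := hcent u h1 h2 d hd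
    set C := Subgroup.centralizer ({u} : Set G)
    have hCm : ∀ x, x ∈ C ↔ Commute x u := fun x => Subgroup.mem_centralizer_singleton_iff
    have h6 : Nat.card C = Nat.card Ω - 1 := by rw [← h4]; exact (h.cfix_of_invol h1 h2).card_cent
    have h7 : orbit C e = Set.univ \ {d} := by
      refine Set.eq_of_subset_of_ncard_le ?_ ?_ (Set.toFinite _)
      · rintro _ ⟨x, rfl⟩
        refine ⟨trivial, fun e' => he ?_⟩
        exact smul_left_cancel (x : G)
          ((show (x : G) • e = d from e').trans (h5 x ((hCm x).1 x.2)).1.symm)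
      · rw [Set.ncard_sdiff_singleton_of_mem (Set.mem_univ d), Set.ncard_univ, ← h6,
          ← index_stabilizer]
        have : stabilizer C e = ⊥ := by
          rw [eq_bot_iff]
          intro x hx
          by_contra hne
          exact he ((h5 x ((hCm x).1 x.2)).2 (fun e' => hne (Subtype.ext e')) e hx)
        rw [this, Subgroup.index_bot]
    obtain ⟨x, hx⟩ : f ∈ orbit C e := h7 ▸ ⟨trivial, hf⟩
    exact ⟨x, (hCm x).1 x.2, hx⟩
  let A : Ω → G → Prop := fun d x => x • d = d ∧ Odd (orderOf x) ∧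
    ∀ u : G, u ≠ 1 → u * u = 1 → u • d = d → u * x * u⁻¹ = x⁻¹
  have main : ∀ a b c : Ω, a ≠ b → b ≠ c → a ≠ c → g • a = a → g • b = b → g • c = c →
      A b g ∧ ∃ u : G, u ≠ 1 ∧ u * u = 1 ∧ u • b = b := by
    intro a b c hab hbc hac ha hb hc
    have ho := hodd g a b hab ha hb
    obtain ⟨y, hy, hy'⟩ := h.exists_triple hab hbc hac
    have hyg := hy' g ha hb hc
    have hpow : ∀ k : ℕ, (Even k ∧ y ^ k * g * (y ^ k)⁻¹ = g) ∨
        (Odd k ∧ y ^ k * g * (y ^ k)⁻¹ = g⁻¹) := by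
      intro k
      induction k with
      | zero => left; simp
      | succ k ih =>
        have e : y ^ (k + 1) * g * (y ^ (k + 1))⁻¹ = (y ^ k * g * (y ^ k)⁻¹)⁻¹ := by
          calc y ^ (k + 1) * g * (y ^ (k + 1))⁻¹ = y ^ k * (y * g * y⁻¹) * (y ^ k)⁻¹ := by group
            _ = _ := by rw [hyg]; group
        rcases ih with ⟨h1, h2⟩ | ⟨h1, h2⟩
        · exact Or.inr ⟨h1.add_one, by rw [e, h2]⟩
        · exact Or.inl ⟨h1.add_one, by rw [e, h2, inv_inv]⟩
    have hye : Even (orderOf y) := by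
      rcases hpow (orderOf y) with ⟨h1, -⟩ | ⟨-, h2⟩
      · exact h1
      · rw [pow_orderOf_eq_one, one_mul, inv_one, mul_one] at h2
        have h3 : orderOf g ∣ 2 := orderOf_dvd_of_pow_eq_one
          (by rw [pow_two]; exact mul_eq_one_iff_eq_inv.mpr h2)
        exact absurd (orderOf_eq_one_iff.mp
          (Nat.Coprime.eq_one_of_dvd (Nat.coprime_two_right.mpr ho) h3)) hg
    obtain ⟨k, h1, h2⟩ := exists_invol_pow hye
    have hu : y ^ k • b = b := (stabilizer G b).pow_mem hy k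
    have hinv : y ^ k * g * (y ^ k)⁻¹ = g⁻¹ := by
      rcases hpow k with ⟨-, h3⟩ | ⟨-, h3⟩
      · exact absurd (((hcent _ h1 h2 b hu).2 g
          (mul_inv_eq_iff_eq_mul.mp h3).symm).2
          hg a ha) hab
      · exact h3
    generalize y ^ k = u at h1 h2 hu hinv
    refine ⟨⟨hb, ho, fun u' h1' h2' hu' => ?_⟩, u, h1, h2, hu⟩
    obtain ⟨g₁, e₁⟩ := (h.cfix_of_invol h1 h2).of_invol h1' h2'
    have h3 : g₁ • b = b := by
      by_contra hne
      refine hi u' h1' h2' _ _ hne ?_ hu'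
      rw [e₁, mul_smul, mul_smul, inv_smul_smul, hu]
    obtain ⟨x, hx, hx'⟩ := htrans u h1 h2 b hu (g₁⁻¹ • a) a
      (fun e => hab (by rw [inv_smul_eq_iff, h3] at e; exact e)) hab
    have h4 : x • b = b := ((hcent u h1 h2 b hu).2 x hx).1
    have h5 : (g₁ * x⁻¹) • a = a := by
      rw [mul_smul, inv_smul_eq_iff.mpr hx'.symm, smul_inv_smul]
    have h6 : (g₁ * x⁻¹) • b = b := by rw [mul_smul, inv_smul_eq_iff.mpr h4.symm, h3]
    have h7 := h.comm hab h5 h6 ha hb
    have h8 : u' = (g₁ * x⁻¹) * u * (g₁ * x⁻¹)⁻¹ := by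
      rw [e₁]
      calc g₁ * u * g₁⁻¹ = g₁ * x⁻¹ * (x * u) * g₁⁻¹ := by group
        _ = _ := by rw [hx.eq]; group
    generalize g₁ * x⁻¹ = z at h7 h8
    have h9 : z⁻¹ * g * z = g := by rw [mul_assoc, ← h7]; group
    calc u' * g * u'⁻¹ = z * (u * (z⁻¹ * g * z) * u⁻¹) * z⁻¹ := by rw [h8]; group
      _ = (z * g * z⁻¹)⁻¹ := by rw [h9, hinv]; group
      _ = g⁻¹ := by rw [h7]; group
  obtain ⟨hAb, u₀, hu₀⟩ := main a b c hab hbc hac ha hb hc
  obtain ⟨hAa, -⟩ := main b a c hab.symm hac hbc hb ha hc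
  have hinvol : ∀ d : Ω, ∃ u : G, u ≠ 1 ∧ u * u = 1 ∧ u • d = d := by
    intro d
    obtain ⟨z, hz⟩ : ∃ z : G, z • b = d := by
      by_cases hd : d = b
      · exact ⟨1, by rw [one_smul, hd]⟩
      · obtain ⟨z, hz, -⟩ := h.two (Ne.symm hd) hd
        exact ⟨z, hz⟩
    have := (h.cfix_of_invol hu₀.1 hu₀.2.1).conj z
    exact ⟨_, this.ne, this.sq, by rw [← hz, mul_smul, mul_smul, inv_smul_smul, hu₀.2.2]⟩
  have Acomm : ∀ d x x', A d x → A d x' → Commute x x' := by
    intro d x x' hx hx'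
    obtain ⟨u, h1, h2, h3⟩ := hinvol d
    have h4 := (h.cfix_of_invol h1 h2).conj x⁻¹
    have h5 : (x⁻¹ * u * x⁻¹⁻¹) • d = d := by
      rw [inv_inv, mul_smul, mul_smul, hx.1, h3, inv_smul_eq_iff, hx.1]
    have e1 := hx'.2.2 u h1 h2 h3
    have e2 := hx'.2.2 _ h4.ne h4.sq h5
    have e3 := hx.2.2 u h1 h2 h3
    have e4 : x * x = u * (x⁻¹ * u * x⁻¹⁻¹) := by
      calc x * x = (u * x * u⁻¹)⁻¹ * x := by rw [e3, inv_inv]
        _ = u * (x⁻¹ * u⁻¹ * x⁻¹⁻¹) := by group
        _ = _ := by rw [inv_eq_of_mul_eq_one_right h2]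
    refine hcomm x x' hx.2.1 ?_
    rw [e4]
    generalize x⁻¹ * u * x⁻¹⁻¹ = v at e2
    show u * v * x' = x' * (u * v)
    calc u * v * x' = u * (v * x' * v⁻¹) * v := by group
      _ = (u * x' * u⁻¹)⁻¹ * (u * v) := by rw [e2]; group
      _ = _ := by rw [e1, inv_inv]
  have Aconj : ∀ d x (z : G), A d x → A (z • d) (z * x * z⁻¹) := by
    intro d x z hx
    refine ⟨by rw [mul_smul, mul_smul, inv_smul_smul, hx.1], by rw [orderOf_conj']; exact hx.2.1,
      fun u h1 h2 h3 => ?_⟩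
    have h4 := (h.cfix_of_invol h1 h2).conj z⁻¹
    have h5 := hx.2.2 _ h4.ne h4.sq (by rw [inv_inv, mul_smul, mul_smul, h3, inv_smul_smul])
    calc u * (z * x * z⁻¹) * u⁻¹ = z * (z⁻¹ * u * z⁻¹⁻¹ * x * (z⁻¹ * u * z⁻¹⁻¹)⁻¹) * z⁻¹ := by group
      _ = _ := by rw [h5]; group
  have Ainv : ∀ d x, A d x → A d x⁻¹ := fun d x hx =>
    ⟨by rw [inv_smul_eq_iff, hx.1], by rw [orderOf_inv]; exact hx.2.1, fun u h1 h2 h3 => by
      calc u * x⁻¹ * u⁻¹ = (u * x * u⁻¹)⁻¹ := by group
        _ = _ := by rw [hx.2.2 u h1 h2 h3]⟩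
  let X : Ω → Ω → Set G := fun d e => {x | A d x ∧ x • e = e}
  have Xsymm : ∀ d e, d ≠ e → X d e ⊆ X e d := by
    intro d e hde x hx
    obtain ⟨s, h1, h2⟩ := h.two hde hde.symm
    have h3 := Aconj d x s hx.1
    rw [h1, h.inverts hde h1 h2 hx.1.1 hx.2] at h3
    exact ⟨inv_inv x ▸ Ainv e _ h3, hx.1.1⟩
  have Xeq : ∀ d e d' e', d ≠ e → d' ≠ e' → X d e ⊆ X d' e' → X d e = X d' e' := by
    intro d e d' e' h1 h2 h3
    refine Set.eq_of_subset_of_ncard_le h3 ?_ (Set.toFinite _)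
    obtain ⟨z, rfl, rfl⟩ := h.two h2 h1
    refine Set.ncard_le_ncard_of_injOn (fun x => z * x * z⁻¹) (fun x hx => ⟨Aconj _ _ _ hx.1, ?_⟩)
      (fun x _ y _ e => by simpa using e) (Set.toFinite _)
    rw [mul_smul, mul_smul, inv_smul_smul, hx.2]
  obtain ⟨d, hd⟩ := h.exists_move hg
  have key : ∀ f, A f g → X f d = X d (g • d) := by
    intro f hf
    have hfd : f ≠ d := fun e => hd (e ▸ hf.1)
    refine Xeq _ _ _ _ hfd hd.symm fun x hx => ⟨(Xsymm _ _ hfd hx).1, ?_⟩
    rw [← mul_smul, (Acomm f x g hx.1 hf).eq, mul_smul, hx.2]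
  have hbd : b ≠ d := fun e => hd (e ▸ hb)
  have h1 : X b d = X b a := Xeq _ _ _ _ hbd hab.symm fun x hx => ⟨hx.1, by
    have : x ∈ X a d := by rw [key a hAa, ← key b hAb]; exact hx
    exact this.1.1⟩
  have h2 : g ∈ X b d := h1 ▸ ⟨hAb, ha⟩
  exact hd h2.2

theorem zs : Zs G Ω := by
  refine ⟨h.two, fun g a b c hab hbc hac ha hb hc => ?_⟩
  by_cases hi : ∃ u : G, u ≠ 1 ∧ u * u = 1 ∧ ∃ a b : Ω, a ≠ b ∧ u • a = a ∧ u • b = b
  · obtain ⟨u, h1, h2, a', b', h3, h4, h5⟩ := hi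
    have hu := h.cfix_of_invol h1 h2
    have h6 := hu.le_two h3 h4 h5
    obtain ⟨z, rfl, rfl⟩ := h.two h3 hab
    have hv := hu.conj z
    by_contra hg
    have h7 := hv.fix g (h.comm hab ha hb (by rw [mul_smul, mul_smul, inv_smul_smul, h4])
      (by rw [mul_smul, mul_smul, inv_smul_smul, h5])) hg
    have h8 : ({z • a', z • b', c} : Set Ω).ncard ≤ (fixedBy Ω g).ncard :=
      Set.ncard_le_ncard (by
        rintro x (rfl | rfl | rfl)
        exacts [ha, hb, hc]) (Set.toFinite _)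
    rw [Set.ncard_eq_three.mpr ⟨_, _, _, hab, hac, hbc, rfl⟩] at h8
    omega
  · push Not at hi
    exact h.three_of_le_one (fun u h1 h2 a b h3 h4 h5 => hi u h1 h2 a b h3 h4 h5)
      hab hbc hac ha hb hc

theorem isSimpleGroup (hZ : Cfsg.IsZassenhausGroup G Ω) : IsSimpleGroup G := by
  have : Nontrivial G := ⟨t, 1, h.ne⟩
  refine ⟨fun M hM => ?_⟩
  by_cases hb : M = ⊥
  · exact Or.inl hb
  right
  have ZM := Zs.of_isZassenhaus (isZassenhaus_of_normal hZ M hb)
  obtain ⟨a, hab⟩ := h.exists_move h.ne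
  have hsw : ∀ w : G, w • a = t • a → w • t • a = a → w ∈ M := by
    intro w h1 h2
    obtain ⟨s, h3, h4⟩ := ZM.two hab.symm hab
    obtain ⟨g, e⟩ := (h.count hab.symm).2 s h3 h4
    obtain ⟨g', e'⟩ := (h.count hab.symm).2 w h1 h2
    have : w = (g' * g⁻¹) * s * (g' * g⁻¹)⁻¹ := by rw [e, e']; group
    rw [this]
    exact hM.conj_mem _ s.2 _
  have htt : t • t • a = a := by rw [← mul_smul, h.sq, one_smul]
  refine Zs.eq_top_of_two ZM hab.symm fun x hx => ?_
  have h1 : x • a = a := hx.1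
  have h2 : x • t • a = t • a := hx.2
  have h3 := hsw (t * x) (by rw [mul_smul, h1]) (by rw [mul_smul, h2, htt])
  have h4 := hsw t rfl htt
  simpa using M.mul_mem (M.inv_mem h4) h3

end CFix

end Cfsg.Agent.H9
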