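import Cfsg.Agent.H9.FxWrap

/-! Fixity four: involutions with four fixed points, I. -/

set_option autoImplicit false

namespace Cfsg.Agent.Fx4

open Subgroup Cfsg.Agent.H7 MulAction
open MulAut (conj)
open scoped Pointwise commutatorElement

universe u
variable {G : Type u} [Group G] [Finite G] {A R S T V W X Y : Subgroup G} {c g h r t w y z : G}
variable {Ω : Type*} [MulAction G Ω] [Finite Ω] {D E : Set Ω} {a b p q : Ω}

theorem card_le_orbit (W : Subgroup G) (a : Ω) {T : Set Ω} (h : ∀ w ∈ W, w • a ∈ T) :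
    Nat.card W ≤ Nat.card ↥(stabilizer G a ⊓ W) * T.ncard :=
  card_le_of_fun W (stabilizer G a) (· • a) (Set.toFinite T) h fun w _ w' _ e => by
    rw [mem_stabilizer_iff, mul_smul, ← e, inv_smul_smul]

theorem card_le_orbit3 (hP : IsPGroup 2 W) (a : Ω) {T : Set Ω} (h : ∀ w ∈ W, w • a ∈ T)
    (h3 : T.ncard ≤ 3) : Nat.card W ≤ Nat.card ↥(stabilizer G a ⊓ W) * 2 := by
  have k1 := (card_le_orbit W a h).trans (Nat.mul_le_mul_left _ h3)
  rw [← card_inf_mul_relIndex (stabilizer G a) W] at k1 ⊢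
  exact Nat.mul_le_mul_left _ (pow_two_le_of_lt (k := 1) (IsPGroup.relIndex_eq hP _)
    (Nat.lt_succ_of_le (Nat.le_of_mul_le_mul_left k1 (card_pos' _))))

theorem cent_le_stab (Ω : Type*) [MulAction G Ω] (y : G) : C₁[y] ≤ stabilizer G (fixedBy Ω y) :=
  fun w hw => mem_stab_of fun p hp => by
    rw [mem_fixedBy, ← mul_smul, ← mem_cent1_iff.1 hw, mul_smul, mem_fixedBy.1 hp]

omit [Finite G] [Finite Ω] in
theorem mem_fixing_self (Ω : Type*) [MulAction G Ω] (y : G) : y ∈ fixingSubgroup G (fixedBy Ω y) :=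
  mem_fixing.2 fun _ h => h

omit [Finite Ω] in
theorem pow_dvd_le {n k m : ℕ} (h : ∃ j, n = 2 ^ j) (hd : n ∣ m) (hm : ¬ 2 ^ (k + 1) ∣ m) :
    n ≤ 2 ^ k := by
  obtain ⟨j, rfl⟩ := h
  refine Nat.pow_le_pow_right (by norm_num) (not_lt.1 fun e => hm ((pow_dvd_pow 2 e).trans hd))

theorem idx8 (h4 : D.ncard ≤ 4) (hX : X ≤ stabilizer G D) (hP : IsPGroup 2 X) :
    (fixingSubgroup G D).relIndex X ≤ 8 :=
  pow_dvd_le (k := 3) (IsPGroup.relIndex_eq hP _)
    ((relIndex_fixing_dvd hX).trans (Nat.factorial_dvd_factorial h4)) (by decide)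

theorem idx2' (h3 : D.ncard ≤ 3) (hX : X ≤ stabilizer G D) (hP : IsPGroup 2 X) :
    (fixingSubgroup G D).relIndex X ≤ 2 :=
  pow_dvd_le (k := 1) (IsPGroup.relIndex_eq hP _)
    ((relIndex_fixing_dvd hX).trans (Nat.factorial_dvd_factorial h3)) (by decide)

theorem idx2 (h4 : D.ncard ≤ 4) (hX : X ≤ stabilizer G D) (hP : IsPGroup 2 X) (ha : a ∈ D)
    (hXa : X ≤ stabilizer G a) : Nat.card X ≤ 2 * Nat.card ↥(fixingSubgroup G D ⊓ X) := by
  have k := idx2' (D := D \ {a}) (by rw [Set.ncard_sdiff_singleton_of_mem ha]; omega)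
    (fun x hx => mem_stab_of fun p hp => ⟨smul_mem_stab (hX hx) hp.1, fun e => hp.2 (by
      rw [Set.mem_singleton_iff, ← mem_stabilizer_iff.1 (hXa hx)] at e
      exact MulAction.injective x e)⟩) hP
  have k1 := card_inf_mul_relIndex (fixingSubgroup G (D \ {a})) X
  have k2 : fixingSubgroup G (D \ {a}) ⊓ X ≤ fixingSubgroup G D ⊓ X := fun x hx =>
    ⟨mem_fixing.2 fun p hp => by
      by_cases e : p = a
      · exact e ▸ hXa hx.2
      · exact mem_fixing.1 hx.1 p ⟨hp, e⟩, hx.2⟩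
  have := card_le_of_le' k2
  nlinarith

theorem ncard_le_three (h4 : D.ncard ≤ 4) (hE : E ⊆ D) (hp : p ∈ D) (hp' : p ∉ E) : E.ncard ≤ 3 := by
  have := Set.ncard_lt_ncard (LE.le.ssubset_of_ne hE fun e => hp' (e ▸ hp))
  omega

theorem idx4 (h4 : D.ncard ≤ 4) (hX : X ≤ stabilizer G D) (hP : IsPGroup 2 X)
    (hc : ∀ x ∈ X, x * x ∈ fixingSubgroup G D) : (fixingSubgroup G D).relIndex X ≤ 4 := by
  refine relIndex_le_of_card_le ?_
  by_cases k : X ≤ fixingSubgroup G D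
  · rw [inf_of_le_right k]; omega
  obtain ⟨x, hx, hx'⟩ := SetLike.not_le_iff_exists.1 k
  obtain ⟨a, ha, h1⟩ : ∃ a ∈ D, x • a ≠ a := by simpa [mem_fixing] using hx'
  have key : ∀ g ∈ X, ∀ h ∈ stabilizer G a ⊓ X, h • g • a = g • a := fun g hg h hh => by
    have := mem_fixing.1 (comm_mem_of_sq hc hh.2 hg) _ (smul_mem_stab (hX hg) ha)
    rwa [mul_smul, mul_smul, mul_smul, inv_smul_smul, mem_stabilizer_iff.1 (inv_mem hh.1)] at this
  by_cases k1 : ∀ p ∈ D, ∃ g ∈ X, g • a = p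
  · have k2 := card_le_orbit X a fun w hw => smul_mem_stab (hX hw) ha
    have k3 : stabilizer G a ⊓ X ≤ fixingSubgroup G D ⊓ X := fun h hh => ⟨mem_fixing.2 fun p hp => by
      obtain ⟨g, hg, rfl⟩ := k1 p hp
      exact key g hg h hh, hh.2⟩
    have := card_le_of_le' k3
    nlinarith
  · push Not at k1
    obtain ⟨p, hp, k1⟩ := k1
    have k2 := card_le_orbit3 hP a (T := {q | ∃ g ∈ X, g • a = q}) (fun w hw => ⟨w, hw, rfl⟩)
      (ncard_le_three h4 (fun _ ⟨g, hg, e⟩ => e ▸ smul_mem_stab (hX hg) ha) hp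
        fun ⟨g, hg, e⟩ => k1 g hg e)
    have k4 := idx2 h4 (inf_le_right.trans hX : stabilizer G a ⊓ X ≤ _) (hP.to_le inf_le_right) ha
      inf_le_left
    have k5 := card_le_of_le' (inf_le_inf_left (fixingSubgroup G D)
      (inf_le_right : stabilizer G a ⊓ X ≤ X))
    omega

theorem SR.of_fixing {k : ℕ} (h4 : D.ncard ≤ 4) (hS : S ≤ stabilizer G D) (hP : IsPGroup 2 S)
    (h : SR k (S ⊓ fixingSubgroup G D)) : SR (k + 2) S := fun X Y h1 h2 h3 => by
  set Q := S ⊓ fixingSubgroup G D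
  have hn : S ≤ N[Q] := le_norm_inf (le_norm_self S) (hS.trans (stab_le_norm D))
  rw [relIndex_eq_mul h1 (h2.trans hn), pow_add]
  refine Nat.mul_le_mul (h _ _ (inf_le_inf_right _ h1) inf_le_right fun x hx =>
    ⟨h3 x hx.1, mul_mem hx.2 hx.2⟩) ?_
  have k0 : Q ⊔ X ≤ S := sup_le inf_le_left h2
  have k1 := sq_mem_sup (h2.trans hn) h3
  have e : Q.relIndex (Q ⊔ X) = (fixingSubgroup G D).relIndex (Q ⊔ X) := by
    rw [← inf_relIndex_right Q, ← inf_relIndex_right (fixingSubgroup G D)]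
    congr 1
    exact le_antisymm (inf_le_inf_right _ inf_le_right) fun x hx => ⟨⟨k0 hx.2, hx.1⟩, hx.2⟩
  by_cases k : Y ≤ Q
  · rw [sup_of_le_left k] at k1 ⊢
    exact e ▸ idx4 h4 (k0.trans hS) (hP.to_le k0) fun x hx => (k1 x hx).2
  · have k2 := relIndex_mul_relIndex Q (Q ⊔ Y) (Q ⊔ X) le_sup_left (sup_le_sup_left h1 Q)
    have k3 := e ▸ idx8 h4 (k0.trans hS) (hP.to_le k0)
    have k4 := relIndex_pos' Q (Q ⊔ Y)
    have k5 := mt relIndex_eq_one'.1 fun e : Q ⊔ Y ≤ Q => k (le_sup_right.trans e)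
    have : 2 ≤ Q.relIndex (Q ⊔ Y) := by omega
    nlinarith

variable (hf : ∀ g : G, g ≠ 1 → (fixedBy Ω g).ncard ≤ 4)
include hf

omit [Finite G] in
theorem fix_eq (h4 : D.ncard = 4) (hy : y ∈ fixingSubgroup G D) (h1 : y ≠ 1) : fixedBy Ω y = D :=
  (Set.eq_of_subset_of_ncard_le (mem_fixing.1 hy) (h4 ▸ hf y h1)).symm

omit [Finite G] in
theorem ti4 (h4 : D.ncard = 4) (hy : y ∈ fixingSubgroup G D) (h1 : y ≠ 1)
    (hg : g * y * g⁻¹ ∈ fixingSubgroup G D) : g ∈ stabilizer G D := by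
  rw [mem_stabilizer_iff, ← fix_eq hf h4 hy h1, smul_fixedBy, fix_eq hf h4 hg (by simpa using h1),
    fix_eq hf h4 hy h1]

omit [Finite G] in
theorem eq_one_of_fix (h4 : D.ncard = 4) (hy : y ∈ fixingSubgroup G D) (hp : p ∉ D)
    (h : y • p = p) : y = 1 := by
  by_contra h1
  exact hp (fix_eq hf h4 hy h1 ▸ h)

theorem semireg (h4 : D.ncard = 4) (h1 : W ≤ fixingSubgroup G D) (h2 : W ≤ stabilizer G E)
    (hp : p ∈ E) (hp' : p ∉ D) : Nat.card W ≤ (E \ D).ncard := by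
  have k := card_le_orbit W p (T := E \ D) fun w hw => ⟨smul_mem_stab (h2 hw) hp,
    fun e => hp' (mem_of_smul_mem_stab (fixing_le D (h1 hw)) e)⟩
  rwa [inf_eq_bot_of_forall fun x hx hx' => eq_one_of_fix hf h4 (h1 hx') hp' hx, card_bot,
    one_mul] at k

theorem semireg4 (h4 : D.ncard = 4) (hE : E.ncard ≤ 4) (h1 : W ≤ fixingSubgroup G D)
    (h2 : W ≤ stabilizer G E) (hp : p ∈ E) (hp' : p ∉ D) (hW : 4 ≤ Nat.card W) :
    Nat.card W = 4 ∧ E.ncard = 4 ∧ ∀ q ∈ E, q ∉ D := by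
  have k := semireg hf h4 h1 h2 hp hp'
  have k1 := Set.ncard_le_ncard (Set.sdiff_subset (s := E) (t := D))
  refine ⟨by omega, by omega, fun q hq hq' => ?_⟩
  have := ncard_le_three hE (Set.sdiff_subset (s := E) (t := D)) hq fun e => e.2 hq'
  omega

omit hf [Finite G] in
theorem exists_notMem (h4 : D.ncard = 4) (hE : E.ncard = 4) (h : D ≠ E) : ∃ p ∈ E, p ∉ D := by
  by_contra k
  push Not at k
  exact h (Set.eq_of_subset_of_ncard_le k (by omega)).symm

omit hf in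
theorem comm_of_card_four (h : Nat.card V = 4) : V ≤ C[V] := by
  have := abel_of_card_sq (p := 2) (A := V) (by rw [h]; norm_num)
  exact le_centralizer V

/-- two four-sets -/
theorem twoSets (hS : IsPGroup 2 S) (h4 : D.ncard = 4) (hE : E.ncard = 4) (hne : D ≠ E)
    (hX : S ⊓ stabilizer G D ≤ stabilizer G E) (h1 : 4 ≤ Nat.card ↥(S ⊓ fixingSubgroup G D))
    (h2 : 4 ≤ Nat.card ↥(S ⊓ stabilizer G D ⊓ fixingSubgroup G E)) : SR 4 S := by
  set X := S ⊓ stabilizer G D with hXd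
  set V := S ⊓ fixingSubgroup G D with hVd
  set V' := X ⊓ fixingSubgroup G E with hV'd
  have hVX : V ≤ X := inf_le_inf_left S (fixing_le D)
  obtain ⟨b, hb, hb'⟩ := exists_notMem h4 hE hne
  obtain ⟨a, ha, ha'⟩ := exists_notMem hE h4 hne.symm
  obtain ⟨cV, -, -⟩ := semireg4 hf h4 hE.le inf_le_right (hVX.trans hX) hb hb' h1
  obtain ⟨cV', -, -⟩ := semireg4 hf hE h4.le inf_le_right (inf_le_left.trans inf_le_right) ha ha' h2
  replace cV : Nat.card V = 4 := cV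
  replace cV' : Nat.card V' = 4 := cV'
  have n1 : X ≤ N[V] := le_norm_inf (le_norm_of_le inf_le_left) (inf_le_right.trans (stab_le_norm D))
  have n2 : X ≤ N[V'] := le_norm_inf (le_norm_self X) (hX.trans (stab_le_norm E))
  have hi : V ⊓ V' = ⊥ := inf_eq_bot_of_forall fun x hx hx' =>
    eq_one_of_fix hf h4 hx.2 hb' (mem_fixing.1 hx'.2 b hb)
  have hc := le_cent_of_inf_eq_bot (hVX.trans n2) (inf_le_left.trans n1) hi
  have hAX : V ⊔ V' ≤ X := sup_le hVX inf_le_left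
  have cA : Nat.card ↥(V ⊔ V') = 16 := by
    rw [card_sup_of_inf_eq_bot (inf_le_left.trans n1) hi, cV, cV']
  have hT := ti16 hS (hAX.trans inf_le_left) cA (sup_le (le_cent_sup (comm_of_card_four cV) hc)
    (le_cent_sup (le_cent_symm hc) (comm_of_card_four cV'))) le_sup_left cV
    fun h hh v hv h1 k => n1 ⟨hh, ti4 hf h4 hv.2 h1 k.2⟩
  obtain ⟨v, hv, v1⟩ := exists_ne_one_of_ne_bot (A := V) fun e => by
    rw [e, card_bot] at cV; omega
  have hNX : N[V] ⊓ S ≤ X := fun h hh => ⟨hh.2, ti4 hf h4 hv.2 v1 (conj_mem_of_norm hh.1 hv).2⟩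
  have hVS : V ≤ S := inf_le_left
  by_cases k : X ≤ V ⊔ V'
  · refine SR.of_top (hT.lemC ?_)
    rw [norm_subOf hVS]
    exact fun h hh => k (hNX ⟨hh, h.2⟩)
  have hXP : IsPGroup 2 X := hS.to_le inf_le_left
  have g32 := two_mul_card_le hAX k
  have eV : fixingSubgroup G D ⊓ X = V :=
    le_antisymm (fun x hx => ⟨hx.2.1, hx.1⟩) (le_inf inf_le_right hVX)
  have l32 : Nat.card X ≤ 32 := by
    have k1 := card_inf_mul_relIndex (fixingSubgroup G D) X
    have k2 := idx8 h4.le inf_le_right hXP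
    rw [eV] at k1
    nlinarith
  set T := stabilizer G a ⊓ X with hTd
  have hVT : V ≤ T := le_inf (fun x hx => mem_fixing.1 hx.2 a ha) hVX
  have g8 : 8 ≤ Nat.card T := by
    have := card_le_orbit X a fun w hw => smul_mem_stab hw.2 ha
    nlinarith
  have l8 : Nat.card T ≤ 8 := by
    have k1 := idx2 h4.le (inf_le_right.trans inf_le_right : T ≤ _) (hXP.to_le inf_le_right) ha
      inf_le_left
    have k2 := card_le_of_le' ((inf_le_inf_left _ (inf_le_right : T ≤ X)).trans eV.le)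
    exact k1.trans (by rw [cV] at k2; exact Nat.mul_le_mul_left 2 k2)
  obtain ⟨r, hr, r1, r2⟩ := exists_invol (S := stabilizer G b ⊓ T)
    (hXP.to_le (inf_le_right.trans inf_le_right)) fun e => by
      have := card_le_orbit T b fun w hw => smul_mem_stab (hX hw.2) hb
      rw [e, card_bot] at this
      omega
  have hone : ∀ x ∈ V ⊔ V', x • a = a → x • b = b → x = 1 := fun x hx e1 e2 => by
    obtain ⟨x1, k1, x2, k2, rfl⟩ := (mem_sup_of_norm (inf_le_left.trans n1)).1 hx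
    rw [mul_smul, mem_fixing.1 k2.2 b hb] at e2
    rw [eq_one_of_fix hf h4 k1.2 hb' e2, one_mul] at e1 ⊢
    exact eq_one_of_fix hf hE k2.2 ha' e1
  have f3 : ∀ {D : Set Ω} {p : Ω}, D.ncard = 4 → p ∉ D → r • p = p →
      (fixedBy Ω r ∩ D).ncard ≤ 3 := fun {D p} h4 hp e => by
    obtain ⟨q, hq, hq'⟩ : ∃ q ∈ D, r • q ≠ q := by
      simpa [mem_fixing] using fun k => r1 (eq_one_of_fix hf h4 k hp e)
    exact ncard_le_three h4.le Set.inter_subset_right hq fun e => hq' e.1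
  have orb : ∀ {D : Set Ω} {p q : Ω} (W : Subgroup G), D.ncard = 4 → p ∉ D → r • p = p → q ∈ D →
      r • q = q → W ≤ C₁[r] → W ≤ stabilizer G D → IsPGroup 2 W →
      Nat.card W ≤ Nat.card ↥(stabilizer G q ⊓ W) * 2 := fun {D p q} W h4 hp e hq e' h1 h2 hP =>
    card_le_orbit3 hP q (T := fixedBy Ω r ∩ D) (fun w hw =>
      ⟨smul_mem_stab (cent_le_stab Ω r (h1 hw)) e', smul_mem_stab (h2 hw) hq⟩) (f3 h4 hp e)
  have hrS : r ∈ S := hr.2.2.1
  refine SR.of_top (hT.lemD (r := ⟨r, hrS⟩) ?_ (fun k => r1 (hone r k hr.2.1 hr.1)) (Subtype.ext r2)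
    ?_ ?_ ?_)
  · rw [norm_subOf hVS]; exact n1 hr.2.2
  · rw [norm_subOf hVS, card_subOf]; exact (card_le_of_le' hNX).trans l32
  · have e : C₁[(⟨r, hrS⟩ : S)] ⊓ (V ⊔ V').subgroupOf S = (C₁[r] ⊓ (V ⊔ V')).subgroupOf S := by
      ext y
      rw [mem_inf, mem_subgroupOf, mem_subgroupOf, mem_inf, mem_cent1_iff, mem_cent1_iff,
        Subtype.ext_iff]
      rfl
    rw [e, card_subOf' (inf_le_right.trans (hAX.trans inf_le_left))]
    have hP := hXP.to_le (inf_le_right.trans hAX : C₁[r] ⊓ (V ⊔ V') ≤ _)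
    have k1 := orb _ h4 hb' hr.1 ha hr.2.1 inf_le_left (inf_le_right.trans (hAX.trans inf_le_right)) hP
    have k2 := orb (stabilizer G a ⊓ (C₁[r] ⊓ (V ⊔ V'))) hE ha' hr.2.1 hb hr.1
      (inf_le_right.trans inf_le_left) (inf_le_right.trans (inf_le_right.trans (hAX.trans hX)))
      (hP.to_le inf_le_right)
    rw [inf_eq_bot_of_forall (A := stabilizer G b) (B := stabilizer G a ⊓ (C₁[r] ⊓ (V ⊔ V')))
      fun x h1 h2 => hone x h2.2.2 h2.1 h1, card_bot] at k2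
    omega
  · rw [card_cent1_coe]
    have k1 := card_le_orbit (C₁[r] ⊓ S) a (T := fixedBy Ω r) fun w hw =>
      smul_mem_stab (cent_le_stab Ω r hw.1) hr.2.1
    have k2 := hf r r1
    have k3 : T = stabilizer G a ⊓ S := eq_of_nil_of_norm_le (nil_of_pgroup (hS.to_le inf_le_right))
      (inf_le_inf_left _ inf_le_left) fun u hu => by
        obtain ⟨x, hx, hx', x1⟩ := exists_mem_inf_of_card hVT (conj_smul_le_of_norm hu.2 hVT)
          ((conj_smul_le_of_norm hu.2 hVT).trans (inf_le_right.trans n1))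
          (by rw [card_conj_smul, cV]; omega)
        obtain ⟨x, hx'', rfl⟩ := mem_conj_smul_iff_exists.1 hx'
        exact ⟨hu.1.1, hu.1.2, ti4 hf h4 hx''.2 (by simpa using x1) hx.2⟩
    have k4 := two_mul_card_le (inf_le_right : C₁[r] ⊓ T ≤ T) fun e => by
      have := orb V hE ha' hr.2.1 hb hr.1 (hVT.trans (e.trans inf_le_left)) (hVX.trans hX)
        (hS.to_le hVS)
      rw [inf_eq_bot_of_forall (A := stabilizer G b) (B := V)
        fun x h1 h2 => eq_one_of_fix hf h4 h2.2 hb' h1, card_bot] at this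
      omega
    have k5 : stabilizer G a ⊓ (C₁[r] ⊓ S) ≤ C₁[r] ⊓ T := fun x hx => ⟨hx.2.1, k3.ge ⟨hx.1, hx.2.2⟩⟩
    have k6 := card_le_of_le' k5
    nlinarith

end Cfsg.Agent.Fx4
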