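import Cfsg.Agent.H9.FxFour

/-! Fixity four: involutions with four fixed points, II. -/

set_option autoImplicit false

namespace Cfsg.Agent.Fx4

open Subgroup Cfsg.Agent.H7 MulAction
open MulAut (conj)
open scoped Pointwise commutatorElement

universe u
variable {G : Type u} [Group G] [Finite G] {A R S T V W X Y : Subgroup G} {c g h r t u v w y z : G}
variable {Ω : Type*} [MulAction G Ω] [Finite Ω] {D E : Set Ω} {a b p q : Ω}

def Good (G : Type u) [Group G] : Prop := ∃ S : Subgroup G, IsSylowIn 2 S ⊤ ∧ SR 4 S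

theorem lemI (h4 : D.ncard ≤ 4) (hP : IsPGroup 2 S) (hS : S ≤ stabilizer G D) (hw : w ∈ S)
    (w2 : w * w = 1) (h2 : Nat.card ↥(C₁[w] ⊓ (S ⊓ fixingSubgroup G D)) ≤ 2) : SR 4 S := by
  set Q := S ⊓ fixingSubgroup G D
  have hn : S ≤ N[Q] := le_norm_inf (le_norm_self S) (hS.trans (stab_le_norm D))
  have k0 : Q ⊔ zpowers w ≤ S := sup_le inf_le_left (zpowers_le_of_mem hw)
  refine SR.of_fixing (k := 2) h4 hS hP ((SR.of_cent_le_four (hP.to_le k0)
    (mem_sup_right (mem_zpowers w)) ?_).mono le_sup_left)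
  rw [sup_comm, inf_sup_of_norm (Or.inr (zpowers_le_of_mem (hn hw)))
    (zpowers_le_of_mem (mem_cent1_self w)), sup_comm]
  exact (card_sup_zpowers_le (le_norm_inf (le_norm_self _ |>.trans' (zpowers_le_of_mem
    (mem_cent1_self w))) (zpowers_le_of_mem (hn hw)) (mem_zpowers w))
    (by rw [w2]; exact one_mem _)).trans (by omega)

theorem eq_of_card_le_two (h : Nat.card A ≤ 2) (hy : y ∈ A) (hz : z ∈ A) (y1 : y ≠ 1) (z1 : z ≠ 1) :
    y = z := by
  by_contra e
  have := Set.ncard_le_ncard (s := {1, y, z}) (t := (A : Set G)) (by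
    rintro _ (rfl | rfl | rfl); exacts [one_mem A, hy, hz])
  rw [Set.ncard_eq_three.2 ⟨_, _, _, y1.symm, z1.symm, e, rfl⟩] at this
  exact absurd (this.trans h) (by norm_num)

variable (hf : ∀ g : G, g ≠ 1 → (fixedBy Ω g).ncard ≤ 4)
include hf

theorem q4 (h4 : D.ncard = 4) (hR : IsSylowIn 2 R (stabilizer G D))
    (h : 4 ≤ Nat.card ↥(R ⊓ fixingSubgroup G D)) : Good G ∨ IsSylowIn 2 R ⊤ := by
  obtain ⟨S, hRS, hS⟩ := exists_isSylowIn_ge hR.isPGroup le_top
  rcases hRS.eq_or_lt with rfl | hlt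
  · exact Or.inr hS
  obtain ⟨s, hs, hsR⟩ := SetLike.exists_of_lt (lt_inf_norm_of_nil (nil_of_pgroup hS.isPGroup) hlt)
  have e : S ⊓ stabilizer G D = R :=
    hR.eq_of_le (hS.isPGroup.to_le inf_le_left) (le_inf hRS hR.le) inf_le_right
  refine Or.inl ⟨S, hS, twoSets hf hS.isPGroup h4 (E := s • D) (by rwa [Set.ncard_smul_set])
    (fun k => hsR (e.le ⟨hs.1, k.symm⟩)) ?_ (h.trans (card_le_of_le' (inf_le_inf_right _ hRS))) ?_⟩
  · rw [e, stabilizer_smul_eq, ← conj_smul_of_norm hs.2]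
    exact conj_smul_mono s hR.le
  · rwa [e, ← conj_fixing, ← conj_smul_of_norm hs.2, ← conj_smul_inf, card_conj_smul]

theorem lemI' (h4 : D.ncard = 4) (hP : IsPGroup 2 S) (hS : S ≤ stabilizer G D) (hw : w ∈ S)
    (w2 : w * w = 1) (hp : p ∉ D) (hw' : w • p = p) :
    SR 4 S ∨ 4 ≤ Nat.card ↥(C₁[w] ⊓ (S ⊓ fixingSubgroup G D)) ∧
      Nat.card ↥(C₁[w] ⊓ (S ⊓ fixingSubgroup G D)) ≤ (fixedBy Ω w \ D).ncard := by
  by_cases k : Nat.card ↥(C₁[w] ⊓ (S ⊓ fixingSubgroup G D)) < 4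
  · exact Or.inl (lemI h4.le hP hS hw w2
      (card_le_of_lt (k := 1) (hP.to_le (inf_le_right.trans inf_le_left)) k))
  · exact Or.inr ⟨not_lt.1 k, semireg hf h4 (inf_le_right.trans inf_le_right)
      (inf_le_left.trans (cent_le_stab Ω w)) hw' hp⟩

theorem q2 (hG : commutator G = ⊤) (t1 : t ≠ 1) (t2 : t * t = 1) (h4 : D.ncard = 4)
    (htK : t ∈ fixingSubgroup G D) (hR : IsSylowIn 2 R (stabilizer G D)) (htR : t ∈ R)
    (h2 : Nat.card ↥(R ⊓ fixingSubgroup G D) ≤ 2) : Good G := by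
  obtain ⟨S, hRS, hS⟩ := exists_isSylowIn_ge hR.isPGroup le_top
  have hP := hS.isPGroup
  have e : S ⊓ stabilizer G D = R :=
    hR.eq_of_le (hP.to_le inf_le_left) (le_inf hRS hR.le) inf_le_right
  have hD := fix_eq hf h4 htK t1
  have hC : C₁[t] ≤ stabilizer G D := hD ▸ cent_le_stab Ω t
  have hK2 : ∀ W : Subgroup G, IsPGroup 2 W → Nat.card ↥(fixingSubgroup G D ⊓ W) ≤ 2 := fun W hW =>
    (Nat.le_of_dvd (card_pos' _) ((hR.inf_normal ⟨fixing_le D, stab_le_norm D⟩).card_dvd inf_le_left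
      (hW.to_le inf_le_right))).trans h2
  have hRC : R ≤ C₁[t] := fun x hx => mem_cent1_iff.2 (mul_inv_eq_iff_eq_mul.1
    (eq_of_card_le_two h2 ⟨conj_mem_of_norm (le_norm_self R hx) htR,
      conj_mem_of_norm (stab_le_norm D (hR.le hx)) htK⟩ ⟨htR, htK⟩ (by simpa using t1) t1))
  have eC : C₁[t] ⊓ S = R := le_antisymm (fun x hx => e.le ⟨hx.2, hC hx.1⟩) (le_inf hRC hRS)
  by_cases k : Nat.card R < 16
  · exact ⟨S, hS, lemA' hP (hRS htR) t1 t2 (eC ▸ card_le_of_lt (k := 3) hR.isPGroup k)⟩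
  obtain ⟨a, ha⟩ : D.Nonempty := Set.nonempty_of_ncard_ne_zero (by omega)
  set T := stabilizer G a ⊓ R with hTd
  set L := stabilizer G a ⊓ S with hLd
  have hLP : IsPGroup 2 L := hP.to_le inf_le_right
  have i2 : ∀ W : Subgroup G, IsPGroup 2 W → W ≤ C₁[t] → Nat.card ↥(stabilizer G a ⊓ W) ≤ 4 :=
    fun W hW h => by
      have k1 := idx2 h4.le (inf_le_right.trans (h.trans hC) : stabilizer G a ⊓ W ≤ _)
        (hW.to_le inf_le_right) ha inf_le_left
      have k2 := hK2 _ (hW.to_le (inf_le_right : stabilizer G a ⊓ W ≤ _))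
      omega
  have cT : Nat.card T = 4 := le_antisymm (i2 R hR.isPGroup hRC) (by
    have := card_le_orbit R a fun w hw => smul_mem_stab (hR.le hw) ha
    rw [← hTd, h4] at this
    omega)
  have htT : t ∈ T := ⟨mem_fixing.1 htK a ha, htR⟩
  have hTL : T ≤ L := inf_le_inf_left _ hRS
  have eT : C₁[t] ⊓ L = T := by rw [hTd, ← eC, inf_left_comm]
  have f3 : ∀ x ∈ R, x ∉ fixingSubgroup G D → (fixedBy Ω x ∩ D).ncard ≤ 3 := fun x hx hx' => by
    obtain ⟨q, hq, hq'⟩ : ∃ q ∈ D, x • q ≠ q := by simpa [mem_fixing] using hx'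
    exact ncard_le_three h4.le Set.inter_subset_right hq fun e => hq' e.1
  rcases hTL.eq_or_lt with eL | hlt
  · by_cases sq : ∀ x ∈ T, x * x = 1
    · have orb : ∀ x ∈ T, x ≠ 1 → Nat.card ↥(C₁[x] ⊓ S) ≤ Nat.card ↥(stabilizer G a ⊓ (C₁[x] ⊓ S)) *
          (orbit ↥(C₁[x] ⊓ S) a).ncard ∧ Nat.card ↥(stabilizer G a ⊓ (C₁[x] ⊓ S)) ≤ 4 ∧
          orbit ↥(C₁[x] ⊓ S) a ⊆ fixedBy Ω x := fun x hx h1 =>
        ⟨card_le_orbit _ a fun w hw => ⟨⟨w, hw⟩, rfl⟩,
          cT ▸ card_le_of_le' ((inf_le_inf_left _ inf_le_right).trans eL.ge),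
          fun _ ⟨w, e⟩ => e ▸ smul_mem_stab (cent_le_stab Ω x w.2.1) hx.1⟩
      refine ⟨S, hS, lemE' hP (hTL.trans inf_le_right) cT sq ?_ (fun x hx h1 => ?_)
        fun k16 h hh x hx hx' => ?_⟩
      · obtain ⟨y, hy, y1, yt⟩ := exists_third (T := T) (by omega) t
        have k1 := card_le_orbit3 (hP.to_le (inf_le_right : N[T] ⊓ S ≤ S)) a
          (T := fixedBy Ω y ∩ D) (fun w hw => ?_)
          (f3 y hy.2 fun k => yt (eq_of_card_le_two h2 ⟨hy.2, k⟩ ⟨htR, htK⟩ y1 t1))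
        · have k2 := card_le_of_le' ((inf_le_inf_left (stabilizer G a)
            (inf_le_right : N[T] ⊓ S ≤ S)).trans eL.ge)
          omega
        · have k : ∀ x ∈ T, x • w • a = w • a := fun x hx => by
            have := mem_stabilizer_iff.1 (conj_mem_of_norm' hw.1 hx).1
            rwa [mul_smul, mul_smul, inv_smul_eq_iff] at this
          exact ⟨k y hy, hD ▸ k t htT⟩
      · obtain ⟨k1, k2, k3⟩ := orb x hx h1
        have := (Set.ncard_le_ncard k3).trans (hf x h1)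
        nlinarith
      · by_cases x1 : x = 1
        · simp [x1]
        have x1' : h * x * h⁻¹ ≠ 1 := by simpa using x1
        obtain ⟨k1, k2, k3⟩ := orb _ hx' x1'
        rw [k16 _ hx' x1'] at k1
        have k4 := Set.eq_of_subset_of_ncard_le k3 ((hf _ x1').trans (by nlinarith))
        obtain ⟨⟨c, hc⟩, hc'⟩ : h • a ∈ orbit ↥(C₁[h * x * h⁻¹] ⊓ S) a := by
          rw [k4, ← smul_fixedBy]; exact Set.smul_mem_smul_set hx.1
        have k5 : c⁻¹ * h ∈ T := eL.ge (mem_inf.2 ⟨by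
          rw [mem_stabilizer_iff, mul_smul, inv_smul_eq_iff]; exact hc'.symm,
          mul_mem (inv_mem (mem_inf.1 hc).2) hh⟩)
        have k6 := conj_eq_of_mem_cent (comm_of_card_four cT k5) hx
        rw [← conj_conj, mem_cent1_iff.1 (inv_mem (mem_inf.1 hc).1)] at k6
        simpa using k6
    · push Not at sq
      obtain ⟨h, hh, h2'⟩ := sq
      have h4' : h ^ 4 = 1 := cT ▸ pow_card_eq_one_of_mem hh
      have eh : h * h = t := by
        have k := (mul_mem_iff_of_card inf_le_right (idx2 h4.le (inf_le_right.trans hR.le : T ≤ _)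
          (hR.isPGroup.to_le inf_le_right) ha inf_le_left) hh hh).2 Iff.rfl
        exact eq_of_card_le_two h2 ⟨k.2.2, k.1⟩ ⟨htR, htK⟩ h2' t1
      refine ⟨S, hS, lemF hG (odd_index hS) hP (hRS hh.2) h4' h2' fun g _ => ?_⟩
      rw [← card_conj_smul g]
      have hW := IsPGroup.conj_smul (hP.to_le (inf_le_right : N[zpowers (g⁻¹ * h * g)] ⊓ S ≤ S)) g
      have hn : conj g • (N[zpowers (g⁻¹ * h * g)] ⊓ S) ≤ N[zpowers h] := by
        refine (conj_smul_mono g inf_le_left).trans ?_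
        rw [conj_smul_norm, conj_smul_zpowers]
        simp [mul_assoc]
      generalize conj g • (N[zpowers (g⁻¹ * h * g)] ⊓ S) = W at hW hn
      have hc : W ≤ C₁[t] := fun x hx => by
        obtain ⟨n, hn'⟩ := mem_zpowers_iff.1 (conj_mem_of_norm (hn hx) (mem_zpowers h))
        refine mem_cent1_iff.2 (mul_inv_eq_iff_eq_mul.1 (eq_of_card_le_two h2 ?_ ⟨htR, htK⟩
          (by simpa using t1) t1))
        rw [← eh, ← conj_mul, ← hn', ← (Commute.refl h).mul_zpow, eh]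
        exact zpow_mem (mem_inf.2 ⟨htR, htK⟩) n
      have k1 := card_le_orbit3 hW a (T := fixedBy Ω h ∩ D) (fun w hw => ⟨?_,
        smul_mem_stab (hC (hc hw)) ha⟩) (f3 h hh.2 fun k => h2' (by
          rw [eq_of_card_le_two h2 ⟨hh.2, k⟩ ⟨htR, htK⟩ (by rintro rfl; simp at h2') t1, t2]))
      · have := i2 W hW hc
        omega
      · have := mem_stabilizer_iff.1 (zpowers_le_of_mem hh (conj_mem_of_norm' (hn hw) (mem_zpowers h))).1
        rwa [mul_smul, mul_smul, inv_smul_eq_iff] at this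
  have htL : t ∉ C[L] := fun k => hlt.not_ge (eT ▸ le_inf (le_cent1_iff.2 k) le_rfl)
  obtain ⟨z, hz, z1, z2, zc⟩ := exists_central' hLP (der_le L) (le_norm_der (le_norm_self L))
    fun e => htL (comm_eq_bot_iff.1 e (hTL htT))
  have hzL := der_le L hz
  have hLz : L ≤ C₁[z] := le_cent1_iff.2 zc
  have hZ : C[L] ⊓ L ≤ T := eT ▸ inf_le_inf_right L (cent_le_cent1 (hTL htT))
  have hzK : z ∉ fixingSubgroup G D := fun k =>
    htL (eq_of_card_le_two h2 ⟨(hZ ⟨zc, hzL⟩).2, k⟩ ⟨htR, htK⟩ z1 t1 ▸ zc)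
  have g8 := two_mul_card_le hTL hlt.not_ge
  rcases (hf z z1).eq_or_lt with z4 | z3
  · have htN := cent_le_stab Ω z (hLz (hTL htT))
    obtain ⟨R', hLR, hR'⟩ := exists_isSylowIn_ge hLP (hLz.trans (cent_le_stab Ω z))
    refine (q4 hf z4 hR' ?_).elim id fun hs => ⟨R', hs, ?_⟩
    · have k1 := idx2 z4.le (hLz.trans (cent_le_stab Ω z)) hLP hzL.1 inf_le_left
      have k2 := card_le_of_le' ((inf_comm _ _).le.trans (inf_le_inf_right (fixingSubgroup G
        (fixedBy Ω z)) hLR))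
      omega
    · obtain ⟨p, hp, hp'⟩ : ∃ p ∈ D, z • p ≠ p := by simpa [mem_fixing] using hzK
      refine (lemI' hf z4 hR'.isPGroup hR'.le (hLR (hTL htT)) t2 hp'
        (mem_fixing.1 htK p hp)).resolve_right fun ⟨k1, k2⟩ => ?_
      have := ncard_le_three (hf t t1) (Set.sdiff_subset (t := fixedBy Ω z)) htT.1 fun e => e.2 hzL.1
      omega
  · set X := C₁[z] ⊓ S
    have hLX : L ≤ X := le_inf hLz inf_le_right
    have cX : Nat.card X ≤ 2 * Nat.card L := by
      have k1 := card_le_orbit3 (hP.to_le (inf_le_right : X ≤ S)) a (T := fixedBy Ω z)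
        (fun w hw => smul_mem_stab (cent_le_stab Ω z hw.1) hzL.1) (by omega)
      have k2 : Nat.card ↥(stabilizer G a ⊓ X) ≤ Nat.card L :=
        card_le_of_le' (inf_le_inf_left _ inf_le_right)
      exact k1.trans (by rw [mul_comm]; exact Nat.mul_le_mul_left 2 k2)
    have eX : X = S := eq_of_nil_of_norm_le (nil_of_pgroup hP) inf_le_right fun u hu => by
      have k1 : u * z * u⁻¹ ∈ L := comm_le_iff.2 (fun a ha b hb => comm_mem_of_sq (fun x hx =>
        (mul_mem_iff_of_card hLX cX hx hx).2 Iff.rfl) ha hb)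
        (conj_mem_of_norm (le_norm_der le_rfl hu.2) (der_mono hLX hz))
      have k2 : u * z * u⁻¹ ∈ C[L] := cent_anti hLX (conj_mem_of_norm (norm_le_norm_cent X hu.2)
        (le_cent1_iff.1 inf_le_left))
      have k3 := two_mul_card_le hZ fun k => htL (k htT).1
      exact ⟨mem_cent1_iff.2 (mul_inv_eq_iff_eq_mul.1 (eq_of_card_le_two (A := C[L] ⊓ L) (by omega)
        ⟨k2, k1⟩ ⟨zc, hzL⟩ (by simpa using z1) z1)), hu.1⟩
    refine ⟨S, hS, ((SR.of_cent_le_four hLP (hTL htT) (by rw [eT, cT])).of_relIndex (b := 1)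
      (relIndex_le_of_card_le ?_)).le (by norm_num)⟩
    rw [inf_of_le_left (inf_le_right : L ≤ S), mul_comm]
    exact (card_le_of_le' eX.ge).trans cX

end Cfsg.Agent.Fx4
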