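import Cfsg.Agent.H9.FxFour2

/-! Fixity four: involutions with four fixed points, III. -/

set_option autoImplicit false

namespace Cfsg.Agent.Fx4

open Subgroup Cfsg.Agent.H7 MulAction
open MulAut (conj)
open scoped Pointwise commutatorElement

universe u
variable {G : Type u} [Group G] [Finite G] {A R S T V W X Y : Subgroup G}
  {c g h n r t u v w x y z : G}
variable {Ω : Type*} [MulAction G Ω] [Finite Ω] {D E : Set Ω} {a b p q : Ω}

def C3 (a : Equiv.Perm (Fin 4)) : Prop := a ≠ 1 ∧ a ^ 3 = 1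

instance : DecidablePred C3 := fun a => inferInstanceAs (Decidable (a ≠ 1 ∧ a ^ 3 = 1))

theorem s4a : ∀ a : Equiv.Perm (Fin 4), (a ^ 3) ^ 4 = 1 := by decide +kernel

theorem s4b : ∀ a, C3 a → ∀ c, c * c = 1 → a * c = c * a → c = 1 := by decide +kernel

theorem s4c : ∀ a, C3 a → ∀ b, C3 b → C3 (a⁻¹ * b) → ∀ c, C3 c → C3 (a⁻¹ * c) →
    ¬ C3 (b⁻¹ * c) := by decide +kernel

omit [Finite G] in
theorem exists_psi (h4 : D.ncard = 4) : ∃ ψ : stabilizer G D →* Equiv.Perm (Fin 4),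
    ∀ n, ψ n = 1 ↔ (n : G) ∈ fixingSubgroup G D := by
  obtain ⟨e⟩ : Nonempty (D ≃ Fin 4) := Finite.card_eq.1 (by simpa using h4)
  refine ⟨e.permCongrHom.toMonoidHom.comp (toPermHom (stabilizer G D) D), fun n => ?_⟩
  rw [MonoidHom.comp_apply, MulEquiv.coe_toMonoidHom, EmbeddingLike.map_eq_one_iff, mem_fixing,
    Equiv.ext_iff]
  exact ⟨fun h p hp => congrArg Subtype.val (h ⟨p, hp⟩), fun h p => Subtype.ext (h p p.2)⟩

omit [Finite G] in
theorem dihedral (u2 : u * u = 1) (v2 : v * v = 1) (k : ℕ) :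
    (u * v) ^ k * u * ((u * v) ^ k * u) = 1 ∧ (u * v) ^ k * u = u * ((u * v) ^ k)⁻¹ ∧
      ((u * v) ^ k * u = (u * v) ^ (k / 2) * u * ((u * v) ^ (k / 2))⁻¹ ∨
        (u * v) ^ k * u = (u * v) ^ (k / 2 + 1) * v * ((u * v) ^ (k / 2 + 1))⁻¹) := by
  have e : ∀ k : ℕ, u * ((u * v) ^ k)⁻¹ = (u * v) ^ k * u := fun k => by
    rw [← inv_pow, ← mul_inv_eq_iff_eq_mul, ← conj_pow, mul_inv_rev, inv_eq_of_mul_eq_one_right v2,
      ← mul_assoc, mul_assoc _ u⁻¹, ← mul_inv_rev, u2, inv_one, mul_one]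
  refine ⟨?_, (e k).symm, ?_⟩
  · nth_rewrite 2 [← e k]
    rw [mul_assoc, ← mul_assoc u, u2, one_mul, mul_inv_cancel]
  rcases Nat.even_or_odd' k with ⟨j, rfl | rfl⟩
  · left
    rw [Nat.mul_div_cancel_left _ two_pos, mul_assoc, e, ← mul_assoc, ← pow_add, two_mul]
  · right
    have : v = u * (u * v) := by rw [← mul_assoc, u2, one_mul]
    rw [show (2 * j + 1) / 2 = j by omega]
    nth_rewrite 3 [this]
    rw [mul_assoc, mul_assoc u, show u * v * ((u * v) ^ (j + 1))⁻¹ = ((u * v) ^ j)⁻¹ by group, e,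
      ← mul_assoc, ← pow_add]
    congr 2; ring

omit [Finite G] [Finite Ω] in
theorem ncard_conj (g y : G) : (fixedBy Ω (g * y * g⁻¹)).ncard = (fixedBy Ω y).ncard := by
  rw [← smul_fixedBy, Set.ncard_smul_set]

variable (hf : ∀ g : G, g ≠ 1 → (fixedBy Ω g).ncard ≤ 4) (hG : commutator G = ⊤) (hb : ¬ Good G)
include hf hG hb

theorem sylow4 (h4 : D.ncard = 4) (htK : t ∈ fixingSubgroup G D) (t1 : t ≠ 1) (t2 : t * t = 1)
    (hR : IsSylowIn 2 R (stabilizer G D)) : IsSylowIn 2 R ⊤ := by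
  by_cases k : Nat.card ↥(R ⊓ fixingSubgroup G D) < 4
  · obtain ⟨y, hy, y1, y2⟩ := exists_invol (hR.isPGroup.to_le inf_le_left)
      ((hR.inf_normal ⟨fixing_le D, stab_le_norm D⟩).ne_bot
        (orderOf_eq_prime (pow_two t ▸ t2) t1 ▸ orderOf_dvd_card_of_mem htK))
    exact absurd (q2 hf hG y1 y2 h4 hy.2 hR hy.1
      (card_le_of_lt (k := 1) (hR.isPGroup.to_le inf_le_left) k)) hb
  · exact (q4 hf h4 hR (not_lt.1 k)).resolve_left hb

theorem noOff (h4 : D.ncard = 4) (htK : t ∈ fixingSubgroup G D) (t1 : t ≠ 1) (t2 : t * t = 1)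
    (hw : w ∈ stabilizer G D) (w1 : w ≠ 1) (w2 : w * w = 1) (hp : p ∉ D) : w • p ≠ p := fun hw' => by
  obtain ⟨R, hwR, hR⟩ := exists_isSylowIn_ge (pg_zpowers w2) (zpowers_le_of_mem hw)
  obtain ⟨k1, -⟩ := (lemI' hf h4 hR.isPGroup hR.le (hwR (mem_zpowers w)) w2 hp hw').resolve_left
    fun k => hb ⟨R, sylow4 hf hG hb h4 htK t1 t2 hR, k⟩
  have hVP := hR.isPGroup.to_le (inf_le_right.trans inf_le_left :
    C₁[w] ⊓ (R ⊓ fixingSubgroup G D) ≤ R)
  have hVK : C₁[w] ⊓ (R ⊓ fixingSubgroup G D) ≤ _ := inf_le_right.trans inf_le_right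
  have hVN : C₁[w] ⊓ (R ⊓ fixingSubgroup G D) ≤ _ := inf_le_left.trans (cent_le_stab Ω w)
  generalize C₁[w] ⊓ (R ⊓ fixingSubgroup G D) = V at k1 hVP hVK hVN
  obtain ⟨cV, c4, hd⟩ := semireg4 hf h4 (hf w w1) hVK hVN hw' hp k1
  obtain ⟨z, hz, z1, z2⟩ := exists_invol hVP fun e => by rw [e, card_bot] at cV; omega
  obtain ⟨a, ha⟩ : D.Nonempty := Set.nonempty_of_ncard_ne_zero (by omega)
  obtain ⟨R', hVR, hR'⟩ := exists_isSylowIn_ge hVP hVN
  obtain ⟨k2, -⟩ := (lemI' hf c4 hR'.isPGroup hR'.le (hVR hz) z2 (fun k => hd a k ha)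
    (mem_fixing.1 (hVK hz) a ha)).resolve_left
    fun k => hb ⟨R', sylow4 hf hG hb c4 (mem_fixing_self Ω w) w1 w2 hR', k⟩
  have hn : V ≤ N[C₁[z] ⊓ (R' ⊓ fixingSubgroup G (fixedBy Ω w))] :=
    le_norm_inf (le_norm_of_le ((comm_of_card_four cV).trans (cent_le_cent1 hz)))
      (le_norm_inf (le_norm_of_le hVR) (hVN.trans (stab_le_norm _)))
  obtain ⟨S, hA, hS⟩ := exists_isSylowIn_ge (IsPGroup.sup_of_norm (hR'.isPGroup.to_le
    (inf_le_right.trans inf_le_left)) hVP hn) (sup_le (inf_le_left.trans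
      (fix_eq hf h4 (hVK hz) z1 ▸ cent_le_stab Ω z)) (hVK.trans (fixing_le D)))
  refine hb ⟨S, sylow4 hf hG hb h4 htK t1 t2 hS, twoSets hf hS.isPGroup c4 h4
    (fun e => hp (e ▸ hw')) (inf_le_left.trans hS.le) (k2.trans (card_le_of_le' (le_inf
      (le_sup_left.trans hA) (inf_le_right.trans inf_le_right)))) (k1.trans (card_le_of_le'
        (le_inf (le_inf (le_sup_right.trans hA) hVN) hVK)))⟩

theorem closed4 (h4 : D.ncard = 4) (htK : t ∈ fixingSubgroup G D) (t1 : t ≠ 1) (t2 : t * t = 1)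
    (hw : w ∈ stabilizer G D) (w2 : w * w = 1) (w4 : (fixedBy Ω w).ncard = 4) :
    w ∈ fixingSubgroup G D := by
  by_cases w1 : w = 1
  · exact w1 ▸ one_mem _
  by_contra k
  obtain ⟨p, hp, hp'⟩ := exists_notMem h4 w4 fun e => k (e ▸ mem_fixing_self Ω w)
  exact noOff hf hG hb h4 htK t1 t2 hw w1 w2 hp' hp

theorem odd_or (u1 : u ≠ 1) (u2 : u * u = 1) (u4 : (fixedBy Ω u).ncard = 4) (v2 : v * v = 1)
    (v4 : (fixedBy Ω v).ncard = 4) : Odd (orderOf (u * v)) ∨ ∃ k : ℕ, (u * v) ^ k ≠ 1 ∧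
      (u * v) ^ k * (u * v) ^ k = 1 ∧ (u * v) ^ k ∈ fixingSubgroup G (fixedBy Ω u) ∧
      (u * v) ^ k ∈ C₁[v] := by
  refine (Nat.even_or_odd _).symm.imp_right fun ⟨k, hk⟩ => ⟨k, ?_⟩
  have k1 : (u * v) ^ k * (u * v) ^ k = 1 := by rw [← pow_add, ← hk, pow_orderOf_eq_one]
  obtain ⟨d1, d2, d3⟩ := dihedral u2 v2 k
  rw [inv_eq_of_mul_eq_one_right k1] at d2
  have k2 : (u * v) ^ k ∈ C₁[u] := mem_cent1_iff.2 d2
  refine ⟨pow_ne_one_of_lt_orderOf (by have := orderOf_pos (u * v); omega)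
    (by have := orderOf_pos (u * v); omega), k1, ?_, ?_⟩
  · refine (mul_mem_cancel_right (mem_fixing_self Ω u)).1 (closed4 hf hG hb u4
      (mem_fixing_self Ω u) u1 u2 (cent_le_stab Ω u (mul_mem k2 (mem_cent1_self u))) d1 ?_)
    rcases d3 with e | e <;> rwa [e, ncard_conj]
  · rw [mem_cent1_comm] at k2 ⊢
    exact (mul_mem_cancel_left k2).1 (mem_cent1_comm.1 (pow_mem (mem_cent1_self _) k))

theorem exists_swap (h4 : D.ncard = 4) (hE : E.ncard = 4) (hne : D ≠ E)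
    (hu : u ∈ fixingSubgroup G E) (u1 : u ≠ 1) (u2 : u * u = 1) (hv : v ∈ fixingSubgroup G D)
    (v1 : v ≠ 1) (v2 : v * v = 1) : ∃ x, x ≠ 1 ∧ x * x = 1 ∧ (fixedBy Ω x).ncard = 4 ∧
      x * u * x⁻¹ = v ∧ x • E = D ∧ x • D = E ∧ ∀ H : Subgroup G, u ∈ H → v ∈ H → x ∈ H := by
  have eu := fix_eq hf hE hu u1
  have ev := fix_eq hf h4 hv v1
  rcases odd_or hf hG hb u1 u2 (eu ▸ hE) v2 (ev ▸ h4) with ⟨j, hj⟩ | ⟨k, k1, k2, k3, k4⟩
  · obtain ⟨d1, d2, -⟩ := dihedral u2 v2 j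
    have k0 : (u * v) ^ (2 * j + 1) = 1 := hj ▸ pow_orderOf_eq_one _
    have k1 : (u * v) ^ j * u = (u * v) ^ (j * (j + 1)) * u * ((u * v) ^ (j * (j + 1)))⁻¹ := by
      rw [mul_assoc, ← (dihedral u2 v2 _).2.1, ← mul_assoc, ← pow_add,
        show j * (j + 1) + j * (j + 1) = (2 * j + 1) * j + j by ring, pow_add, pow_mul, k0, one_pow,
        one_mul]
    have k2 : (u * v) ^ j * u * u * ((u * v) ^ j * u)⁻¹ = v := by
      rw [inv_eq_of_mul_eq_one_right d1, mul_assoc _ u u, u2, mul_one, ← mul_assoc, ← pow_add,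
        ← two_mul, eq_inv_of_mul_eq_one_left ((pow_succ (u * v) _).symm.trans k0), mul_inv_rev,
        inv_mul_cancel_right, inv_eq_of_mul_eq_one_right v2]
    have k3 : ((u * v) ^ j * u) • E = D := by rw [← eu, smul_fixedBy, k2, ev]
    refine ⟨_, by rw [k1]; simpa using u1, d1, by rw [k1, ncard_conj, eu, hE], k2, k3,
      by rw [← k3, smul_smul, d1, one_smul], fun H h1 h2 => mul_mem (pow_mem (mul_mem h1 h2) j) h1⟩
  · rw [eu] at k3
    have := closed4 hf hG hb h4 hv v1 v2 (ev ▸ cent_le_stab Ω v k4) k2 (by rw [fix_eq hf hE k3 k1, hE])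
    exact absurd ((fix_eq hf h4 this k1).symm.trans (fix_eq hf hE k3 k1)) hne

theorem c3_swap (h4 : D.ncard = 4) (htK : t ∈ fixingSubgroup G D) (t1 : t ≠ 1) (t2 : t * t = 1)
    (hne : D ≠ E) {ψ : stabilizer G D →* Equiv.Perm (Fin 4)}
    (hψ : ∀ n, ψ n = 1 ↔ (n : G) ∈ fixingSubgroup G D) (x1 : x ≠ 1) (x2 : x * x = 1)
    (x4 : (fixedBy Ω x).ncard = 4) (xD : x • D = E) (y2 : y * y = 1) (y4 : (fixedBy Ω y).ncard = 4)
    (hxy : x ≠ y) (hn : x * y ∈ stabilizer G D) : C3 (ψ ⟨_, hn⟩) := by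
  have xN : x ∉ stabilizer G D := fun k => hne (k.symm.trans xD)
  refine ⟨fun k => xN (ti4 hf h4 ((hψ _).1 k) (fun e => hxy ?_) ?_), ?_⟩
  · rw [← inv_eq_of_mul_eq_one_right x2, inv_eq_of_mul_eq_one_right e]
  · have := inv_mem ((hψ _).1 k)
    rwa [mul_inv_rev, inv_eq_of_mul_eq_one_right y2, ← one_mul y, ← x2, mul_assoc x x y] at this
  rcases odd_or hf hG hb x1 x2 x4 y2 y4 with k | ⟨k, k1, k2, k3, -⟩
  · refine (pow_eq_one_iff_of_coprime ((Nat.coprime_two_left.2 k).pow_left 2)).1 ⟨s4a _, ?_⟩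
    rw [← pow_mul, mul_comm, pow_mul, ← map_pow, show (⟨x * y, hn⟩ : stabilizer G D) ^ _ = 1 from
      Subtype.ext (pow_orderOf_eq_one _), map_one, one_pow]
  · have k4 := fix_eq hf x4 k3 k1
    have := closed4 hf hG hb h4 htK t1 t2 (pow_mem hn k) k2 (k4 ▸ x4)
    exact absurd (fixing_le D ((fix_eq hf h4 this k1).symm.trans k4 ▸ mem_fixing_self Ω x)) xN

theorem no_two (h4 : D.ncard = 4) (hE : E.ncard = 4) (hne : D ≠ E) (hu : u ∈ fixingSubgroup G E)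
    (u1 : u ≠ 1) (u2 : u * u = 1) (hc : c ∈ stabilizer G D) (hc' : c ∈ stabilizer G E)
    (c2 : c * c = 1) (hy : y ∈ fixingSubgroup G D) (y1 : y ≠ 1) (y2 : y * y = 1)
    (hz : z ∈ fixingSubgroup G D) (z1 : z ≠ 1) (z2 : z * z = 1) (hyz : y ≠ z) (cy : y ∈ C₁[c])
    (cz : z ∈ C₁[c]) : c ∈ fixingSubgroup G D := by
  obtain ⟨R, hcR, hR⟩ := exists_isSylowIn_ge (pg_zpowers c2) (zpowers_le_of_mem hc')
  obtain ⟨w, hw, w1, w2, wc⟩ := exists_central' hR.isPGroup inf_le_left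
    (le_norm_inf (le_norm_self R) (hR.le.trans (stab_le_norm E)))
    ((hR.inf_normal ⟨fixing_le E, stab_le_norm E⟩).ne_bot
      (orderOf_eq_prime (pow_two u ▸ u2) u1 ▸ orderOf_dvd_card_of_mem hu))
  have cw := cent_le_cent1 (hcR (mem_zpowers c)) wc
  obtain ⟨x, x1, x2, x4, x5, -, x6, x7⟩ := exists_swap hf hG hb h4 hE hne hw.2 w1 w2 hy y1 y2
  obtain ⟨x', -, x2', x4', x5', x6', x8', x7'⟩ := exists_swap hf hG hb h4 hE hne hw.2 w1 w2 hz z1 z2
  obtain ⟨ψ, hψ⟩ := exists_psi (G := G) h4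
  have hn : x * x' ∈ stabilizer G D := by
    rw [mem_stabilizer_iff, mul_smul, x8', ← x6, smul_smul, x2, one_smul]
  refine (hψ ⟨c, hc⟩).1 (s4b _ (c3_swap hf hG hb h4 hy y1 y2 hne hψ x1 x2 x4 x6 x2' x4'
    (fun e => hyz (by rw [← x5, ← x5', e])) hn) _ ?_ ?_)
  · rw [← map_mul, hψ]; change c * c ∈ _; exact c2 ▸ one_mem _
  · rw [← map_mul, ← map_mul]
    exact congrArg ψ (Subtype.ext (mem_cent1_iff.1 (mul_mem (x7 _ cw cy) (x7' _ cw cz))))

theorem no_four (h4 : D.ncard = 4) (hE : E.ncard = 4) (hne : D ≠ E) (hu : u ∈ fixingSubgroup G E)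
    (u1 : u ≠ 1) (u2 : u * u = 1) (v : Fin 4 → G) (hv : ∀ i, v i ∈ fixingSubgroup G D)
    (v1 : ∀ i, v i ≠ 1) (v2 : ∀ i, v i * v i = 1) : ¬ Function.Injective v := fun inj => by
  choose x x1 x2 x4 x5 x6 x7 _ using fun i =>
    exists_swap hf hG hb h4 hE hne hu u1 u2 (hv i) (v1 i) (v2 i)
  obtain ⟨ψ, hψ⟩ := exists_psi (G := G) h4
  have hn : ∀ i j, x i * x j ∈ stabilizer G D := fun i j => by
    rw [mem_stabilizer_iff, mul_smul, x7, x6]
  have k : ∀ i j, i ≠ j → C3 (ψ ⟨_, hn i j⟩) := fun i j h =>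
    c3_swap hf hG hb h4 (hv 0) (v1 0) (v2 0) hne hψ (x1 i) (x2 i) (x4 i) (x7 i) (x2 j) (x4 j)
      (fun e => h (inj (by rw [← x5, ← x5, e]))) _
  have k' : ∀ i j, i ≠ j → C3 ((ψ ⟨_, hn 0 i⟩)⁻¹ * ψ ⟨_, hn 0 j⟩) := fun i j h => by
    rw [← map_inv, ← map_mul]
    convert k i j h using 2
    refine Subtype.ext ?_
    change (x 0 * x i)⁻¹ * (x 0 * x j) = x i * x j
    rw [mul_inv_rev, mul_assoc, inv_mul_cancel_left, inv_eq_of_mul_eq_one_right (x2 i)]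
  exact s4c _ (k 0 1 (by decide)) _ (k 0 2 (by decide)) (k' 1 2 (by decide)) _ (k 0 3 (by decide))
    (k' 1 3 (by decide)) (k' 2 3 (by decide))

theorem case4 (h4 : D.ncard = 4) (htK : t ∈ fixingSubgroup G D) (t1 : t ≠ 1) (t2 : t * t = 1)
    (hN : stabilizer G D ≠ ⊤) : Cfsg.IsStronglyEmbedded (stabilizer G D) := by
  refine stronglyEmbedded hN (fixing_le D htK) t1 t2 fun g c hc c1 c2 hg => ?_
  by_contra hgN
  have key : ∀ h : G, h * c * h⁻¹ ∉ fixingSubgroup G D := fun h k => by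
    have c4 : (fixedBy Ω c).ncard = 4 := by
      rw [← ncard_conj h, fix_eq hf h4 k (by simpa using c1), h4]
    exact hgN (ti4 hf h4 (closed4 hf hG hb h4 htK t1 t2 hc c2 c4) c1
      (closed4 hf hG hb h4 htK t1 t2 hg (conj_sq c2 g) (by rwa [ncard_conj])))
  have hK : ∀ h : G, h * t * h⁻¹ ∈ fixingSubgroup G (h • D) := fun h =>
    conj_fixing h D ▸ conj_mem_conj_smul.2 htK
  have hE : ∀ h : G, (h • D).ncard = 4 := fun h => by rwa [Set.ncard_smul_set]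
  obtain ⟨S, hcS, hS⟩ := exists_isSylowIn_ge (pg_zpowers c2) (zpowers_le_of_mem hc)
  have hS' := sylow4 hf hG hb h4 htK t1 t2 hS
  obtain ⟨z, hz, z1, z2, zc⟩ := exists_central' hS.isPGroup inf_le_left
    (le_norm_inf (le_norm_self S) (hS.le.trans (stab_le_norm D)))
    ((hS.inf_normal ⟨fixing_le D, stab_le_norm D⟩).ne_bot
      (orderOf_eq_prime (pow_two t ▸ t2) t1 ▸ orderOf_dvd_card_of_mem htK))
  obtain ⟨y, hy, y1, y2, yz⟩ : ∃ y ∈ S ⊓ fixingSubgroup G D, y ≠ 1 ∧ y * y = 1 ∧ y ≠ z := by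
    by_contra k
    push Not at k
    exact hb ⟨S, hS', SR.of_fixing (k := 2) h4.le hS.le hS.isPGroup (SR.of_unique
      (hS.isPGroup.to_le inf_le_left) fun a ha b hb a1 a2 b1 b2 =>
        (k a ha a1 a2).trans (k b hb b1 b2).symm)⟩
  have hzy : z * y ≠ 1 := fun e => yz ((inv_eq_of_mul_eq_one_right e).symm.trans
    (inv_eq_of_mul_eq_one_right z2))
  have c2' : Nat.card S ≤ 2 * Nat.card ↥(C₁[y] ⊓ S) := by
    have k := card_le_cent_mul S y (T := {y, z * y}) fun s hs => by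
      by_contra k
      simp only [Set.mem_insert_iff, Set.mem_singleton_iff, not_or] at k
      have k1 : s * y * s⁻¹ ≠ z := fun e => yz (by
        rw [← conj_eq_of_mem_cent (le_cent_symm (zpowers_le_of_mem zc) hs) (mem_zpowers z)] at e
        simpa using e)
      refine no_four hf hG hb h4 (hE g) (fun e => hgN e.symm) (hK g) (by simpa using t1)
        (conj_sq t2 g) ![z, y, z * y, s * y * s⁻¹] (fun i => ?_) (fun i => ?_) (fun i => ?_) ?_
      · fin_cases i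
        exacts [hz.2, hy.2, mul_mem hz.2 hy.2, conj_mem_of_norm (stab_le_norm D (hS.le hs)) hy.2]
      · fin_cases i
        exacts [z1, y1, hzy, by simpa using y1]
      · fin_cases i
        exacts [z2, y2, by
          change z * y * (z * y) = 1
          rw [mul_assoc, ← mul_assoc y, comm_of_mem_cent zc hy.1, mul_assoc, y2, mul_one, z2],
          conj_sq y2 s]
      · intro i j
        fin_cases i <;> fin_cases j <;> simp [z1, y1, yz, yz.symm, k1, k1.symm, k.1, k.2,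
          Ne.symm k.1, Ne.symm k.2]
    have := Set.ncard_insert_le y {z * y}
    rw [Set.ncard_singleton] at this
    nlinarith
  obtain ⟨h, hh⟩ := thompson hG (odd_index hS') inf_le_right c2' (hcS (mem_zpowers c)) c2
  have st : ∀ k : G, k * c * k⁻¹ ∈ stabilizer G D → h⁻¹ * c * h ∈ stabilizer G ((k * h)⁻¹ • D) :=
    fun k hk => by
      rw [stabilizer_smul_eq, mem_conj_smul]
      simpa [mul_assoc] using hk
  obtain ⟨k, hk, hk'⟩ : ∃ k : G, k * c * k⁻¹ ∈ stabilizer G D ∧ D ≠ (k * h)⁻¹ • D := by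
    by_contra e
    push Not at e
    have e1 : (1 * h)⁻¹ ∈ stabilizer G D := (e 1 (by simpa using hc)).symm
    have e2 : (g * h)⁻¹ ∈ stabilizer G D := (e g hg).symm
    exact hgN (by simpa using mul_mem (inv_mem e2) e1)
  refine key h⁻¹ ?_
  rw [inv_inv]
  exact no_two hf hG hb h4 (hE _) hk' (hK _) (mt conj_eq_one_iff.1 t1) (conj_sq t2 _) (hS.le hh.2)
    (st k hk) (by simpa using conj_sq c2 h⁻¹) hy.2 y1 y2 hz.2 z1 z2 yz (mem_cent1_comm.1 hh.1)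
    (cent_le_cent1 hh.2 zc)

end Cfsg.Agent.Fx4
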