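import Cfsg.Agent.H9.M23e

/-! Groups with the order and the element order statistics of `M₂₄`: the primes 5, 7, 11. -/

set_option autoImplicit false

namespace Cfsg.Agent.Ma

open Subgroup Cfsg.Agent.H7 Cfsg.Agent.H4 Cfsg.Agent.Fx4 Cfsg.Agent.H4.Nse
open MulAut (conj)
open scoped Pointwise

universe u
variable {G : Type u} [Group G] [Finite G] {L P T K H R V : Subgroup G}
  {x y z g p s t v w q a b f j e : G}

omit [Finite G] in
theorem mo_ncard (H : Subgroup G) (n : ℕ) : mo H n = {g | g ∈ H ∧ orderOf g = n}.ncard := by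
  rw [mo, ← Nat.card_coe_set_eq]
  exact Nat.card_congr ⟨fun g => ⟨g.1, g.1.2, (orderOf_coe _).trans g.2⟩,
    fun g => ⟨⟨g.1, g.2.1⟩, (orderOf_coe _).symm.trans g.2.2⟩, fun _ => rfl, fun _ => rfl⟩

omit [Finite G] in
theorem mem_orb_self (H : Subgroup G) (a : G) : a ∈ orb H a := ⟨1, H.one_mem, by simp⟩

theorem orb_eq (hn : H ≤ N[K]) (ha : a ∈ K) (tr : ∀ b ∈ K, orderOf b = orderOf a → b ∈ orb H a) :
    Nat.card H = Nat.card ↥(C₁[a] ⊓ H) * mo K (orderOf a) := by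
  rw [card_orb H a, mo_ncard]
  congr 2
  refine Set.Subset.antisymm ?_ fun b hb => tr b hb.1 hb.2
  rintro _ ⟨g, hg, rfl⟩
  exact ⟨conj_mem_of_norm (hn hg) ha, orderOf_conj' g a⟩

theorem tr_of_card (ha : a ∈ K)
    (h : Nat.card ↥(C₁[a] ⊓ K) * mo K (orderOf a) ≤ Nat.card K) (hb : b ∈ K)
    (e : orderOf b = orderOf a) : b ∈ orb K a := by
  have h1 : orb K a ⊆ {g | g ∈ K ∧ orderOf g = orderOf a} := by
    rintro _ ⟨g, hg, rfl⟩
    exact ⟨mul_mem (mul_mem hg ha) (inv_mem hg), orderOf_conj' g a⟩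
  rw [card_orb K a, mo_ncard] at h
  rw [Set.eq_of_subset_of_ncard_le h1 (Nat.le_of_mul_le_mul_left h (card_pos' _))]
  exact ⟨hb, e⟩

omit [Finite G] in
theorem orb_mono (h : H ≤ K) (a : G) : orb H a ⊆ orb K a := Set.image_mono h

theorem not_dvd_rel {r : ℕ} (h : ¬ r ^ 2 ∣ Nat.card G) (hf : orderOf f = r) (h1 : f ∈ H) :
    ¬ r ∣ (zpowers f).relIndex H := fun e => by
  have := (mul_dvd_mul_right e _).trans
    ((relIndex_mul_card (zpowers_le.mpr h1)).dvd.trans H.card_subgroup_dvd_card)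
  rw [Nat.card_zpowers, hf, ← pow_two] at this
  exact h this

theorem conj_zp {r : ℕ} (hr : r.Prime) (h : ¬ r ^ 2 ∣ Nat.card G) (hf : orderOf f = r)
    (hg : orderOf g = r) (h1 : f ∈ H) (h2 : g ∈ H) : ∃ c ∈ H, conj c • zpowers f = zpowers g := by
  have : Fact r.Prime := ⟨hr⟩
  obtain ⟨c, hc, e⟩ := exists_conj_le (p := r) (T := zpowers g) (zpowers_le.mpr h1)
    (.of_card (n := 1) (by rw [Nat.card_zpowers, hf, pow_one])) (not_dvd_rel h hg h2)
  refine ⟨c, hc, ?_⟩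
  rw [conj_smul_zpowers]
  exact zpowers_eq_of_mem (e f (mem_zpowers f)) (by rw [orderOf_conj', hf, hg])

theorem conj_cent1 {c : G} (e : conj c • zpowers f = zpowers g) : conj c • C₁[f] = C₁[g] := by
  rw [← cent_zpowers, ← cent_zpowers, conj_smul_cent, e]

theorem mo_cent {r : ℕ} (hr : r.Prime) (h : ¬ r ^ 2 ∣ Nat.card G) (hf : orderOf f = r) {n : ℕ}
    (hn : r.Coprime n) : mo G (r * n) = mo G r * mo C₁[f] n :=
  mo_mul hn fun y hy => by
    obtain ⟨c, -, e⟩ := conj_zp hr h hf hy (mem_top f) (mem_top y)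
    rw [← conj_cent1 e, ← mo_congr (conjEquiv c C₁[f])]

theorem sylow_count {r : ℕ} (hr : r.Prime) (h : ¬ r ^ 2 ∣ Nat.card G) (hf : orderOf f = r)
    (h1 : f ∈ H) : ∃ n, n % r = 1 ∧ Nat.card H = Nat.card ↥(H ⊓ N[zpowers f]) * n := by
  refine ⟨(N[zpowers f]).relIndex H, ?_, by rw [inf_comm, card_inf_mul_relIndex]⟩
  have := relIndex_modEq hr (.of_card (n := 1) (by rw [Nat.card_zpowers, hf, pow_one]))
    (not_dvd_rel h hf h1) (zpowers_le.mpr h1)
  exact Eq.trans this (Nat.mod_eq_of_lt hr.one_lt)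

theorem mo_prime_sub {r : ℕ} (hr : r.Prime) (h : ¬ r ^ 2 ∣ Nat.card G) (hf : orderOf f = r)
    (h1 : f ∈ H) : mo H r * Nat.card ↥(H ⊓ N[zpowers f]) = Nat.card H * (r - 1) := by
  have : Fact r.Prime := ⟨hr⟩
  have h2 := mo_prime (G := H) (p := r) (x := ⟨f, h1⟩) ((orderOf_coe _).symm.trans hf)
    fun e => h (e.trans H.card_subgroup_dvd_card)
  have h3 : zpowers (⟨f, h1⟩ : H) = (zpowers f).subgroupOf H := by
    ext y
    simp only [mem_subgroupOf, mem_zpowers_iff, Subtype.ext_iff, SubgroupClass.coe_zpow]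
  rwa [h3, norm_subOf (zpowers_le.mpr h1), card_subOf, inf_comm] at h2

omit [Finite G] in
theorem normN (f : G) : N[zpowers f] ≤ N[C₁[f]] := cent_zpowers f ▸ norm_le_norm_cent _

/-- The list of element orders. -/
abbrev O24 : List ℕ := [1, 2, 3, 4, 5, 6, 7, 8, 10, 11, 12, 14, 15, 21, 23]

/-- The hypothesis. -/
structure H24 (G : Type u) [Group G] : Prop where
  card : Nat.card G = 244823040
  ord : ∀ g : G, orderOf g ∈ O24
  m2 : mo G 2 = 43263
  m3 : mo G 3 = 712448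
  m4 : mo G 4 = 5100480
  m5 : mo G 5 = 4080384
  m7 : mo G 7 = 11658240
  m8 : mo G 8 = 15301440
  m10 : mo G 10 = 12241152
  m11 : mo G 11 = 22256640
  m14 : mo G 14 = 34974720
  m15 : mo G 15 = 32643072
  m21 : mo G 21 = 23316480
  m23 : mo G 23 = 21288960

namespace H24

variable (h : H24 G)
include h

theorem idx (H : Subgroup G) : H.index * Nat.card H = 244823040 := index_mul_card' H h.card

theorem dvd (H : Subgroup G) : Nat.card H ∣ 244823040 := Dvd.intro_left _ (h.idx H)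

omit [Finite G] in
theorem no_comm {n r : ℕ} (hy : orderOf y = n) (hx : orderOf x = r) (hco : n.Coprime r)
    (hn : n * r ∉ O24) : x ∉ C₁[y] := fun hc => by
  have := h.ord (y * x)
  rw [Commute.orderOf_mul_eq_mul_orderOf_of_coprime (mem_cent1_iff.mp hc).symm
    (by rwa [hy, hx]), hy, hx] at this
  exact hn this

theorem cop {n r : ℕ} (hy : orderOf y = n) (hp : r.Prime) (hco : n.Coprime r)
    (hn : n * r ∉ O24) : (Nat.card C₁[y]).Coprime r := by
  refine cop_of hp fun hd => ?_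
  obtain ⟨x, hx, hxp⟩ := exists_mem_orderOf hp hd
  exact h.no_comm hy hxp hco hn hx

omit [Finite G] in
theorem cop2 {n m r : ℕ} [Finite G] (hy : orderOf y = n) (hx : orderOf x = m) (hc : x ∈ C₁[y])
    (hp : r.Prime) (h1 : n.Coprime m) (hco : (n * m).Coprime r) (hn : n * m * r ∉ O24) :
    (Nat.card ↥(C₁[x] ⊓ C₁[y])).Coprime r := by
  refine Nat.Coprime.coprime_dvd_left (card_dvd_of_le ?_) (h.cop (y := y * x) (by
    rw [Commute.orderOf_mul_eq_mul_orderOf_of_coprime (mem_cent1_iff.mp hc).symm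
      (by rwa [hy, hx]), hy, hx]) hp hco hn)
  rintro g ⟨g1, g2⟩
  rw [mem_cent1_iff, ← mul_assoc, mem_cent1_iff.mp g2, mul_assoc, mem_cent1_iff.mp g1, mul_assoc]

omit [Finite G] in
theorem cube (hP : IsPGroup 3 P) (hg : g ∈ P) : g ^ 3 = 1 := by
  obtain ⟨k, hk⟩ := hP.exists_orderOf_eq_pow ⟨g, hg⟩
  have h1 := h.ord g
  rw [← orderOf_coe] at hk
  rw [← orderOf_dvd_iff_pow_eq_one]
  rcases k with _ | k
  · exact hk.dvd.trans (one_dvd 3)
  have h2 : ∀ r : ℕ, r.Prime → r ∣ orderOf g → r ∣ 3 := fun r hr e => hr.dvd_of_dvd_pow (hk ▸ e)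
  have h3 : 3 ∣ orderOf g := hk ▸ dvd_pow_self 3 k.succ_ne_zero
  have := h2 2 (by norm_num)
  have := h2 5 (by norm_num)
  have := h2 7 (by norm_num)
  simp only [List.mem_cons, List.not_mem_nil, or_false] at h1
  rw [show orderOf g = 3 by omega]

omit [Finite G] in
theorem s5 : ¬ 5 ^ 2 ∣ Nat.card G := by rw [h.card]; norm_num
omit [Finite G] in
theorem s7 : ¬ 7 ^ 2 ∣ Nat.card G := by rw [h.card]; norm_num
omit [Finite G] in
theorem s11 : ¬ 11 ^ 2 ∣ Nat.card G := by rw [h.card]; norm_num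

theorem norm5 (hf : orderOf f = 5) : Nat.card N[zpowers f] = 240 := by
  have : Fact (Nat.Prime 5) := ⟨by norm_num⟩
  have := mo_prime hf h.s5
  rw [h.m5, h.card] at this
  omega

theorem mo52 (hf : orderOf f = 5) : mo C₁[f] 2 = 3 := by
  have := mo_cent Nat.prime_five h.s5 hf (n := 2) (by norm_num)
  rw [h.m10, h.m5] at this
  omega

theorem mo53 (hf : orderOf f = 5) : mo C₁[f] 3 = 8 := by
  have := mo_cent Nat.prime_five h.s5 hf (n := 3) (by norm_num)
  rw [h.m15, h.m5] at this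
  omega

omit [Finite G] in
theorem sq5 (hR : IsPGroup 2 R) (hg : g ∈ R) {n : ℕ} (hx : orderOf x = n) (hn : n = 5 ∨ n = 7)
    (hc : g ∈ C₁[x]) : g * g = 1 := by
  obtain ⟨k, hk⟩ := hR.exists_orderOf_eq_pow ⟨g, hg⟩
  rw [← orderOf_coe] at hk
  have h1 := h.ord (g * x)
  rw [Commute.orderOf_mul_eq_mul_orderOf_of_coprime (mem_cent1_iff.mp hc) (by
    rw [hx]; exact hk ▸ Nat.Coprime.pow_left _ (by rcases hn with e | e <;> norm_num [e])),
    hx] at h1
  have h2 : 3 ∣ orderOf g → 3 ∣ 2 := fun e => Nat.prime_three.dvd_of_dvd_pow (hk ▸ e)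
  rw [← pow_two, ← orderOf_dvd_iff_pow_eq_one]
  simp only [List.mem_cons, List.not_mem_nil, or_false] at h1
  rcases (by rcases hn with rfl | rfl <;> omega : orderOf g = 1 ∨ orderOf g = 2) with e | e <;>
    simp [e]

theorem cent5 (hf : orderOf f = 5) : Nat.card C₁[f] = 60 := by
  have h1 := h.norm5 hf ▸ card_dvd_of_le (le_norm_zpowers (le_refl C₁[f]))
  have h2 := card_le_cent_mul N[zpowers f] f (T := (zpowers f : Set G) \ {1}) fun w hw =>
    ⟨conj_mem_of_norm hw (mem_zpowers f), fun e => by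
      have := orderOf_conj' w f
      rw [e, hf, orderOf_one] at this
      omega⟩
  rw [ncard_sdiff_one, Nat.card_zpowers, hf, h.norm5 hf, inf_eq_left.mpr (le_norm_zpowers le_rfl)]
    at h2
  have h3 : ¬ 2 ^ 3 ∣ Nat.card C₁[f] := fun e => by
    obtain ⟨R, r1, r2⟩ := exists_le_card Nat.prime_two e
    have := card_le_mo r1 (fun g hg => h.sq5 (.of_card r2) hg hf (Or.inl rfl) (r1 hg)) (by omega)
    rw [h.mo52 hf] at this
    omega
  obtain ⟨k, hk⟩ := h1
  have : k ≤ 4 := by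
    by_contra e
    have := Nat.mul_le_mul_left (Nat.card C₁[f]) (show 5 ≤ k by omega)
    omega
  interval_cases k <;> omega

theorem tr52 (hf : orderOf f = 5) (hj : j ∈ C₁[f]) (oj : orderOf j = 2) (ha : a ∈ C₁[f])
    (oa : orderOf a = 2) : a ∈ orb C₁[f] j := by
  refine tr_of_card hj ?_ ha (oa.trans oj.symm)
  have h1 : Nat.card ↥(C₁[j] ⊓ C₁[f]) ∣ 20 :=
    (h.cop2 hf oj hj Nat.prime_three (by norm_num) (by norm_num) (by decide)).dvd_of_dvd_mul_right
      (h.cent5 hf ▸ card_dvd_of_le inf_le_right :)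
  have := Nat.le_of_dvd (by norm_num) h1
  rw [oj, h.mo52 hf, h.cent5 hf]
  omega

theorem n52 (hf : orderOf f = 5) (hj : j ∈ C₁[f]) (oj : orderOf j = 2) :
    Nat.card ↥(C₁[j] ⊓ N[zpowers f]) = 80 := by
  have := orb_eq (normN f) hj fun b hb e =>
    orb_mono (le_norm_zpowers le_rfl) _ (h.tr52 hf hj oj hb (e.trans oj))
  rw [oj, h.mo52 hf, h.norm5 hf] at this
  omega

theorem n53 (hf : orderOf f = 5) (hx : x ∈ C₁[f]) (ox : orderOf x = 3) (e : g * x * g⁻¹ = x⁻¹) :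
    Nat.card ↥(C₁[x] ⊓ N[zpowers f]) = 30 := by
  obtain ⟨c, hc, k⟩ := conj_zp (H := C₁[x]) Nat.prime_five h.s5 ((orderOf_conj' g f).trans hf) hf
    (by rw [← cent1_inv, ← e, ← conj_smul_cent1, conj_mem_conj_smul]; exact mem_cent1_comm.mp hx)
    (mem_cent1_comm.mp hx)
  rw [← conj_smul_zpowers, conj_smul_smul] at k
  have := orb_eq (normN f) hx fun b hb ob => by
    obtain ⟨l, hl, k'⟩ := H1.T3.exists_conj_three hx hb (of_o3 ox).2 (of_o3 ox).1
      (of_o3 (ob.trans ox)).2 (of_o3 (ob.trans ox)).1 (by rw [h.cent5 hf]; norm_num)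
    rcases k' with k' | k'
    · exact ⟨l, le_norm_zpowers le_rfl hl, k'⟩
    · refine ⟨l * (c * g), mul_mem (le_norm_zpowers le_rfl hl) (mem_norm_of_conj_smul_eq k), ?_⟩
      simp only
      rw [← conj_conj, ← conj_conj, e, ← conj_inv (b := c),
        mul_inv_eq_iff_eq_mul.mpr (mem_cent1_iff.mp hc), ← conj_inv, k', inv_inv]
  rw [ox, h.mo53 hf, h.norm5 hf] at this
  omega

theorem c53 (ox : orderOf x = 3) (e : g * x * g⁻¹ = x⁻¹) (h5 : 5 ∣ Nat.card C₁[x]) :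
    Nat.card C₁[x] % 150 = 30 := by
  obtain ⟨f, hf, of⟩ := exists_mem_orderOf Nat.prime_five h5
  obtain ⟨n, h1, h2⟩ := sylow_count Nat.prime_five h.s5 of hf
  rw [h.n53 of (mem_cent1_comm.mp hf) ox e] at h2
  omega

theorem norm7 (hs : orderOf s = 7) : Nat.card N[zpowers s] = 126 := by
  have : Fact (Nat.Prime 7) := ⟨by norm_num⟩
  have := mo_prime hs h.s7
  rw [h.m7, h.card] at this
  omega

theorem mo72 (hs : orderOf s = 7) : mo C₁[s] 2 = 3 := by
  have := mo_cent (by norm_num) h.s7 hs (n := 2) (by norm_num)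
  rw [h.m14, h.m7] at this
  omega

theorem mo73 (hs : orderOf s = 7) : mo C₁[s] 3 = 2 := by
  have := mo_cent (by norm_num) h.s7 hs (n := 3) (by norm_num)
  rw [h.m21, h.m7] at this
  omega

theorem ex72 (hs : orderOf s = 7) : ∃ t ∈ C₁[s], orderOf t = 2 := by
  obtain ⟨t, ht⟩ := mo_pos_iff.mp (h.mo72 hs ▸ Nat.succ_pos 2 : 0 < mo C₁[s] 2)
  exact ⟨t, t.2, (orderOf_coe t).trans ht⟩

theorem ex73 (hs : orderOf s = 7) : ∃ t ∈ C₁[s], orderOf t = 3 := by
  obtain ⟨t, ht⟩ := mo_pos_iff.mp (h.mo73 hs ▸ Nat.succ_pos 1 : 0 < mo C₁[s] 3)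
  exact ⟨t, t.2, (orderOf_coe t).trans ht⟩

theorem eq73 (hs : orderOf s = 7) (hy : y ∈ C₁[s]) (oy : orderOf y = 3) (ha : a ∈ C₁[s])
    (oa : orderOf a = 3) : a = y ∨ a = y⁻¹ := by
  have h1 := h.mo73 hs
  rw [mo_ncard] at h1
  have h2 : ({y, y⁻¹} : Set G) = {g | g ∈ C₁[s] ∧ orderOf g = 3} :=
    Set.eq_of_subset_of_ncard_le (by
      rintro _ (rfl | rfl)
      exacts [⟨hy, oy⟩, ⟨inv_mem hy, (orderOf_inv y).trans oy⟩])
      (by rw [h1, Set.ncard_pair (ne_inv_three oy)])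
  exact h2.ge ⟨ha, oa⟩

theorem cent7 (hs : orderOf s = 7) : Nat.card C₁[s] = 42 := by
  have h1 := h.norm7 hs ▸ card_dvd_of_le (le_norm_zpowers (le_refl C₁[s]))
  obtain ⟨t, ht, ot⟩ := h.ex72 hs
  obtain ⟨y, hy, oy⟩ := h.ex73 hs
  have h2 := ot ▸ orderOf_dvd_card_of_mem ht
  have h3 := oy ▸ orderOf_dvd_card_of_mem hy
  have h4 := hs ▸ orderOf_dvd_card_of_mem (mem_cent1_self s)
  have h5 : ¬ 3 ^ 2 ∣ Nat.card C₁[s] := fun e => by
    classical
    obtain ⟨R, r1, r2⟩ := exists_le_card Nat.prime_three e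
    obtain ⟨a, ha, a1⟩ := exists_notMem (H := R) (s := {1, y, y⁻¹})
      (Finset.card_le_three.trans_lt (by omega))
    simp only [Finset.mem_insert, Finset.mem_singleton, not_or] at a1
    exact (h.eq73 hs hy oy (r1 ha) (o3 a1.1 (h.cube (.of_card r2) ha))).elim a1.2.1 a1.2.2
  obtain ⟨k, hk⟩ : 42 ∣ Nat.card C₁[s] := by omega
  have := Nat.le_of_dvd (by norm_num) h1
  have := card_pos' C₁[s]
  have : k ≤ 3 := by omega
  rw [hk] at h1 h5 ⊢
  interval_cases k <;> omega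

theorem inv73 (hs : orderOf s = 7) (hy : y ∈ C₁[s]) (oy : orderOf y = 3) (ht : t ∈ C₁[s])
    (ot : orderOf t = 2) : t * y * t⁻¹ = y⁻¹ := by
  refine (h.eq73 hs hy oy (mul_mem (mul_mem ht hy) (inv_mem ht))
    ((orderOf_conj' t y).trans oy)).resolve_left fun e => ?_
  have h1 := h.cop2 hs oy hy Nat.prime_two (by norm_num) (by norm_num) (by decide)
  have h2 := ot ▸ orderOf_dvd_card_of_mem (A := C₁[y] ⊓ C₁[s])
    ⟨mem_cent1_iff.mpr (mul_inv_eq_iff_eq_mul.mp e), ht⟩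
  exact absurd (Nat.eq_one_of_dvd_coprimes h1 h2 dvd_rfl) (by norm_num)

theorem tr72 (hs : orderOf s = 7) (ht : t ∈ C₁[s]) (ot : orderOf t = 2) (ha : a ∈ C₁[s])
    (oa : orderOf a = 2) : a ∈ orb C₁[s] t := by
  refine tr_of_card ht ?_ ha (oa.trans ot.symm)
  have h1 : Nat.card ↥(C₁[t] ⊓ C₁[s]) ∣ 14 :=
    (h.cop2 hs ot ht Nat.prime_three (by norm_num) (by norm_num) (by decide)).dvd_of_dvd_mul_right
      (h.cent7 hs ▸ card_dvd_of_le inf_le_right :)
  have := Nat.le_of_dvd (by norm_num) h1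
  rw [ot, h.mo72 hs, h.cent7 hs]
  omega

theorem n72 (hs : orderOf s = 7) (ht : t ∈ C₁[s]) (ot : orderOf t = 2) :
    Nat.card ↥(C₁[t] ⊓ N[zpowers s]) = 42 := by
  have := orb_eq (normN s) ht fun b hb e =>
    orb_mono (le_norm_zpowers le_rfl) _ (h.tr72 hs ht ot hb (e.trans ot))
  rw [ot, h.mo72 hs, h.norm7 hs] at this
  omega

theorem n73 (hs : orderOf s = 7) (hy : y ∈ C₁[s]) (oy : orderOf y = 3) :
    Nat.card ↥(C₁[y] ⊓ N[zpowers s]) = 63 := by
  obtain ⟨t, ht, ot⟩ := h.ex72 hs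
  have := orb_eq (normN s) hy fun b hb e => by
    rcases h.eq73 hs hy oy hb (e.trans oy) with rfl | rfl
    exacts [mem_orb_self _ _, ⟨t, le_norm_zpowers le_rfl ht, h.inv73 hs hy oy ht ot⟩]
  rw [oy, h.mo73 hs, h.norm7 hs] at this
  omega

theorem c72 (ot : orderOf t = 2) (h7 : 7 ∣ Nat.card C₁[t]) :
    ∃ n, n % 7 = 1 ∧ Nat.card C₁[t] = 42 * n := by
  obtain ⟨s, hs, os⟩ := exists_mem_orderOf (by norm_num) h7
  have := sylow_count (by norm_num) h.s7 os hs
  rwa [h.n72 os (mem_cent1_comm.mp hs) ot] at this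

theorem conjr {r : ℕ} (hr : r = 5 ∨ r = 7) (ot : orderOf t = 2) (h1 : r ∣ Nat.card C₁[t])
    (oa : orderOf a = 2) (h2 : r ∣ Nat.card C₁[a]) : ∃ g, g * t * g⁻¹ = a := by
  have hp : r.Prime := by rcases hr with rfl | rfl <;> norm_num
  obtain ⟨s, hs, os⟩ := exists_mem_orderOf hp h1
  obtain ⟨f, hf, of⟩ := exists_mem_orderOf hp h2
  obtain ⟨c, -, k⟩ := conj_zp hp (by rcases hr with rfl | rfl; exacts [h.s5, h.s7]) os of
    (mem_top s) (mem_top f)
  have h3 : c * t * c⁻¹ ∈ C₁[f] := by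
    rw [← conj_cent1 k, conj_mem_conj_smul]; exact mem_cent1_comm.mp hs
  have h4 := (orderOf_conj' c t).trans ot
  obtain ⟨l, -, e⟩ : a ∈ orb C₁[f] (c * t * c⁻¹) := by
    rcases hr with rfl | rfl
    exacts [h.tr52 of h3 h4 (mem_cent1_comm.mp hf) oa, h.tr72 of h3 h4 (mem_cent1_comm.mp hf) oa]
  exact ⟨l * c, by rw [← e, ← conj_conj]⟩

theorem norm11 (he : orderOf e = 11) : Nat.card N[zpowers e] = 110 := by
  have : Fact (Nat.Prime 11) := ⟨by norm_num⟩
  have := mo_prime he h.s11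
  rw [h.m11, h.card] at this
  omega

theorem inv11 (he : orderOf e = 11) : ∃ j, orderOf j = 2 ∧ j * e * j⁻¹ = e⁻¹ := by
  obtain ⟨j, hj, oj⟩ := exists_mem_orderOf Nat.prime_two (H := N[zpowers e])
    (by rw [h.norm11 he]; norm_num)
  exact ⟨j, oj, inverts_of_prime (by norm_num) he hj (of_o2 oj).2
    (h.no_comm he oj (by norm_num) (by decide))⟩

theorem cent11 (he : orderOf e = 11) : Nat.card C₁[e] ∣ 11 :=
  (h.cop he Nat.prime_two (by norm_num) (by decide)).dvd_of_dvd_mul_right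
    ((h.cop he Nat.prime_five (by norm_num) (by decide)).dvd_of_dvd_mul_right
      (h.norm11 he ▸ card_dvd_of_le (le_norm_zpowers (le_refl C₁[e])) :))

theorem five11 (he : orderOf e = 11) (oj : orderOf j = 2) (k : j * e * j⁻¹ = e⁻¹) :
    5 ∣ Nat.card C₁[j] := by
  have hj : j ∈ N[zpowers e] := mem_normalizer_zpowers.mpr (k ▸ inv_mem (mem_zpowers e))
  have h1 := card_le_cent_mul N[zpowers e] j (T := (fun p => p * j) '' (C₁[e] : Set G))
    fun w hw => ⟨w * j * w⁻¹ * j, mul_inverts (inverts_of_prime (by norm_num) he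
      (mul_mem (mul_mem hw hj) (inv_mem hw)) (conj_sq (of_o2 oj).2 w)
      (h.no_comm he ((orderOf_conj' w j).trans oj) (by norm_num) (by decide))) k,
      by simp only; rw [mul_assoc, (of_o2 oj).2, mul_one]⟩
  rw [Set.ncard_image_of_injective _ (mul_left_injective j), ← Nat.card_coe_set_eq,
    h.norm11 he] at h1
  have h2 := Nat.mul_le_mul_left (Nat.card ↥(C₁[j] ⊓ N[zpowers e]))
    (Nat.le_of_dvd (by norm_num) (h.cent11 he))
  have h3 : Nat.card ↥(C₁[j] ⊓ N[zpowers e]) ∣ 10 :=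
    (Nat.Coprime.coprime_dvd_left (card_dvd_of_le inf_le_left) (h.cop oj (r := 11) (by norm_num)
      (by norm_num) (by decide))).dvd_of_dvd_mul_right
      (h.norm11 he ▸ card_dvd_of_le inf_le_right :)
  have h4 := Nat.le_of_dvd (by norm_num) h3
  refine Dvd.dvd.trans ?_ (card_dvd_of_le (inf_le_left (b := N[zpowers e])))
  have : Nat.card (C₁[e] : Set G) = Nat.card C₁[e] := rfl
  rw [this] at h1
  omega

theorem card_B (oj : orderOf j = 2) (h5 : 5 ∣ Nat.card C₁[j]) :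
    244823040 ≤ (C₁[j]).index * (C₁[j]).index := by
  have h0 : ∀ e : {e : G // orderOf e = 11}, ∃ j, orderOf j = 2 ∧ j * e.1 * j⁻¹ = e.1⁻¹ :=
    fun e => h.inv11 e.2
  choose i i1 i2 using h0
  have h1 : ∀ (e : {e : G // orderOf e = 11}) (k : ℕ), i e * e.1 ^ k ∈ orb ⊤ j := fun e k => by
    have h2 : i e * e.1 ^ k * e.1 * (i e * e.1 ^ k)⁻¹ = e.1⁻¹ := by
      rw [← conj_conj, ← pow_succ, pow_succ', mul_inv_cancel_right, i2]
    have h3 : orderOf (i e * e.1 ^ k) = 2 := o2 (fun k' => by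
      rw [k', one_mul, inv_one, mul_one] at h2
      have := orderOf_dvd_of_pow_eq_one (pow_two e.1 ▸ mul_eq_one_iff_eq_inv.mpr h2)
      rw [e.2] at this
      omega) (by
        have := conj_pow (i := k) (a := i e) (b := e.1)
        rw [i2, inv_eq_of_mul_eq_one_right (of_o2 (i1 e)).2] at this
        rw [← mul_assoc, ← this, inv_pow, inv_mul_cancel])
    obtain ⟨g, hg⟩ := h.conjr (Or.inl rfl) oj h5 h3 (h.five11 e.2 h3 h2)
    exact ⟨g, mem_top g, hg⟩
  have h2 := Nat.card_le_card_of_injective (β := orb ⊤ j × orb ⊤ j)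
    (fun p : {e : G // orderOf e = 11} × Fin 11 =>
      (⟨_, h1 p.1 p.2⟩, ⟨_, h1 p.1 (p.2 + 1)⟩)) (by
    rintro ⟨e, k⟩ ⟨e', k'⟩ hh
    simp only [Prod.mk.injEq, Subtype.mk.injEq] at hh
    have h3 : e = e' := by
      have := congrArg₂ (fun a b => a⁻¹ * b) hh.1 hh.2
      simp only [pow_succ] at this
      rw [← mul_assoc (i e), ← mul_assoc (i e'), inv_mul_cancel_left, inv_mul_cancel_left] at this
      exact Subtype.ext this
    subst h3
    have h4 := (pow_eq_iff e.2 _ _).mp (mul_left_cancel hh.1)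
    exact Prod.ext rfl (Fin.ext (by simp only; omega)))
  have h3 := card_orb ⊤ j
  have h4 := h.idx C₁[j]
  rw [inf_top_eq, Subgroup.card_top, h.card, ← h4, mul_comm] at h3
  rw [Nat.card_prod, Nat.card_prod, Nat.card_coe_set_eq, ← Nat.eq_of_mul_eq_mul_left
    (card_pos' _) h3, Nat.card_eq_fintype_card (α := Fin 11), Fintype.card_fin] at h2
  have := h.m11
  rw [mo] at this
  omega

theorem c2_dvd (ht : orderOf t = 2) : Nat.card C₁[t] ∣ 967680 :=
  (h.cop ht (r := 11) (by norm_num) (by norm_num) (by decide)).dvd_of_dvd_mul_right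
    ((h.cop ht (r := 23) (by norm_num) (by norm_num) (by decide)).dvd_of_dvd_mul_right (h.dvd _))

theorem cB (oj : orderOf j = 2) (h5 : 5 ∣ Nat.card C₁[j]) : Nat.card C₁[j] = 7680 := by
  have h1 := h.card_B oj h5
  obtain ⟨f, hf, of⟩ := exists_mem_orderOf Nat.prime_five h5
  obtain ⟨n, h2, h3⟩ := sylow_count Nat.prime_five h.s5 of hf
  rw [h.n52 of (mem_cent1_comm.mp hf) oj] at h3
  have h4 := index_le_mo j
  have h6 := h.idx C₁[j]
  have h7 := h.c2_dvd oj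
  have h8 := h.c72 oj
  rw [oj, h.m2] at h4
  rw [h3] at h6 h7 h8 ⊢
  have h9 : n ≤ 195 := by
    by_contra k
    have := Nat.mul_le_mul_left (C₁[j]).index (show 80 * 196 ≤ 80 * n by omega)
    have : (C₁[j]).index ≤ 15614 := by omega
    have := Nat.mul_le_mul this this
    omega
  have := Nat.mul_le_mul_right (80 * n) h4
  have h10 : 70 ≤ n := by omega
  have h11 : n = 96 ∨ n = 126 := by
    clear h6 h1 this h8
    interval_cases n <;> omega
  rcases h11 with rfl | rfl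
  · rfl
  · obtain ⟨m, k1, k2⟩ := h8 (by norm_num)
    omega

theorem exB : ∃ j : G, orderOf j = 2 ∧ 5 ∣ Nat.card C₁[j] := by
  obtain ⟨e, he⟩ := mo_pos_iff.mp (show 0 < mo G 11 by rw [h.m11]; norm_num)
  obtain ⟨j, oj, k⟩ := h.inv11 he
  exact ⟨j, oj, h.five11 he oj k⟩

omit h in
theorem ncard_top (a : G) : (orb ⊤ a).ncard = (C₁[a]).index := by
  have h3 := card_orb ⊤ a
  rw [inf_top_eq, Subgroup.card_top, ← (C₁[a]).index_mul_card, mul_comm] at h3
  exact (Nat.eq_of_mul_eq_mul_left (card_pos' _) h3).symm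

omit h in
theorem two_le {n : ℕ} (oa : orderOf a = n) (ob : orderOf b = n) (hn : ∀ g, g * a * g⁻¹ ≠ b) :
    (C₁[a]).index + (C₁[b]).index ≤ mo G n := by
  rw [← ncard_top, ← ncard_top, ← Set.ncard_union_eq (Set.disjoint_left.mpr (by
    rintro _ ⟨g, -, rfl⟩ ⟨k, -, e⟩
    exact hn (k⁻¹ * g) (by simp only at e; rw [← conj_conj, ← e]; group))), mo,
    ← Nat.card_coe_set_eq]
  refine Nat.card_mono (Set.toFinite {g : G | orderOf g = n}) ?_
  rintro _ (⟨g, -, rfl⟩ | ⟨g, -, rfl⟩)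
  exacts [(orderOf_conj' g a).trans oa, (orderOf_conj' g b).trans ob]

theorem cA' (ot : orderOf t = 2) (h7 : 7 ∣ Nat.card C₁[t]) :
    Nat.card C₁[t] = 21504 ∨ Nat.card C₁[t] = 96768 := by
  obtain ⟨j, oj, h5⟩ := h.exB
  have h1 := h.cB oj h5
  have h2 := two_le oj ot fun g e => by
    rw [← e, card_centralizer_conj, h1] at h7
    omega
  have h3 := h.idx C₁[j]
  have h4 := h.idx C₁[t]
  have h6 : ¬ 5 ∣ Nat.card C₁[t] := fun e => by
    rw [h.cB ot e] at h7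
    omega
  have h8 : Nat.card C₁[t] ∣ 193536 := (cop_of Nat.prime_five h6).dvd_of_dvd_mul_right (h.c2_dvd ot)
  obtain ⟨n, k1, k2⟩ := h.c72 ot h7
  rw [h.m2] at h2
  rw [h1] at h3
  have := Nat.mul_le_mul_right (Nat.card C₁[t]) (show (C₁[t]).index ≤ 11385 by omega)
  obtain ⟨k, hk⟩ := h8
  have h9 : k ≤ 9 := by
    by_contra e
    have := Nat.mul_le_mul_left (Nat.card C₁[t]) (show 10 ≤ k by omega)
    omega
  interval_cases k <;> omega

theorem c3_dvd (hx : orderOf x = 3) : Nat.card C₁[x] ∣ 967680 :=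
  (h.cop hx (r := 11) (by norm_num) (by norm_num) (by decide)).dvd_of_dvd_mul_right
    ((h.cop hx (r := 23) (by norm_num) (by norm_num) (by decide)).dvd_of_dvd_mul_right (h.dvd _))

theorem cY (hs : orderOf s = 7) (hy : y ∈ C₁[s]) (oy : orderOf y = 3) :
    Nat.card C₁[y] = 504 ∨ Nat.card C₁[y] = 4032 ∨ Nat.card C₁[y] = 32256 ∨
      Nat.card C₁[y] = 60480 := by
  obtain ⟨t, ht, ot⟩ := h.ex72 hs
  have h1 := h.c53 oy (h.inv73 hs hy oy ht ot)
  obtain ⟨n, k1, k2⟩ := sylow_count (by norm_num) h.s7 hs (mem_cent1_comm.mp hy)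
  rw [h.n73 hs hy oy] at k2
  have h2 := h.c3_dvd oy
  have h3 := index_le_mo y
  have h4 := h.idx C₁[y]
  rw [oy, h.m3] at h3
  have := Nat.mul_le_mul_right (Nat.card C₁[y]) h3
  rw [k2] at h1 h2 h4 this ⊢
  have h5 : n ∈ Nat.divisors 15360 :=
    Nat.mem_divisors.mpr ⟨Nat.dvd_of_mul_dvd_mul_left (by norm_num) h2, by norm_num⟩
  have h6 : ∀ n ∈ Nat.divisors 15360, n % 7 = 1 →
      n = 1 ∨ n = 8 ∨ n = 64 ∨ n = 512 ∨ n = 15 ∨ n = 120 ∨ n = 960 ∨ n = 7680 := by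
    decide +kernel
  rcases h6 n h5 k1 with rfl | rfl | rfl | rfl | rfl | rfl | rfl | rfl <;> omega

end H24

end Cfsg.Agent.Ma
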