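import Cfsg.Agent.H9.M24a
import Cfsg.Agent.H3.PPart
import Cfsg.Agent.H3.FrobCount

/-! Counting three-regular elements in centralizers. -/

set_option autoImplicit false

namespace Cfsg.Agent.Ma

open Subgroup Cfsg.Agent.H7 Cfsg.Agent.H4 Cfsg.Agent.Fx4 Cfsg.Agent.H4.Nse
open Cfsg.Agent.H3 hiding orderOf_conj'
open MulAut (conj)
open scoped Pointwise

universe u
variable {G : Type u} [Group G] [Finite G] {L P T K H R V M S : Subgroup G}
  {x y z g p s t v w q a b c u : G} {X Y : Finset G} {φ : G → ℕ}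

omit [Finite G] in
theorem orb_conj (hg : g ∈ M) (a : G) : g * a * g⁻¹ ∈ orb M a := ⟨g, hg, rfl⟩

omit [Finite G] in
theorem orb_symm (h : b ∈ orb M a) : a ∈ orb M b := by
  obtain ⟨g, hg, rfl⟩ := h
  exact ⟨g⁻¹, inv_mem hg, by simp only; group⟩

omit [Finite G] in
theorem orb_trans (h : b ∈ orb M a) (h' : c ∈ orb M b) : c ∈ orb M a := by
  obtain ⟨g, hg, rfl⟩ := h
  obtain ⟨k, hk, rfl⟩ := h'
  exact ⟨k * g, mul_mem hk hg, (conj_conj _ _ _).symm⟩

omit [Finite G] in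
theorem orb_inv (h : b ∈ orb M a) : b⁻¹ ∈ orb M a⁻¹ := by
  obtain ⟨g, hg, rfl⟩ := h
  exact ⟨g, hg, conj_inv.symm⟩

omit [Finite G] in
theorem orb_order (h : b ∈ orb M a) [Finite G] : orderOf b = orderOf a := by
  obtain ⟨g, -, rfl⟩ := h
  exact orderOf_conj' g a

omit [Finite G] in
theorem orb_eq_of (h : b ∈ orb M a) : orb M b = orb M a :=
  Set.Subset.antisymm (fun _ e => orb_trans h e) fun _ e => orb_trans (orb_symm h) e

omit [Finite G] in
theorem orb_card (h : b ∈ orb M a) : Nat.card ↥(C₁[b] ⊓ M) = Nat.card ↥(C₁[a] ⊓ M) := by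
  obtain ⟨g, hg, rfl⟩ := h
  rw [inf_comm, card_fix_conj (le_norm_self M hg), inf_comm]

theorem orb_card' (h : b ∈ orb M a) : Nat.card C₁[b] = Nat.card C₁[a] := by
  obtain ⟨g, -, rfl⟩ := h
  exact card_centralizer_conj g a

/-- A class function. -/
def CF (M : Subgroup G) (φ : G → ℕ) : Prop := ∀ a b, b ∈ orb M a → φ b = φ a

theorem sum_orb (hφ : CF M φ) (hX : ∀ v, v ∈ X ↔ v ∈ orb M a) :
    ∑ v ∈ X, φ v * Nat.card ↥(C₁[v] ⊓ M) = Nat.card M * φ a := by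
  rw [Finset.sum_congr rfl fun v hv => by
    rw [hφ a v ((hX v).mp hv), orb_card ((hX v).mp hv)], Finset.sum_const, smul_eq_mul,
    card_orb M a, ← Set.ncard_coe_finset, show (X : Set G) = orb M a from Set.ext hX]
  ring

theorem sum_ge (hφ : CF M φ) (hX : ∀ a ∈ Y, ∀ v ∈ orb M a, v ∈ X)
    (pw : ∀ a ∈ Y, ∀ b ∈ Y, b ∈ orb M a → a = b) :
    Nat.card M * ∑ a ∈ Y, φ a ≤ ∑ v ∈ X, φ v * Nat.card ↥(C₁[v] ⊓ M) := by
  classical
  rw [Finset.mul_sum, ← Finset.sum_congr rfl fun a _ => sum_orb (a := a) hφ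
    (X := (Set.toFinite (orb M a)).toFinset) fun v => Set.Finite.mem_toFinset _,
    ← Finset.sum_biUnion fun a ha b hb ab => Finset.disjoint_left.mpr fun v h1 h2 => ab
      (pw a ha b hb (orb_trans ((Set.Finite.mem_toFinset _).mp h1)
        (orb_symm ((Set.Finite.mem_toFinset _).mp h2))))]
  refine Finset.sum_le_sum_of_subset fun v hv => ?_
  obtain ⟨a, ha, e⟩ := Finset.mem_biUnion.mp hv
  exact hX a ha v ((Set.Finite.mem_toFinset _).mp e)

theorem sum_le' (hφ : CF M φ) (cov : ∀ v ∈ X, ∃ a ∈ Y, v ∈ orb M a) :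
    ∑ v ∈ X, φ v * Nat.card ↥(C₁[v] ⊓ M) ≤ Nat.card M * ∑ a ∈ Y, φ a := by
  classical
  choose! f f1 f2 using cov
  rw [← Finset.sum_fiberwise_of_maps_to f1, Finset.mul_sum]
  refine Finset.sum_le_sum fun a _ => ?_
  rw [← sum_orb (a := a) hφ (X := (Set.toFinite (orb M a)).toFinset)
    fun v => Set.Finite.mem_toFinset _]
  refine Finset.sum_le_sum_of_subset fun v hv => ?_
  obtain ⟨h1, rfl⟩ := Finset.mem_filter.mp hv
  exact (Set.Finite.mem_toFinset _).mpr (f2 v h1)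

omit [Finite G] in
theorem exists_tr (M : Subgroup G) (X : Finset G) (hX : ∀ a ∈ X, ∀ v ∈ orb M a, v ∈ X) :
    ∃ Y : Finset G, (∀ a ∈ Y, a ∈ X) ∧ (∀ a ∈ Y, ∀ b ∈ Y, b ∈ orb M a → a = b) ∧
      ∀ v ∈ X, ∃ a ∈ Y, v ∈ orb M a := by
  classical
  have h1 : ∀ v, Classical.epsilon (· ∈ orb M v) ∈ orb M v := fun v =>
    Classical.epsilon_spec (p := (· ∈ orb M v)) ⟨v, mem_orb_self M v⟩
  refine ⟨X.image fun v => Classical.epsilon (· ∈ orb M v), fun a ha => ?_, fun a ha b hb e => ?_,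
    fun v hv => ⟨_, Finset.mem_image_of_mem _ hv, orb_symm (h1 v)⟩⟩
  · obtain ⟨v, hv, rfl⟩ := Finset.mem_image.mp ha
    exact hX v hv _ (h1 v)
  · obtain ⟨v, -, rfl⟩ := Finset.mem_image.mp ha
    obtain ⟨w, -, rfl⟩ := Finset.mem_image.mp hb
    rw [show orb M v = orb M w from (orb_eq_of (h1 v)).symm.trans
      ((orb_eq_of e).symm.trans (orb_eq_of (h1 w)))]

/-- The number of three-regular elements. -/
noncomputable def Rg (H : Subgroup G) : ℕ := {g | g ∈ H ∧ IsPReg 3 g}.ncard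

theorem Rg_pos (H : Subgroup G) : 0 < Rg H :=
  (Set.ncard_pos (Set.toFinite _)).mpr ⟨1, H.one_mem, IsPReg.one 3⟩

omit [Finite G] in
theorem Rg_conj (g : G) (H : Subgroup G) : Rg (conj g • H) = Rg H := by
  rw [Rg, Rg, ← Set.ncard_image_of_injective {g | g ∈ H ∧ IsPReg 3 g} (conj g).injective]
  congr 1
  ext a
  constructor
  · rintro ⟨h1, h2⟩
    obtain ⟨b, hb, rfl⟩ := mem_conj_smul_iff_exists.mp h1
    exact ⟨b, ⟨hb, (isPReg_conj_iff g).mp h2⟩, rfl⟩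
  · rintro ⟨b, hb, rfl⟩
    exact ⟨conj_mem_conj_smul.mpr hb.1, hb.2.conj g⟩

/-- Elements of order three. -/
noncomputable def E3 (H : Subgroup G) : Finset G :=
  (Set.toFinite {v | v ∈ H ∧ orderOf v = 3}).toFinset

theorem mem_E3 : v ∈ E3 H ↔ v ∈ H ∧ orderOf v = 3 := Set.Finite.mem_toFinset _

/-- Elements of order three commuting with `u`, outside `⟨u⟩`. -/
noncomputable def X3 (u : G) : Finset G :=
  (Set.toFinite {v | v ∈ C₁[u] ∧ orderOf v = 3 ∧ v ∉ zpowers u}).toFinset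

theorem mem_X3 : v ∈ X3 u ↔ v ∈ C₁[u] ∧ orderOf v = 3 ∧ v ∉ zpowers u := Set.Finite.mem_toFinset _

theorem X3_orb (ha : a ∈ X3 u) (hv : v ∈ orb C₁[u] a) : v ∈ X3 u := by
  obtain ⟨g, hg, rfl⟩ := hv
  obtain ⟨h1, h2, h3⟩ := mem_X3.mp ha
  exact mem_X3.mpr ⟨mul_mem (mul_mem hg h1) (inv_mem hg), (orderOf_conj' g a).trans h2,
    fun e => h3 (mem_of_conj_mem_of_norm (le_norm_zpowers le_rfl hg) e)⟩

theorem X3_conj (ha : a ∈ X3 u) (g : G) : g * a * g⁻¹ ∈ X3 (g * u * g⁻¹) := by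
  obtain ⟨h1, h2, h3⟩ := mem_X3.mp ha
  refine mem_X3.mpr ⟨?_, (orderOf_conj' g a).trans h2, ?_⟩
  · rwa [← conj_smul_cent1, conj_mem_conj_smul]
  · rwa [← conj_smul_zpowers, conj_mem_conj_smul]

theorem X3_inv : X3 u⁻¹ = X3 u := by
  ext v
  rw [mem_X3, mem_X3, cent1_inv, zpowers_inv]

theorem X3_inv' (ha : a ∈ X3 u) : a⁻¹ ∈ X3 u := by
  obtain ⟨h1, h2, h3⟩ := mem_X3.mp ha
  exact mem_X3.mpr ⟨inv_mem h1, (orderOf_inv a).trans h2, fun e => h3 (inv_mem_iff.mp e)⟩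

theorem X3_symm (ha : a ∈ X3 u) (ou : orderOf u = 3) : u ∈ X3 a := by
  obtain ⟨h1, h2, h3⟩ := mem_X3.mp ha
  exact mem_X3.mpr ⟨mem_cent1_comm.mp h1, ou, fun e =>
    h3 (zpowers_eq_of_mem e (ou.trans h2.symm) ▸ mem_zpowers a)⟩

theorem X3_mul (ha : a ∈ X3 u) (ou : orderOf u = 3) (hp : p ∈ zpowers u) : p * a ∈ X3 u := by
  obtain ⟨h1, h2, h3⟩ := mem_X3.mp ha
  have h4 : p * a ∉ zpowers u := fun e => h3 ((mul_mem_cancel_left hp).mp e)
  refine mem_X3.mpr ⟨mul_mem (zpowers_le.mpr (mem_cent1_self u) hp) h1, o3 (ne_one_of h4) ?_, h4⟩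
  rw [(commute_of_mem_cent (cent_zpowers u ▸ h1) hp).mul_pow, (of_o3 h2).2, mul_one,
    ← ou, ← Nat.card_zpowers]
  exact pow_card_eq_one_of_mem hp

theorem card_pair (ha : a ∈ X3 u) (ou : orderOf u = 3) :
    Nat.card ↥(zpowers u ⊔ zpowers a) = 9 := by
  obtain ⟨h1, h2, h3⟩ := mem_X3.mp ha
  rw [card_sup_of_inf_eq_bot (zpowers_le.mpr (le_norm_zpowers le_rfl h1)), Nat.card_zpowers,
    Nat.card_zpowers, ou, h2]
  rw [inf_comm]
  exact (inf_eq_bot_or_le_of_card_prime _ (by rw [Nat.card_zpowers, h2]; norm_num)).resolve_right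
    fun e => h3 (e (mem_zpowers a))

omit [Finite G] in
theorem cent_pair (a u : G) : C[zpowers u ⊔ zpowers a] = C₁[a] ⊓ C₁[u] := by
  rw [cent_sup, cent_zpowers, cent_zpowers, inf_comm]

namespace H24

variable (h : H24 G)
include h

theorem card_sum (H : Subgroup G) : Nat.card H = Rg H + ∑ u ∈ E3 H, Rg (C₁[u] ⊓ H) := by
  classical
  have h1 : (1 : G) ∉ E3 H := fun e => by simpa using (mem_E3.mp e).2
  have h2 : ∀ g ∈ (Set.toFinite (H : Set G)).toFinset, pPart 3 g ∈ insert 1 (E3 H) := fun g hg => by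
    rw [Finset.mem_insert, mem_E3, or_iff_not_imp_left]
    exact fun e => ⟨pPart_mem ((Set.Finite.mem_toFinset _).mp hg),
      o3 e (h.cube (isPElt_pPart g).isPGroup_zpowers (mem_zpowers _))⟩
  have h3 := Finset.card_eq_sum_card_fiberwise h2
  rw [← Set.ncard_eq_toFinset_card, Finset.sum_congr rfl (g := fun u => Rg (C₁[u] ⊓ H)),
    Finset.sum_insert h1, cent1_one, top_inf_eq] at h3
  · exact h3
  intro u hu
  have h4 : u ∈ H ∧ IsPElt 3 u := by
    rcases Finset.mem_insert.mp hu with rfl | e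
    exacts [⟨H.one_mem, IsPElt.one 3⟩, ⟨(mem_E3.mp e).1, 1, (of_o3 (mem_E3.mp e).2).2⟩]
  rw [Rg, ← Set.ncard_image_of_injective _ (mul_right_injective u), ← Set.ncard_coe_finset]
  congr 1
  ext g
  simp only [Finset.coe_filter, Set.Finite.mem_toFinset, SetLike.mem_coe, Set.mem_ofPred_eq]
  constructor
  · rintro ⟨h5, rfl⟩
    exact ⟨pReg 3 g, ⟨⟨mem_cent1_iff.mpr (commute_pPart_pReg 3 g).symm, pReg_mem h5⟩,
      isPReg_pReg g⟩, pPart_mul_pReg 3 g⟩
  · rintro ⟨r, ⟨⟨h5, h6⟩, h7⟩, rfl⟩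
    exact ⟨mul_mem h4.1 h6, pPart_mul h4.2 h7 (mem_cent1_iff.mp h5).symm⟩

theorem Rg_top : Rg (⊤ : Subgroup G) = 126945280 := by
  classical
  have := Fintype.ofFinite G
  have h1 : ∀ g ∈ ({g | IsPReg 3 g} : Finset G),
      orderOf g ∈ ({1, 2, 4, 5, 7, 8, 10, 11, 14, 23} : Finset ℕ) := fun g hg => by
    have h1 := h.ord g
    have h2 := (isPReg_iff_not_dvd Nat.prime_three).mp (Finset.mem_filter.mp hg).2
    simp only [List.mem_cons, List.not_mem_nil, or_false] at h1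
    simp only [Finset.mem_insert, Finset.mem_singleton]
    omega
  have h2 := Finset.card_eq_sum_card_fiberwise h1
  rw [Finset.sum_congr rfl (g := fun n => mo G n) fun n hn => by
    rw [mo_eq]
    congr 1
    ext g
    simp only [Finset.mem_filter, Finset.mem_univ, true_and, and_iff_right_iff_imp]
    rintro rfl
    simp only [Finset.mem_insert, Finset.mem_singleton] at hn
    rw [isPReg_iff_not_dvd Nat.prime_three]
    omega] at h2
  rw [Rg, ← Set.ncard_coe_finset] at *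
  simp only [mem_top, true_and]
  simpa [mo_one, h.m2, h.m4, h.m5, h.m7, h.m8, h.m10, h.m11, h.m14, h.m23] using h2

theorem total : ∑ u ∈ E3 (⊤ : Subgroup G), 27 * Rg C₁[u] = 13 * 244823040 := by
  have := h.card_sum ⊤
  simp only [inf_top_eq, card_top, h.card, h.Rg_top] at this
  rw [← Finset.mul_sum]
  omega

theorem cent_sum (ou : orderOf u = 3) :
    Nat.card C₁[u] = 3 * Rg C₁[u] + ∑ v ∈ X3 u, Rg (C₁[v] ⊓ C₁[u]) := by
  classical
  have h1 : E3 C₁[u] = insert u (insert u⁻¹ (X3 u)) := by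
    ext v
    simp only [mem_E3, Finset.mem_insert, mem_X3]
    constructor
    · rintro ⟨h1, h2⟩
      by_cases e : v ∈ zpowers u
      · rcases mem_zpowers_three (of_o3 ou).2 e with k | k | k
        exacts [absurd k (of_o3 h2).1, Or.inl k, Or.inr (Or.inl k)]
      · exact Or.inr (Or.inr ⟨h1, h2, e⟩)
    · rintro (rfl | rfl | e)
      exacts [⟨mem_cent1_self _, ou⟩, ⟨inv_mem (mem_cent1_self _), (orderOf_inv u).trans ou⟩,
        ⟨e.1, e.2.1⟩]
  have h2 := h.card_sum C₁[u]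
  rw [h1, Finset.sum_insert (by
    simp only [Finset.mem_insert, mem_X3, not_or, not_and, not_not]
    exact ⟨ne_inv_three ou, fun _ _ => mem_zpowers u⟩), Finset.sum_insert (by
    simp only [mem_X3, not_and, not_not]
    exact fun _ _ => inv_mem (mem_zpowers u)), cent1_inv, inf_idem] at h2
  omega

theorem frobR (H : Subgroup G) : Nat.gcd 9067520 (Nat.card H) ∣ Rg H := by
  refine (frobenius_gcd_dvd (G := H) 9067520).trans (dvd_of_eq ?_)
  rw [Rg, ← Nat.card_coe_set_eq]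
  have k : ∀ g : G, g ^ 9067520 = 1 ↔ IsPReg 3 g := fun g => by
    rw [← orderOf_dvd_iff_pow_eq_one]
    refine ⟨fun e => Nat.Coprime.coprime_dvd_left e (by norm_num), fun e => ?_⟩
    exact (Nat.Coprime.pow_right 3 e).dvd_of_dvd_mul_right
      ((orderOf_dvd_natCard g).trans (by rw [h.card]))
  exact Nat.card_congr ⟨fun g => ⟨g.1, g.1.2, (k _).mp (congrArg Subtype.val g.2)⟩,
    fun g => ⟨⟨g.1, g.2.1⟩, Subtype.ext ((k _).mpr g.2.2)⟩, fun _ => rfl, fun _ => rfl⟩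

theorem dvdR (H : Subgroup G) : Nat.card H ∣ 27 * Rg H := by
  refine Dvd.dvd.trans ?_ (mul_dvd_mul_left 27 (h.frobR H))
  rw [← Nat.gcd_mul_left]
  exact Nat.dvd_gcd (h.dvd H) (Dvd.intro_left _ rfl)

omit [Finite G] in
theorem s81 : ¬ 81 ∣ Nat.card G := by rw [h.card]; norm_num

theorem syl_rel (hS : Nat.card S = 27) (h1 : S ≤ H) : ¬ 3 ∣ S.relIndex H := fun e => by
  have := (mul_dvd_mul_right e _).trans
    ((relIndex_mul_card h1).dvd.trans H.card_subgroup_dvd_card)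
  rw [hS] at this
  exact h.s81 this

theorem conj_syl (hS : Nat.card S = 27) (h1 : S ≤ H) (hR : IsPGroup 3 R) (h2 : R ≤ H) :
    ∃ c ∈ H, conj c • R ≤ S := by
  obtain ⟨c, hc, e⟩ := exists_conj_le h2 hR (h.syl_rel hS h1)
  refine ⟨c, hc, fun a ha => ?_⟩
  obtain ⟨b, hb, rfl⟩ := mem_conj_smul_iff_exists.mp ha
  exact e b hb

theorem oP (hP : IsPGroup 3 P) (hp : p ∈ P) (p1 : p ≠ 1) : orderOf p = 3 := o3 p1 (h.cube hP hp)

end H24

end Cfsg.Agent.Ma
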