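import Cfsg.Agent.H9.M24b

/-! The Sylow three-subgroups are not abelian. -/

set_option autoImplicit false

namespace Cfsg.Agent.Ma

open Subgroup Cfsg.Agent.H7 Cfsg.Agent.H4 Cfsg.Agent.Fx4 Cfsg.Agent.H4.Nse
open Cfsg.Agent.H3 hiding orderOf_conj'
open MulAut (conj)
open scoped Pointwise

universe u
variable {G : Type u} [Group G] [Finite G] {L P T K H R V M S : Subgroup G}
  {x y z g p s t v w q a b c u l : G} {X Y : Finset G} {φ : G → ℕ}

omit [Finite G] in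
theorem mem_of_pows {m n : ℕ} (h : m.Coprime n) (h1 : a ^ m ∈ H) (h2 : a ^ n ∈ H) : a ∈ H := by
  have := mul_mem (zpow_mem h1 (Nat.gcdA m n)) (zpow_mem h2 (Nat.gcdB m n))
  rwa [← zpow_natCast, ← zpow_natCast, ← zpow_mul, ← zpow_mul, ← zpow_add, ← Nat.gcd_eq_gcd_ab,
    h, Nat.cast_one, zpow_one] at this

theorem sup27 (hS : Nat.card S = 27) (hP : Nat.card P = 9) (h : P ≤ S) (hs : s ∈ S) (sP : s ∉ P) :
    P ⊔ zpowers s = S :=
  (eq_or_eq_of_relIndex_prime le_sup_left (sup_le h (zpowers_le.mpr hs)) (by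
    rw [relIndex_eq h (n := 3) (by rw [hS, hP])]; norm_num)).resolve_left
    fun e => sP (e ▸ mem_sup_right (mem_zpowers s))

theorem norm27 (hS : Nat.card S = 27) (hP : Nat.card P = 9) (h : P ≤ S) : S ≤ N[P] :=
  (normalIn_of_relIndex_prime (IsPGroup.of_card (p := 3) (n := 3) hS).isNilpotent h (by
    rw [relIndex_eq h (n := 3) (by rw [hS, hP])]; norm_num)).2

theorem ex27 (hS : Nat.card S = 27) (hP : Nat.card P = 9) : ∃ s ∈ S, s ∉ P := by
  by_contra k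
  push Not at k
  have := card_le_of_le' (show S ≤ P from k)
  omega

theorem coset3 (hS : Nat.card S = 27) (hP : Nat.card P = 9) (h : P ≤ S) (hs : s ∈ S) (sP : s ∉ P)
    (s3 : s ^ 3 = 1) (hg : g ∈ S) : g ∈ P ∨ s⁻¹ * g ∈ P ∨ s * g ∈ P := by
  rw [← sup27 hS hP h hs sP, mem_sup_of_norm_rev (zpowers_le.mpr (norm27 hS hP h hs))] at hg
  obtain ⟨b, hb, a, ha, rfl⟩ := hg
  rcases mem_zpowers_three s3 hb with rfl | rfl | rfl <;> simp [ha]

theorem ab27 (hS : Nat.card S = 27) (hP : Nat.card P = 9) (h : P ≤ S) (hc : S ≤ C[P]) :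
    S ≤ C[S] := by
  obtain ⟨s, hs, sP⟩ := ex27 hS hP
  have := sup27 hS hP h hs sP
  conv_rhs => rw [← this]
  refine le_cent_sup hc ?_
  rw [← this, cent_zpowers]
  exact sup_le (le_cent1_iff.mpr (hc hs)) (zpowers_le.mpr (mem_cent1_self s))

theorem card_tr (hX : ∀ a ∈ Y, ∀ v ∈ orb M a, v ∈ X) (pw : ∀ a ∈ Y, ∀ b ∈ Y, b ∈ orb M a → a = b)
    (cov : ∀ v ∈ X, ∃ a ∈ Y, v ∈ orb M a) : X.card = ∑ a ∈ Y, (orb M a).ncard := by
  have hφ : CF M fun a => (orb M a).ncard := fun a b e => by simp only [orb_eq_of e]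
  have h1 := le_antisymm (sum_le' hφ cov) (sum_ge hφ hX pw)
  rw [Finset.sum_congr rfl fun v _ => (mul_comm _ _).trans (card_orb M v).symm, Finset.sum_const,
    smul_eq_mul, mul_comm] at h1
  exact Nat.eq_of_mul_eq_mul_left (card_pos' M) h1

theorem CF.one (M : Subgroup G) : CF M fun _ => 1 := fun _ _ _ => rfl

namespace H24

variable (h : H24 G)
include h

theorem normS (hS : Nat.card S = 27) : Nat.card N[S] ∣ 27 * 2 ^ 10 := by
  have k : ∀ r : ℕ, r.Prime → (∀ k ≤ 2, 27 % r ≠ 3 ^ k % r) →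
      (∀ g : G, orderOf g = r → ¬ 27 ∣ Nat.card C₁[g]) → (Nat.card N[S]).Coprime r :=
    fun r hr h1 h2 => cop_of hr fun e => by
      obtain ⟨g, hg, og⟩ := exists_mem_orderOf hr e
      have h3 := card_modEq_conj hr (og ▸ pow_orderOf_eq_one g)
        fun x hx => conj_mem_of_norm hg hx
      obtain ⟨k, hk, h4⟩ := (Nat.dvd_prime_pow (m := 3) Nat.prime_three).mp
        (hS ▸ card_dvd_of_le (inf_le_left (a := S) (b := C₁[g])) :)
      rw [hS, h4] at h3
      refine h2 g og (dvd_trans ?_ (card_dvd_of_le (inf_le_right (a := S))))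
      rw [h4, show k = 3 from le_antisymm hk (not_lt.mp fun e => h1 k (by omega) h3)]
      rfl
  refine (k 5 (by norm_num) (by decide) fun g og => ?_).dvd_of_dvd_mul_right
    ((k 7 (by norm_num) (by decide) fun g og => ?_).dvd_of_dvd_mul_right
      ((k 11 (by norm_num) (by decide) fun g og e => ?_).dvd_of_dvd_mul_right
        ((k 23 (by norm_num) (by decide) fun g og e => ?_).dvd_of_dvd_mul_right (h.dvd _))))
  · rw [h.cent5 og]; norm_num
  · rw [h.cent7 og]; norm_num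
  · exact absurd (e.trans (h.cent11 og)) (by norm_num)
  · exact absurd (Nat.eq_one_of_dvd_coprimes (h.cop og Nat.prime_three (by norm_num) (by decide))
      (dvd_trans (by norm_num) e) dvd_rfl) (by norm_num)

theorem fuseS (hS : Nat.card S = 27) (ab : S ≤ C[S]) (h0 : S ≤ H) (hg : g ∈ H) (ha : a ∈ S)
    (hb : g * a * g⁻¹ ∈ S) : g * a * g⁻¹ ∈ orb (H ⊓ N[S]) a := by
  have k : ∀ c ∈ S, S ≤ C₁[c] := fun c hc => ab.trans (cent_le_cent1 hc)
  obtain ⟨c, h1, h2⟩ := h.conj_syl hS (le_inf h0 (k _ hb)) (R := conj g • S)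
    (.of_card (n := 3) (by rw [card_conj_smul, hS]; rfl))
    (le_inf (conj_smul_le_of_mem hg h0) (conj_smul_cent1 g a ▸ conj_smul_mono g (k a ha)))
  refine ⟨c * g, ⟨mul_mem h1.1 hg, mem_norm_of_conj_smul_le (conj_smul_smul c g S ▸ h2)⟩, ?_⟩
  simp only
  rw [← conj_conj, mem_cent1_iff.mp h1.2, mul_inv_cancel_right]

theorem ab_sum (hs : orderOf s = 7) (hy : y ∈ C₁[s]) (oy : orderOf y = 3)
    (hM : Nat.card C₁[y] = 60480) : ∑ v ∈ X3 y, 1 * Nat.card ↥(C₁[v] ⊓ C₁[y]) ≤ 6 * 60480 := by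
  obtain ⟨t, ht, ot⟩ := h.ex72 hs
  obtain ⟨f, hf, of⟩ := exists_mem_orderOf Nat.prime_five (H := C₁[y]) (by rw [hM]; norm_num)
  have h1 := mo_prime_sub (by norm_num) h.s7 hs (mem_cent1_comm.mp hy)
  have h2 := mo_prime_sub (by norm_num) h.s5 of hf
  rw [h.n73 hs hy oy, hM] at h1
  rw [h.n53 of (mem_cent1_comm.mp hf) oy (h.inv73 hs hy oy ht ot), hM] at h2
  have h3 : mo C₁[y] 7 + mo C₁[y] 5 ≤ Rg C₁[y] := by
    rw [mo_ncard, mo_ncard, ← Set.ncard_union_eq (Set.disjoint_left.mpr fun g h1 h2 => by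
      have := h1.2.symm.trans h2.2
      omega)]
    refine Set.ncard_le_ncard ?_
    rintro g (e | e) <;> exact ⟨e.1, by rw [IsPReg, e.2]; norm_num⟩
  have h4 := h.frobR C₁[y]
  have h5 := h.cent_sum oy
  have h6 := Finset.sum_le_sum (s := X3 y) fun v _ =>
    Nat.le_of_dvd (Nat.mul_pos (by norm_num) (Rg_pos _)) (h.dvdR (C₁[v] ⊓ C₁[y]))
  rw [hM] at h4 h5
  rw [← Finset.mul_sum] at h6
  simp only [one_mul]
  norm_num at h4
  omega

variable (hS : Nat.card S = 27) (ab : S ≤ C[S]) (yS : y ∈ S) (oy : orderOf y = 3)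
include hS ab yS oy

theorem ab_orb (hM : Nat.card C₁[y] = 60480) (e : t * y * t⁻¹ = y⁻¹) :
    ∃ u ∈ X3 y, u ∈ S ∧ Nat.card ↥(C₁[y] ⊓ N[S]) ≤ 2 * Nat.card ↥(C₁[u] ⊓ (C₁[y] ⊓ N[S])) := by
  classical
  have pS : IsPGroup 3 S := .of_card (n := 3) hS
  have h1 := card_orb N[S] y
  have h2 := relIndex_modEq Nat.prime_three pS (h.syl_rel hS le_top) le_top
  have k := ab.trans (cent_le_cent1 yS)
  have h3 := relIndex_modEq Nat.prime_three pS (h.syl_rel hS k) k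
  have h4 := card_inf_mul_relIndex N[S] C₁[y]
  have h5 := h.idx N[S]
  have h6 : y⁻¹ ∈ orb N[S] y := by
    have := h.fuseS hS ab le_top (mem_top t) yS (e ▸ inv_mem yS)
    rwa [e, top_inf_eq] at this
  have h7 : ({y, y⁻¹} : Set G) ⊆ orb N[S] y := by
    rintro _ (rfl | rfl)
    exacts [mem_orb_self _ _, h6]
  have h8 := Set.ncard_le_ncard h7
  rw [Set.ncard_pair (ne_inv_three oy)] at h8
  rw [relIndex_top_right] at h2
  rw [inf_comm, hM] at h4
  have h9 : (N[S]).index * (orb N[S] y).ncard = 4048 * (N[S]).relIndex C₁[y] := by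
    refine Nat.eq_of_mul_eq_mul_left (card_pos' (C₁[y] ⊓ N[S])) ?_
    rw [mul_left_comm, ← h1, h5, mul_left_comm, h4]
    norm_num
  have k1 : (orb N[S] y).ncard ≡ 1 [MOD 3] := by
    have := (h2.mul_right (orb N[S] y).ncard).symm.trans (h9 ▸ h3.mul_left 4048)
    rwa [one_mul] at this
  obtain ⟨n, hn, k2⟩ := (Nat.dvd_prime_pow (m := 10) Nat.prime_two).mp
    (((cop_of Nat.prime_three fun e => by unfold Nat.ModEq at k1; omega).pow_right
      3).dvd_of_dvd_mul_left ((Dvd.intro_left _ h1.symm).trans (h.normS hS)))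
  have k3 : 4 ∣ (orb N[S] y).ncard := by
    rw [k2] at k1 h8 ⊢
    unfold Nat.ModEq at k1
    interval_cases n <;> omega
  have k4 : ∀ a ∈ (Set.toFinite (orb N[S] y \ {y, y⁻¹})).toFinset, ∀ v ∈ orb (C₁[y] ⊓ N[S]) a,
      v ∈ (Set.toFinite (orb N[S] y \ {y, y⁻¹})).toFinset := by
    simp only [Set.Finite.mem_toFinset]
    rintro a ⟨a1, a2⟩ v hv
    refine ⟨orb_trans a1 (orb_mono inf_le_right _ hv), fun e => a2 ?_⟩
    obtain ⟨g, hg, rfl⟩ := orb_symm hv
    have := mul_inv_eq_iff_eq_mul.mpr (mem_cent1_iff.mp hg.1)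
    rcases e with rfl | rfl
    · exact Or.inl this
    · exact Or.inr (conj_inv.symm.trans (congrArg _ this))
  obtain ⟨Y, y1, y2, y3⟩ := exists_tr _ _ k4
  have k5 := card_tr (fun a ha => k4 a (y1 a ha)) y2 y3
  rw [← Set.ncard_eq_toFinset_card, Set.ncard_sdiff h7, Set.ncard_pair (ne_inv_three oy)] at k5
  obtain ⟨u, hu, k6⟩ : ∃ u ∈ Y, ¬ 4 ∣ (orb (C₁[y] ⊓ N[S]) u).ncard := by
    by_contra e
    push Not at e
    have := Finset.dvd_sum e
    omega
  obtain ⟨u1, u2⟩ := (Set.Finite.mem_toFinset _).mp (y1 u hu)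
  have uS : u ∈ S := by
    obtain ⟨g, hg, rfl⟩ := u1
    exact conj_mem_of_norm hg yS
  have ou := (orb_order u1).trans oy
  refine ⟨u, mem_X3.mpr ⟨k uS, ou, fun e => ?_⟩, uS, ?_⟩
  · rcases mem_zpowers_three (of_o3 oy).2 e with e | e | e
    exacts [(of_o3 ou).1 e, u2 (Or.inl e), u2 (Or.inr e)]
  have k7 := card_orb (C₁[y] ⊓ N[S]) u
  obtain ⟨m, hm⟩ := hS ▸ card_dvd_of_le (le_inf (ab.trans (cent_le_cent1 uS))
    (le_inf k (le_norm_self S)))
  have k8 := (card_dvd_of_le (inf_le_right (a := C₁[y]))).trans (h.normS hS)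
  rw [k7, hm, mul_assoc] at k8
  obtain ⟨n, hn, k9⟩ := (Nat.dvd_prime_pow (m := 10) Nat.prime_two).mp
    ((Dvd.intro_left _ rfl).trans (Nat.dvd_of_mul_dvd_mul_left (by norm_num) k8))
  rw [k9] at k6 k7
  rw [k7, mul_comm]
  refine Nat.mul_le_mul_right _ ?_
  interval_cases n <;> omega

theorem ab_two (hu : u ∈ X3 y) (uS : u ∈ S) :
    Nat.card ↥(C₁[u] ⊓ (C₁[y] ⊓ N[S])) ≤ Nat.card C[S] * 2 := by
  have pS : IsPGroup 3 S := .of_card (n := 3) hS
  have hP := card_pair hu oy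
  have PS : zpowers y ⊔ zpowers u ≤ S := sup_le (zpowers_le.mpr yS) (zpowers_le.mpr uS)
  obtain ⟨s, hs, sP⟩ := ex27 hS hP
  set L := C₁[u] ⊓ (C₁[y] ⊓ N[S])
  have LP : L ≤ C[zpowers y ⊔ zpowers u] := cent_pair u y ▸ inf_le_inf_left _ inf_le_left
  set P := zpowers y ⊔ zpowers u
  have s3 := h.cube pS hs
  have h1 : ∀ l ∈ L, s⁻¹ * (l * s * l⁻¹) ∈ P → l * s * l⁻¹ = s := fun l hl e => by
    refine mul_inv_eq_iff_eq_mul.mpr (mem_cent1_iff.mp (mem_of_pows (m := 3)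
      (n := (C[S]).relIndex N[S]) ?_ ?_
      (cent_le_cent1 hs (pow_relIndex_mem_of_norm (norm_le_norm_cent S) hl.2.2))))
    · obtain ⟨m, hm⟩ := hS ▸ card_dvd_of_le ab
      have := h.normS hS
      rw [← relIndex_mul_card (cent_le_norm S), hm, mul_left_comm] at this
      exact Nat.Coprime.coprime_dvd_right ((Dvd.intro _ rfl).trans
        (Nat.dvd_of_mul_dvd_mul_left (by norm_num) this)) (by norm_num)
    · obtain ⟨p, hp, e⟩ : ∃ p ∈ P, l * s * l⁻¹ = s * p := ⟨_, e, by group⟩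
      have k := conj_eq_of_mem_cent (LP hl) hp
      have k' : ∀ n : ℕ, l ^ n * s * (l ^ n)⁻¹ = s * p ^ n := fun n => by
        induction n with
        | zero => simp
        | succ n ih => rw [pow_succ', ← conj_conj, ih, ← conj_mul, e, ← conj_pow, k, pow_succ',
            mul_assoc]
      rw [mem_cent1_iff, ← mul_inv_eq_iff_eq_mul, k', h.cube pS (PS hp), mul_one]
  have h2 : ∀ l ∈ L, l * s * l⁻¹ = s ∨ s * (l * s * l⁻¹) ∈ P := fun l hl => by
    rcases coset3 hS hP PS hs sP s3 (conj_mem_of_norm hl.2.2 hs) with e | e | e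
    exacts [absurd (mem_of_conj_mem_of_norm (cent_le_norm P (LP hl)) e) sP, Or.inl (h1 l hl e),
      Or.inr e]
  have h3 : C₁[s] ⊓ L ≤ C[S] := by
    conv_rhs => rw [← sup27 hS hP PS hs sP]
    exact le_cent_sup (inf_le_right.trans LP) (cent_zpowers s ▸ inf_le_left)
  obtain ⟨r, hr⟩ : ∃ r, ∀ l ∈ L, l * s * l⁻¹ ∈ ({s, r} : Set G) := by
    by_cases e : ∃ l ∈ L, s * (l * s * l⁻¹) ∈ P
    · obtain ⟨k, hk, e⟩ := e
      refine ⟨k * s * k⁻¹, fun l hl => (h2 l hl).imp id fun e' => ?_⟩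
      have := h1 (k⁻¹ * l) (mul_mem (inv_mem hk) hl) (by
        have := conj_mem_of_norm' (cent_le_norm P (LP hk)) (mul_mem (inv_mem e) e')
        convert this using 1
        group)
      rw [Set.mem_singleton_iff]
      calc l * s * l⁻¹ = k * (k⁻¹ * l * s * (k⁻¹ * l)⁻¹) * k⁻¹ := by group
        _ = _ := by rw [this]
    · exact ⟨s, fun l hl => Or.inl ((h2 l hl).resolve_right fun k => e ⟨l, hl, k⟩)⟩
  exact (card_le_cent_mul L s hr).trans
    (Nat.mul_le_mul (card_le_of_le' h3) (Set.ncard_insert_le _ _ |>.trans (by simp)))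

theorem ab_false (hs : orderOf s = 7) (hy : y ∈ C₁[s]) : False := by
  classical
  have k := ab.trans (cent_le_cent1 yS)
  have hM : Nat.card C₁[y] = 60480 := by
    have := hS ▸ card_dvd_of_le k
    rcases h.cY hs hy oy with e | e | e | e <;> omega
  obtain ⟨t, ht, ot⟩ := h.ex72 hs
  obtain ⟨u, hu, uS, h1⟩ := h.ab_orb hS ab yS oy hM (h.inv73 hs hy oy ht ot)
  have h2 := h.ab_two hS ab yS oy hu uS
  have h3 : ((X3 y).filter (· ∈ S)).card = 24 := by
    rw [← Set.ncard_coe_finset, show (((X3 y).filter (· ∈ S) : Finset G) : Set G) =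
      (S : Set G) \ zpowers y from Set.ext fun v => by
        simp only [Finset.coe_filter, mem_X3]
        exact ⟨fun e => ⟨e.2, e.1.2.2⟩, fun e =>
          ⟨⟨k e.1, h.oP (.of_card (n := 3) hS) e.1 (ne_one_of e.2), e.2⟩, e.1⟩⟩,
      Set.ncard_sdiff (zpowers_le.mpr yS), ← Nat.card_coe_set_eq, ← Nat.card_coe_set_eq]
    exact congrArg₂ (· - ·) hS ((Nat.card_zpowers y).trans oy)
  obtain ⟨Y, y1, y2, y3⟩ := exists_tr (C₁[y] ⊓ N[S]) ((X3 y).filter (· ∈ S)) fun a ha v hv => by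
    obtain ⟨a1, a2⟩ := Finset.mem_filter.mp ha
    refine Finset.mem_filter.mpr ⟨X3_orb a1 (orb_mono inf_le_left _ hv), ?_⟩
    obtain ⟨g, hg, rfl⟩ := hv
    exact conj_mem_of_norm hg.2 a2
  have h4 := sum_le' (CF.one _) y3
  have h5 := (sum_ge (CF.one C₁[y]) (fun a ha v hv => X3_orb (Finset.mem_filter.mp (y1 a ha)).1 hv)
    fun a ha b hb e => y2 a ha b hb (by
      obtain ⟨g, hg, rfl⟩ := e
      exact h.fuseS hS ab k hg (Finset.mem_filter.mp (y1 a ha)).2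
        (Finset.mem_filter.mp (y1 _ hb)).2)).trans (h.ab_sum hs hy oy hM)
  have hu' : u ∈ (X3 y).filter (· ∈ S) := Finset.mem_filter.mpr ⟨hu, uS⟩
  have h6 := Finset.card_nsmul_le_sum (((X3 y).filter (· ∈ S)).erase u)
    (fun v => 1 * Nat.card ↥(C₁[v] ⊓ (C₁[y] ⊓ N[S]))) (Nat.card C[S]) fun v hv => by
      rw [one_mul]
      exact card_le_of_le' (le_inf (cent_le_cent1 (Finset.mem_filter.mp
        (Finset.mem_of_mem_erase hv)).2) (le_inf (cent_le_cent1 yS) (cent_le_norm S)))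
  rw [← Finset.add_sum_erase _ _ hu'] at h4
  rw [Finset.card_erase_of_mem hu', h3, smul_eq_mul] at h6
  rw [hM] at h5
  have := Nat.mul_le_mul_left (Nat.card ↥(C₁[y] ⊓ N[S])) (show ∑ _a ∈ Y, 1 ≤ 6 by omega)
  have := card_pos' C[S]
  omega

omit hS ab yS oy in
theorem ex7 : ∃ s : G, orderOf s = 7 := mo_pos_iff.mp (by rw [h.m7]; norm_num)

omit hS ab yS oy in
theorem NA (hP : Nat.card P = 9) : ¬ 27 ∣ Nat.card C[P] := fun e => by
  obtain ⟨S, s1, s2, s3⟩ := exists_between (n := 2) (m := 3) Nat.prime_three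
    (le_cent_of_abel (abel_of_card_sq (p := 3) hP)) hP (by norm_num) e
  have ab := ab27 s3 hP s1 s2
  obtain ⟨s, hs⟩ := h.ex7
  obtain ⟨y, hy, oy⟩ := h.ex73 hs
  obtain ⟨c, -, hc⟩ := h.conj_syl s3 le_top (R := zpowers y)
    (.of_card (n := 1) (by rw [Nat.card_zpowers, oy]; rfl)) le_top
  exact h.ab_false s3 ab (hc (conj_mem_conj_smul.mpr (mem_zpowers y)))
    ((orderOf_conj' c y).trans oy) ((orderOf_conj' c s).trans hs)
    (by rwa [← conj_smul_cent1, conj_mem_conj_smul])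

end H24

end Cfsg.Agent.Ma
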