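import Cfsg.Agent.H9.M24c

/-! The classes of elements of order three. -/

set_option autoImplicit false

namespace Cfsg.Agent.Ma

open Subgroup Cfsg.Agent.H7 Cfsg.Agent.H4 Cfsg.Agent.Fx4 Cfsg.Agent.H4.Nse
open Cfsg.Agent.H3 hiding orderOf_conj'
open MulAut (conj)
open scoped Pointwise

universe u
variable {G : Type u} [Group G] [Finite G] {L P T K H R V M S : Subgroup G}
  {x y z g p s t v w q a b c u l : G} {X Y : Finset G} {φ : G → ℕ}

/-- The weight of an element. -/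
noncomputable def wt (u : G) : ℕ := 27 * Rg C₁[u] / Nat.card C₁[u]

theorem wt_cf : CF (⊤ : Subgroup G) wt := by
  rintro a _ ⟨g, -, rfl⟩
  simp only [wt]
  rw [card_centralizer_conj, ← conj_smul_cent1, Rg_conj]

omit [Finite G] in
theorem wt_inv (u : G) : wt u⁻¹ = wt u := by rw [wt, wt, cent1_inv]

/-- Elements centralizing `z`, and `y` modulo `z`. -/
def K0 (z y : G) : Subgroup G where
  carrier := {g | g ∈ C₁[z] ∧ g * y * g⁻¹ * y⁻¹ ∈ zpowers z}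
  one_mem' := ⟨one_mem _, by simp⟩
  mul_mem' := fun {a b} ha hb => ⟨mul_mem ha.1 hb.1, by
    convert mul_mem (conj_mem_of_norm (le_norm_zpowers le_rfl ha.1) hb.2) ha.2 using 1
    group⟩
  inv_mem' := fun {a} ha => ⟨inv_mem ha.1, by
    convert conj_mem_of_norm' (le_norm_zpowers le_rfl ha.1) (inv_mem ha.2) using 1
    group⟩

theorem mem_pair (ha : a ∈ X3 u) (hp : p ∈ zpowers u ⊔ zpowers a) :
    ∃ i ∈ zpowers u, ∃ j ∈ zpowers a, i * j = p :=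
  (mem_sup_of_norm (zpowers_le.mpr (le_norm_zpowers le_rfl (mem_X3.mp ha).1))).mp hp

theorem pair_le (ha : a ∈ X3 u) : zpowers u ⊔ zpowers a ≤ C₁[u] :=
  sup_le (zpowers_le.mpr (mem_cent1_self u)) (zpowers_le.mpr (mem_X3.mp ha).1)

theorem card_E3 : (E3 (⊤ : Subgroup G)).card = mo G 3 := by
  rw [E3, ← Set.ncard_eq_toFinset_card, mo, ← Nat.card_coe_set_eq]
  simp only [mem_top, true_and]
  rfl

theorem E3_orb (ha : a ∈ E3 (⊤ : Subgroup G)) (v : G) (hv : v ∈ orb ⊤ a) :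
    v ∈ E3 (⊤ : Subgroup G) := mem_E3.mpr ⟨mem_top v, (orb_order hv).trans (mem_E3.mp ha).2⟩

omit [Finite G] in
theorem orb_top (h : b ∈ orb M a) : b ∈ orb ⊤ a := orb_mono le_top a h

namespace H24

variable (h : H24 G)
include h

theorem mem9 (hP : Nat.card P = 9) (hw : w ∈ C[P]) (w3 : w ^ 3 = 1) : w ∈ P := by
  by_contra k
  have ow := o3 (ne_one_of k) w3
  refine h.NA hP (dvd_trans (dvd_of_eq ?_) (card_dvd_of_le (sup_le
    (le_cent_of_abel (abel_of_card_sq (p := 3) hP)) (zpowers_le.mpr hw))))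
  rw [card_sup_of_inf_eq_bot (zpowers_le.mpr (cent_le_norm P hw)), hP, Nat.card_zpowers, ow]
  rw [inf_comm]
  exact (inf_eq_bot_or_le_of_card_prime _ (by rw [Nat.card_zpowers, ow]; norm_num)).resolve_right
    fun e => k (e (mem_zpowers w))

theorem R_nine (hP : Nat.card P = 9) : 9 * Rg C[P] = Nat.card C[P] := by
  have ab := le_cent_of_abel (abel_of_card_sq (p := 3) hP)
  have h1 : ∀ v, v ∈ E3 C[P] ↔ v ∈ (P : Set G) \ {1} := fun v => by
    rw [mem_E3]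
    exact ⟨fun e => ⟨h.mem9 hP e.1 (of_o3 e.2).2, (of_o3 e.2).1⟩,
      fun e => ⟨ab e.1, h.oP (.of_card (n := 2) hP) e.1 e.2⟩⟩
  have h2 := h.card_sum C[P]
  rw [Finset.sum_congr rfl (g := fun _ => Rg C[P]) fun v hv => by
    rw [inf_eq_right.mpr (cent_le_cent1 ((h1 v).mp hv).1)], Finset.sum_const,
    ← Set.ncard_coe_finset, show (E3 C[P] : Set G) = _ from Set.ext h1, ncard_sdiff_one, hP,
    smul_eq_mul] at h2
  omega

theorem wt_spec (u : G) : wt u * Nat.card C₁[u] = 27 * Rg C₁[u] := Nat.div_mul_cancel (h.dvdR _)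

theorem wt_pos (u : G) : 0 < wt u := by
  have h1 := h.wt_spec u
  have := Rg_pos C₁[u]
  by_contra e
  rw [show wt u = 0 by omega] at h1
  omega

theorem wt3 (hu : ¬ 27 ∣ Nat.card C₁[u]) : 3 ∣ wt u := by
  by_contra e
  exact hu (((cop_of Nat.prime_three e).pow_right 3).symm.dvd_of_dvd_mul_left
    (h.wt_spec u ▸ Dvd.intro _ rfl))

theorem q_sum (ou : orderOf u = 3) : Nat.card C₁[u] * wt u +
    ∑ v ∈ X3 u, 1 * Nat.card ↥(C₁[v] ⊓ C₁[u]) = Nat.card C₁[u] * 9 := by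
  have h1 := h.cent_sum ou
  rw [Finset.sum_congr rfl (g := fun v => 9 * Rg (C₁[v] ⊓ C₁[u])) fun v hv => by
    rw [one_mul, ← cent_pair, h.R_nine (card_pair hv ou)], ← Finset.mul_sum, mul_comm, h.wt_spec]
  omega

theorem wt_le (ou : orderOf u = 3) (hY : ∀ a ∈ Y, a ∈ X3 u)
    (pw : ∀ a ∈ Y, ∀ b ∈ Y, b ∈ orb C₁[u] a → a = b) : wt u + Y.card ≤ 9 := by
  have h1 := sum_ge (CF.one C₁[u]) (fun a ha v hv => X3_orb (hY a ha) hv) pw
  rw [← Finset.card_eq_sum_ones] at h1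
  refine Nat.le_of_mul_le_mul_left ?_ (card_pos' C₁[u])
  rw [← h.q_sum ou, mul_add]
  omega

theorem wt_ge (ou : orderOf u = 3) (cov : ∀ v ∈ X3 u, ∃ a ∈ Y, v ∈ orb C₁[u] a) :
    9 ≤ wt u + Y.card := by
  have h1 := sum_le' (CF.one C₁[u]) cov
  rw [← Finset.card_eq_sum_ones] at h1
  refine Nat.le_of_mul_le_mul_left ?_ (card_pos' C₁[u])
  rw [← h.q_sum ou, mul_add]
  omega

theorem total' : ∑ u ∈ E3 (⊤ : Subgroup G), wt u * Nat.card ↥(C₁[u] ⊓ ⊤) =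
    Nat.card (⊤ : Subgroup G) * 13 := by
  simp only [inf_top_eq, h.wt_spec, h.total, card_top, h.card]

theorem tot_le (hY : ∀ a ∈ Y, orderOf a = 3) (pw : ∀ a ∈ Y, ∀ b ∈ Y, b ∈ orb ⊤ a → a = b) :
    ∑ a ∈ Y, wt a ≤ 13 :=
  Nat.le_of_mul_le_mul_left (h.total' ▸ sum_ge wt_cf
    (fun a ha => E3_orb (mem_E3.mpr ⟨mem_top a, hY a ha⟩)) pw) (card_pos' _)

theorem tot_ge (cov : ∀ v ∈ E3 (⊤ : Subgroup G), ∃ a ∈ Y, v ∈ orb ⊤ a) : 13 ≤ ∑ a ∈ Y, wt a :=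
  Nat.le_of_mul_le_mul_left (h.total' ▸ sum_le' wt_cf cov) (card_pos' _)

theorem L1 (oa : orderOf a = 3) (ha : 27 ∣ Nat.card C₁[a]) (hb : b ∈ X3 a) :
    ∃ S : Subgroup G, Nat.card S = 27 ∧ S ≤ C₁[a] ∧ zpowers a ⊔ zpowers b ≤ S ∧
      ∃ s ∈ S, s * b * s⁻¹ = a * b := by
  have hP := card_pair hb oa
  obtain ⟨S, s1, s2, s3⟩ := exists_between (n := 2) (m := 3) Nat.prime_three (pair_le hb) hP
    (by norm_num) ha
  refine ⟨S, s3, s2, s1, ?_⟩
  obtain ⟨s, hs, sb⟩ : ∃ s ∈ S, s ∉ C₁[b] := by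
    by_contra k
    push Not at k
    exact h.NA hP (cent_pair b a ▸ (s3 ▸ card_dvd_of_le (le_inf k s2) :))
  have c3 := h.cube (.of_card (n := 3) s3) hs
  have sa := mul_inv_eq_iff_eq_mul.mpr (mem_cent1_iff.mp (s2 hs))
  obtain ⟨b1, ob, b3⟩ := mem_X3.mp hb
  obtain ⟨i, hi, j, hj, e⟩ := mem_pair hb (conj_mem_of_norm (norm27 s3 hP s1 hs)
    (mem_sup_right (mem_zpowers b)))
  have si := conj_eq_of_mem_cent (cent_zpowers a ▸ s2 hs) hi
  have ib := comm_of_mem_cent (cent_zpowers a ▸ b1) hi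
  rcases mem_zpowers_three (of_o3 ob).2 hj with rfl | rfl | rfl
  · rw [mul_one] at e
    exact absurd (mem_of_conj_mem_of_norm (le_norm_zpowers le_rfl (s2 hs)) (e ▸ hi)) b3
  · rcases mem_zpowers_three (of_o3 oa).2 hi with rfl | rfl | rfl
    · exact absurd (mem_cent1_iff.mpr (mul_inv_eq_iff_eq_mul.mp (e.symm.trans (one_mul _)))) sb
    · exact ⟨s, hs, e.symm⟩
    · refine ⟨s * s, mul_mem hs hs, ?_⟩
      rw [← conj_conj, ← e, ← conj_mul, si, ← e, ← mul_assoc, ← mul_inv_rev, sq_three (of_o3 oa).2,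
        inv_inv]
  · refine absurd (mem_cent1_iff.mpr (comm_of_sq c3 (mul_inv_eq_iff_eq_mul.mp ?_))) sb
    rw [← conj_conj, ← e, ← conj_mul, si, ← conj_inv, ← e, mul_inv_rev, inv_inv, ← mul_assoc, ib,
      mul_inv_cancel_right]

theorem L1' (oa : orderOf a = 3) (ha : 27 ∣ Nat.card C₁[a]) (hb : b ∈ X3 a) (hp : p ∈ zpowers a) :
    p * b ∈ orb C₁[a] b := by
  obtain ⟨S, -, s2, -, s, hs, e⟩ := h.L1 oa ha hb
  rcases mem_zpowers_three (of_o3 oa).2 hp with rfl | rfl | rfl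
  · rw [one_mul]; exact mem_orb_self _ _
  · exact ⟨s, s2 hs, e⟩
  · refine ⟨s * s, mul_mem (s2 hs) (s2 hs), ?_⟩
    simp only
    rw [← conj_conj, e, ← conj_mul, e, mul_inv_eq_iff_eq_mul.mpr (mem_cent1_iff.mp (s2 hs)),
      ← mul_assoc, sq_three (of_o3 oa).2]

theorem T27 (oa : orderOf a = 3) (ha : 27 ∣ Nat.card C₁[a]) (ob : orderOf b = 3)
    (hb : 27 ∣ Nat.card C₁[b]) : b ∈ orb ⊤ a ∨ b ∈ orb ⊤ a⁻¹ := by
  have k : ∀ a : G, orderOf a = 3 → 27 ∣ Nat.card C₁[a] →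
      ∃ R, zpowers a ≤ R ∧ R ≤ C₁[a] ∧ Nat.card R = 3 ^ 3 := fun a oa ha =>
    exists_between (n := 1) Nat.prime_three (zpowers_le.mpr (mem_cent1_self a))
      (by rw [Nat.card_zpowers, oa]; rfl) (by norm_num) ha
  obtain ⟨S, s1, s2, s3⟩ := k a oa ha
  obtain ⟨R, r1, r2, r3⟩ := k b ob hb
  obtain ⟨c, -, hc⟩ := h.conj_syl s3 le_top (.of_card r3) le_top
  have h1 : conj c • R = S := eq_of_le_of_card_eq hc (by rw [card_conj_smul, r3, s3])
  have h2 := conj_smul_mono c r2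
  rw [h1, conj_smul_cent1] at h2
  have oc := (orderOf_conj' c b).trans ob
  have h3 : c * b * c⁻¹ ∈ zpowers a := by
    by_contra e
    have : c * b * c⁻¹ ∈ X3 a :=
      mem_X3.mpr ⟨s2 (hc (conj_mem_conj_smul.mpr (r1 (mem_zpowers b)))), oc, e⟩
    exact h.NA (card_pair this oa) (cent_pair _ a ▸ (s3 ▸ card_dvd_of_le (le_inf h2 s2) :))
  rcases mem_zpowers_three (of_o3 oa).2 h3 with e | e | e
  exacts [absurd e (of_o3 oc).1, Or.inl (orb_symm ⟨c, mem_top c, e⟩),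
    Or.inr (orb_symm ⟨c, mem_top c, e⟩)]

omit h in
theorem in_P (ou : orderOf u = 3) (hu : ¬ 27 ∣ Nat.card C₁[u]) (ha : a ∈ X3 u) (hv : v ∈ X3 u) :
    ∃ c ∈ C₁[u], c * v * c⁻¹ ∈ zpowers u ⊔ zpowers a := by
  obtain ⟨c, hc, e⟩ := exists_conj_le (p := 3) (T := zpowers u ⊔ zpowers a)
    (zpowers_le.mpr (mem_X3.mp hv).1)
    (.of_card (n := 1) (by rw [Nat.card_zpowers, (mem_X3.mp hv).2.1]; rfl)) fun e => hu (by
      rw [← relIndex_mul_card (pair_le ha), card_pair ha ou]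
      exact mul_dvd_mul_right e 9)
  exact ⟨c, hc, e v (mem_zpowers v)⟩

theorem ex_center (hP : Nat.card P = 9) : ∃ z ∈ P, orderOf z = 3 ∧ 27 ∣ Nat.card C₁[z] := by
  obtain ⟨S, s1, -, s3⟩ := exists_between (n := 2) (m := 3) Nat.prime_three le_top hP (by norm_num)
    (by rw [card_top, h.card]; norm_num)
  obtain ⟨z, -, h1, h2⟩ := exists_mem_center_pgroup (p := 3) (.of_card s3)
    ⟨le_rfl, le_norm_self S⟩ (fun e => by simp [e] at s3)
  exact ⟨z, h.mem9 hP (cent_anti s1 h1) (of_o3 h2).2, h2,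
    (s3 ▸ card_dvd_of_le (le_cent1_iff.mpr h1) :)⟩

theorem ex_X3 (ou : orderOf u = 3) (hu : ¬ 27 ∣ Nat.card C₁[u]) :
    ∃ a ∈ X3 u, 27 ∣ Nat.card C₁[a] := by
  obtain ⟨P, p1, p2, p3⟩ := exists_between (n := 1) (m := 2) Nat.prime_three
    (zpowers_le.mpr (mem_cent1_self u)) (by rw [Nat.card_zpowers, ou]; rfl) (by norm_num)
    (nine_dvd (by rw [h.card]; norm_num) ou)
  obtain ⟨z, h1, h2, h3⟩ := h.ex_center p3
  refine ⟨z, mem_X3.mpr ⟨p2 h1, h2, fun e => hu ?_⟩, h3⟩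
  rwa [← cent_zpowers, zpowers_eq_of_mem e (h2.trans ou.symm), cent_zpowers] at h3

theorem uniq27 (ou : orderOf u = 3) (hu : ¬ 27 ∣ Nat.card C₁[u]) (ha : a ∈ X3 u)
    (h1 : 27 ∣ Nat.card C₁[a]) (ob : orderOf b = 3) (h2 : 27 ∣ Nat.card C₁[b])
    (hb : b ∈ zpowers u ⊔ zpowers a) : b = a ∨ b = a⁻¹ := by
  have oa := (mem_X3.mp ha).2.1
  have k := X3_symm ha ou
  obtain ⟨i, hi, j, hj, rfl⟩ := mem_pair k (sup_comm (zpowers u) _ ▸ hb)
  rcases mem_zpowers_three (of_o3 ou).2 hj with rfl | rfl | rfl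
  · rw [mul_one] at ob ⊢
    exact (mem_zpowers_three (of_o3 oa).2 hi).resolve_left (of_o3 ob).1
  · exact absurd (orb_card' (h.L1' oa h1 k hi) ▸ h2) hu
  · exact absurd (cent1_inv u ▸ orb_card' (h.L1' oa h1 (X3_inv' k) hi) ▸ h2) hu

theorem align (oy : orderOf y = 3) (hy : ¬ 27 ∣ Nat.card C₁[y]) (hz : z ∈ X3 y)
    (h1 : 27 ∣ Nat.card C₁[z]) (hv : v ∈ X3 z) (e : v ∈ orb ⊤ y) :
    ∃ k, k * y * k⁻¹ = v ∧ (k * z * k⁻¹ = z ∨ k * z * k⁻¹ = z⁻¹) := by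
  have oz := (mem_X3.mp hz).2.1
  have ov := (mem_X3.mp hv).2.1
  have h2 := orb_card' e ▸ hy
  obtain ⟨g, -, rfl⟩ := e
  obtain ⟨c, hc, k⟩ := in_P ov h2 (X3_symm hv oz) (X3_conj hz g)
  rw [conj_conj] at k
  refine ⟨c * g, ?_, h.uniq27 ov h2 (X3_symm hv oz) h1 ((orderOf_conj' _ z).trans oz)
    (by rwa [card_centralizer_conj]) k⟩
  rw [← conj_conj, mem_cent1_iff.mp hc, mul_inv_cancel_right]

theorem y_nine (hs : orderOf s = 7) (hy : y ∈ C₁[s]) (oy : orderOf y = 3) :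
    ¬ 27 ∣ Nat.card C₁[y] := fun e => by
  classical
  have hM : Nat.card C₁[y] = 60480 := by rcases h.cY hs hy oy with e | e | e | e <;> omega
  obtain ⟨t, ht, ot⟩ := h.ex72 hs
  have k : ∀ a ∈ (E3 ⊤).filter (· ∉ orb ⊤ y), ∀ v ∈ orb ⊤ a, v ∈ (E3 ⊤).filter (· ∉ orb ⊤ y) :=
    fun a ha v hv => Finset.mem_filter.mpr ⟨E3_orb (Finset.mem_filter.mp ha).1 v hv,
      fun e => (Finset.mem_filter.mp ha).2 (orb_trans e (orb_symm hv))⟩
  obtain ⟨Y, y1, y2, y3⟩ := exists_tr _ _ k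
  have h1 := card_tr (fun a ha => k a (y1 a ha)) y2 y3
  have h2 : 3 ∣ ∑ a ∈ Y, (orb ⊤ a).ncard := Finset.dvd_sum fun a ha => by
    obtain ⟨a1, a2⟩ := Finset.mem_filter.mp (y1 a ha)
    by_contra k
    rw [ncard_top] at k
    rcases h.T27 oy e (mem_E3.mp a1).2 (((cop_of Nat.prime_three k).pow_right 3).symm.dvd_of_dvd_mul_left
      (by rw [h.idx]; norm_num)) with e | e
    exacts [a2 e, a2 (orb_trans ⟨t, mem_top t, h.inv73 hs hy oy ht ot⟩ e)]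
  have h3 := Finset.card_filter_add_card_filter_not (s := E3 (⊤ : Subgroup G)) (· ∈ orb ⊤ y)
  have h4 : ((E3 ⊤).filter (· ∈ orb ⊤ y)).card = (C₁[y]).index := by
    rw [← ncard_top, ← Set.ncard_coe_finset]
    congr 1
    ext v
    simp only [Finset.coe_filter, Set.mem_ofPred_eq, and_iff_right_iff_imp]
    exact E3_orb (mem_E3.mpr ⟨mem_top y, oy⟩) v
  have h5 := h.idx C₁[y]
  rw [card_E3, h.m3, h4, h1] at h3
  rw [hM] at h5
  omega

end H24

/-- The normalizer of an element of order seven. -/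
structure Z0 (s y t z : G) : Prop where
  os : orderOf s = 7
  ys : y ∈ C₁[s]
  oy : orderOf y = 3
  ts : t ∈ C₁[s]
  ot : orderOf t = 2
  zy : z ∈ X3 y
  zt : z ∈ C₁[t]
  zs : z ∈ N[zpowers s]
  z27 : 27 ∣ Nat.card C₁[z]

namespace H24

variable (h : H24 G)
include h

theorem exists_Z0 (hs : orderOf s = 7) (ht : t ∈ C₁[s]) (ot : orderOf t = 2) :
    ∃ y z, Z0 s y t z := by
  obtain ⟨y, hy, oy⟩ := h.ex73 hs
  obtain ⟨r, hr, or⟩ := exists_mem_orderOf Nat.prime_three (H := C₁[t] ⊓ N[zpowers s])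
    (by rw [h.n72 hs ht ot]; norm_num)
  have ty := h.inv73 hs hy oy ht ot
  have h9 := h.y_nine hs hy oy
  have ry : r ∈ X3 y := by
    refine mem_X3.mpr ⟨mem_cent1_iff.mpr (mul_inv_eq_iff_eq_mul.mp ((h.eq73 hs hy oy
      (conj_mem_of_norm (normN s hr.2) hy) ((orderOf_conj' r y).trans oy)).resolve_right
      fun e => (of_o3 oy).1 (eq_one_of_sq_cube (odd_inv (by norm_num) (of_o3 or).2 e)
        (of_o3 oy).2))), or, fun e => ne_inv_three oy ?_⟩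
    have := zpowers_eq_of_mem e (or.trans oy.symm) ▸ zpowers_le.mpr hr.1
    rw [← ty, ← mem_cent1_iff.mp (this (mem_zpowers y)), mul_inv_cancel_right]
  refine ⟨y, r, hs, hy, oy, ht, ot, ry, hr.1, hr.2, ?_⟩
  obtain ⟨a, ha, a27⟩ := h.ex_X3 oy h9
  obtain ⟨c, hc, e⟩ := in_P oy h9 ry ha
  have h1 := X3_orb ha (orb_conj hc a)
  rw [← card_centralizer_conj c] at a27
  obtain ⟨i, hi, j, hj, e'⟩ := mem_pair ry e
  rw [← e'] at h1 a27 e
  obtain ⟨-, oa, h2⟩ := mem_X3.mp h1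
  have ti : t * i * t⁻¹ = i⁻¹ := by
    obtain ⟨n, rfl⟩ := hi
    simp only
    rw [← conj_zpow, ty, inv_zpow]
  have tj : t * j * t⁻¹ = j := conj_eq_of_mem_cent (cent_zpowers r ▸ mem_cent1_comm.mp hr.1) hj
  have h3 : zpowers y ⊔ zpowers (i * j) = zpowers y ⊔ zpowers r :=
    eq_of_le_of_card_eq (sup_le le_sup_left (zpowers_le.mpr e))
      ((card_pair h1 oy).trans (card_pair ry oy).symm)
  have h4 := h.uniq27 oy h9 h1 a27 ((orderOf_conj' t _).trans oa) (by rwa [card_centralizer_conj])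
    (by rw [h3, ← conj_mul, ti, tj]; exact mul_mem (mem_sup_left (inv_mem hi)) (mem_sup_right hj))
  rw [← conj_mul, ti, tj] at h4
  have i3 : i ^ 3 = 1 := by
    rw [← oy, ← Nat.card_zpowers]; exact pow_card_eq_one_of_mem hi
  have j3 : j ^ 3 = 1 := by
    rw [← or, ← Nat.card_zpowers]; exact pow_card_eq_one_of_mem hj
  rcases h4 with k | k
  · rw [eq_one_of_sq_cube (mul_eq_one_iff_inv_eq.mpr (mul_right_cancel k)) i3, one_mul] at a27 oa
    rwa [← cent_zpowers, zpowers_eq_of_mem hj (oa.trans or.symm), cent_zpowers] at a27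
  · rw [comm_of_mem_cent (cent_zpowers y ▸ zpowers_le.mpr (mem_X3.mp ry).1 hj) hi, mul_inv_rev]
      at k
    rw [eq_one_of_sq_cube (mul_eq_one_iff_eq_inv.mpr (mul_left_cancel k)) j3, mul_one] at h2
    exact absurd hi h2

variable (r : Z0 s y t z)
include r

omit h in
theorem Zoz : orderOf z = 3 := (mem_X3.mp r.zy).2.1

omit h in
theorem Zyz : y ∈ X3 z := X3_symm r.zy r.oy

theorem Zy9 : ¬ 27 ∣ Nat.card C₁[y] := h.y_nine r.os r.ys r.oy

theorem Zty : t * y * t⁻¹ = y⁻¹ := h.inv73 r.os r.ys r.oy r.ts r.ot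

theorem wt_z : 5 ≤ wt z := by
  classical
  have oz := Zoz r
  have yz := Zyz r
  obtain ⟨S, s1, s2, s3, k, hk, e⟩ := h.L1 oz r.z27 yz
  have hP := card_pair yz oz
  have pS : IsPGroup 3 S := .of_card (n := 3) s1
  have tz := mem_cent1_comm.mp r.zt
  have kP : k ∉ zpowers z ⊔ zpowers y := fun k' => (of_o3 oz).1 (by
    rw [sup_comm] at k'
    rw [mem_cent1_iff.mp (pair_le r.zy k'), mul_inv_cancel_right] at e
    exact mul_eq_right.mp e.symm)
  have SK : S ≤ K0 z y := by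
    rw [← sup27 s1 hP s3 hk kP]
    refine sup_le (sup_le ?_ ?_) ?_ <;> rw [zpowers_le]
    · exact ⟨mem_cent1_self z, by rw [mem_cent1_iff.mp (mem_X3.mp r.zy).1]; simp⟩
    · exact ⟨(mem_X3.mp yz).1, by simp⟩
    · exact ⟨s2 hk, by rw [e]; simp⟩
  have A : ∀ v ∈ X3 z, v ∈ S → v * y * v⁻¹ = z * y →
      ∃ a ∈ ({y, k, k * y, k * y⁻¹} : Finset G), v ∈ orb C₁[z] a := fun v hv vS e' => by
    have h1 := mul_mem (inv_mem hk) vS
    obtain ⟨i, hi, j, hj, h2⟩ := mem_pair yz (h.mem9 hP (cent_pair y z ▸ ⟨mem_cent1_iff.mpr (by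
      rw [← mul_inv_eq_iff_eq_mul, ← conj_conj, e', ← e]; group), s2 h1⟩) (h.cube pS h1))
    have h3 : v = i * (k * j) := by
      rw [← mul_assoc, comm_of_mem_cent (cent_zpowers z ▸ s2 hk) hi, mul_assoc, h2,
        mul_inv_cancel_left]
    have h4 := X3_mul hv oz (inv_mem hi)
    rw [h3, inv_mul_cancel_left] at h4
    refine ⟨k * j, ?_, h3 ▸ h.L1' oz r.z27 h4 hi⟩
    rcases mem_zpowers_three (of_o3 r.oy).2 hj with rfl | rfl | rfl <;> simp
  have B : ∀ v ∈ X3 z, v ∈ S → ∃ a ∈ ({y, k, k * y, k * y⁻¹} : Finset G), v ∈ orb C₁[z] a :=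
    fun v hv vS => by
    rcases mem_zpowers_three (of_o3 oz).2 (SK vS).2 with e' | e' | e'
    · obtain ⟨i, hi, j, hj, rfl⟩ := mem_pair yz (h.mem9 hP (cent_pair y z ▸ ⟨mem_cent1_iff.mpr
        (mul_inv_eq_iff_eq_mul.mp (mul_inv_eq_one.mp e')), s2 vS⟩) (h.cube pS vS))
      refine ⟨y, by simp, ?_⟩
      rcases mem_zpowers_three (of_o3 r.oy).2 hj with rfl | rfl | rfl
      · exact absurd ((mul_one i).symm ▸ hi) (mem_X3.mp hv).2.2
      · exact h.L1' oz r.z27 yz hi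
      · exact orb_trans ⟨t, tz, h.Zty r⟩ (h.L1' oz r.z27 (X3_inv' yz) hi)
    · exact A v hv vS (mul_inv_eq_iff_eq_mul.mp e')
    · have h1 : t * v * t⁻¹ * y * (t * v * t⁻¹)⁻¹ = z * y := by
        have k1 := inv_inverts (h.Zty r)
        calc _ = t * (v * (t⁻¹ * y * t⁻¹⁻¹) * v⁻¹) * t⁻¹ := by group
          _ = _ := by
            rw [k1, ← conj_inv, mul_inv_eq_iff_eq_mul.mp e', mul_inv_rev, inv_inv, ← conj_mul,
              ← conj_inv, h.Zty r, inv_inv, mul_inv_eq_iff_eq_mul.mpr (mem_cent1_iff.mp tz),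
              mem_cent1_iff.mp (mem_X3.mp r.zy).1]
      have h2 := X3_orb hv (orb_conj tz v)
      obtain ⟨c, hc, h3⟩ := h.conj_syl s1 SK (R := zpowers (t * v * t⁻¹)) (.of_card (n := 1)
        (by rw [Nat.card_zpowers, (mem_X3.mp h2).2.1]; rfl))
        (zpowers_le.mpr ⟨(mem_X3.mp h2).1, by rw [h1]; simp⟩)
      obtain ⟨a, ha, h4⟩ := A _ (X3_orb h2 (orb_conj hc.1 _))
        (h3 (conj_mem_conj_smul.mpr (mem_zpowers _))) (by
          have k1 := (inv_mem hc).2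
          have k2 := conj_eq_of_mem_cent (cent_zpowers z ▸ (mem_X3.mp h2).1) k1
          have k3 := comm_of_mem_cent (cent_zpowers z ▸ mem_cent1_self z) k1
          calc _ = c * (t * v * t⁻¹ * (c⁻¹ * y * c⁻¹⁻¹ * y⁻¹) * (t * v * t⁻¹)⁻¹ *
                (t * v * t⁻¹ * y * (t * v * t⁻¹)⁻¹)) * c⁻¹ := by group
            _ = c * z * c⁻¹ * y := by rw [k2, h1, ← mul_assoc _ z, k3]; group
            _ = _ := by rw [mem_cent1_iff.mp hc.1, mul_inv_cancel_right])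
      exact ⟨a, ha, orb_trans h4 (orb_symm (orb_trans (orb_conj tz v) (orb_conj hc.1 _)))⟩
  have := h.wt_ge oz fun v hv => by
    obtain ⟨c, hc, h3⟩ := h.conj_syl s1 s2 (R := zpowers v) (.of_card (n := 1)
      (by rw [Nat.card_zpowers, (mem_X3.mp hv).2.1]; rfl)) (zpowers_le.mpr (mem_X3.mp hv).1)
    obtain ⟨a, ha, h4⟩ := B _ (X3_orb hv (orb_conj hc v))
      (h3 (conj_mem_conj_smul.mpr (mem_zpowers _)))
    exact ⟨a, ha, orb_trans h4 (orb_symm (orb_conj hc v))⟩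
  have := Finset.card_le_four (a := y) (b := k) (c := k * y) (d := k * y⁻¹)
  omega

end H24

end Cfsg.Agent.Ma
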