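import Cfsg.Agent.H9.M24d

/-! The two classes of elements of order three. -/

set_option autoImplicit false

namespace Cfsg.Agent.Ma

open Subgroup Cfsg.Agent.H7 Cfsg.Agent.H4 Cfsg.Agent.Fx4 Cfsg.Agent.H4.Nse
open Cfsg.Agent.H3 hiding orderOf_conj'
open MulAut (conj)
open scoped Pointwise

universe u
variable {G : Type u} [Group G] [Finite G] {L P T K H R V M S : Subgroup G}
  {x y z g p s t v w q a b c u l : G} {X Y : Finset G} {φ : G → ℕ}

omit [Finite G] in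
theorem pw2 [DecidableEq G] (h : b ∉ orb M a) :
    ∀ x ∈ ({a, b} : Finset G), ∀ y ∈ ({a, b} : Finset G), y ∈ orb M x → x = y := by
  simp only [Finset.mem_insert, Finset.mem_singleton]
  rintro x (rfl | rfl) y (rfl | rfl) e
  exacts [rfl, absurd e h, absurd (orb_symm e) h, rfl]

omit [Finite G] in
theorem pw_ins [DecidableEq G] (pw : ∀ x ∈ Y, ∀ y ∈ Y, y ∈ orb M x → x = y)
    (h : ∀ y ∈ Y, y ∉ orb M a) : a ∉ Y ∧
    ∀ x ∈ insert a Y, ∀ y ∈ insert a Y, y ∈ orb M x → x = y := by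
  refine ⟨fun e => h a e (mem_orb_self M a), ?_⟩
  simp only [Finset.mem_insert]
  rintro x (rfl | hx) y (rfl | hy) e
  exacts [rfl, absurd e (h y hy), absurd (orb_symm e) (h x hx), pw x hx y hy e]

omit [Finite G] in
theorem ne_of_orb (h : b ∉ orb M a) : a ≠ b := fun e => h (e ▸ mem_orb_self M a)

/-- Elements of order three of the first kind. -/
def TX (u : G) : Prop := orderOf u = 3 ∧ Nat.card C₁[u] = 1080

/-- Elements of order three of the second kind. -/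
def TY (u : G) : Prop := orderOf u = 3 ∧ Nat.card C₁[u] = 504

theorem TX.orb (h : TX a) (e : b ∈ orb M a) : TX b :=
  ⟨(orb_order e).trans h.1, (orb_card' e).trans h.2⟩

theorem TY.orb (h : TY a) (e : b ∈ orb M a) : TY b :=
  ⟨(orb_order e).trans h.1, (orb_card' e).trans h.2⟩

theorem TX.conj (h : TX a) (g : G) : TX (g * a * g⁻¹) := h.orb (orb_conj (mem_top g) a)

theorem TY.conj (h : TY a) (g : G) : TY (g * a * g⁻¹) := h.orb (orb_conj (mem_top g) a)

omit [Finite G] in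
theorem TX.inv (h : TX a) : TX a⁻¹ := ⟨(orderOf_inv a).trans h.1, (cent1_inv a).symm ▸ h.2⟩

omit [Finite G] in
theorem TY.inv (h : TY a) : TY a⁻¹ := ⟨(orderOf_inv a).trans h.1, (cent1_inv a).symm ▸ h.2⟩

omit [Finite G] in
theorem TX.not (h : TX a) (h' : TY a) : False := by have := h.2.symm.trans h'.2; omega

omit [Finite G] in
theorem TX.dvd (h : TX a) : 27 ∣ Nat.card C₁[a] := by rw [h.2]; norm_num

omit [Finite G] in
theorem TY.ndvd (h : TY a) : ¬ 27 ∣ Nat.card C₁[a] := by rw [h.2]; norm_num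

namespace H24

variable (h : H24 G)
include h

section

variable (r : Z0 s y t z)
include r

theorem Zny (hu : 27 ∣ Nat.card C₁[u]) : y ∉ orb M u := fun e => h.Zy9 r (orb_card' e ▸ hu)

theorem real_z : z⁻¹ ∈ orb ⊤ z := by
  classical
  by_contra k
  have oz := Zoz r
  have w5 := h.wt_z r
  have p2 := pw2 k
  have k1 := h.wt_ge oz (Y := {y}) fun v hv => by
    have ov := (mem_X3.mp hv).2.1
    have h1 : ¬ 27 ∣ Nat.card C₁[v] := fun e => by
      have a1 := orb_top (h.L1' oz r.z27 hv (mem_zpowers z))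
      have a2 := orb_top (h.L1' oz r.z27 (X3_inv' hv) (mem_zpowers z))
      have a3 := orb_top (h.L1' ov e (X3_symm hv oz) (mem_zpowers v))
      have a4 := orb_top (h.L1' ov e (X3_symm hv oz) (inv_mem (mem_zpowers v)))
      rw [mem_cent1_iff.mp (mem_X3.mp hv).1] at a3
      rw [mem_cent1_iff.mp (inv_mem (mem_X3.mp hv).1)] at a4
      have := orb_inv (orb_trans a4 (orb_symm a2))
      rw [inv_inv] at this
      exact k (orb_trans (orb_trans a3 (orb_symm a1)) (orb_symm this))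
    have h2 : v ∈ orb ⊤ y := by
      by_contra e
      obtain ⟨a1, a2⟩ := pw_ins (a := y) p2 (by
        simp only [Finset.mem_insert, Finset.mem_singleton]
        rintro _ (rfl | rfl) e
        exacts [h.Zny r r.z27 (orb_symm e), h.Zny r ((cent1_inv z).symm ▸ r.z27) (orb_symm e)])
      obtain ⟨a3, a4⟩ := pw_ins (a := v) a2 (by
        simp only [Finset.mem_insert, Finset.mem_singleton]
        rintro _ (rfl | rfl | rfl) e'
        exacts [e (orb_symm e'), h1 (orb_card' e' ▸ r.z27),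
          h1 (orb_card' e' ▸ (cent1_inv z).symm ▸ r.z27)])
      have := h.tot_le (by
        simp only [Finset.mem_insert, Finset.mem_singleton]
        rintro _ (rfl | rfl | rfl | rfl)
        exacts [ov, r.oy, oz, (orderOf_inv z).trans oz]) a4
      rw [Finset.sum_insert a3, Finset.sum_insert a1, Finset.sum_pair (ne_of_orb k), wt_inv] at this
      have := h.wt_pos v
      have := h.wt_pos y
      have := h.wt3 (h.Zy9 r)
      omega
    obtain ⟨g, g1, g2⟩ := h.align r.oy (h.Zy9 r) r.zy r.z27 hv h2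
    exact ⟨y, Finset.mem_singleton_self y, g, mem_cent1_iff.mpr (mul_inv_eq_iff_eq_mul.mp
      (g2.resolve_right fun e => k ⟨g, mem_top g, e⟩)), g1⟩
  have := h.tot_le (by
    simp only [Finset.mem_insert, Finset.mem_singleton]
    rintro _ (rfl | rfl)
    exacts [oz, (orderOf_inv z).trans oz]) p2
  rw [Finset.sum_pair (ne_of_orb k), wt_inv] at this
  rw [Finset.card_singleton] at k1
  omega

theorem Z27 (ou : orderOf u = 3) (hu : 27 ∣ Nat.card C₁[u]) : u ∈ orb ⊤ z :=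
  (h.T27 (Zoz r) r.z27 ou hu).elim id (orb_trans (h.real_z r))

theorem wt_z7 : wt z = 7 := by
  classical
  obtain ⟨Y, y1, y2, y3⟩ := exists_tr ⊤ (E3 (⊤ : Subgroup G)) fun a => E3_orb
  have h1 := le_antisymm (h.tot_le (fun a ha => (mem_E3.mp (y1 a ha)).2) y2) (h.tot_ge y3)
  obtain ⟨a, ha, e⟩ := y3 z (mem_E3.mpr ⟨mem_top z, Zoz r⟩)
  have h2 : 3 ∣ ∑ b ∈ Y.erase a, wt b := Finset.dvd_sum fun b hb => h.wt3 fun k =>
    (Finset.mem_erase.mp hb).1 (y2 a ha b (Finset.mem_erase.mp hb).2 (orb_trans e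
      (h.Z27 r (mem_E3.mp (y1 b (Finset.mem_erase.mp hb).2)).2 k))).symm
  rw [← Finset.add_sum_erase _ _ ha, ← wt_cf a z e] at h1
  have h3 := h.wt_le (Zoz r) (Y := {y}) (by simpa using Zyz r) (by simp)
  have := h.wt_z r
  rw [Finset.card_singleton] at h3
  omega

theorem Zthree (ha : a ∈ X3 z) (hb : b ∈ X3 z) (hc : c ∈ X3 z) (h1 : b ∉ orb C₁[z] a)
    (h2 : a ∉ orb C₁[z] c) : b ∈ orb C₁[z] c := by
  classical
  by_contra h3
  obtain ⟨a1, a2⟩ := pw_ins (a := c) (pw2 h1) (by simp [h2, h3])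
  have := h.wt_le (Zoz r) (by simp [ha, hb, hc]) a2
  rw [Finset.card_insert_of_notMem a1, Finset.card_pair (ne_of_orb h1), h.wt_z7 r] at this
  omega

theorem Zcls (ou : orderOf u = 3) : u ∈ orb ⊤ z ∨ u ∈ orb ⊤ y := by
  classical
  by_contra k
  rw [not_or] at k
  have oz := Zoz r
  have yz := Zyz r
  have h1 : ¬ 27 ∣ Nat.card C₁[u] := fun e => k.1 (h.Z27 r ou e)
  obtain ⟨a1, a2⟩ := pw_ins (a := u) (pw2 (h.Zny r r.z27 (M := ⊤))) (by
    simp only [Finset.mem_insert, Finset.mem_singleton]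
    rintro _ (rfl | rfl) e
    exacts [k.1 (orb_symm e), k.2 (orb_symm e)])
  have h2 := h.tot_le (by simp [ou, oz, r.oy]) a2
  rw [Finset.sum_insert a1, Finset.sum_pair (ne_of_orb (h.Zny r r.z27 (M := ⊤))), h.wt_z7 r] at h2
  obtain ⟨a, ha, a27⟩ := h.ex_X3 ou h1
  obtain ⟨g, -, hg⟩ := orb_symm (h.Z27 r (mem_X3.mp ha).2.1 a27)
  have h3 := X3_conj (X3_symm ha ou) g
  rw [show g * a * g⁻¹ = z from hg] at h3
  obtain ⟨n, -, hn⟩ := h.real_z r
  have h4 := X3_conj yz n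
  simp only at hn
  rw [hn, X3_inv] at h4
  obtain ⟨c, hc, e⟩ := h.Zthree r h3 yz h4 (fun e => k.2 (orb_symm (orb_trans
    (orb_conj (mem_top g) u) (orb_top e)))) fun e => k.2 (orb_trans (orb_trans
      (orb_conj (mem_top n) y) (orb_top e)) (orb_symm (orb_conj (mem_top g) u)))
  simp only at e
  have h5 : z⁻¹ ∈ orb C₁[y] z := ⟨c * n, mem_cent1_iff.mpr (mul_inv_eq_iff_eq_mul.mp
    ((conj_conj _ _ _).symm.trans e)), by
      simp only
      rw [← conj_conj, hn, ← conj_inv, mem_cent1_iff.mp hc, mul_inv_cancel_right]⟩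
  have h6 := h.wt_ge r.oy (Y := {z, y * z, y⁻¹ * z, y * z⁻¹, y⁻¹ * z⁻¹}) fun v hv => by
    obtain ⟨c, hc, e⟩ := in_P r.oy (h.Zy9 r) r.zy hv
    have k1 := orb_symm (orb_conj hc v)
    have k2 := (mem_X3.mp (X3_orb hv (orb_conj hc v))).2.2
    obtain ⟨i, hi, j, hj, e'⟩ := mem_pair r.zy e
    rw [← e'] at k1 k2
    rcases mem_zpowers_three (of_o3 oz).2 hj with e2 | e2 | e2 <;> rw [e2] at k1 k2
    · exact absurd ((mul_one i).symm ▸ hi) k2
    · rcases mem_zpowers_three (of_o3 r.oy).2 hi with e1 | e1 | e1 <;> rw [e1] at k1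
      exacts [⟨z, by simp, one_mul z ▸ k1⟩, ⟨_, by simp, k1⟩, ⟨_, by simp, k1⟩]
    · rcases mem_zpowers_three (of_o3 r.oy).2 hi with e1 | e1 | e1 <;> rw [e1] at k1
      exacts [⟨z, by simp, orb_trans h5 (one_mul z⁻¹ ▸ k1)⟩, ⟨_, by simp, k1⟩, ⟨_, by simp, k1⟩]
  have := Finset.card_le_five (a := z) (b := y * z) (c := y⁻¹ * z) (d := y * z⁻¹) (e := y⁻¹ * z⁻¹)
  have := h.wt_pos u
  have := h.wt3 h1
  omega

theorem ZT : TX z ∧ TY y := by
  classical
  have h1 := card_tr (X := E3 ⊤) (fun a ha => E3_orb (mem_E3.mpr ⟨mem_top a, by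
    rcases Finset.mem_insert.mp ha with rfl | e
    exacts [Zoz r, (Finset.mem_singleton.mp e).symm ▸ r.oy]⟩)) (pw2 (h.Zny r r.z27 (M := ⊤)))
    fun v hv => by simpa using h.Zcls r (mem_E3.mp hv).2
  rw [Finset.sum_pair (ne_of_orb (h.Zny r r.z27 (M := ⊤))), ncard_top, ncard_top, card_E3,
    h.m3] at h1
  have h2 := h.idx C₁[z]
  have h3 := h.idx C₁[y]
  have h4 := h.Zy9 r
  rw [show (C₁[z]).index = 712448 - (C₁[y]).index by omega] at h2
  rcases h.cY r.os r.ys r.oy with e | e | e | e <;> rw [e] at h3 h4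
  · rw [show (C₁[y]).index = 485760 by omega] at h2
    exact ⟨⟨Zoz r, by omega⟩, r.oy, e⟩
  · rw [show (C₁[y]).index = 60720 by omega] at h2
    omega
  · rw [show (C₁[y]).index = 7590 by omega] at h2
    omega
  · omega

theorem Zcent (hv : v ∈ X3 z) : Nat.card ↥(C₁[v] ⊓ C₁[z]) = 9 := by
  classical
  have oz := Zoz r
  have hz := (h.ZT r).1.2
  obtain ⟨Y, y1, y2, y3⟩ := exists_tr C₁[z] (X3 z) fun a ha v => X3_orb ha
  have h1 := h.wt_le oz y1 y2
  have h2 := h.wt_ge oz y3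
  rw [h.wt_z7 r] at h1 h2
  obtain ⟨a, b, ab, rfl⟩ := Finset.card_eq_two.mp (show Y.card = 2 by omega)
  have h3 := card_tr (fun a ha v => X3_orb (y1 a ha)) y2 y3
  rw [Finset.sum_pair ab] at h3
  have h4 : ∀ a ∈ X3 z, (orb C₁[z] a).ncard ∣ 120 ∧ 15 ≤ (orb C₁[z] a).ncard := fun a ha => by
    have k1 := card_orb C₁[z] a
    have hP := card_pair ha oz
    obtain ⟨m, hm⟩ := hP ▸ card_dvd_of_le (cent_pair a z ▸
      le_cent_of_abel (abel_of_card_sq (p := 3) hP))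
    have k2 : ¬ 5 ∣ m := fun e => by
      obtain ⟨f, hf, of⟩ := exists_mem_orderOf Nat.prime_five (hm ▸ Dvd.dvd.mul_left e 9)
      have := card_dvd_of_le (le_cent1_iff.mpr (cent_pair a z ▸ hf))
      rw [hP, h.cent5 of] at this
      omega
    have k3 : ¬ 3 ∣ m := fun e => h.NA hP (by rw [cent_pair, hm]; exact mul_dvd_mul_left 9 e)
    rw [hz, hm, mul_assoc] at k1
    have k4 : m * (orb C₁[z] a).ncard = 120 := by omega
    have k5 : m ∣ 8 := (cop_of Nat.prime_three k3).dvd_of_dvd_mul_right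
      ((cop_of Nat.prime_five k2).dvd_of_dvd_mul_right (Dvd.intro _ k4))
    have := Nat.mul_le_mul_right (orb C₁[z] a).ncard (Nat.le_of_dvd (by norm_num) k5)
    exact ⟨Dvd.intro_left _ k4, by omega⟩
  have h5 : 27 ∣ 3 + (X3 z).card := by
    refine (frobenius_dvd (G := C₁[z]) (d := 27) r.z27).trans (dvd_of_eq ?_)
    have k1 : Disjoint (zpowers z : Set G) (X3 z) :=
      Set.disjoint_left.mpr fun g h1 h2 => (mem_X3.mp h2).2.2 h1
    rw [← oz, ← Nat.card_zpowers, ← Set.ncard_coe_finset, show Nat.card (zpowers z) =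
      (zpowers z : Set G).ncard from rfl, ← Set.ncard_union_eq k1, ← Nat.card_coe_set_eq]
    refine Nat.card_congr ⟨fun g => ⟨g.1, ?_⟩, fun g => ⟨⟨g.1, ?_⟩, Subtype.ext ?_⟩,
      fun _ => rfl, fun _ => rfl⟩
    · by_cases e : g.1.1 ∈ zpowers z
      · exact Or.inl e
      · exact Or.inr (mem_X3.mpr ⟨g.1.2, h.oP (IsPElt.isPGroup_zpowers ⟨3, congrArg Subtype.val g.2⟩)
          (mem_zpowers _) (ne_one_of e), e⟩)
    · exact g.2.elim (fun e => zpowers_le.mpr (mem_cent1_self z) e) fun e => (mem_X3.mp e).1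
    · refine orderOf_dvd_iff_pow_eq_one.mp (dvd_trans ?_ (show 3 ∣ 27 by norm_num))
      rcases g.2 with e | e
      · exact (orderOf_dvd_card_of_mem e).trans ((Nat.card_zpowers z).trans oz).dvd
      · exact (mem_X3.mp e).2.1.dvd
  obtain ⟨a1, a2⟩ := h4 a (y1 a (by simp))
  obtain ⟨b1, b2⟩ := h4 b (y1 b (by simp))
  have h6 : ∀ m ∈ Nat.divisors 120, ∀ n ∈ Nat.divisors 120, 15 ≤ m → 15 ≤ n → 27 ∣ 3 + (m + n) →
      m = 120 ∧ n = 120 := by decide +kernel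
  obtain ⟨k1, k2⟩ := h6 _ (Nat.mem_divisors.mpr ⟨a1, by norm_num⟩) _
    (Nat.mem_divisors.mpr ⟨b1, by norm_num⟩) a2 b2 (h3 ▸ h5)
  obtain ⟨c, hc, e⟩ := y3 v hv
  have h7 := card_orb C₁[z] c
  rw [orb_card e]
  simp only [Finset.mem_insert, Finset.mem_singleton] at hc
  rw [hz] at h7
  rcases hc with rfl | rfl
  · rw [k1] at h7; omega
  · rw [k2] at h7; omega

end

theorem exZ : ∃ s y t z : G, Z0 s y t z := by
  obtain ⟨s, hs⟩ := h.ex7
  obtain ⟨t, ht, ot⟩ := h.ex72 hs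
  obtain ⟨y, z, r⟩ := h.exists_Z0 hs ht ot
  exact ⟨s, y, t, z, r⟩

theorem cls3 (ou : orderOf u = 3) : TX u ∨ TY u := by
  obtain ⟨s, y, t, z, r⟩ := h.exZ
  exact (h.Zcls r ou).imp (h.ZT r).1.orb (h.ZT r).2.orb

theorem TXc (ha : TX a) (hb : TX b) : b ∈ orb ⊤ a := by
  obtain ⟨s, y, t, z, r⟩ := h.exZ
  exact orb_trans (orb_symm (h.Z27 r ha.1 ha.dvd)) (h.Z27 r hb.1 hb.dvd)

theorem TYc (ha : TY a) (hb : TY b) : b ∈ orb ⊤ a := by
  obtain ⟨s, y, t, z, r⟩ := h.exZ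
  have k : ∀ a : G, TY a → a ∈ orb ⊤ y := fun a ha =>
    (h.Zcls r ha.1).resolve_left fun e => ((h.ZT r).1.orb e).not ha
  exact orb_trans (orb_symm (k a ha)) (k b hb)

omit h in
theorem _root_.Cfsg.Agent.Ma.Z0.conj (r : Z0 s y t z) (g : G) :
    Z0 (g * s * g⁻¹) (g * y * g⁻¹) (g * t * g⁻¹) (g * z * g⁻¹) := by
  refine ⟨(orderOf_conj' g s).trans r.os, ?_, (orderOf_conj' g y).trans r.oy, ?_,
    (orderOf_conj' g t).trans r.ot, X3_conj r.zy g, ?_, ?_, ?_⟩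
  · rw [← conj_smul_cent1, conj_mem_conj_smul]; exact r.ys
  · rw [← conj_smul_cent1, conj_mem_conj_smul]; exact r.ts
  · rw [← conj_smul_cent1, conj_mem_conj_smul]; exact r.zt
  · rw [← conj_smul_zpowers, ← conj_smul_norm, conj_mem_conj_smul]; exact r.zs
  · rw [card_centralizer_conj]; exact r.z27

theorem exZx (hx : TX x) : ∃ s y t : G, Z0 s y t x := by
  obtain ⟨s, y, t, z, r⟩ := h.exZ
  obtain ⟨g, -, rfl⟩ := h.TXc (h.ZT r).1 hx
  exact ⟨_, _, _, r.conj g⟩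

theorem cX (hx : TX x) (hv : v ∈ X3 x) : Nat.card ↥(C₁[v] ⊓ C₁[x]) = 9 := by
  obtain ⟨s, y, t, r⟩ := h.exZx hx
  exact h.Zcent r hv

theorem ex_TX (hP : Nat.card P = 9) : ∃ x ∈ P, TX x := by
  obtain ⟨z, h1, h2, h3⟩ := h.ex_center hP
  exact ⟨z, h1, (h.cls3 h2).resolve_right fun e => e.ndvd h3⟩

theorem mkX3 (hP : Nat.card P = 9) (hx : x ∈ P) (hy : y ∈ P) (hn : y ∉ zpowers x) : y ∈ X3 x :=
  mem_X3.mpr ⟨mem_cent1_iff.mpr (comm_of_abel (abel_of_card_sq (p := 3) hP) hy hx),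
    h.oP (.of_card (n := 2) hP) hy (ne_one_of hn), hn⟩

theorem cP (hP : Nat.card P = 9) : C[P] = P := by
  obtain ⟨x, hx, tx⟩ := h.ex_TX hP
  obtain ⟨y, hy, hn⟩ := exists_second hP hx tx.1
  refine (eq_of_le_of_card_eq (le_cent_of_abel (abel_of_card_sq (p := 3) hP)) ?_).symm
  rw [hP, ← sup_eq_nine hP hx hy tx.1 hn, cent_pair, h.cX tx (h.mkX3 hP hx hy hn)]

theorem not9 (t1 : t ≠ 1) (t2 : t * t = 1) : ¬ 9 ∣ Nat.card C₁[t] := fun e => by
  obtain ⟨P, p1, p2⟩ := exists_le_card (n := 2) Nat.prime_three e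
  have := orderOf_dvd_card_of_mem (h.cP p2 ▸ le_cent1_iff.mp p1)
  rw [o2 t1 t2, p2] at this
  omega

theorem cA (ot : orderOf t = 2) (h7 : 7 ∣ Nat.card C₁[t]) : Nat.card C₁[t] = 21504 :=
  (h.cA' ot h7).resolve_right fun e => h.not9 (of_o2 ot).1 (of_o2 ot).2 (by rw [e]; norm_num)

theorem cls2 (oa : orderOf a = 2) : Nat.card C₁[a] = 21504 ∨ Nat.card C₁[a] = 7680 := by
  obtain ⟨s, y, t, z, r⟩ := h.exZ
  obtain ⟨j, oj, h5⟩ := h.exB
  have h1 := h.cA r.ot (r.os ▸ orderOf_dvd_card_of_mem (mem_cent1_comm.mp r.ts))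
  have h2 := h.cB oj h5
  have h3 := h.idx C₁[t]
  have h4 := h.idx C₁[j]
  have h6 : orb ⊤ t ∪ orb ⊤ j = {g | orderOf g = 2} := Set.eq_of_subset_of_ncard_le (by
    rintro g (e | e)
    exacts [(orb_order e).trans r.ot, (orb_order e).trans oj]) (by
    rw [Set.ncard_union_eq (Set.disjoint_left.mpr fun g e k => by
      have := (orb_card' e).symm.trans (orb_card' k)
      omega), ncard_top, ncard_top, ← Nat.card_coe_set_eq]
    refine (le_of_eq h.m2).trans ?_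
    rw [h1] at h3
    rw [h2] at h4
    omega)
  rcases h6.ge oa with e | e
  exacts [Or.inl ((orb_card' e).trans h1), Or.inr ((orb_card' e).trans h2)]

theorem ex_g0 (hy : TY y) (hz : z ∈ X3 y) (tz : TX z) : ∃ g ∈ C₁[y], g * z * g⁻¹ = z⁻¹ := by
  have hP := card_pair hz hy.1
  have h1 := relIndex_modEq Nat.prime_three (.of_card (n := 2) hP) (by
    rw [relIndex_eq (pair_le hz) (n := 56) (by rw [hy.2, hP])]; norm_num) (pair_le hz)
  obtain ⟨g, hg, gz⟩ : ∃ g ∈ N[zpowers y ⊔ zpowers z] ⊓ C₁[y], g ∉ C₁[z] := by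
    by_contra k
    push Not at k
    have h2 := card_inf_mul_relIndex N[zpowers y ⊔ zpowers z] C₁[y]
    rw [le_antisymm (b := zpowers y ⊔ zpowers z) (by
      conv_rhs => rw [← h.cP hP, cent_pair]
      exact le_inf k inf_le_right) (le_inf (le_norm_self _) (pair_le hz)), hP, hy.2] at h2
    unfold Nat.ModEq at h1
    omega
  exact ⟨g, hg.2, (h.uniq27 hy.1 hy.ndvd hz tz.dvd (tz.conj g).1 (tz.conj g).dvd
    (conj_mem_of_norm hg.1 (mem_sup_right (mem_zpowers z)))).resolve_left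
    fun e => gz (mem_cent1_iff.mpr (mul_inv_eq_iff_eq_mul.mp e))⟩

theorem fy (hx : TX x) (ha : a ∈ X3 x) (ta : TY a) (hb : b ∈ X3 x) (tb : TY b) :
    b ∈ orb C₁[x] a := by
  have h1 := X3_symm ha hx.1
  obtain ⟨k, k1, k2⟩ := h.align ta.1 ta.ndvd h1 hx.dvd hb (h.TYc ta tb)
  rcases k2 with e | e
  · exact ⟨k, mem_cent1_iff.mpr (mul_inv_eq_iff_eq_mul.mp e), k1⟩
  · obtain ⟨g, hg, e'⟩ := h.ex_g0 ta h1 hx
    refine ⟨k * g, mul_inverts e e', ?_⟩
    simp only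
    rw [← conj_conj, mem_cent1_iff.mp hg, mul_inv_cancel_right, k1]

theorem ex_mixed (hx : TX x) : ∃ y ∈ X3 x, TY y := by
  obtain ⟨s, y, t, r⟩ := h.exZx hx
  exact ⟨y, Zyz r, (h.ZT r).2⟩

theorem ex_pure (hx : TX x) : ∃ b ∈ X3 x, TX b := by
  classical
  obtain ⟨s, y, t, r⟩ := h.exZx hx
  by_contra k
  push Not at k
  have := h.wt_ge hx.1 (Y := {y}) fun v hv => ⟨y, Finset.mem_singleton_self y,
    h.fy hx (Zyz r) (h.ZT r).2 hv ((h.cls3 (mem_X3.mp hv).2.1).resolve_left (k v hv))⟩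
  rw [h.wt_z7 r, Finset.card_singleton] at this
  omega

theorem fx (hx : TX x) (ha : a ∈ X3 x) (ta : TX a) (hb : b ∈ X3 x) (tb : TX b) :
    b ∈ orb C₁[x] a := by
  obtain ⟨s, y, t, r⟩ := h.exZx hx
  exact h.Zthree r (Zyz r) hb ha (fun e => tb.not ((h.ZT r).2.orb e))
    fun e => (ta.orb e).not (h.ZT r).2

/-- Commuting pairs of elements of the first kind are conjugate. -/
theorem pairs (hx : TX x) (hy : y ∈ X3 x) (ty : TX y) (ha : TX a) (hb : b ∈ X3 a) (tb : TX b) :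
    ∃ g, g * x * g⁻¹ = a ∧ g * y * g⁻¹ = b := by
  obtain ⟨g, -, rfl⟩ := h.TXc hx ha
  obtain ⟨c, hc, e⟩ := h.fx ha (X3_conj hy g) (ty.conj g) hb tb
  refine ⟨c * g, ?_, (conj_conj _ _ _).symm.trans e⟩
  rw [← conj_conj, mem_cent1_iff.mp hc, mul_inv_cancel_right]

theorem TXmul (hx : TX x) (hy : y ∈ X3 x) (hp : p ∈ zpowers x) : p * y ∈ orb C₁[x] y :=
  h.L1' hx.1 hx.dvd hy hp

end H24

end Cfsg.Agent.Ma
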