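import Cfsg.Agent.H9.M24e
import Cfsg.Agent.L0.NineA6

/-! The centralizer of an element of order three of the first kind. -/

set_option autoImplicit false

namespace Cfsg.Agent.Ma

open Subgroup Cfsg.Agent.H7 Cfsg.Agent.H4 Cfsg.Agent.Fx4 Cfsg.Agent.H4.Nse
open Cfsg.Agent.H3 hiding orderOf_conj'
open MulAut (conj)
open scoped Pointwise

theorem alt6a : Nat.card {a : alternatingGroup (Fin 6) // a ^ 2 = 1} = 46 := by
  have : Fintype.card {a : Equiv.Perm (Fin 6) // Equiv.Perm.sign a = 1 ∧ a * a = 1} = 46 := by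
    decide +kernel
  rw [← this, ← Nat.card_eq_fintype_card]
  exact Nat.card_congr ⟨fun a => ⟨a.1, a.1.2, congrArg Subtype.val ((pow_two _).symm.trans a.2)⟩,
    fun a => ⟨⟨a.1, a.2.1⟩, (pow_two _).trans (Subtype.ext a.2.2)⟩, fun _ => rfl, fun _ => rfl⟩

theorem alt6b (p : alternatingGroup (Fin 6)) (p1 : p ≠ 1) (p3 : p ^ 3 = 1) :
    ∃ a : alternatingGroup (Fin 6), a ≠ 1 ∧ a * a = 1 ∧ (a * p) ^ 3 = 1 := by
  have : ∀ p : Equiv.Perm (Fin 6), p * p * p = 1 → p ≠ 1 → ∃ a : Equiv.Perm (Fin 6),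
      a * a = 1 ∧ a * p * (a * p) * (a * p) = 1 ∧ a ≠ 1 ∧ Equiv.Perm.sign a = 1 := by
    decide +kernel
  obtain ⟨a, h1, h2, h3, h4⟩ := this p (congrArg Subtype.val ((pow_three' p).symm.trans p3))
    fun e => p1 (Subtype.ext e)
  exact ⟨⟨a, h4⟩, fun e => h3 (congrArg Subtype.val e), Subtype.ext h1,
    (pow_three' _).trans (Subtype.ext h2)⟩

universe u
variable {G : Type u} [Group G] [Finite G] {L P T K H R V U W M S D : Subgroup G}
  {x y z g p s t v w q a b c u l : G}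

omit [Finite G] in
theorem conj_iter (e : b * a * b⁻¹ = c * a) (h : b * c * b⁻¹ = c) (n : ℕ) :
    b ^ n * a * (b ^ n)⁻¹ = c ^ n * a := by
  induction n with
  | zero => simp
  | succ n ih => rw [pow_succ', ← conj_conj, ih, ← conj_mul, e, ← conj_pow, h, pow_succ, mul_assoc]

/-- A four-group centralizing `x`. -/
structure F4 (x : G) (V : Subgroup G) : Prop where
  card : Nat.card V = 4
  le : V ≤ C₁[x]
  sq : ∀ g ∈ V, g * g = 1

omit [Finite G] in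
theorem F4.pg (hV : F4 x V) : IsPGroup 2 V := .of_card (n := 2) hV.card

omit [Finite G] in
theorem F4.comm (hV : F4 x V) : V ≤ C[V] := comm_of_sqs hV.sq

omit [Finite G] in
theorem F4.cent (hV : F4 x V) : x ∈ C[V] := le_cent1_iff.mp hV.le

omit [Finite G] in
theorem F4.smul (hV : F4 x V) (g : G) : F4 (g * x * g⁻¹) (conj g • V) :=
  ⟨(card_conj_smul g V).trans hV.card, conj_smul_cent1 g x ▸ conj_smul_mono g hV.le, fun a ha => by
    obtain ⟨b, hb, rfl⟩ := mem_conj_smul_iff_exists.mp ha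
    exact conj_sq (hV.sq b hb) g⟩

omit [Finite G] in
theorem F4.inv (hV : F4 x V) : F4 x⁻¹ V := ⟨hV.card, (cent1_inv x).symm ▸ hV.le, hV.sq⟩

omit [Finite G] in
theorem F4.ex (hV : F4 x V) : ∃ v ∈ V, v ≠ 1 :=
  exists_ne_one_of_ne_bot fun e => by simpa [e] using hV.card

theorem F4.eq (hV : F4 x V) (hU : F4 y U) (t1 : t ≠ 1) (h1 : t ∈ V) (h2 : t ∈ U) (a1 : a ≠ 1)
    (ta : t ≠ a) (h3 : a ∈ V) (h4 : a ∈ U) : V = U :=
  eq_of_le_of_card_eq (fun g hg => by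
    rcases mem_four hV.card h1 h3 t1 a1 ta (hV.sq t h1) hg with rfl | rfl | rfl | rfl
    exacts [one_mem _, h2, h4, mul_mem h2 h4]) (hV.card.trans hU.card.symm)

theorem card_four (a1 : a ≠ 1) (a2 : a * a = 1) (b1 : b ≠ 1) (b2 : b * b = 1) (ab : a ≠ b)
    (hc : b ∈ C₁[a]) : Nat.card ↥(zpowers a ⊔ zpowers b) = 4 ∧
      ∀ g ∈ zpowers a ⊔ zpowers b, g * g = 1 := by
  have h1 := zpowers_le.mpr (le_norm_zpowers le_rfl hc)
  refine ⟨?_, fun g hg => ?_⟩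
  · rw [card_sup_of_inf_eq_bot h1 (inf_eq_bot_of_forall fun g h2 h3 => by
      rcases (mem_zpowers_invol a2).mp h2 with e | rfl
      exacts [e, ((mem_zpowers_invol b2).mp h3).resolve_right ab]), Nat.card_zpowers,
      Nat.card_zpowers, o2 a1 a2, o2 b1 b2]
  · obtain ⟨i, hi, j, hj, rfl⟩ := (mem_sup_of_norm h1).mp hg
    rcases (mem_zpowers_invol a2).mp hi with rfl | rfl <;>
      rcases (mem_zpowers_invol b2).mp hj with rfl | rfl
    · simp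
    · simpa using b2
    · simpa using a2
    · rw [mul_assoc, ← mul_assoc j, mem_cent1_iff.mp hc, mul_assoc, b2, mul_one, a2]

namespace H24

variable (h : H24 G)
include h

theorem inv_P (hP : Nat.card P = 9) (ht : t ∈ C[P]) (t2 : t * t = 1) : t = 1 := by_contra fun t1 =>
  h.not9 t1 t2 (hP ▸ card_dvd_of_le (le_cent1_iff.mpr ht))

theorem inv_X (ox : orderOf x = 3) (hp : p ∈ X3 x) (h1 : t ∈ C₁[x]) (h2 : t ∈ C₁[p])
    (t2 : t * t = 1) : t = 1 := h.inv_P (card_pair hp ox) (cent_pair p x ▸ ⟨h2, h1⟩) t2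

theorem alt6 (hx : TX x) : mo C₁[x] 2 = 45 ∧
    ∀ p ∈ X3 x, ∃ a ∈ C₁[x], a ≠ 1 ∧ a * a = 1 ∧ (a * p) ^ 3 ∈ zpowers x := by
  set x' : C₁[x] := ⟨x, mem_cent1_self x⟩
  have hc : x' ∈ center C₁[x] := mem_center_iff.mpr fun g => Subtype.ext (mem_cent1_iff.mp g.2)
  have : (zpowers x').Normal := ⟨fun n hn g => by
    rw [mem_center_iff.mp (zpowers_le.mpr hc hn) g, mul_inv_cancel_right]; exact hn⟩
  have ox : orderOf x' = 3 := (orderOf_coe _).symm.trans hx.1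
  have hm : ∀ g : C₁[x], (g : C₁[x] ⧸ zpowers x') = 1 ↔ g.1 ∈ zpowers x := fun g => by
    rw [QuotientGroup.eq_one_iff]
    simp only [mem_zpowers_iff, Subtype.ext_iff, SubgroupClass.coe_zpow, x']
  have x3 : ∀ g ∈ zpowers x, g ^ 3 = 1 := fun g hg => by
    rw [← hx.1, ← Nat.card_zpowers]; exact pow_card_eq_one_of_mem hg
  have h1 : Nat.card (C₁[x] ⧸ zpowers x') = 360 := by
    have := card_eq_card_quotient_mul_card_subgroup (zpowers x')
    rw [Nat.card_zpowers, ox, hx.2] at this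
    omega
  obtain ⟨e⟩ := L0.Nine.alt6_of_card h1 fun a b ab a3 hb => by
    obtain ⟨a, rfl⟩ := QuotientGroup.mk_surjective a
    obtain ⟨b, rfl⟩ := QuotientGroup.mk_surjective b
    rw [or_iff_not_imp_left, hm]
    intro a1
    have h2 : a.1 ∈ X3 x := mem_X3.mpr ⟨a.2, h.oP (IsPElt.isPGroup_zpowers ⟨2, by
      rw [pow_two, pow_mul]; exact x3 _ ((hm (a ^ 3)).mp a3)⟩) (mem_zpowers _) (ne_one_of a1), a1⟩
    have h3 := (hm (b * a * b⁻¹ * a⁻¹)).mp (by simp [← ab])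
    obtain ⟨k, hk, e⟩ : ∃ k ∈ zpowers x, b.1 * a * b.1⁻¹ = k * a := ⟨_, h3, by simp⟩
    have h4 := conj_eq_of_mem_cent ((cent_zpowers x).ge b.2) hk
    have h5 : b.1 ^ 3 ∈ C₁[a.1] ⊓ C₁[x] := ⟨mem_cent1_iff.mpr <| by
      rw [← mul_inv_eq_iff_eq_mul, conj_iter e h4, x3 k hk, one_mul], pow_mem b.2 3⟩
    have h6 := pow_card_eq_one_of_mem h5
    rw [h.cX hx h2, ← pow_mul] at h6
    refine orderOf_eq_one_iff.mp (Nat.eq_one_of_dvd_coprimes (hb.pow_right 3) dvd_rfl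
      (orderOf_dvd_of_pow_eq_one ?_))
    exact (hm (b ^ 27)).mpr (by rw [SubgroupClass.coe_pow, h6]; exact one_mem _)
  constructor
  · have h2 := card_pow_eq_one_quotient hc (s := 2) (by rw [ox]; norm_num)
    rw [Nat.card_congr (Equiv.subtypeEquiv e.toEquiv (q := fun a => a ^ 2 = 1) fun a => by
      simp [← map_pow]), alt6a, ← sum_divisors two_ne_zero, Nat.prime_two.sum_divisors,
      mo_one] at h2
    omega
  · intro p hp
    obtain ⟨p1, p2, p3⟩ := mem_X3.mp hp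
    obtain ⟨a, a1, a2, a3⟩ := alt6b (e (⟨p, p1⟩ : C₁[x])) (by
      rw [Ne, map_eq_one_iff e e.injective, hm]; exact p3) (by
      rw [← map_pow, map_eq_one_iff e e.injective]
      exact (hm (⟨p, p1⟩ ^ 3)).mpr (by rw [SubgroupClass.coe_pow, (of_o3 p2).2]; exact one_mem _))
    obtain ⟨a, rfl⟩ := e.surjective a
    obtain ⟨a, rfl⟩ := QuotientGroup.mk_surjective a
    rw [← map_mul, map_eq_one_iff e e.injective] at a2
    rw [← map_mul, ← map_pow, map_eq_one_iff e e.injective] at a3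
    have h2 : ((a ^ 3 : C₁[x]) : C₁[x] ⧸ zpowers x') = a := by
      rw [QuotientGroup.mk_pow, pow_three', a2, one_mul]
    refine ⟨a ^ 3, pow_mem a.2 3, fun k => a1 ?_, ?_, (hm ((a ^ 3 * ⟨p, p1⟩) ^ 3)).mp ?_⟩
    · rw [← h2, (hm (a ^ 3)).mpr (by rw [SubgroupClass.coe_pow, k]; exact one_mem _), map_one]
    · rw [← Commute.mul_pow rfl]
      exact x3 _ ((hm (a * a)).mp a2)
    · rw [QuotientGroup.mk_pow, QuotientGroup.mk_mul, h2, a3]

theorem exV (hx : TX x) (hp : p ∈ X3 x) : ∃ V, F4 x V ∧ p ∈ N[V] := by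
  obtain ⟨a, ha, a1, a2, e⟩ := (h.alt6 hx).2 p hp
  obtain ⟨p1, op, -⟩ := mem_X3.mp hp
  have hb := mul_mem (mul_mem p1 ha) (inv_mem p1)
  have b2 := conj_sq a2 p
  have c2 := conj_sq b2 p
  have h1 : (a * p) ^ 3 = a * (p * a * p⁻¹) * (p * (p * a * p⁻¹) * p⁻¹) := by
    rw [← mul_one (a * (p * a * p⁻¹) * _), ← (of_o3 op).2, pow_three', pow_three']
    group
  rw [h1] at e
  set b := p * a * p⁻¹ with hb'
  set c := p * b * p⁻¹ with hc'
  obtain ⟨k, hk, e'⟩ : ∃ k ∈ zpowers x, a * b = k * c :=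
    ⟨_, e, by rw [mul_assoc _ c, c2, mul_one]⟩
  have hc : c ∈ C₁[x] := mul_mem (mul_mem p1 hb) (inv_mem p1)
  have kc := comm_of_mem_cent (cent_zpowers x ▸ hc) hk
  have k3 : k ^ 3 = 1 := by rw [← hx.1, ← Nat.card_zpowers]; exact pow_card_eq_one_of_mem hk
  have h2 : a * b * (a * b) = k * k := by
    rw [e', mul_assoc, ← mul_assoc c, ← kc, mul_assoc k c, c2, mul_one]
  have h3 : k = 1 := by
    have h4 := conj_eq_of_mem_cent (cent_zpowers x ▸ ha) (mul_mem hk hk)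
    have h5 : a * (a * b * (a * b)) * a⁻¹ = (a * b * (a * b))⁻¹ := by
      simp only [mul_inv_rev, inv_eq_of_mul_eq_one_right a2, inv_eq_of_mul_eq_one_right b2,
        ← mul_assoc, a2, one_mul]
    rw [h2, h4, sq_three k3, inv_inv] at h5
    exact eq_one_of_sq_cube (mul_eq_one_iff_inv_eq.mpr h5) k3
  rw [h3, one_mul] at e' h2
  have ab : a ≠ b := fun k => a1 (h.inv_X hx.1 hp ha (mem_cent1_comm.mp (mem_cent1_iff.mpr
    (mul_inv_eq_iff_eq_mul.mp k.symm))) a2)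
  have h6 : b ∈ C₁[a] := by
    rw [mem_cent1_iff, ← inv_eq_of_mul_eq_one_right h2, mul_inv_rev, inv_eq_of_mul_eq_one_right a2,
      inv_eq_of_mul_eq_one_right b2]
  obtain ⟨h7, h8⟩ := card_four a1 a2 (by simpa [hb'] using a1) b2 ab h6
  refine ⟨_, ⟨h7, sup_le (zpowers_le.mpr ha) (zpowers_le.mpr hb), h8⟩,
    mem_norm_of_conj_smul_le ?_⟩
  rw [conj_smul_sup, conj_smul_zpowers, conj_smul_zpowers]
  exact sup_le le_sup_right (zpowers_le.mpr (hc' ▸ e' ▸ mul_mem (mem_sup_left (mem_zpowers a))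
    (mem_sup_right (mem_zpowers b))))

theorem c32' (ox : orderOf x = 3) (ht : t ∈ C₁[x]) (t1 : t ≠ 1) (t2 : t * t = 1) {n : ℕ}
    (hn : Nat.card ↥(C₁[t] ⊓ C₁[x]) ∣ n * 45) : Nat.card ↥(C₁[t] ⊓ C₁[x]) ∣ n * 3 := by
  have h1 := h.cop2 ox (o2 t1 t2) ht Nat.prime_five (by norm_num) (by norm_num) (by decide)
  have h2 : Nat.card ↥(C₁[t] ⊓ C₁[x]) ∣ n * 9 := h1.dvd_of_dvd_mul_right (by rwa [mul_assoc])
  obtain ⟨m, hm⟩ := ox ▸ orderOf_dvd_card_of_mem (A := C₁[t] ⊓ C₁[x])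
    ⟨mem_cent1_comm.mp ht, mem_cent1_self x⟩
  have h3 : ¬ 3 ∣ m := fun e => h.not9 t1 t2 ((hm ▸ mul_dvd_mul_left 3 e).trans
    (card_dvd_of_le inf_le_left))
  rw [hm] at h2 ⊢
  rw [mul_comm n]
  exact mul_dvd_mul_left 3 ((cop_of Nat.prime_three h3).dvd_of_dvd_mul_right
    (Nat.dvd_of_mul_dvd_mul_left (by norm_num : 0 < 3) (by rwa [mul_left_comm])))

theorem c32d (hx : TX x) (ht : t ∈ C₁[x]) (t1 : t ≠ 1) (t2 : t * t = 1) :
    Nat.card ↥(C₁[t] ⊓ C₁[x]) ∣ 24 := by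
  have h1 := h.c32' hx.1 ht t1 t2 (n := 24) (hx.2 ▸ card_dvd_of_le inf_le_right :)
  obtain ⟨m, hm⟩ := hx.1 ▸ orderOf_dvd_card_of_mem (A := C₁[t] ⊓ C₁[x])
    ⟨mem_cent1_comm.mp ht, mem_cent1_self x⟩
  have h3 : ¬ 3 ∣ m := fun e => h.not9 t1 t2 ((hm ▸ mul_dvd_mul_left 3 e).trans
    (card_dvd_of_le inf_le_left))
  rw [hm] at h1 ⊢
  exact mul_dvd_mul_left 3 ((cop_of Nat.prime_three h3).dvd_of_dvd_mul_right (m := 8)
    (Nat.dvd_of_mul_dvd_mul_left (by norm_num : 0 < 3) h1))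

theorem conj32 (hx : TX x) (ht : t ∈ C₁[x]) (t1 : t ≠ 1) (t2 : t * t = 1) (hv : v ∈ C₁[x])
    (v1 : v ≠ 1) (v2 : v * v = 1) : v ∈ orb C₁[x] t := by
  refine tr_of_card ht ?_ hv ((o2 v1 v2).trans (o2 t1 t2).symm)
  have := Nat.le_of_dvd (by norm_num) (h.c32d hx ht t1 t2)
  rw [o2 t1 t2, (h.alt6 hx).1, hx.2]
  omega

theorem c32 (hx : TX x) (ht : t ∈ C₁[x]) (t1 : t ≠ 1) (t2 : t * t = 1) :
    Nat.card ↥(C₁[t] ⊓ C₁[x]) = 24 := by
  have := orb_eq (le_norm_self C₁[x]) ht fun b hb e =>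
    h.conj32 hx ht t1 t2 hb (of_o2 (e.trans (o2 t1 t2))).1 (of_o2 (e.trans (o2 t1 t2))).2
  rw [o2 t1 t2, (h.alt6 hx).1, hx.2] at this
  omega

theorem cAx (hx : TX x) (ht : t ∈ C₁[x]) (t1 : t ≠ 1) (t2 : t * t = 1) :
    Nat.card C₁[t] = 21504 := by
  obtain ⟨s, y, a, r⟩ := h.exZx hx
  rw [orb_card' (h.conj32 hx (mem_cent1_comm.mp r.zt) (of_o2 r.ot).1 (of_o2 r.ot).2 ht t1 t2)]
  exact h.cA r.ot (r.os ▸ orderOf_dvd_card_of_mem (mem_cent1_comm.mp r.ts))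

theorem n27 (hV : F4 x V) : ¬ 27 ∣ Nat.card N[V] := fun e => by
  obtain ⟨S, s1, s2⟩ := exists_le_card (n := 3) Nat.prime_three e
  obtain ⟨t, ht, t1⟩ := hV.ex
  have h1 := card_le_cent_mul S t (T := (V : Set G) \ {1}) fun g hg =>
    ⟨conj_mem_of_norm (s1 hg) ht, by simpa using t1⟩
  rw [ncard_sdiff_one, hV.card, s2] at h1
  obtain ⟨k, hk, h2⟩ := (Nat.dvd_prime_pow Nat.prime_three).mp
    (s2 ▸ card_dvd_of_le (inf_le_right (a := C₁[t]) (b := S)) :)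
  refine h.not9 t1 (hV.sq t ht) (dvd_trans ?_ (card_dvd_of_le (inf_le_left (b := S))))
  rw [h2] at h1 ⊢
  interval_cases k <;> omega

theorem pureP (hx : TX x) (hy : y ∈ X3 x) (ty : TX y) (hp : p ∈ zpowers x ⊔ zpowers y)
    (p1 : p ≠ 1) : TX p := by
  obtain ⟨i, hi, j, hj, rfl⟩ := mem_pair hy hp
  rcases mem_zpowers_three (of_o3 ty.1).2 hj with rfl | rfl | rfl
  · rw [mul_one] at p1 ⊢
    rcases mem_zpowers_three (of_o3 hx.1).2 hi with rfl | rfl | rfl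
    exacts [absurd rfl p1, hx, hx.inv]
  · exact ty.orb (h.TXmul hx hy hi)
  · exact ty.inv.orb (h.TXmul hx (X3_inv' hy) hi)

theorem in_NV (ox : orderOf x = 3) (hV : F4 x V) (hy : y ∈ X3 x) (yV : y ∈ N[V]) (hR : IsPGroup 3 R)
    (h1 : R ≤ N[V] ⊓ C₁[x]) : ∃ c ∈ N[V] ⊓ C₁[x], conj c • R ≤ zpowers x ⊔ zpowers y := by
  have h2 : zpowers x ⊔ zpowers y ≤ N[V] ⊓ C₁[x] := le_inf (sup_le
    (zpowers_le.mpr (cent_le_norm V hV.cent)) (zpowers_le.mpr yV)) (pair_le hy)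
  obtain ⟨c, hc, e⟩ := exists_conj_le (T := zpowers x ⊔ zpowers y) h1 hR fun e => h.n27 hV (by
    refine dvd_trans ?_ (card_dvd_of_le (inf_le_left (b := C₁[x])))
    rw [← relIndex_mul_card h2, card_pair hy ox]
    exact mul_dvd_mul_right e 9)
  refine ⟨c, hc, fun a ha => ?_⟩
  obtain ⟨b, hb, rfl⟩ := mem_conj_smul_iff_exists.mp ha
  exact e b hb

theorem not_both (hx : TX x) (hV : F4 x V) (hy : y ∈ X3 x) (ty : TX y) (yV : y ∈ N[V])
    (hp : p ∈ X3 x) (tp : TY p) : p ∉ N[V] := fun pV => by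
  obtain ⟨c, -, e⟩ := h.in_NV hx.1 hV hy yV (R := zpowers p)
    (.of_card (n := 1) (by rw [Nat.card_zpowers, tp.1]; rfl))
    (zpowers_le.mpr ⟨pV, (mem_X3.mp hp).1⟩)
  exact (h.pureP hx hy ty (e (conj_mem_conj_smul.mpr (mem_zpowers p)))
    (of_o3 (tp.conj c).1).1).not (tp.conj c)

end H24

/-- The Sylow two-subgroup of the centralizer of `t` and `x`. -/
structure IsD (t x : G) (D : Subgroup G) : Prop where
  card : Nat.card D = 8
  le : D ≤ C₁[t] ⊓ C₁[x]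
  norm : C₁[t] ⊓ C₁[x] ≤ N[D]
  max : ∀ R ≤ C₁[t] ⊓ C₁[x], IsPGroup 2 R → R ≤ D
  z : ∀ a ∈ D, a ∈ C[D] → a = 1 ∨ a = t
  sq : ∀ a ∈ D, a * a = 1 ∨ a * a = t

namespace H24

variable (h : H24 G)
include h

theorem exD (hx : TX x) (ht : t ∈ C₁[x]) (t1 : t ≠ 1) (t2 : t * t = 1) : ∃ D, IsD t x D := by
  have hc := h.c32 hx ht t1 t2
  obtain ⟨D, d1, d2⟩ := exists_le_card (n := 3) Nat.prime_two (H := C₁[t] ⊓ C₁[x])
    (by rw [hc]; norm_num)
  have pD : IsPGroup 2 D := .of_card d2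
  have xD := cent_le_norm D (le_cent1_iff.mp (d1.trans inf_le_right))
  have h1 : D ⊔ zpowers x = C₁[t] ⊓ C₁[x] := Cfsg.Agent.H7.eq_of_le_of_card_le
    (sup_le d1 (zpowers_le.mpr ⟨mem_cent1_comm.mp ht, mem_cent1_self x⟩)) (by
      rw [card_sup_of_inf_eq_bot (zpowers_le.mpr xD) (inf_eq_bot_of_coprime'
        (by rw [d2, Nat.card_zpowers, hx.1]; norm_num)), d2, Nat.card_zpowers, hx.1, hc]
      norm_num)
  have h2 : C₁[t] ⊓ C₁[x] ≤ N[D] := h1 ▸ sup_le (le_norm_self D) (zpowers_le.mpr xD)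
  have h3 : ∀ R ≤ C₁[t] ⊓ C₁[x], IsPGroup 2 R → R ≤ D := fun R r1 r2 => by
    refine le_of_coprime_relIndex h2 r1 ?_
    rw [relIndex_eq d1 (n := 3) (by rw [hc, d2]; rfl)]
    obtain ⟨k, hk⟩ := r2.exists_card_eq
    exact hk ▸ Nat.Coprime.pow_left _ (by norm_num)
  have tD : t ∈ D := h3 _ (zpowers_le.mpr ⟨mem_cent1_self t, ht⟩) (pg_zpowers t2) (mem_zpowers t)
  have h4 : ¬ IsMulCommutative D := fun ab => by
    obtain ⟨p, hp, -⟩ := h.ex_pure hx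
    obtain ⟨V, hV, pV⟩ := h.exV hx hp
    obtain ⟨a, ha, a1⟩ := hV.ex
    obtain ⟨c, hc, e⟩ := h.conj32 hx (hV.le ha) a1 (hV.sq a ha) ht t1 t2
    have cx := mul_inv_eq_iff_eq_mul.mpr (mem_cent1_iff.mp hc)
    have k1 := hV.smul c
    have k2 := X3_conj hp c
    have k3 : c * p * c⁻¹ ∈ N[conj c • V] := by rwa [← conj_smul_norm, conj_mem_conj_smul]
    have k4 : t ∈ conj c • V := e ▸ conj_mem_conj_smul.mpr ha
    rw [cx] at k1 k2
    generalize c * p * c⁻¹ = p, conj c • V = V at k1 k2 k3 k4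
    obtain ⟨p1, op, -⟩ := mem_X3.mp k2
    have k5 : V ≤ D := h3 V (le_inf (k1.comm.trans (cent_le_cent1 k4)) k1.le) k1.pg
    have k6 : p ∈ N[D] := inv_mem_iff.mp (mem_norm_of_conj_smul_le (h3 _ (by
      rw [conj_smul_le_iff_le_inv, inv_inv, conj_smul_inf, conj_smul_cent1, conj_smul_cent1,
        mem_cent1_iff.mp p1, mul_inv_cancel_right]
      exact le_inf ((le_cent_of_abel ab).trans (cent_le_cent1 (k5 (conj_mem_of_norm k3 k4))))
        (d1.trans inf_le_right)) (IsPGroup.conj_smul pD _)))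
    have k7 := card_modEq_conj Nat.prime_three (of_o3 op).2 fun _ => conj_mem_of_norm k6
    obtain ⟨b, hb, b1, b2⟩ := exists_invol (pD.to_inf_left (K := C₁[p])) fun e => by
      rw [e, d2] at k7
      simp [Nat.ModEq] at k7
    exact b1 (h.inv_X hx.1 k2 (d1 hb.1).2 hb.2 b2)
  have h5 : zpowers t = Z[D] := by
    refine Cfsg.Agent.H7.eq_of_le_of_card_le (zpowers_le.mpr
      ⟨tD, le_cent1_iff.mp (d1.trans inf_le_left)⟩) ?_
    obtain ⟨m, hm⟩ := sq_dvd_relIndex_center pD h4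
    have := relIndex_mul_card (inf_le_left : Z[D] ≤ D)
    rw [hm, d2, mul_assoc] at this
    rw [Nat.card_zpowers, o2 t1 t2]
    exact Nat.le_of_dvd (by norm_num) (Dvd.intro_left m (by omega))
  refine ⟨D, d2, d1, h2, h3, fun a ha hc => (mem_zpowers_invol t2).mp (h5 ▸ ⟨ha, hc⟩),
    fun a ha => by_contra fun k => h4 ?_⟩
  rw [not_or] at k
  have oa : orderOf a = 4 := by
    have k1 := d2 ▸ orderOf_dvd_card_of_mem ha
    have k2 : ¬ orderOf a ∣ 2 := fun e => k.1 (pow_two a ▸ orderOf_dvd_iff_pow_eq_one.mp e)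
    have k3 : orderOf a ≠ 8 := fun e =>
      h.no_comm hx.1 e (by norm_num) (by decide) (d1 ha).2
    obtain ⟨i, hi, e⟩ := (Nat.dvd_prime_pow Nat.prime_two).mp k1
    rw [e] at k2 k3 ⊢
    interval_cases i <;> omega
  have k1 : t ∉ zpowers a := fun e => by
    obtain ⟨i, hi, rfl⟩ := exists_pow oa e
    rw [← pow_add, pow_eq_one_iff' oa] at t2
    interval_cases i
    exacts [t1 (pow_zero a), by omega, k.2 (pow_two a).symm, by omega]
  have k2 := zpowers_le.mpr (mem_cent1_comm.mp (d1 ha).1)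
  rw [← Cfsg.Agent.H7.eq_of_le_of_card_le (sup_le (zpowers_le.mpr ha) (zpowers_le.mpr tD)) (by
    rw [card_sup_of_inf_eq_bot (le_norm_zpowers k2) (inf_eq_bot_of_forall fun g h2 h3 =>
      ((mem_zpowers_invol t2).mp h3).resolve_right fun e => k1 (e ▸ h2)), d2, Nat.card_zpowers,
      Nat.card_zpowers, oa, o2 t1 t2]
    norm_num)]
  exact abel_sup (abel_zpowers a) (abel_zpowers t) (cent_zpowers a ▸ k2)

omit h in
theorem _root_.Cfsg.Agent.Ma.IsD.cent (d : IsD t x D) (hV : F4 x V) (ht : t ∈ V) (t1 : t ≠ 1)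
    (hc : c ∈ D) (h1 : c ∈ C[V]) : c ∈ V := by
  by_contra k
  have VD := d.max V (le_inf (hV.comm.trans (cent_le_cent1 ht)) hV.le) hV.pg
  have h2 := (eq_or_eq_of_relIndex_prime le_sup_left (sup_le VD (zpowers_le.mpr hc)) (by
    rw [relIndex_eq VD (n := 2) (by rw [d.card, hV.card])]; norm_num)).resolve_left
    fun e => k (e ▸ mem_sup_right (mem_zpowers c))
  obtain ⟨v, hv, v1, tv⟩ := exists_third hV.card t
  refine (d.z v (VD hv) ?_).elim v1 tv.symm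
  rw [← h2, ← le_cent1_iff]
  exact sup_le (hV.comm.trans (cent_le_cent1 hv)) (zpowers_le.mpr (cent_le_cent1 hv h1))

theorem three4 (hx : TX x) (t1 : t ≠ 1) (hV : F4 x V) (h1 : t ∈ V) (hU : F4 x U) (h2 : t ∈ U)
    (hR : F4 x R) (h3 : t ∈ R) : V = U ∨ V = R ∨ U = R := by
  obtain ⟨D, d⟩ := h.exD hx (hV.le h1) t1 (hV.sq t h1)
  have k : ∀ V, F4 x V → t ∈ V → V ≤ D := fun V hV ht =>
    d.max V (le_inf (hV.comm.trans (cent_le_cent1 ht)) hV.le) hV.pg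
  obtain ⟨b, hb, b1, tb⟩ := exists_third hU.card t
  obtain ⟨c, hc, c1, tc⟩ := exists_third hR.card t
  by_contra e
  simp only [not_or] at e
  have h4 := hV.sq _ (mul_mem_of_index_two (k V hV h1) (by rw [d.card, hV.card]) (k U hU h2 hb)
    (k R hR h3 hc) (fun k => e.1 (hV.eq hU t1 h1 h2 b1 tb k hb))
    fun k => e.2.1 (hV.eq hR t1 h1 h3 c1 tc k hc))
  refine e.2.2 (hU.eq hR t1 h2 h3 c1 tc (d.cent hU h2 t1 (k R hR h3 hc) ?_) hc)
  rw [← cent_two hU.card h2 t1 (hU.sq t h2) hb b1 tb]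
  refine ⟨mem_cent1_iff.mpr ?_, cent_le_cent1 h3 (hR.comm hc)⟩
  rw [← inv_eq_of_mul_eq_one_right h4, mul_inv_rev, inv_eq_of_mul_eq_one_right (hU.sq b hb),
    inv_eq_of_mul_eq_one_right (hR.sq c hc)]

theorem uniqV (hx : TX x) (t1 : t ≠ 1) (hV : F4 x V) (h1 : t ∈ V) (hy : y ∈ X3 x) (ty : TX y)
    (yV : y ∈ N[V]) (hU : F4 x U) (h2 : t ∈ U) (hz : z ∈ X3 x) (tz : TX z) (zU : z ∈ N[U]) :
    V = U := by
  obtain ⟨p, hp, tp⟩ := h.ex_mixed hx
  obtain ⟨R, hR, pR⟩ := h.exV hx hp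
  obtain ⟨a, ha, a1⟩ := hR.ex
  obtain ⟨c, hc, e⟩ := h.conj32 hx (hR.le ha) a1 (hR.sq a ha) (hV.le h1) t1 (hV.sq t h1)
  have cx := mul_inv_eq_iff_eq_mul.mpr (mem_cent1_iff.mp hc)
  have k1 := hR.smul c
  have k2 := X3_conj hp c
  have k3 : c * p * c⁻¹ ∈ N[conj c • R] := by rwa [← conj_smul_norm, conj_mem_conj_smul]
  rw [cx] at k1 k2
  rcases h.three4 hx t1 hV h1 hU h2 k1 (e ▸ conj_mem_conj_smul.mpr ha) with k | k | k
  exacts [k, absurd (k ▸ k3) (h.not_both hx hV hy ty yV k2 (tp.conj c)),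
    absurd (k ▸ k3) (h.not_both hx hU hz tz zU k2 (tp.conj c))]

theorem real_t (hx : TX x) (ht : t ∈ C₁[x]) (t1 : t ≠ 1) (t2 : t * t = 1) :
    ∃ z ∈ C₁[t], z * x * z⁻¹ = x⁻¹ := by
  by_contra k
  push Not at k
  have ox := hx.1
  have hc := h.cAx hx ht t1 t2
  have h4 : Nat.card (zpowers x) = 3 := by rw [Nat.card_zpowers, ox]
  have h0 := zpowers_le.mpr (mem_cent1_comm.mp ht)
  have h1 := relIndex_modEq Nat.prime_three (.of_card (n := 1) h4) (by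
    rw [relIndex_eq h0 (n := 7168) (by rw [hc, h4])]; norm_num) h0
  have h2 := card_inf_mul_relIndex N[zpowers x] C₁[t]
  rw [show N[zpowers x] ⊓ C₁[t] = C₁[t] ⊓ C₁[x] from le_antisymm (fun g hg => ⟨hg.2,
    mem_cent1_iff.mpr (mul_inv_eq_iff_eq_mul.mp (((mem_norm_three ox).mp hg.1).resolve_right
      (k g hg.2)))⟩) (le_inf (inf_le_right.trans (le_norm_zpowers le_rfl)) inf_le_left),
    h.c32 hx ht t1 t2, hc] at h2
  unfold Nat.ModEq at h1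
  omega

end H24

end Cfsg.Agent.Ma
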