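import Cfsg.Agent.H9.M24f
import Cfsg.Agent.H6.M24Char64

/-! The extraspecial subgroup of the centralizer of an involution. -/

set_option autoImplicit false

namespace Cfsg.Agent.Ma

open Subgroup Cfsg.Agent.H7 Cfsg.Agent.H4 Cfsg.Agent.Fx4 Cfsg.Agent.H4.Nse
open Cfsg.Agent.H3 hiding orderOf_conj'
open MulAut (conj)
open scoped Pointwise

universe u
variable {G : Type u} [Group G] [Finite G] {L P T K H R V U W M S D Q A B : Subgroup G}
  {x y z g p s t v w q a b c u l : G}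

theorem dvd_ncard {X : Set G} (h : ∀ a ∈ X, ∀ k ∈ K, a * k ∈ X) : Nat.card K ∣ X.ncard := by
  classical
  rw [Set.ncard_eq_toFinset_card X]
  refine dvd_card_of_fibers _ (fun a => (a : G ⧸ K)) fun b hb => dvd_of_eq ?_
  rw [← Set.ncard_coe_finset, show Nat.card K = (K : Set G).ncard from rfl,
    ← Set.ncard_image_of_injective _ (mul_right_injective b)]
  congr 1
  ext a
  simp only [Finset.coe_filter, Set.Finite.mem_toFinset, Set.mem_ofPred_eq] at hb ⊢
  constructor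
  · rintro ⟨k, hk, rfl⟩
    exact ⟨h b hb k hk, QuotientGroup.mk_mul_of_mem b hk⟩
  · exact fun e => ⟨b⁻¹ * a, QuotientGroup.eq.mp e.2.symm, by simp⟩

theorem elem64 (hK : Nat.card K = 64) (sN : s ∈ N[K]) (s7 : s ^ 7 = 1) (fpf : K ⊓ C₁[s] = ⊥)
    (xN : x ∈ N[K]) (x3 : x ^ 3 = 1) (hD : Nat.card ↥(K ⊓ C₁[x]) = 4)
    (sq : ∀ d ∈ K ⊓ C₁[x], d * d = 1) (hg : g ∈ K) : g * g = 1 := by
  have pK : IsPGroup 2 K := .of_card (n := 6) hK
  have m : ∀ a, a ∈ omegaOne 2 Z[K] ↔ a ∈ Z[K] ∧ a ^ 2 = 1 := fun a =>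
    mem_omegaOne_of_abel (abel_center K)
  have n : N[K] ≤ N[omegaOne 2 Z[K]] := le_norm_omegaOne 2 (le_norm_center le_rfl)
  have le : omegaOne 2 Z[K] ≤ K := (omegaOne_le 2 _).trans inf_le_left
  obtain ⟨z, z1, z2, z3⟩ := exists_mem_center_pgroup pK ⟨le_rfl, le_norm_self K⟩
    fun e => by simp [e] at hK
  have h0 := one_lt_card_of_ne_bot (ne_bot_of_mem ((m z).mpr ⟨⟨z1, z2⟩, z3 ▸ pow_orderOf_eq_one z⟩)
    (of_o2 z3).1)
  generalize omegaOne 2 Z[K] = O at *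
  have h1 := card_modEq_conj (by norm_num) s7 fun _ => conj_mem_of_norm (n sN)
  rw [le_bot_iff.mp ((inf_le_inf_right _ le).trans fpf.le), card_bot] at h1
  obtain ⟨k, hk, e⟩ := (Nat.dvd_prime_pow (m := 6) Nat.prime_two).mp (hK ▸ card_dvd_of_le le)
  unfold Nat.ModEq at h1
  have h2 : Nat.card O = 8 ∨ Nat.card O = 64 := by
    rw [e] at h0 h1 ⊢
    interval_cases k <;> omega
  rcases h2 with h2 | h2
  swap
  · exact pow_two g ▸ ((m g).mp ((eq_of_le_of_card_eq le (h2.trans hK.symm)).ge hg)).2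
  have h3 := card_modEq_conj Nat.prime_three x3 fun _ => conj_mem_of_norm (n xN)
  obtain ⟨d, hd, dO⟩ : ∃ d ∈ K ⊓ C₁[x], d ∉ O := by
    by_contra k
    push Not at k
    rw [le_antisymm (inf_le_inf_right _ le) (le_inf k inf_le_right), h2, hD] at h3
    simp [Nat.ModEq] at h3
  have h4 := ncard_modEq_conj (by norm_num) s7 (S := {k | k ∈ K ∧ k * k = 1})
    fun a ha => ⟨conj_mem_of_norm sN ha.1, conj_sq ha.2 s⟩
  rw [show {a | a ∈ {k | k ∈ K ∧ k * k = 1} ∧ Commute s a} = {1} from Set.Subset.antisymm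
    (fun a ha => eq_one_of_mem_inf fpf ha.1.1 (mem_cent1_iff.mpr ha.2.symm)) (by simp),
    Set.ncard_singleton] at h4
  have h5 := dvd_ncard (K := O) (X := {k | k ∈ K ∧ k * k = 1}) fun a ha k hk =>
    ⟨mul_mem ha.1 (le hk), by
      rw [mul_assoc, ← mul_assoc k, ← comm_of_mem_cent ((m k).mp hk).1.2 ha.1, mul_assoc, ← pow_two k,
        ((m k).mp hk).2, mul_one, ha.2]⟩
  have h6 := Set.ncard_lt_ncard (s := O) (t := {k | k ∈ K ∧ k * k = 1})
    ⟨fun a ha => ⟨le ha, pow_two a ▸ ((m a).mp ha).2⟩, fun e => dO (e ⟨hd.1, sq d hd⟩)⟩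
  have h7 : {k | k ∈ K ∧ k * k = 1} ⊆ K := fun a ha => ha.1
  have h8 := Set.ncard_le_ncard h7
  rw [show (O : Set G).ncard = 8 from h2] at h6
  rw [show (K : Set G).ncard = 64 from hK] at h8
  unfold Nat.ModEq at h4
  rw [h2] at h5
  exact ((Set.eq_of_subset_of_ncard_le h7 (by
    rw [show (K : Set G).ncard = 64 from hK]; omega)).ge hg).2

/-- The extraspecial group. -/
structure IsQ (t : G) (Q : Subgroup G) : Prop where
  t1 : t ≠ 1
  t2 : t * t = 1
  card : Nat.card Q = 128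
  le : Q ≤ C₁[t]
  norm : C₁[t] ≤ N[Q]
  comm : ∀ a ∈ Q, ∀ b ∈ Q, a * b * a⁻¹ = b ∨ a * b * a⁻¹ = t * b
  z : ∀ a ∈ Q, a ∈ C[Q] → a = 1 ∨ a = t

omit [Finite G] in
theorem IsQ.smul (r : IsQ t Q) (g : G) : IsQ (g * t * g⁻¹) (conj g • Q) := by
  refine ⟨by simpa using r.t1, conj_sq r.t2 g, (card_conj_smul g Q).trans r.card,
    conj_smul_cent1 g t ▸ conj_smul_mono g r.le, conj_smul_cent1 g t ▸ le_norm_smul r.norm g,
    fun a ha b hb => ?_, fun a ha hc => ?_⟩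
  · obtain ⟨a, ha', rfl⟩ := mem_conj_smul_iff_exists.mp ha
    obtain ⟨b, hb', rfl⟩ := mem_conj_smul_iff_exists.mp hb
    rw [conj_inv, conj_mul, conj_mul, conj_mul]
    exact (r.comm a ha' b hb').imp (fun e => by rw [e]) fun e => by rw [e]
  · obtain ⟨a, ha', rfl⟩ := mem_conj_smul_iff_exists.mp ha
    rw [← conj_smul_cent, conj_mem_conj_smul] at hc
    exact (r.z a ha' hc).imp (fun e => by simp [e]) fun e => by rw [e]

omit [Finite G] in
theorem IsQ.pg (r : IsQ t Q) : IsPGroup 2 Q := .of_card (n := 7) r.card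

theorem IsQ.ab4 (r : IsQ t Q) (hA : A ≤ Q) (h64 : Nat.card A = 64) (hB : B ≤ A) (hc : B ≤ C[A]) :
    Nat.card B ≤ 4 := by
  classical
  obtain ⟨q, hq, qA⟩ : ∃ q ∈ Q, q ∉ A := by
    by_contra k
    push Not at k
    have := card_le_of_le' (show Q ≤ A from k)
    rw [r.card] at this
    omega
  have h1 := (eq_or_eq_of_relIndex_prime le_sup_left (sup_le hA (zpowers_le.mpr hq)) (by
    rw [relIndex_eq hA (n := 2) (by rw [r.card, h64])]; norm_num)).resolve_left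
    fun e => qA (e ▸ mem_sup_right (mem_zpowers q))
  have h2 := card_le_cent_mul B q (T := {q, t * q}) fun b hb => r.comm b (hA (hB hb)) q hq
  have h3 := card_le_of_subset (H := C₁[q] ⊓ B) (s := {1, t}) fun b hb => by
    simpa using r.z b (hA (hB hb.2)) (by
      rw [← h1, cent_sup, cent_zpowers]; exact ⟨hc hb.2, hb.1⟩)
  have := Nat.mul_le_mul (h3.trans Finset.card_le_two)
    ((Set.ncard_insert_le q {t * q}).trans (by rw [Set.ncard_singleton]))
  omega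

theorem IsQ.ab (r : IsQ t Q) (r' : IsQ v R) (tv : t ≠ v) (h1 : A ≤ Q) (h2 : A ≤ R) : A ≤ C[A] :=
  le_cent_iff.mpr fun b hb a ha => mul_inv_eq_iff_eq_mul.mp <|
    (r.comm a (h1 ha) b (h1 hb)).elim id fun e => (r'.comm a (h2 ha) b (h2 hb)).elim id fun k =>
      absurd (mul_right_cancel (e.symm.trans k)) tv

namespace H24

variable (h : H24 G)
include h

theorem exQ (hx : TX x) (ht : t ∈ C₁[x]) (t1 : t ≠ 1) (t2 : t * t = 1) :
    ∃ Q, IsQ t Q ∧ ∀ R ≤ C₁[t] ⊓ C₁[x], IsPGroup 2 R → R ≤ Q := by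
  have hc := h.cAx hx ht t1 t2
  have ot := o2 t1 t2
  obtain ⟨D, d⟩ := h.exD hx ht t1 t2
  obtain ⟨s, hs, os⟩ := exists_mem_orderOf (p := 7) (by norm_num) (H := C₁[t])
    (by rw [hc]; norm_num)
  have hN : N[zpowers t] = C₁[t] := le_antisymm (fun g hg => mem_cent1_iff.mpr
    (mul_inv_eq_iff_eq_mul.mp (((mem_zpowers_invol t2).mp (conj_mem_of_norm hg
      (mem_zpowers t))).resolve_left (by simpa using t1)))) (le_norm_zpowers le_rfl)
  have cz : Nat.card (zpowers t) = 2 := by rw [Nat.card_zpowers, ot]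
  have xt := mem_cent1_comm.mp ht
  have k0 : ∀ A, t ∈ A → A ≤ C₁[t] → 2 * Nat.card ((quo (zpowers t)).im A) = Nat.card A :=
    fun A h1 h2 => cz ▸ card_quo_mul ⟨zpowers_le.mpr h1, hN ▸ h2⟩
  have k1 : ∀ a ∈ C₁[t], (orderOf a).Coprime 2 → orderOf (quo (zpowers t) a) = orderOf a ∧
      (quo (zpowers t)).im (C₁[t] ⊓ C₁[a]) = C₁[quo (zpowers t) a] := fun a ha hco => by
    have h1 : zpowers a ≤ N[zpowers t] := hN ▸ zpowers_le.mpr ha
    have h2 : (Nat.card (zpowers t)).Coprime (Nat.card (zpowers a)) := by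
      rw [cz, Nat.card_zpowers]; exact hco.symm
    refine ⟨PHom.orderOf_of_inj h1 (quo_ker_inf (inf_eq_bot_of_coprime' h2)) (mem_zpowers a), ?_⟩
    have := coprime_quotient_cent (le_norm_self (zpowers t)) h1 h2 inferInstance
    rw [quo_im_dom, top_inf_eq, PHom.im_zpowers (h1 (mem_zpowers a)), cent_zpowers,
      cent_zpowers] at this
    rw [← this, ← hN]
  obtain ⟨s1, s2⟩ := k1 s hs (by rw [os]; norm_num)
  obtain ⟨x1, x2⟩ := k1 x xt (by rw [hx.1]; norm_num)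
  have st := mem_cent1_comm.mp hs
  have c14 : Nat.card ↥(C₁[t] ⊓ C₁[s]) = 14 := by
    have := orb_eq (le_norm_self C₁[s]) st fun b hb e => h.tr72 os st ot hb (e.trans ot)
    rw [ot, h.mo72 os, h.cent7 os] at this
    omega
  have c7 : Nat.card C₁[quo (zpowers t) s] = 7 := by
    have := k0 (C₁[t] ⊓ C₁[s]) ⟨mem_cent1_self t, st⟩ inf_le_left
    rw [s2, c14] at this
    omega
  have c12 : Nat.card C₁[quo (zpowers t) x] = 12 := by
    have := k0 (C₁[t] ⊓ C₁[x]) ⟨mem_cent1_self t, ht⟩ inf_le_left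
    rw [x2, h.c32 hx ht t1 t2] at this
    omega
  have lift : ∀ g ∈ C₁[quo (zpowers t) x], ∃ a ∈ C₁[t] ⊓ C₁[x], quo (zpowers t) a = g :=
    fun g hg => (PHom.mem_im_of_le (inf_le_left.trans hN.ge)).mp (x2 ▸ hg)
  have sqD : ∀ a ∈ D, quo (zpowers t) a ^ 2 = 1 := fun a ha => by
    have := hN.ge (d.le ha).1
    rw [← PHom.map_pow this, quo_eq_one_iff (pow_mem this 2), pow_two]
    exact (mem_zpowers_invol t2).mpr (d.sq a ha)
  obtain ⟨z, hz, zx⟩ := h.real_t hx ht t1 t2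
  obtain ⟨K, K1, K2, K3⟩ := H6.M24.char64 (X := Quo (zpowers t)) (σ := quo (zpowers t) s)
    (x := quo (zpowers t) x) (by
      have := k0 _ (mem_cent1_self t) le_rfl
      rw [hc, ← hN, quo_im_dom, card_top] at this
      omega) (s1.trans os) c7 (by
      have h1 : zpowers s ≤ N[zpowers t] := hN ▸ zpowers_le.mpr hs
      have h2 : (quo (zpowers t)).im (C₁[t] ⊓ N[zpowers s]) = N[zpowers (quo (zpowers t) s)] := by
        rw [← PHom.im_zpowers (h1 (mem_zpowers s))]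
        refine le_antisymm (PHom.im_le_norm _ inf_le_right) fun g hg => ?_
        obtain ⟨a, ha, rfl⟩ := quo_surj _ g
        refine PHom.apply_mem_im ⟨hN.le ha, mem_norm_of_conj_smul_le (le_of_coprime_relIndex
          (L := zpowers t ⊔ zpowers s) (sup_le (le_norm_zpowers (zpowers_le.mpr st))
            (le_norm_self _)) (conj_smul_le_of_norm (zpowers_le.mp (le_norm_sup_of_quo
              (zpowers_le.mpr ha) h1 (by rwa [PHom.im_zpowers ha, zpowers_le]))) le_sup_right) ?_)⟩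
        rw [card_conj_smul, Nat.card_zpowers, os, relIndex_sup_of_norm' h1]
        exact Nat.Coprime.coprime_dvd_right (cz ▸ relIndex_dvd_card' _ _) (by norm_num)
      have := k0 (C₁[t] ⊓ N[zpowers s]) ⟨mem_cent1_self t, le_norm_zpowers le_rfl st⟩ inf_le_left
      rw [h2, h.n72 os st ot] at this
      omega) (x1.trans hx.1) c12 (fun g hg => by
      obtain ⟨a, ha, rfl⟩ := lift g (mem_cent1_iff.mpr hg)
      have := pow_relIndex_mem_of_norm d.norm ha
      rw [relIndex_eq d.le (n := 3) (by rw [h.c32 hx ht t1 t2, d.card])] at this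
      rw [show 6 = 3 * 2 from rfl, pow_mul, ← PHom.map_pow (hN.ge ha.1), sqD _ this])
    (isConj_iff.mpr ⟨quo (zpowers t) z, by
      rw [← PHom.map_conj (hN.ge hz) (hN.ge xt), zx, PHom.map_inv (hN.ge xt)]⟩)
  have KN : ∀ g, g ∈ N[K] := fun g => normalizer_eq_top_iff.mpr K1 ▸ mem_top g
  have DK : (quo (zpowers t)).im D ≤ K ⊓ C₁[quo (zpowers t) x] := fun g hg => by
    obtain ⟨a, ha, -, rfl⟩ := PHom.mem_im.mp hg
    have := x2 ▸ PHom.apply_mem_im (f := quo (zpowers t)) (d.le ha)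
    exact ⟨K3 _ (mem_cent1_iff.mp this) (sqD a ha), this⟩
  have tD : t ∈ D := d.max _ (zpowers_le.mpr ⟨mem_cent1_self t, ht⟩) (pg_zpowers t2) (mem_zpowers t)
  have c4 : Nat.card ((quo (zpowers t)).im D) = 4 := by
    have := k0 D tD (d.le.trans inf_le_left)
    rw [d.card] at this
    omega
  have DK' : (quo (zpowers t)).im D = K ⊓ C₁[quo (zpowers t) x] :=
    Cfsg.Agent.H7.eq_of_le_of_card_le DK (c4 ▸ Nat.le_of_dvd (by norm_num) (Nat.dvd_gcd
      (K2 ▸ card_dvd_of_le inf_le_left) (c12 ▸ card_dvd_of_le inf_le_right)))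
  have sqK := fun g => elem64 (g := g) K2 (KN _) (by rw [← os, ← s1, pow_orderOf_eq_one])
    (inf_eq_bot_of_coprime' (by rw [K2, c7]; norm_num)) (KN _)
    (by rw [← hx.1, ← x1, pow_orderOf_eq_one]) (DK' ▸ c4) fun g hg => by
      obtain ⟨a, ha, -, rfl⟩ := PHom.mem_im.mp (DK'.ge hg)
      exact pow_two (quo (zpowers t) a) ▸ sqD a ha
  have Q1 : (quo (zpowers t)).pre K ≤ C₁[t] := hN ▸ quo_pre_le_norm _ K
  have Q2 : C₁[t] ≤ N[(quo (zpowers t)).pre K] := fun g hg => PHom.mem_norm_pre (hN.ge hg) (KN _)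
  have Q3 : Nat.card ((quo (zpowers t)).pre K) = 128 := by rw [card_quo_pre, cz, K2]
  have Q4 : D ≤ (quo (zpowers t)).pre K :=
    (PHom.im_le_iff (d.le.trans (inf_le_left.trans hN.ge))).mp (DK.trans inf_le_left)
  refine ⟨_, ⟨t1, t2, Q3, Q1, Q2, fun a ha b hb => ?_, fun a ha hc => ?_⟩,
    fun R r1 r2 => (d.max R r1 r2).trans Q4⟩
  · obtain ⟨a1, a2⟩ := PHom.mem_pre.mp ha
    obtain ⟨b1, b2⟩ := PHom.mem_pre.mp hb
    have := (quo_eq_iff' (N := zpowers t) (mul_mem (mul_mem a1 b1) (inv_mem a1)) b1).mp (by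
      rw [PHom.map_conj a1 b1, comm_of_mem_cent (comm_of_sqs sqK b2) a2, mul_inv_cancel_right])
    exact ((mem_zpowers_invol t2).mp this).imp mul_inv_eq_one.mp mul_inv_eq_iff_eq_mul.mp
  · generalize (quo (zpowers t)).pre K = Q at *
    have z1 : zpowers t ≤ Z[Q] := zpowers_le.mpr ⟨Q4 tD, le_cent1_iff.mp Q1⟩
    have z2 : ∀ g ∈ C₁[t], ∀ x ∈ Z[Q], g * x * g⁻¹ ∈ Z[Q] := fun g hg _ =>
      conj_mem_of_norm (le_norm_center Q2 hg)
    have z3 := card_modEq_conj (by norm_num) (os ▸ pow_orderOf_eq_one s) (z2 s hs)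
    have z4 := card_modEq_conj Nat.prime_three (of_o3 hx.1).2 (z2 x xt)
    have pZ : IsPGroup 2 ↥Z[Q] := (IsPGroup.of_card (p := 2) (n := 7) Q3).to_inf_left
    have z5 : Z[Q] ⊓ C₁[x] = zpowers t := le_antisymm (fun b hb => (mem_zpowers_invol t2).mpr
      (d.z b (d.max _ (inf_le_inf_right _ (inf_le_left.trans Q1)) pZ.to_inf_left hb)
        (cent_anti Q4 hb.1.2))) (le_inf z1 (zpowers_le.mpr ht))
    have z6 : Z[Q] ⊓ C₁[s] = zpowers t := (Cfsg.Agent.H7.eq_of_le_of_card_le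
      (le_inf z1 (zpowers_le.mpr st)) (cz ▸ Nat.le_of_dvd (by norm_num) (Nat.dvd_gcd
        (m := 128) (n := 14)
        ((card_dvd_of_le (inf_le_left.trans inf_le_left)).trans Q3.dvd)
        ((card_dvd_of_le (inf_le_inf_right _ (inf_le_left.trans Q1))).trans c14.dvd)))).symm
    rw [z5, cz] at z4
    rw [z6, cz] at z3
    obtain ⟨k, hk, e⟩ := (Nat.dvd_prime_pow (m := 7) Nat.prime_two).mp
      (Q3 ▸ card_dvd_of_le (inf_le_left : Z[Q] ≤ Q))
    have z7 : Nat.card ↥Z[Q] ≠ 128 := fun e => by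
      have k1 := (eq_of_le_of_card_eq (inf_le_left : Z[Q] ≤ Q) (e.trans Q3.symm)).ge
      have := card_le_of_le' (show D ≤ zpowers t from fun b hb => (mem_zpowers_invol t2).mpr
        (d.z b hb (cent_anti Q4 (k1 (Q4 hb)).2)))
      rw [d.card, cz] at this
      omega
    refine (mem_zpowers_invol t2).mp ((eq_of_le_of_card_eq z1 ?_).ge ⟨ha, hc⟩)
    unfold Nat.ModEq at z3 z4
    rw [e] at z3 z4 z7 ⊢
    interval_cases k <;> omega

end H24

end Cfsg.Agent.Ma
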