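import Cfsg.Agent.H9.M24g

/-! The centralizer of a pure four-group. -/

set_option autoImplicit false

namespace Cfsg.Agent.Ma

open Subgroup Cfsg.Agent.H7 Cfsg.Agent.H4 Cfsg.Agent.Fx4 Cfsg.Agent.H4.Nse
open Cfsg.Agent.H3 hiding orderOf_conj'
open MulAut (conj)
open scoped Pointwise commutatorElement

universe u
variable {G : Type u} [Group G] [Finite G] {L P T K H R V U W M S D Q A B : Subgroup G}
  {x y z g p s t v w q a b c u l : G}

/-- The basic configuration. -/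
structure Cf (x y s : G) (V : Subgroup G) : Prop where
  tx : TX x
  yx : y ∈ X3 x
  ty : TX y
  f4 : F4 x V
  yV : y ∈ N[V]
  sV : s ∈ C[V]
  sx : s * x * s⁻¹ = x⁻¹
  sy : s * y * s⁻¹ = y

/-- The largest normal two-subgroup of the centralizer. -/
abbrev WW (V : Subgroup G) : Subgroup G := O[{2}] C[V]

theorem WW_pg (V : Subgroup G) : IsPGroup 2 (WW V) := isPGroup_core _

omit [Finite G] in
theorem WW_le (V : Subgroup G) : WW V ≤ C[V] := core_le _ _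

theorem WW_norm (V : Subgroup G) : N[V] ≤ N[WW V] := le_norm_core _ (norm_le_norm_cent V)

theorem WW_max (h1 : R ≤ C[V]) (h2 : C[V] ≤ N[R]) (h3 : IsPGroup 2 R) : R ≤ WW V :=
  NormalIn.le_pcore ⟨h1, h2⟩ h3

omit [Finite G] in
theorem inv_zp (e : s * x * s⁻¹ = x⁻¹) (hc : c ∈ zpowers x) : s * c * s⁻¹ = c⁻¹ := by
  obtain ⟨n, rfl⟩ := hc
  simp only
  rw [← conj_zpow, e, inv_zpow]

theorem cube_zp (ox : orderOf x = 3) (hc : c ∈ zpowers x) : c ^ 3 = 1 := by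
  rw [← ox, ← Nat.card_zpowers]; exact pow_card_eq_one_of_mem hc

omit [Finite G] in
theorem cop23 [Finite G] (hL : IsPGroup 2 L) (ox : orderOf x = 3) : L ⊓ zpowers x = ⊥ := by
  obtain ⟨k, hk⟩ := hL.exists_card_eq
  exact inf_eq_bot_of_coprime' (by
    rw [hk, Nat.card_zpowers, ox]; exact Nat.Coprime.pow_left _ (by norm_num))

theorem Cf.cP (r : Cf x y s V) : Nat.card ↥(zpowers x ⊔ zpowers y) = 9 := card_pair r.yx r.tx.1

theorem Cf.xy (r : Cf x y s V) : x * y = y * x := (mem_cent1_iff.mp (mem_X3.mp r.yx).1).symm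

omit [Finite G] in
theorem le_P (hx : x ∈ K) (hy : y ∈ K) : zpowers x ⊔ zpowers y ≤ K :=
  sup_le (zpowers_le.mpr hx) (zpowers_le.mpr hy)

omit [Finite G] in
theorem xP (x y : G) : x ∈ zpowers x ⊔ zpowers y := mem_sup_left (mem_zpowers x)

omit [Finite G] in
theorem yP (x y : G) : y ∈ zpowers x ⊔ zpowers y := mem_sup_right (mem_zpowers y)

theorem Cf.xV (r : Cf x y s V) : x ∈ N[V] := cent_le_norm V r.f4.cent

theorem Cf.sP (r : Cf x y s V) : s ∈ N[zpowers x ⊔ zpowers y] := mem_norm_of_conj_smul_eq (by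
  rw [conj_smul_sup, conj_smul_zpowers, conj_smul_zpowers, r.sx, r.sy, zpowers_inv])

namespace H24

variable (h : H24 G)
include h

theorem CVx (hx : TX x) (hV : F4 x V) : V ⊔ zpowers x = C[V] ⊓ C₁[x] := by
  obtain ⟨t, ht, t1⟩ := hV.ex
  obtain ⟨D, d⟩ := h.exD hx (hV.le ht) t1 (hV.sq t ht)
  have h1 : C[V] ⊓ C₁[x] ≤ C₁[t] ⊓ C₁[x] := inf_le_inf_right _ (cent_le_cent1 ht)
  have h2 := two_mul_card_le h1 fun e => by
    have := card_le_of_le' (show D ≤ V from fun c hc => d.cent hV ht t1 hc (e (d.le hc)).1)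
    rw [d.card, hV.card] at this
    omega
  refine Cfsg.Agent.H7.eq_of_le_of_card_le (sup_le (le_inf hV.comm hV.le)
    (zpowers_le.mpr ⟨hV.cent, mem_cent1_self x⟩)) ?_
  rw [card_sup_of_inf_eq_bot (zpowers_le.mpr (cent_le_norm V hV.cent)) (cop23 hV.pg hx.1), hV.card,
    Nat.card_zpowers, hx.1]
  rw [h.c32 hx (hV.le ht) t1 (hV.sq t ht)] at h2
  omega

theorem fixV (hx : TX x) (hV : F4 x V) (hL : IsPGroup 2 L) (h1 : V ≤ L) (h2 : L ≤ C[V]) :
    L ⊓ C₁[x] = V := by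
  obtain ⟨t, ht, t1⟩ := hV.ex
  obtain ⟨D, d⟩ := h.exD hx (hV.le ht) t1 (hV.sq t ht)
  exact le_antisymm (fun c hc => d.cent hV ht t1 (d.max _ (inf_le_inf_right _
    (h2.trans (cent_le_cent1 ht))) hL.to_inf_left hc) (h2 hc.1)) (le_inf h1 hV.le)

theorem card_M0 (hx : TX x) (hV : F4 x V) (ht : t ∈ V) (t1 : t ≠ 1) :
    Nat.card ↥(N[V] ⊓ C₁[t]) = 2 * Nat.card C[V] ∧ ∃ d ∈ N[V] ⊓ C₁[t], d ∈ C₁[x] ∧ d ∉ C[V] := by
  have t2 := hV.sq t ht
  obtain ⟨D, d⟩ := h.exD hx (hV.le ht) t1 t2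
  have VD := d.max V (le_inf (hV.comm.trans (cent_le_cent1 ht)) hV.le) hV.pg
  obtain ⟨z, hz, zV⟩ : ∃ z ∈ D, z ∉ V := by
    by_contra k
    push Not at k
    have := card_le_of_le' (show D ≤ V from k)
    rw [d.card, hV.card] at this
    omega
  have h1 : z ∈ N[V] := mem_norm_of_conj fun _ => conj_mem_of_index_two VD
    (by rw [d.card, hV.card]) hz
  have h2 : C[V] ≤ N[V] ⊓ C₁[t] := le_inf (cent_le_norm V) (cent_le_cent1 ht)
  have h4 : z ∉ C[V] := fun e => zV (d.cent hV ht t1 hz e)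
  refine ⟨le_antisymm ?_ (two_mul_card_le h2 fun k => h4 (k ⟨h1, (d.le hz).1⟩)), z,
    ⟨h1, (d.le hz).1⟩, (d.le hz).2, h4⟩
  obtain ⟨v, hv, v1, tv⟩ := exists_third hV.card t
  have h3 := card_le_cent_mul (N[V] ⊓ C₁[t]) v (T := {v, t * v}) fun g hg => by
    rcases mem_four hV.card ht hv t1 v1 tv t2 (conj_mem_of_norm hg.1 hv) with k | k | k | k
    · exact absurd (conj_eq_one_iff.mp k) v1
    · rw [mul_inv_eq_iff_eq_mul, ← mem_cent1_iff.mp hg.2, mul_right_inj] at k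
      exact absurd k.symm tv
    · exact Or.inl k
    · exact Or.inr k
  rw [Set.ncard_pair (by simpa using t1), mul_comm] at h3
  exact h3.trans (Nat.mul_le_mul_left 2 (card_le_of_le'
    (cent_two hV.card ht t1 t2 hv v1 tv ▸ inf_le_inf_left _ inf_le_right)))

theorem normV (hx : TX x) (hV : F4 x V) (hy : y ∈ X3 x) (ty : TX y) (yV : y ∈ N[V]) (ht : t ∈ V)
    (t1 : t ≠ 1) (e : g * x * g⁻¹ = x ∨ g * x * g⁻¹ = x⁻¹) (k : g * t * g⁻¹ ∈ V) : g ∈ N[V] := by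
  have h1 := hV.smul g
  have h2 := X3_conj hy g
  have h3 : g * y * g⁻¹ ∈ N[conj g • V] := by rwa [← conj_smul_norm, conj_mem_conj_smul]
  refine mem_norm_of_conj_smul_eq (h.uniqV hx (by simpa using t1) ?_ (conj_mem_conj_smul.mpr ht) ?_
    (ty.conj g) h3 hV k hy ty yV) <;> rcases e with e | e <;> rw [e] at h1 h2
  exacts [h1, inv_inv x ▸ h1.inv, h2, X3_inv (u := x) ▸ h2]

/-- an element of a two-group normalized by `P` which normalizes `P` is trivial -/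
theorem eq_one_of_norm (hP : Nat.card P = 9) (hR : IsPGroup 2 R) (hn : P ≤ N[R]) (hv : v ∈ R)
    (h1 : v ∈ N[P]) : v = 1 := by
  obtain ⟨k, hk⟩ := hR.exists_card_eq
  have h2 : R ⊓ P = ⊥ := inf_eq_bot_of_coprime' (by
    rw [hk, hP]; exact Nat.Coprime.pow_left _ (by norm_num))
  refine eq_one_of_mem_inf h2 hv (h.cP hP ▸ mem_cent_iff.mpr fun y hy => ?_)
  refine mul_inv_eq_iff_eq_mul.mp (mul_inv_eq_one.mp (eq_one_of_mem_inf h2
    (mul_mem (conj_mem_of_norm (hn hy) hv) (inv_mem hv)) ?_))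
  rw [mul_assoc, mul_assoc, ← mul_assoc v]
  exact mul_mem hy (conj_mem_of_norm h1 (inv_mem hy))

theorem memX (hx : TX x) (hV : F4 x V) (hy : y ∈ X3 x) (yV : y ∈ N[V]) (h1 : g ∈ C[V])
    (h2 : g ∈ C₁[x]) (h3 : g ∈ N[zpowers x ⊔ zpowers y]) : g ∈ zpowers x := by
  have xV := cent_le_norm V hV.cent
  obtain ⟨v, hv, k, hk, rfl⟩ := (mem_sup_of_norm (zpowers_le.mpr xV)).mp
    (h.CVx hx hV ▸ ⟨h1, h2⟩ : g ∈ V ⊔ zpowers x)
  rwa [h.eq_one_of_norm (card_pair hy hx.1) hV.pg (le_P xV yV) hv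
    ((mul_mem_cancel_right (le_norm_self _ (mem_sup_left hk))).mp h3), one_mul]

theorem exCf : ∃ (x y s : G) (V : Subgroup G), Cf x y s V := by
  obtain ⟨_, _, _, x, r⟩ := h.exZ
  have hx := (h.ZT r).1
  obtain ⟨y, hy, ty⟩ := h.ex_pure hx
  obtain ⟨V, hV, yV⟩ := h.exV hx hy
  obtain ⟨t, ht, t1⟩ := hV.ex
  have xV := cent_le_norm V hV.cent
  obtain ⟨s, hs, sx⟩ : ∃ s ∈ C[V], s * x * s⁻¹ = x⁻¹ := by
    obtain ⟨z, hz, e⟩ := h.real_t hx (hV.le ht) t1 (hV.sq t ht)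
    obtain ⟨h1, d, d1, d2, d3⟩ := h.card_M0 hx hV ht t1
    by_cases k : z ∈ C[V]
    · exact ⟨z, k, e⟩
    refine ⟨z * d, mul_mem_of_index_two (le_inf (cent_le_norm V) (cent_le_cent1 ht)) h1
      ⟨h.normV hx hV hy ty yV ht t1 (Or.inr e) ?_, hz⟩ d1 k d3, ?_⟩
    · rwa [mem_cent1_iff.mp hz, mul_inv_cancel_right]
    · rw [← conj_conj, mem_cent1_iff.mp d2, mul_inv_cancel_right, e]
  have hP := card_pair hy hx.1
  have PV := le_P xV yV
  have h1 := X3_conj hy s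
  rw [sx, X3_inv] at h1
  have h2 : s * y * s⁻¹ ∈ V ⊔ (zpowers x ⊔ zpowers y) := by
    have k : s * y * s⁻¹ * y⁻¹ ∈ V ⊔ zpowers x := h.CVx hx hV ▸ ⟨by
      rw [mul_assoc, mul_assoc, ← mul_assoc y]
      exact mul_mem hs (conj_mem_of_norm (norm_le_norm_cent V yV) (inv_mem hs)),
      C₁[x].mul_mem (mem_X3.mp h1).1 (inv_mem (mem_X3.mp hy).1)⟩
    exact (mul_mem_cancel_right (inv_mem (mem_sup_right (yP x y)))).mp
      (sup_le_sup_left le_sup_left V k)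
  obtain ⟨c, hc, e⟩ := exists_conj_le (p := 3) (T := zpowers x ⊔ zpowers y) (zpowers_le.mpr h2)
    (.of_card (n := 1) (by rw [Nat.card_zpowers, (mem_X3.mp h1).2.1]; rfl)) (by
      rw [relIndex_eq le_sup_right (n := 4) (by
        rw [card_sup_of_inf_eq_bot PV (inf_eq_bot_of_coprime' (by rw [hV.card, hP]; norm_num)),
          hV.card])]
      norm_num)
  obtain ⟨p, hp, v, hv, rfl⟩ := (mem_sup_of_norm_rev PV).mp hc
  have h3 : v * s * y * (v * s)⁻¹ ∈ zpowers x ⊔ zpowers y := by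
    rw [← conj_conj]
    exact mem_of_conj_mem_of_norm (le_norm_self _ hp) (conj_conj p v _ ▸ e _ (mem_zpowers _))
  have h4 : v * s * x * (v * s)⁻¹ = x⁻¹ := by
    rw [← conj_conj, sx, ← conj_inv, mem_cent1_iff.mp (hV.le hv), mul_inv_cancel_right]
  have h5 := mul_mem (hV.comm hv) hs
  generalize v * s = s at h3 h4 h5
  have h6 := X3_conj hy s
  rw [h4, X3_inv] at h6
  have h7 : s * y * s⁻¹ * y⁻¹ ∈ zpowers x := h.memX hx hV hy yV (by
    rw [mul_assoc, mul_assoc, ← mul_assoc y]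
    exact mul_mem h5 (conj_mem_of_norm (norm_le_norm_cent V yV) (inv_mem h5)))
    (mul_mem (mem_X3.mp h6).1 (inv_mem (mem_X3.mp hy).1))
    (le_norm_self _ (mul_mem h3 (inv_mem (yP x y))))
  obtain ⟨k, hk, e⟩ : ∃ k ∈ zpowers x, s * y * s⁻¹ = k * y := ⟨_, h7, by simp⟩
  refine ⟨x, k⁻¹ * y, s, V, hx, X3_mul hy hx.1 (inv_mem hk), ty.orb (h.TXmul hx hy (inv_mem hk)), hV,
    mul_mem (zpowers_le.mpr xV (inv_mem hk)) yV, h5, h4, ?_⟩
  rw [← conj_mul, e, inv_zp h4 (inv_mem hk), inv_inv, ← mul_assoc, sq_three (cube_zp hx.1 hk)]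

theorem fcard (hp : TX p) (hq : q ∈ X3 p) (hL : IsPGroup 2 L) (hn : q ∈ N[L]) :
    Nat.card ↥(L ⊓ C₁[p]) = 1 ∨ F4 p (L ⊓ C₁[p]) := by
  obtain ⟨q1, oq, -⟩ := mem_X3.mp hq
  have pK := hL.to_inf_left (K := C₁[p])
  have h1 : q ∈ N[L ⊓ C₁[p]] := zpowers_le.mp (le_norm_inf (zpowers_le.mpr hn)
    (le_norm_cent1 (zpowers_le.mpr q1)))
  have h2 : L ⊓ C₁[p] ⊓ C₁[q] = ⊥ := by
    by_contra e
    obtain ⟨b, hb, b1, b2⟩ := exists_invol pK.to_inf_left e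
    exact b1 (h.inv_X hp.1 hq hb.1.2 hb.2 b2)
  have h3 := card_modEq_conj Nat.prime_three (of_o3 oq).2 fun _ => conj_mem_of_norm h1
  obtain ⟨k, hk⟩ := pK.exists_card_eq
  have h4 : Nat.card ↥(L ⊓ C₁[p]) ∣ 2 ^ 3 := (show (Nat.card ↥(L ⊓ C₁[p])).Coprime 135 from
    hk ▸ Nat.Coprime.pow_left _ (by norm_num)).dvd_of_dvd_mul_right
      ((card_dvd_of_le inf_le_right).trans hp.2.dvd)
  obtain ⟨k, hk, e⟩ := (Nat.dvd_prime_pow Nat.prime_two).mp h4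
  rw [h2, card_bot] at h3
  have h5 : Nat.card ↥(L ⊓ C₁[p]) = 1 ∨ Nat.card ↥(L ⊓ C₁[p]) = 4 := by
    unfold Nat.ModEq at h3
    rw [e] at h3 ⊢
    interval_cases k <;> omega
  refine h5.imp id fun e => ⟨e, inf_le_right, fun g hg => by_contra fun k => ?_⟩
  have h6 := e ▸ orderOf_dvd_card_of_mem hg
  have h7 : orderOf g = 4 := by
    have k2 : ¬ orderOf g ∣ 2 := fun e => k (pow_two g ▸ orderOf_dvd_iff_pow_eq_one.mp e)
    obtain ⟨i, hi, e⟩ := (Nat.dvd_prime_pow (m := 2) Nat.prime_two).mp h6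
    rw [e] at k2 ⊢
    interval_cases i <;> omega
  have h8 := eq_of_le_of_card_eq (zpowers_le.mpr hg) (by rw [Nat.card_zpowers, h7, e])
  have := commute_of_conj_mem (by rw [oq]; norm_num) (h6.trans (by norm_num))
    (h8 ▸ conj_mem_of_norm h1 hg)
  rw [eq_one_of_mem_inf h2 hg (mem_cent1_iff.mpr this.symm), orderOf_one] at h7
  omega

variable (r : Cf x y s V)
include r

theorem cntS (hL : IsPGroup 2 L) (h1 : V ≤ L) (h2 : L ≤ C[V]) (xL : x ∈ N[L]) (yL : y ∈ N[L])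
    (sL : s ∈ N[L]) : L = V ∨ (Nat.card L = 16 ∧ F4 y (L ⊓ C₁[y])) ∨
      (Nat.card L = 64 ∧ Nat.card ↥(L ⊓ C₁[y]) = 1) ∨
      (Nat.card L = 256 ∧ F4 y (L ⊓ C₁[y]) ∧ F4 (x * y) (L ⊓ C₁[x * y])) := by
  have ox := r.tx.1
  have c := cnt9 (of_o3 ox).2 (of_o3 r.ty.1).2 r.xy xL yL
  have e1 : Nat.card ↥(L ⊓ C₁[x * y⁻¹]) = Nat.card ↥(L ⊓ C₁[x * y]) := by
    rw [← card_fix_conj sL (x * y), ← conj_mul, r.sx, r.sy, ← cent1_inv, mul_inv_rev, inv_inv,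
      mem_cent1_iff.mp (inv_mem (mem_cent1_comm.mp (mem_X3.mp r.yx).1))]
  have m := X3_mul r.yx ox (mem_zpowers x)
  have k1 := h.fcard r.ty (X3_symm r.yx ox) hL xL
  have k2 := h.fcard (r.ty.orb (h.TXmul r.tx r.yx (mem_zpowers x))) (X3_symm m ox) hL xL
  have fx := h.fixV r.tx r.f4 hL h1 h2
  obtain ⟨t, ht, t1⟩ := r.f4.ex
  have h3 := card_dvd_of_le (inf_le_right (a := N[V]) (b := C₁[t]))
  rw [(h.card_M0 r.tx r.f4 ht t1).1, h.cAx r.tx (r.f4.le ht) t1 (r.f4.sq t ht)] at h3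
  obtain ⟨k, hk⟩ := hL.exists_card_eq
  obtain ⟨k, hk, e⟩ := (Nat.dvd_prime_pow (m := 9) Nat.prime_two).mp
    ((show (Nat.card L).Coprime 21 from hk ▸ Nat.Coprime.pow_left _ (by norm_num)).dvd_of_dvd_mul_right
      ((card_dvd_of_le h2).trans (Nat.dvd_of_mul_dvd_mul_left (by norm_num : 0 < 2) h3)))
  rw [fx, r.f4.card, e1] at c
  by_cases h4 : Nat.card L = 4
  · exact Or.inl (eq_of_le_of_card_eq h1 (r.f4.card.trans h4.symm)).symm
  have h5 := r.f4.card ▸ card_le_of_le' h1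
  rcases k1 with k1 | k1 <;> rcases k2 with k2 | k2
  · refine Or.inl (le_antisymm (coprime_abelian_gen_cent1 (abel_of_card_sq (p := 3) r.cP)
      (fun e => ?_) (le_P xL yL) (by rw [e, r.cP]; exact Nat.Coprime.pow_left _ (by norm_num))
      (have := hL.isNilpotent; inferInstance) fun a ha a1 => ?_) h1)
    · obtain ⟨g, hg⟩ := e.exists_ofOrder_eq_natCard
      have := orderOf_dvd_of_pow_eq_one (h.cube (.of_card (n := 2) r.cP) g.2)
      rw [orderOf_coe, hg, r.cP] at this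
      omega
    · have b : ∀ p, Nat.card ↥(L ⊓ C₁[p]) = 1 → L ⊓ C₁[p] ≤ V := fun p e =>
        eq_bot_iff_card'.mpr e ▸ bot_le
      rcases mem_nine r.cP (xP x y) (yP x y) ox (of_o3 r.ty.1).2 (mem_X3.mp r.yx).2.2 ha a1 with
        e | e | e | e | e | e | e | e <;> rw [e] <;> try rw [cent1_inv]
      exacts [fx.le, fx.le, b _ k1, b _ k1, b _ k2, b _ k2, b _ (e1.trans k2), b _ (e1.trans k2)]
  · rw [k1, k2.card] at c
    refine Or.inr (Or.inr (Or.inl ⟨?_, k1⟩))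
    rw [e] at c h5 ⊢
    interval_cases k <;> omega
  · rw [k1.card, k2] at c
    refine Or.inr (Or.inl ⟨?_, k1⟩)
    rw [e] at c ⊢
    interval_cases k <;> omega
  · rw [k1.card, k2.card] at c
    refine Or.inr (Or.inr (Or.inr ⟨?_, k1, k2⟩))
    rw [e] at c h4 ⊢
    interval_cases k <;> omega

omit h in
theorem V_W : V ≤ WW V := WW_max r.f4.comm (cent_le_norm V) r.f4.pg

theorem card_CV : Nat.card C[V] = 6 * Nat.card (WW V) := by
  obtain ⟨t, ht, t1⟩ := r.f4.ex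
  have h1 : Nat.card C[V] ∣ 3 * 2 ^ 10 := by
    refine (cop_of (p := 7) (by norm_num) fun e => ?_).dvd_of_dvd_mul_right
      ((card_dvd_of_le (cent_le_cent1 ht)).trans (h.cAx r.tx (r.f4.le ht) t1 (r.f4.sq t ht)).dvd)
    obtain ⟨s, hs, os⟩ := exists_mem_orderOf (by norm_num) e
    have := card_dvd_of_le (le_cent1_iff.mpr hs)
    rw [r.f4.card, h.cent7 os] at this
    omega
  obtain ⟨n, hn⟩ := r.tx.1 ▸ orderOf_dvd_card_of_mem r.f4.cent
  obtain ⟨k, -, rfl⟩ := (Nat.dvd_prime_pow Nat.prime_two).mp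
    (Nat.dvd_of_mul_dvd_mul_left (by norm_num) (hn ▸ h1))
  obtain ⟨T, t1, t2⟩ := exists_le_card Nat.prime_two (Dvd.intro_left _ hn.symm)
  obtain ⟨K, k1, k2, k3, k4, -⟩ := exists_core T C[V]
  rw [relIndex_eq t1 (n := 3) (by rw [hn, t2])] at k3
  have h2 := (relIndex_dvd_of_le_left' (WW_max k1 k2 ((IsPGroup.of_card t2).to_le k4)) _).trans k3
  have h3 := relIndex_mul_card (WW_le V)
  have xW := WW_norm V r.xV
  have h4 := card_sup_of_inf_eq_bot (zpowers_le.mpr xW) (cop23 (WW_pg V) r.tx.1)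
  have h5 : WW V ⊔ zpowers x ≤ C[V] := sup_le (WW_le V) (zpowers_le.mpr r.f4.cent)
  have h6 := two_mul_card_le h5 fun e => by
    obtain ⟨w, hw, c, hc, e⟩ := (mem_sup_of_norm (zpowers_le.mpr xW)).mp (e r.sV)
    have k := r.sx
    rw [← e, ← conj_conj, comm_of_abel (abel_zpowers x) hc (mem_zpowers x), mul_inv_cancel_right]
      at k
    have k' := mul_mem hw (conj_mem_of_norm xW (inv_mem hw))
    rw [← mul_assoc, ← mul_assoc, k, ← mul_inv_rev, sq_three (of_o3 r.tx.1).2, inv_inv] at k'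
    exact (of_o3 r.tx.1).1 (eq_one_of_mem_inf (cop23 (WW_pg V) r.tx.1) k' (mem_zpowers x))
  rw [h4, Nat.card_zpowers, r.tx.1] at h6
  have := Nat.mul_le_mul_right (Nat.card (WW V))
    (show (WW V).relIndex C[V] ≤ 6 from Nat.le_of_dvd (by norm_num) h2)
  omega

theorem inW (hR : IsPGroup 2 R) (h1 : R ≤ C[V]) (h2 : x ∈ N[R]) : R ≤ WW V := by
  by_contra k
  have h3 := h1.trans ((cent_le_norm V).trans (WW_norm V))
  have pT := IsPGroup.sup_of_norm (WW_pg V) hR h3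
  have h4 := two_mul_card_le (le_sup_left (a := WW V) (b := R)) fun e => k (le_sup_right.trans e)
  have h5 : zpowers x ≤ N[WW V ⊔ R] :=
    le_norm_sup (zpowers_le.mpr (WW_norm V r.xV)) (zpowers_le.mpr h2)
  have h6 : WW V ⊔ R ≤ C[V] := sup_le (WW_le V) h1
  have h7 : WW V ⊔ R ⊔ zpowers x = C[V] := Cfsg.Agent.H7.eq_of_le_of_card_le
    (sup_le h6 (zpowers_le.mpr r.f4.cent)) (by
      rw [card_sup_of_inf_eq_bot h5 (cop23 pT r.tx.1), Nat.card_zpowers, r.tx.1, h.card_CV r]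
      omega)
  exact k (le_sup_right.trans (WW_max h6 (h7 ▸ sup_le (le_norm_self _) h5) pT))

theorem ytV (ht : t ∈ V) (t1 : t ≠ 1) : t ≠ y * t * y⁻¹ := fun e =>
  t1 (h.inv_X r.tx.1 r.yx (r.f4.le ht) (mem_cent1_comm.mp (mem_cent1_iff.mpr
    (mul_inv_eq_iff_eq_mul.mp e.symm))) (r.f4.sq t ht))

theorem exQ' (ht : t ∈ V) (t1 : t ≠ 1) : ∃ Q, IsQ t Q ∧ V ≤ Q ∧ Q ⊓ C[V] ≤ WW V ∧
    Nat.card ↥(Q ⊓ C[V]) = 64 := by
  have t2 := r.f4.sq t ht
  obtain ⟨Q, q, hq⟩ := h.exQ r.tx (r.f4.le ht) t1 t2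
  have VQ := hq V (le_inf (r.f4.comm.trans (cent_le_cent1 ht)) r.f4.le) r.f4.pg
  obtain ⟨v, hv, v1, tv⟩ := exists_third r.f4.card t
  refine ⟨Q, q, VQ, WW_max inf_le_right (le_norm_inf ((cent_le_cent1 ht).trans q.norm)
    (le_norm_self _)) q.pg.to_inf_left, ?_⟩
  have h1 := card_le_cent_mul Q v (T := {v, t * v}) fun g hg => q.comm g hg v (VQ hv)
  have h2 := two_mul_card_le (inf_le_left (a := Q) (b := C[V])) fun e =>
    (q.z v (VQ hv) (le_cent_symm (e.trans inf_le_right) hv)).elim v1 tv.symm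
  have h3 := card_le_of_le' (show C₁[v] ⊓ Q ≤ Q ⊓ C[V] from le_inf inf_le_right
    (cent_two r.f4.card ht t1 t2 hv v1 tv ▸ inf_le_inf_left _ q.le))
  rw [Set.ncard_pair (by simpa using t1), q.card] at h1
  rw [q.card] at h2
  omega

theorem card_W : Nat.card (WW V) = 256 ∧ F4 y (WW V ⊓ C₁[y]) ∧ F4 (x * y) (WW V ⊓ C₁[x * y]) := by
  obtain ⟨t, ht, t1⟩ := r.f4.ex
  obtain ⟨Q, q, -, h1, h2⟩ := h.exQ' r ht t1
  have h3 := h2 ▸ card_le_of_le' h1
  rcases h.cntS r (WW_pg V) (V_W r) (WW_le V) (WW_norm V r.xV) (WW_norm V r.yV)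
    (WW_norm V (cent_le_norm V r.sV)) with e | e | e | e
  · rw [e, r.f4.card] at h3; omega
  · omega
  · have h4 := (eq_of_le_of_card_eq h1 (h2.trans e.1.symm)).ge.trans inf_le_left
    have := q.ab4 h4 e.1 le_rfl (q.ab (q.smul y) (h.ytV r ht t1) h4
      (conj_smul_of_norm (WW_norm V r.yV) ▸ conj_smul_mono y h4))
    omega
  · exact e

end H24

end Cfsg.Agent.Ma
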