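import Cfsg.Agent.H9.M24h

/-! The elementary abelian subgroup of order sixteen. -/

set_option autoImplicit false

namespace Cfsg.Agent.Ma

open Subgroup Cfsg.Agent.H7 Cfsg.Agent.H4 Cfsg.Agent.Fx4 Cfsg.Agent.H4.Nse
open Cfsg.Agent.H3 hiding orderOf_conj'
open MulAut (conj)
open scoped Pointwise commutatorElement

universe u
variable {G : Type u} [Group G] [Finite G] {L P T K H R V U W M S D Q A B E : Subgroup G}
  {x y z g p s t v w q a b c u l : G}

/-- The second four-group. -/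
abbrev VV (y : G) (V : Subgroup G) : Subgroup G := WW V ⊓ C₁[y]

/-- The group of order sixteen. -/
abbrev EE (y : G) (V : Subgroup G) : Subgroup G := V ⊔ VV y V

theorem norm_VV (h1 : g ∈ N[V]) (h2 : g * y * g⁻¹ = y ∨ g * y * g⁻¹ = y⁻¹) : g ∈ N[VV y V] :=
  mem_norm_of_conj_smul_eq (by
    rw [conj_smul_inf, conj_smul_of_norm (WW_norm V h1), conj_smul_cent1]
    rcases h2 with e | e <;> rw [e]
    rw [cent1_inv])

theorem norm_EE (h1 : g ∈ N[V]) (h2 : g * y * g⁻¹ = y ∨ g * y * g⁻¹ = y⁻¹) : g ∈ N[EE y V] :=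
  H1.T3.mem_norm_sup h1 (norm_VV h1 h2)

theorem Cf.xy' (r : Cf x y s V) : x * y * x⁻¹ = y := by rw [r.xy, mul_inv_cancel_right]

theorem Cf.xE (r : Cf x y s V) : x ∈ N[EE y V] := norm_EE r.xV (Or.inl r.xy')

theorem Cf.yE (r : Cf x y s V) : y ∈ N[EE y V] := norm_EE r.yV (Or.inl (mul_inv_cancel_right y y))

theorem Cf.sE (r : Cf x y s V) : s ∈ N[EE y V] := norm_EE (cent_le_norm V r.sV) (Or.inl r.sy)

/-- The properties of the group of order sixteen. -/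
structure E16 (E : Subgroup G) : Prop where
  card : Nat.card E = 16
  sq : ∀ g ∈ E, g * g = 1
  cent : C[E] = E
  cN : Nat.card N[E] = 322560
  tr : ∀ a ∈ E, a ≠ 1 → ∀ b ∈ E, b ≠ 1 → b ∈ orb N[E] a
  le : ∀ a ∈ E, a ≠ 1 → C₁[a] ≤ N[E]

theorem E16.ti (e : E16 E) (ha : a ∈ E) (a1 : a ≠ 1) (hg : g * a * g⁻¹ ∈ E) : g ∈ N[E] := by
  obtain ⟨n, hn, k⟩ := e.tr _ hg (by simpa using a1) a ha a1
  exact (mul_mem_cancel_left hn).mp (e.le a ha a1 (mem_cent1_iff.mpr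
    (mul_inv_eq_iff_eq_mul.mp ((conj_conj _ _ _).symm.trans k))))

namespace H24

variable (h : H24 G) (r : Cf x y s V)
include h r

theorem f4V : F4 y (VV y V) := (h.card_W r).2.1

theorem V_inf (hK : K ≤ C₁[y]) : V ⊓ K = ⊥ := inf_eq_bot_of_forall fun a h1 h2 =>
  h.inv_X r.tx.1 r.yx (r.f4.le h1) (hK h2) (r.f4.sq a h1)

theorem card_sup4 (hK : F4 y K) (h1 : K ≤ C[V]) : Nat.card ↥(V ⊔ K) = 16 := by
  rw [card_sup_of_inf_eq_bot (h1.trans (cent_le_norm V)) (h.V_inf r hK.le), r.f4.card, hK.card]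

theorem card_E : Nat.card (EE y V) = 16 := h.card_sup4 r (h.f4V r) (inf_le_left.trans (WW_le V))

omit h in
theorem E_W : EE y V ≤ WW V := sup_le (V_W r) inf_le_left

theorem E_sq (g : G) (hg : g ∈ EE y V) : g * g = 1 := by
  have k := inf_le_left.trans (WW_le V) (a := VV y V)
  obtain ⟨a, ha, b, hb, rfl⟩ := (mem_sup_of_norm (k.trans (cent_le_norm V))).mp hg
  rw [mul_assoc, ← mul_assoc b, ← comm_of_mem_cent (k hb) ha, mul_assoc, (h.f4V r).sq b hb, mul_one,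
    r.f4.sq a ha]

theorem der_A (q : IsQ t Q) (ht : t ∈ V) (h1 : Q ⊓ C[V] ≤ WW V) (h2 : Nat.card ↥(Q ⊓ C[V]) = 64) :
    ⁅WW V, WW V⁆ ≤ Q ⊓ C[V] := by
  have k : WW V ≤ N[Q ⊓ C[V]] := (WW_le V).trans
    (le_norm_inf ((cent_le_cent1 ht).trans q.norm) (le_norm_self _))
  refine (quo_comm_iff k).mp (abel_of_card_sq (p := 2) ?_)
  rw [card_quo k, relIndex_eq h1 (n := 4) (by rw [(h.card_W r).1, h2])]
  rfl

theorem der_E : ⁅WW V, WW V⁆ ≤ EE y V := by
  obtain ⟨t, ht, t1⟩ := r.f4.ex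
  obtain ⟨Q, q, VQ, h1, h2⟩ := h.exQ' r ht t1
  have h3 := h.der_A r q ht h1 h2
  have h4 : C[V] ≤ N[Q ⊓ C[V]] := le_norm_inf ((cent_le_cent1 ht).trans q.norm) (le_norm_self _)
  have h5 : V ≤ Q ⊓ C[V] := le_inf VQ r.f4.comm
  have h6 : Q ⊓ C[V] ≤ Q := inf_le_left
  generalize Q ⊓ C[V] = A at *
  have k : ∀ g ∈ N[V], ⁅WW V, WW V⁆ ≤ conj g • A ∧ C[V] ≤ N[conj g • A] ∧ V ≤ conj g • A :=
    fun g hg => ⟨conj_smul_of_norm (le_norm_der (WW_norm V) hg) ▸ conj_smul_mono g h3,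
      conj_smul_of_norm (norm_le_norm_cent V hg) ▸ le_norm_smul h4 g,
      conj_smul_of_norm hg ▸ conj_smul_mono g h5⟩
  obtain ⟨a1, a2, a3⟩ := k y r.yV
  obtain ⟨b1, b2, b3⟩ := k y⁻¹ (inv_mem r.yV)
  have n := le_norm_inf (le_norm_inf h4 a2) b2
  have BA : A ⊓ conj y • A ⊓ conj y⁻¹ • A ≤ A := inf_le_left.trans inf_le_left
  refine (le_inf (le_inf h3 a1) b1).trans ?_
  rcases h.cntS r ((WW_pg V).to_le (BA.trans h1)) (le_inf (le_inf h5 a3) b3)
    ((BA.trans h1).trans (WW_le V)) (n r.f4.cent) (mem_norm_of_conj_smul_eq (by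
      rw [conj_smul_inf, conj_smul_inf, conj_smul_inv_smul, conj_smul_smul,
        sq_three (of_o3 r.ty.1).2, inf_comm, inf_assoc])) (n r.sV) with e | e | e | e
  · exact e.le.trans le_sup_left
  · rw [← eq_of_le_of_card_eq (sup_le (le_inf (le_inf h5 a3) b3) inf_le_left) ((h.card_sup4 r e.2
      (inf_le_left.trans ((BA.trans h1).trans (WW_le V)))).trans e.1.symm)]
    exact sup_le_sup_left (inf_le_inf_right _ (BA.trans h1)) V
  · have := q.ab4 (BA.trans h6) e.1 le_rfl (q.ab (q.smul y) (h.ytV r ht t1) (BA.trans h6)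
      ((inf_le_left.trans inf_le_right).trans (conj_smul_mono y h6)))
    omega
  · have := card_le_of_le' BA
    omega

theorem W_E : WW V ≤ N[EE y V] := le_norm_of_comm_le (E_W r) (h.der_E r)

theorem trV (ht : t ∈ V) (t1 : t ≠ 1) (hv : v ∈ V) (v1 : v ≠ 1) : v ∈ orb (zpowers y) t := by
  have h1 := conj_mem_of_norm r.yV ht
  have h2 := h.ytV r ht t1
  have h3 : y * t * y⁻¹ ≠ 1 := by simpa using t1
  rcases mem_four r.f4.card ht h1 t1 h3 h2 (r.f4.sq t ht) hv with e | e | e | e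
  · exact absurd e v1
  · exact e ▸ mem_orb_self _ _
  · exact e ▸ orb_conj (mem_zpowers y) t
  rcases mem_four r.f4.card ht h1 t1 h3 h2 (r.f4.sq t ht) (conj_mem_of_norm r.yV h1) with
    k | k | k | k
  · exact absurd (conj_eq_one_iff.mp k) h3
  · rw [conj_conj, sq_three (of_o3 r.ty.1).2] at k
    exact absurd (by conv_rhs => rw [← k]
                     group) h2
  · exact absurd k.symm (h.ytV r h1 h3)
  · exact e ▸ k ▸ orb_trans (orb_conj (mem_zpowers y) t) (orb_conj (mem_zpowers y) _)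

theorem card_M (ht : t ∈ V) (t1 : t ≠ 1) : Nat.card ↥(N[V] ⊓ C₁[t]) = 3072 := by
  rw [(h.card_M0 r.tx r.f4 ht t1).1, h.card_CV r, (h.card_W r).1]

theorem card_NV : Nat.card N[V] = 9216 := by
  obtain ⟨t, ht, t1⟩ := r.f4.ex
  rw [card_orb _ t, show orb N[V] t = (V : Set G) \ {1} from Set.Subset.antisymm (by
    rintro _ ⟨g, hg, rfl⟩
    exact ⟨conj_mem_of_norm hg ht, by simpa using t1⟩)
    fun v hv => orb_mono (zpowers_le.mpr r.yV) t (h.trV r ht t1 hv.1 hv.2), ncard_sdiff_one,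
    r.f4.card, inf_comm, h.card_M r ht t1]

theorem eigx (h1 : l ∈ N[V]) (h2 : l ∈ N[zpowers x ⊔ zpowers y]) :
    l * x * l⁻¹ = x ∨ l * x * l⁻¹ = x⁻¹ := by
  have k := conj_mem_of_norm h2 (xP x y)
  exact (mem_zpowers_three (of_o3 r.tx.1).2 (h.memX r.tx r.f4 r.yx r.yV
    (conj_mem_of_norm (norm_le_norm_cent V h1) r.f4.cent) (pair_le r.yx k)
    (le_norm_self _ k))).resolve_left (by simpa using (of_o3 r.tx.1).1)

theorem eigy (h1 : l ∈ N[V]) (h2 : l ∈ N[zpowers x ⊔ zpowers y]) :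
    l * y * l⁻¹ = y ∨ l * y * l⁻¹ = y⁻¹ := by
  have h3 : l * s * l⁻¹ * x * (l * s * l⁻¹)⁻¹ = x⁻¹ := by
    have k : l * s * l⁻¹ * (l * x * l⁻¹) * (l * s * l⁻¹)⁻¹ = (l * x * l⁻¹)⁻¹ := by
      rw [conj_inv, conj_mul, conj_mul, r.sx, conj_inv]
    rcases h.eigx r h1 h2 with e | e <;> rw [e] at k
    · exact k
    · rw [← inv_inj, ← k, conj_inv]
  have h4 := h.memX r.tx r.f4 r.yx r.yV (mul_mem r.sV (conj_mem_of_norm (norm_le_norm_cent V h1) r.sV))
    (mul_inverts r.sx h3) (mul_mem r.sP (mul_mem (mul_mem h2 r.sP) (inv_mem h2)))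
  have h5 := conj_mem_of_norm h2 (yP x y)
  have h6 : s * (l * y * l⁻¹) * s⁻¹ = l * y * l⁻¹ := by
    have k := (comm_of_mem_cent (cent_zpowers x ▸ pair_le r.yx h5) h4)
    calc _ = s * (l * (s * y * s⁻¹) * l⁻¹) * s⁻¹ := by rw [r.sy]
      _ = s * (l * s * l⁻¹) * (l * y * l⁻¹) * (s * (l * s * l⁻¹))⁻¹ := by group
      _ = _ := by rw [k, mul_inv_cancel_right]
  obtain ⟨i, hi, j, hj, e⟩ := mem_pair r.yx h5
  rw [← e, ← conj_mul, inv_zp r.sx hi, conj_eq_of_mem_cent (cent_zpowers y ▸ mem_cent1_iff.mpr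
    (mul_inv_eq_iff_eq_mul.mp r.sy)) hj, mul_left_inj] at h6
  rw [eq_one_of_sq_cube (mul_eq_one_iff_inv_eq.mpr h6) (cube_zp r.tx.1 hi), one_mul] at e
  exact (mem_zpowers_three (of_o3 r.ty.1).2 (e ▸ hj)).resolve_left
    (by simpa using (of_o3 r.ty.1).1)

theorem card_L : 36 ≤ Nat.card ↥(N[zpowers x ⊔ zpowers y] ⊓ N[V]) := by
  have PV := le_P r.xV r.yV
  have h1 := relIndex_modEq Nat.prime_three (.of_card (n := 2) r.cP) (by
    rw [relIndex_eq PV (n := 1024) (by rw [h.card_NV r, r.cP])]; norm_num) PV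
  have h2 := card_inf_mul_relIndex N[zpowers x ⊔ zpowers y] N[V]
  have h3 : zpowers x ⊔ zpowers y ≤ N[zpowers x ⊔ zpowers y] ⊓ N[V] := le_inf (le_norm_self _) PV
  have h4 := two_mul_card_le h3 fun e => ne_inv_three r.tx.1 (by
    rw [← r.sx, mem_cent1_iff.mp (pair_le r.yx (e ⟨r.sP, cent_le_norm V r.sV⟩)),
      mul_inv_cancel_right])
  obtain ⟨m, hm⟩ := card_dvd_of_le h3
  rw [r.cP] at hm h4
  rw [hm, h.card_NV r] at h2
  unfold Nat.ModEq at h1
  by_contra k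
  have : m = 2 ∨ m = 3 := by omega
  rcases this with rfl | rfl <;> omega

theorem NV_E : N[V] ≤ N[EE y V] := by
  have h1 : N[zpowers x ⊔ zpowers y] ⊓ N[V] ≤ N[WW V] := inf_le_right.trans (WW_norm V)
  rw [← Cfsg.Agent.H7.eq_of_le_of_card_le (sup_le ((WW_le V).trans (cent_le_norm V))
    (inf_le_right (a := N[zpowers x ⊔ zpowers y]))) (by
      have := h.card_L r
      rw [card_sup_of_inf_eq_bot h1 (inf_eq_bot_of_forall fun a a1 a2 => h.eq_one_of_norm r.cP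
        (WW_pg V) ((le_P r.xV r.yV).trans (WW_norm V)) a1 a2.1), (h.card_W r).1, h.card_NV r]
      omega)]
  exact sup_le (h.W_E r) fun l hl => norm_EE hl.2 (h.eigy r hl.2 hl.1)

theorem ex_r : ∃ l ∈ N[V], l * x * l⁻¹ = x ∧ l * y * l⁻¹ = y⁻¹ := by
  have h1 := card_le_cent_mul (N[zpowers x ⊔ zpowers y] ⊓ N[V]) x (T := {x, x⁻¹})
    fun l hl => h.eigx r hl.2 hl.1
  have h2 := h.card_L r
  rw [Set.ncard_pair (ne_inv_three r.tx.1)] at h1
  by_contra k
  push Not at k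
  have := card_le_of_le' (show C₁[x] ⊓ (N[zpowers x ⊔ zpowers y] ⊓ N[V]) ≤ C₁[y] ⊓ C₁[x] from
    fun l hl => ⟨mem_cent1_iff.mpr (mul_inv_eq_iff_eq_mul.mp ((h.eigy r hl.2.2 hl.2.1).resolve_right
      (k l hl.2.2 (mul_inv_eq_iff_eq_mul.mpr (mem_cent1_iff.mp hl.1))))), hl.1⟩)
  rw [h.cX r.tx r.yx] at this
  omega

theorem exCf2 : ∃ l, Cf y x l (VV y V) := by
  obtain ⟨l, hl, lx, ly⟩ := h.ex_r r
  have f := h.f4V r
  have xV := norm_VV r.xV (Or.inl r.xy')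
  have lV := norm_VV hl (Or.inr ly)
  have yx := X3_symm r.yx r.tx.1
  obtain ⟨t, ht, t1⟩ := f.ex
  have k : ∀ t ∈ VV y V, t ≠ 1 → t ≠ x * t * x⁻¹ := fun t ht t1 e =>
    t1 (h.inv_X r.ty.1 yx (f.le ht) (mem_cent1_comm.mp (mem_cent1_iff.mpr
      (mul_inv_eq_iff_eq_mul.mp e.symm))) (f.sq t ht))
  have h1 := conj_mem_of_norm xV ht
  have h3 : x * t * x⁻¹ ≠ 1 := by simpa using t1
  obtain ⟨i, hi, e⟩ : ∃ i ∈ zpowers x, i * (l * t * l⁻¹) * i⁻¹ = t := by
    refine orb_symm ?_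
    rcases mem_four f.card ht h1 t1 h3 (k t ht t1) (f.sq t ht) (conj_mem_of_norm lV ht) with
      e | e | e | e
    · exact absurd (conj_eq_one_iff.mp e) t1
    · exact e.symm ▸ mem_orb_self _ _
    · exact e.symm ▸ orb_conj (mem_zpowers x) t
    rcases mem_four f.card ht h1 t1 h3 (k t ht t1) (f.sq t ht) (conj_mem_of_norm xV h1) with
      j | j | j | j
    · exact absurd (conj_eq_one_iff.mp j) h3
    · rw [conj_conj, sq_three (of_o3 r.tx.1).2] at j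
      exact absurd (by conv_rhs => rw [← j]
                       group) (k t ht t1)
    · exact absurd j.symm (k _ h1 h3)
    · exact e.symm ▸ j ▸ orb_trans (orb_conj (mem_zpowers x) t) (orb_conj (mem_zpowers x) _)
  have ix := comm_of_abel (abel_zpowers x) hi (mem_zpowers x)
  have h4 : i * l * x * (i * l)⁻¹ = x := by rw [← conj_conj, lx, ix, mul_inv_cancel_right]
  rw [conj_conj] at e
  refine ⟨i * l, r.ty, yx, r.tx, f, xV, ?_, ?_, h4⟩
  · rw [← cent_two f.card ht t1 (f.sq t ht) h1 h3 (k t ht t1)]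
    refine ⟨mem_cent1_iff.mpr (mul_inv_eq_iff_eq_mul.mp ?_),
      mem_cent1_iff.mpr (mul_inv_eq_iff_eq_mul.mp e)⟩
    rw [← conj_mul, ← conj_mul, ← conj_inv, h4, e]
  · rw [← conj_conj, ly, comm_of_mem_cent (cent_zpowers x ▸ inv_mem (mem_X3.mp r.yx).1) hi,
      mul_inv_cancel_right]

theorem VV_VV (r' : Cf y x l (VV y V)) : VV x (VV y V) = V :=
  (eq_of_le_of_card_eq (le_inf (h.inW r' r.f4.pg (le_cent_symm (inf_le_left.trans (WW_le V))) r.yV)
    r.f4.le) (r.f4.card.trans (h.f4V r').card.symm)).symm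

theorem NV2_E : N[VV y V] ≤ N[EE y V] := by
  obtain ⟨l, r'⟩ := h.exCf2 r
  have := h.NV_E r'
  rwa [EE, h.VV_VV r r', sup_comm] at this

theorem W_V2 : WW V ⊓ N[VV y V] = EE y V := by
  have f := h.f4V r
  have h0 : VV y V ≤ C[V] := inf_le_left.trans (WW_le V)
  have h1 : EE y V ≤ WW V ⊓ N[VV y V] :=
    le_inf (E_W r) (sup_le ((le_cent_symm h0).trans (cent_le_norm _)) (le_norm_self _))
  have n : ∀ g ∈ N[V], g * y * g⁻¹ = y → g ∈ N[WW V ⊓ N[VV y V]] := fun g hg e =>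
    zpowers_le.mp (le_norm_inf (zpowers_le.mpr (WW_norm V hg))
      (le_norm_norm (zpowers_le.mpr (norm_VV hg (Or.inl e)))))
  have c := h.card_E r ▸ card_le_of_le' h1
  rcases h.cntS r (WW_pg V).to_inf_left (le_sup_left.trans h1) (inf_le_left.trans (WW_le V))
    (n x r.xV r.xy') (n y r.yV (mul_inv_cancel_right y y)) (n s (cent_le_norm V r.sV) r.sy) with
    e | e | e | e
  · rw [e, r.f4.card] at c; omega
  · exact (eq_of_le_of_card_eq h1 ((h.card_E r).trans e.1.symm)).symm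
  · have := f.card ▸ e.2 ▸ card_le_of_le' (le_inf (le_sup_right.trans h1) f.le)
    omega
  exfalso
  have h2 := (eq_of_le_of_card_eq inf_le_left (e.1.trans (h.card_W r).1.symm)).ge.trans inf_le_right
  obtain ⟨z, hz, z1, z2, z3⟩ := exists_central' (WW_pg V) inf_le_left h2
    fun e => by simpa [e] using f.card
  obtain ⟨l, r'⟩ := h.exCf2 r
  have h3 : VV y V ≤ C[WW V] := fun a ha => by
    by_cases a1 : a = 1
    · exact a1 ▸ one_mem _
    obtain ⟨i, hi, rfl⟩ := h.trV r' hz z1 ha a1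
    exact conj_mem_of_norm (norm_le_norm_cent _ (WW_norm V (zpowers_le.mpr r.xV hi))) z3
  obtain ⟨t, ht, t1⟩ := r.f4.ex
  obtain ⟨Q, q, VQ, k1, k2⟩ := h.exQ' r ht t1
  have k3 : Q ⊓ C[V] ⊓ VV y V = ⊥ := inf_eq_bot_of_forall fun a a1 a2 => by
    have k4 : V ≤ Q ⊓ C[V] ⊓ C[Q ⊓ C[V]] := le_inf (le_inf VQ r.f4.comm) (le_cent_symm inf_le_right)
    exact eq_one_of_mem_inf (h.V_inf r f.le) ((Cfsg.Agent.H7.eq_of_le_of_card_le k4 (r.f4.card ▸
      q.ab4 inf_le_left k2 inf_le_left inf_le_right)).ge ⟨a1, cent_anti k1 (h3 a2)⟩) a2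
  have k4 := (h3.trans (cent_anti k1)).trans (cent_le_norm _)
  have k5 : Q ⊓ C[V] ⊔ VV y V = WW V := eq_of_le_of_card_eq (sup_le k1 inf_le_left) (by
    rw [card_sup_of_inf_eq_bot k4 k3, k2, f.card, (h.card_W r).1])
  have k6 : ∀ a ∈ WW V, ∀ b ∈ WW V, a * b * a⁻¹ = b ∨ a * b * a⁻¹ = t * b := fun a ha b hb => by
    obtain ⟨a1, a2, a3, a4, rfl⟩ := (mem_sup_of_norm k4).mp (k5.ge ha)
    obtain ⟨b1, b2, b3, b4, rfl⟩ := (mem_sup_of_norm k4).mp (k5.ge hb)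
    rw [← conj_conj, conj_eq_of_mem_cent (h3 a4) hb, ← conj_mul,
      comm_of_mem_cent (h3 b4) (k1 a2), mul_inv_cancel_right, ← mul_assoc, mul_left_inj,
      mul_left_inj]
    exact q.comm _ a2.1 _ b2.1
  have yW := WW_norm V r.yV
  have := q.ab4 inf_le_left k2 le_rfl (le_cent_iff.mpr fun b hb a ha => mul_inv_eq_iff_eq_mul.mp
    ((k6 a (k1 ha) b (k1 hb)).resolve_right fun e => ?_))
  · omega
  rcases k6 _ (conj_mem_of_norm yW (k1 ha)) _ (conj_mem_of_norm yW (k1 hb)) with j | j <;>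
    rw [conj_inv, conj_mul, conj_mul, e, ← conj_mul] at j
  · exact t1 (conj_eq_one_iff.mp (mul_eq_right.mp j))
  · exact h.ytV r ht t1 (mul_right_cancel j).symm

theorem Ct_E (ht : t ∈ V) (t1 : t ≠ 1) : C₁[t] ≤ N[EE y V] := by
  have hc := h.cAx r.tx (r.f4.le ht) t1 (r.f4.sq t ht)
  rcases eq_or_eq_of_relIndex_prime (inf_le_inf_right C₁[t] (h.NV_E r)) inf_le_right (by
    rw [relIndex_eq inf_le_right (n := 7) (by rw [hc, h.card_M r ht t1])]; norm_num) with e | e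
  swap
  · exact e.ge.trans inf_le_left
  have h1 := card_le_cent_mul N[EE y V] t (T := (EE y V : Set G) \ {1}) fun g hg =>
    ⟨conj_mem_of_norm hg (mem_sup_left ht), by simpa using t1⟩
  obtain ⟨l, r'⟩ := h.exCf2 r
  have h2 := relIndex_mul_card (h.NV2_E r)
  have h3 := relIndex_le_of_le_right (H := N[VV y V]) (h.W_E r) (relIndex_ne_zero' _ _)
  have h4 := card_inf_mul_relIndex N[VV y V] (WW V)
  rw [inf_comm, h.W_V2 r, h.card_E r, (h.card_W r).1] at h4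
  rw [ncard_sdiff_one, h.card_E r, inf_comm, e, h.card_M r ht t1] at h1
  rw [h.card_NV r'] at h2
  omega

theorem e16 : E16 (EE y V) := by
  obtain ⟨t, ht, t1⟩ := r.f4.ex
  have t2 := r.f4.sq t ht
  have hc := h.cAx r.tx (r.f4.le ht) t1 t2
  have h1 := h.Ct_E r ht t1
  have tE : t ∈ EE y V := mem_sup_left ht
  have h2 := card_orb N[EE y V] t
  have h3 : orb N[EE y V] t ⊆ (EE y V : Set G) \ {1} := by
    rintro _ ⟨g, hg, rfl⟩
    exact ⟨conj_mem_of_norm hg tE, by simpa using t1⟩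
  have h4 := Set.ncard_le_ncard h3
  obtain ⟨s', hs, os⟩ := exists_mem_orderOf (p := 7) (by norm_num) (H := C₁[t])
    (by rw [hc]; norm_num)
  have h5 := ncard_modEq_conj (by norm_num) (os ▸ pow_orderOf_eq_one s') (S := orb N[EE y V] t)
    fun a ha => orb_trans ha (orb_conj (h1 hs) a)
  rw [show {a | a ∈ orb N[EE y V] t ∧ Commute s' a} = {t} from Set.Subset.antisymm (fun a ha => by
    by_contra k
    obtain ⟨a1, a2⟩ := h3 ha.1
    have := card_dvd_of_le (le_P (mem_cent1_comm.mp hs) (mem_cent1_iff.mpr ha.2.symm))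
    rw [(card_four t1 t2 a2 (h.E_sq r a a1) (Ne.symm k)
      (cent_le_cent1 tE (comm_of_sqs (h.E_sq r) a1))).1, h.cent7 os] at this
    omega) (by simpa using ⟨mem_orb_self _ _, mem_cent1_iff.mp hs⟩), Set.ncard_singleton] at h5
  have h6 := r.cP ▸ card_dvd_of_le (le_P r.xE r.yE)
  rw [inf_eq_left.mpr h1, hc] at h2
  rw [ncard_sdiff_one, h.card_E r] at h4
  unfold Nat.ModEq at h5
  have h7 : (orb N[EE y V] t).ncard = 15 := by omega
  have h8 := Set.eq_of_subset_of_ncard_le h3 (by rw [ncard_sdiff_one, h.card_E r, h7])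
  have h9 : ∀ a ∈ EE y V, a ≠ 1 → a ∈ orb N[EE y V] t := fun a ha a1 => h8.ge ⟨ha, a1⟩
  refine ⟨h.card_E r, h.E_sq r, le_antisymm ?_ (comm_of_sqs (h.E_sq r)), by rw [h2, h7],
    fun a ha a1 b hb b1 => orb_trans (orb_symm (h9 a ha a1)) (h9 b hb b1), fun a ha a1 => ?_⟩
  · have k1 : C[EE y V] ≤ C[V] := cent_anti le_sup_left
    rw [← h.W_V2 r, inf_comm]
    conv_lhs => rw [inf_comm, h.W_V2 r]
    refine le_inf ((cent_anti le_sup_right).trans (cent_le_norm _)) (h.inW r ?_ k1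
      (norm_le_norm_cent _ r.xE))
    have k2 : ¬ 3 ∣ Nat.card C[EE y V] := fun e => by
      obtain ⟨p, hp, op⟩ := exists_mem_orderOf Nat.prime_three e
      have := h.card_E r ▸ card_dvd_of_le (le_cent1_iff.mpr hp)
      rcases h.cls3 op with k | k <;> rw [k.2] at this <;> omega
    refine pg_of_dvd (k := 9) Nat.prime_two ((cop_of Nat.prime_three k2).dvd_of_dvd_mul_right
      ((card_dvd_of_le k1).trans ?_))
    rw [h.card_CV r, (h.card_W r).1]
    norm_num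
  · obtain ⟨g, hg, rfl⟩ := h9 a ha a1
    rw [← conj_smul_cent1]
    exact conj_smul_le_of_mem hg h1

end H24

end Cfsg.Agent.Ma
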