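import Cfsg.Agent.H9.M24i

/-! The frame and the normalizer of the group of order nine. -/

set_option autoImplicit false

namespace Cfsg.Agent.Ma

open Subgroup Cfsg.Agent.H7 Cfsg.Agent.H4 Cfsg.Agent.Fx4 Cfsg.Agent.H4.Nse
open Cfsg.Agent.H3 hiding orderOf_conj'
open MulAut (conj)
open scoped Pointwise commutatorElement

universe u
variable {G : Type u} [Group G] {L P T K H R V U W M S D Q A B E : Subgroup G}
  {x y z g k p s t v w q a c u l f : G} {m n : M3} {F : Fr G}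

/-- A basis. -/
structure B9 (P : Subgroup G) (x y z : G) : Prop where
  cP : Nat.card P = 9
  hx : x ∈ P
  hy : y ∈ P
  ox : orderOf x = 3
  cube : ∀ p ∈ P, p ^ 3 = 1
  hn : y ∉ zpowers x
  cent : C[P] = P
  zx : z * x * z⁻¹ = x⁻¹
  zy : z * y * z⁻¹ = y⁻¹

namespace B9

variable (b : B9 P x y z)
include b

theorem comm (h1 : g ∈ P) (h2 : k ∈ P) : g * k = k * g :=
  comm_of_abel (abel_of_card_sq (p := 3) b.cP) h1 h2

theorem ev_add (v u : V3) : ev x y (v + u) = ev x y v * ev x y u := by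
  simp only [ev, Prod.fst_add, Prod.snd_add, pow_fin_add (b.cube x b.hx),
    pow_fin_add (b.cube y b.hy)]
  exact (Commute.pow_pow (b.comm b.hx b.hy) _ _).mul_mul_mul_comm _ _

theorem ev_smul (v : V3) (n : ℕ) : ev x y (n • v) = ev x y v ^ n := by
  induction n with
  | zero => simp [ev]
  | succ n ih => rw [succ_nsmul, b.ev_add, ih, pow_succ]

theorem ev_mem (v : V3) : ev x y v ∈ P := mul_mem (pow_mem b.hx _) (pow_mem b.hy _)

theorem ev_zero {v : V3} (h : ev x y v = 1) : v = 0 := by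
  obtain ⟨i, j⟩ := v
  have h1 : y ^ j.val ∈ zpowers x := by
    rw [eq_inv_of_mul_eq_one_right h]
    exact inv_mem (pow_mem (mem_zpowers x) _)
  obtain rfl : j = 0 := by
    fin_cases j
    · rfl
    · exact absurd (by simpa using h1) b.hn
    · refine absurd ?_ b.hn
      simpa [pow_two, sq_three (b.cube y b.hy)] using h1
  have := orderOf_dvd_of_pow_eq_one (show x ^ i.val = 1 by simpa [ev] using h)
  rw [b.ox] at this
  exact Prod.ext (Fin.ext (by simp only [Prod.fst_zero, Fin.val_zero]; omega)) rfl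

theorem ev_inj {v u : V3} (h : ev x y v = ev x y u) : v = u :=
  sub_eq_zero.mp (b.ev_zero (mul_right_cancel (b := ev x y u)
    (by rw [← b.ev_add, sub_add_cancel, one_mul, h])))

theorem app (h : R3 x y m g) (v : V3) : g * ev x y v * g⁻¹ = ev x y (a3 m v) := by
  rw [a3, b.ev_add, b.ev_smul, b.ev_smul, ← h.1, ← h.2, conj_pow, conj_pow, conj_mul, ev]

theorem mul (h : R3 x y m g) (h' : R3 x y n k) : R3 x y (m3 m n) (g * k) :=
  ⟨by rw [← conj_conj, h'.1, b.app h, m3], by rw [← conj_conj, h'.2, b.app h, m3]⟩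

theorem inj (h : R3 x y m g) (v : V3) (e : a3 m v = 0) : v = 0 :=
  b.ev_zero (conj_eq_one_iff.mp (by rw [b.app h, e]; simp [ev]))

theorem left (h : R3 x y m g) (hp : p ∈ P) : R3 x y m (p * g) :=
  ⟨by rw [← conj_conj, h.1, b.comm hp (b.ev_mem _), mul_inv_cancel_right],
    by rw [← conj_conj, h.2, b.comm hp (b.ev_mem _), mul_inv_cancel_right]⟩

variable [Finite G]

theorem P_eq : zpowers x ⊔ zpowers y = P := sup_eq_nine b.cP b.hx b.hy b.ox b.hn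

theorem ex_ev (hp : p ∈ P) : ∃ v, p = ev x y v := by
  rw [← b.P_eq, mem_sup_of_norm (le_norm_zpowers (zpowers_le.mpr
    (mem_cent1_iff.mpr (b.comm b.hy b.hx))))] at hp
  obtain ⟨a, ha, c, hc, rfl⟩ := hp
  obtain ⟨i, hi, rfl⟩ := exists_pow b.ox ha
  obtain ⟨j, hj, rfl⟩ := exists_pow (o3 (ne_one_of b.hn) (b.cube y b.hy)) hc
  exact ⟨(⟨i, hi⟩, ⟨j, hj⟩), rfl⟩

theorem ex (hg : g ∈ N[P]) : ∃ m, R3 x y m g := by
  obtain ⟨v, hv⟩ := b.ex_ev (conj_mem_of_norm hg b.hx)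
  obtain ⟨u, hu⟩ := b.ex_ev (conj_mem_of_norm hg b.hy)
  exact ⟨(v, u), hv, hu⟩

theorem norm (h : R3 x y m g) : g ∈ N[P] := mem_norm_of_conj fun p hp => by
  obtain ⟨v, rfl⟩ := b.ex_ev hp
  exact b.app h v ▸ b.ev_mem _

theorem mem_P (h1 : g ∈ C₁[x]) (h2 : g ∈ C₁[y]) : g ∈ P := by
  rw [← b.cent, ← b.P_eq, cent_sup, cent_zpowers, cent_zpowers]
  exact ⟨h1, h2⟩

theorem inverts (hp : p ∈ P) : z * p * z⁻¹ = p⁻¹ := by
  obtain ⟨v, rfl⟩ := b.ex_ev hp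
  rw [ev, ← conj_mul, ← conj_pow, ← conj_pow, b.zx, b.zy, inv_pow, inv_pow, ← mul_inv_rev,
    (Commute.pow_pow (b.comm b.hy b.hx) _ _).eq]

theorem eq_one (hp : p ∈ P) (h : p ∈ C₁[z]) : p = 1 := by
  have := b.inverts hp
  rw [← mem_cent1_iff.mp h, mul_inv_cancel_right] at this
  exact eq_one_of_sq_cube (mul_eq_one_iff_eq_inv.mpr this) (b.cube p hp)

theorem eq (h : R3 x y m g) (h' : R3 x y n k) (h1 : g ∈ C₁[z]) (h2 : k ∈ C₁[z]) (e : m = n) :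
    g = k := by
  subst e
  have c : ∀ a : G, g * a * g⁻¹ = k * a * k⁻¹ → k⁻¹ * g ∈ C₁[a] := fun a e => by
    rw [mem_cent1_iff, ← mul_inv_eq_iff_eq_mul, ← conj_conj, e]
    group
  exact (inv_mul_eq_one.mp (b.eq_one (b.mem_P (c x (h.1.trans h'.1.symm))
    (c y (h.2.trans h'.2.symm))) (mul_mem (inv_mem h2) h1))).symm

theorem toS (hg : g ∈ N[P]) : ∃ p ∈ P, p * g ∈ C₁[z] := by
  have c : ∀ a ∈ P, g * z * g⁻¹ * z⁻¹ ∈ C₁[a] := fun a ha => mul_inverts (by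
    rw [← conj_conj, ← conj_conj, inv_inv, b.inverts (conj_mem_of_norm' hg ha)]
    group) (inv_inverts (b.inverts ha))
  have h1 := b.mem_P (c x b.hx) (c y b.hy)
  refine ⟨_, h1, ?_⟩
  generalize hp : g * z * g⁻¹ * z⁻¹ = p at h1
  rw [mem_cent1_iff, ← mul_inv_eq_iff_eq_mul, ← conj_conj, mul_inv_eq_iff_eq_mul.mp hp]
  calc _ = p * p * (z * p * z⁻¹)⁻¹ * z := by group
    _ = z := by rw [b.inverts h1, inv_inv, ← pow_three', b.cube p h1, one_mul]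

theorem zz : z * z = 1 :=
  b.eq_one (b.mem_P (mul_inverts b.zx b.zx) (mul_inverts b.zy b.zy))
    (mul_mem (mem_cent1_self _) (mem_cent1_self _))

end B9

/-- The matrix of `g` together with the fact that `g` centralizes `z`. -/
def RZ (x y z : G) (m : M3) (g : G) : Prop := R3 x y m g ∧ g ∈ C₁[z]

theorem B9.mz (b : B9 P x y z) (h : RZ x y z m g) (h' : RZ x y z n k) :
    RZ x y z (m3 m n) (g * k) := ⟨b.mul h.1 h'.1, mul_mem h.2 h'.2⟩

theorem RZ.one : RZ x y z I3 1 := ⟨R3.one, one_mem _⟩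

theorem B9.ez [Finite G] (b : B9 P x y z) (h : RZ x y z m g) (h' : RZ x y z n k) (e : m = n) :
    g = k := b.eq h.1 h'.1 h.2 h'.2 e

theorem B9.exz [Finite G] (b : B9 P x y z) (h : R3 x y m g) :
    ∃ p ∈ P, RZ x y z m (p * g) :=
  let ⟨p, hp, e⟩ := b.toS (b.norm h)
  ⟨p, hp, b.left h hp, e⟩

variable [Finite G]

theorem fuse' (h27 : ¬ 27 ∣ Nat.card H) (hP : Nat.card P = 9) (h : P ≤ H) (hg : g ∈ H) (ha : a ∈ P)
    (hb : g * a * g⁻¹ ∈ P) : ∃ w ∈ H ⊓ N[P], w * a * w⁻¹ = g * a * g⁻¹ := by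
  have k : ∀ c ∈ P, P ≤ C₁[c] := fun c hc => (le_cent_of_abel (abel_of_card_sq (p := 3) hP)).trans
    (cent_le_cent1 hc)
  obtain ⟨c, h1, h2⟩ := exists_conj_le (R := conj g • P) (T := P) (H := H ⊓ C₁[g * a * g⁻¹]) (p := 3)
    (le_inf (conj_smul_le_of_mem hg h) (conj_smul_cent1 g a ▸ conj_smul_mono g (k a ha)))
    (.of_card (n := 2) (by rw [card_conj_smul, hP]; rfl)) fun e => h27
      ((mul_dvd_mul_right e 9).trans
        (hP ▸ (relIndex_mul_card (le_inf h (k _ hb))).dvd.trans (card_dvd_of_le inf_le_left)))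
  refine ⟨c * g, ⟨mul_mem h1.1 hg, mem_norm_of_conj fun a ha => ?_⟩, ?_⟩
  · rw [← conj_conj]; exact h2 _ (conj_mem_conj_smul.mpr ha)
  · rw [← conj_conj, mem_cent1_iff.mp h1.2, mul_inv_cancel_right]

theorem Cf.hn (r : Cf x y s V) : y ∉ zpowers x := (mem_X3.mp r.yx).2.2

theorem Cf.PV (r : Cf x y s V) : zpowers x ⊔ zpowers y ≤ N[V] := le_P r.xV r.yV

theorem Cf.PE (r : Cf x y s V) : zpowers x ⊔ zpowers y ≤ N[EE y V] := le_P r.xE r.yE

theorem Cf.xyX (r : Cf x y s V) : x * y ∈ X3 x := X3_mul r.yx r.tx.1 (mem_zpowers x)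

theorem Cf.xyX' (r : Cf x y s V) : x * y⁻¹ ∈ X3 x := X3_mul (X3_inv' r.yx) r.tx.1 (mem_zpowers x)

namespace H24

variable (h : H24 G) (r : Cf x y s V)
include h r

theorem txy : TX (x * y) :=
  h.pureP r.tx r.yx r.ty (mul_mem (xP x y) (yP x y)) (ne_one_of (mem_X3.mp r.xyX).2.2)

theorem txy' : TX (x * y⁻¹) :=
  h.pureP r.tx r.yx r.ty (mul_mem (xP x y) (inv_mem (yP x y))) (ne_one_of (mem_X3.mp r.xyX').2.2)

theorem E_V : EE y V ≤ C[V] := (H24.E_W r).trans (WW_le V)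

theorem E_pg : IsPGroup 2 (EE y V) := .of_card (n := 4) (h.card_E r)

theorem Ex : EE y V ⊓ C₁[x] = V := h.fixV r.tx r.f4 (h.E_pg r) le_sup_left (h.E_V r)

theorem Ey : EE y V ⊓ C₁[y] = VV y V :=
  le_antisymm (inf_le_inf_right _ (H24.E_W r)) (le_inf le_sup_right inf_le_right)

theorem c1 : Nat.card ↥(EE y V ⊓ C₁[x * y]) = 1 ∧ Nat.card ↥(EE y V ⊓ C₁[x * y⁻¹]) = 1 := by
  have c := cnt9 (of_o3 r.tx.1).2 (of_o3 r.ty.1).2 r.xy r.xE r.yE
  have k2 := (h.fcard (h.txy r) (X3_symm r.xyX r.tx.1) (h.E_pg r) r.xE).imp_right F4.card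
  have k3 := (h.fcard (h.txy' r) (X3_symm r.xyX' r.tx.1) (h.E_pg r) r.xE).imp_right F4.card
  rw [h.Ex r, r.f4.card, h.Ey r, (h.f4V r).card, h.card_E r] at c
  omega

theorem four (hp : p ∈ zpowers x ⊔ zpowers y) (p1 : p ≠ 1)
    (h4 : Nat.card ↥(EE y V ⊓ C₁[p]) = 4) : p = x ∨ p = x⁻¹ ∨ p = y ∨ p = y⁻¹ := by
  obtain ⟨k1, k2⟩ := h.c1 r
  rcases mem_nine r.cP (xP x y) (yP x y) r.tx.1 (of_o3 r.ty.1).2 r.hn hp p1 with
    e | e | e | e | e | e | e | e <;> first | (simp only [e, true_or, or_true]; done) | skip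
  all_goals
    rw [e] at h4
    try rw [cent1_inv] at h4
    omega

theorem exists_w : ∃ w ∈ N[EE y V], w * x * w⁻¹ = y ∧ w * y * w⁻¹ = x⁻¹ := by
  have y1 := ne_one_of r.hn
  have e6 := h.e16 r
  obtain ⟨g, -, e⟩ := h.TXc r.tx r.ty
  replace e : g * x * g⁻¹ = y := e
  obtain ⟨v, hv, v1⟩ := (h.f4V r).ex
  obtain ⟨t, ht, t1⟩ := r.f4.ex
  obtain ⟨c, hc, k⟩ := h.conj32 r.ty (t := g * t * g⁻¹) (by
    rw [← e, ← conj_smul_cent1, conj_mem_conj_smul]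
    exact r.f4.le ht) (by simpa using t1) (conj_sq (r.f4.sq t ht) g) hv.2 v1 ((h.f4V r).sq v hv)
  replace k : c * (g * t * g⁻¹) * c⁻¹ = v := k
  have h1 : c * g * x * (c * g)⁻¹ = y := by
    rw [← conj_conj, e, mem_cent1_iff.mp hc, mul_inv_cancel_right]
  obtain ⟨w, hw, wx⟩ := fuse' (by rw [e6.cN]; norm_num) r.cP r.PE
    (e6.ti (mem_sup_left ht) t1 (show c * g * t * (c * g)⁻¹ ∈ EE y V by
      rw [← conj_conj, k]; exact mem_sup_right hv)) (xP x y) (h1 ▸ yP x y)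
  rw [h1] at wx
  rcases h.four r (conj_mem_of_norm hw.2 (yP x y)) (by simpa using y1)
    (by rw [card_fix_conj hw.1, h.Ey r, (h.f4V r).card]) with k | k | k | k
  · exact ⟨s * w, mul_mem r.sE hw.1, by rw [← conj_conj, wx, r.sy], by rw [← conj_conj, k, r.sx]⟩
  · exact ⟨w, hw.1, wx, k⟩
  · nth_rewrite 2 [← wx] at k
    exact absurd (by simpa using k : y = x).symm fun e => r.hn (e ▸ mem_zpowers x)
  · nth_rewrite 2 [← wx] at k
    rw [conj_inv] at k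
    exact absurd (by simpa using k : y = x⁻¹).symm fun e => r.hn (e ▸ inv_mem (mem_zpowers x))

theorem b9 (wx : w * x * w⁻¹ = y) (wy : w * y * w⁻¹ = x⁻¹) :
    B9 (zpowers x ⊔ zpowers y) x y (w * w) :=
  ⟨r.cP, xP x y, yP x y, r.tx.1, fun _ => h.cube (.of_card (n := 2) r.cP), r.hn, h.cP r.cP,
    by rw [← conj_conj, wx, wy], by rw [← conj_conj, wy, ← conj_inv, wx]⟩

theorem zV (hw : w ∈ N[EE y V]) (wx : w * x * w⁻¹ = y) (wy : w * y * w⁻¹ = x⁻¹) : w * w ∈ N[V] :=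
  mem_norm_of_conj_smul_eq (by
    have e := h.Ex r
    generalize EE y V = E at hw e
    rw [← e, conj_smul_inf, conj_smul_of_norm (mul_mem hw hw), conj_smul_cent1,
      (h.b9 r wx wy).zx, cent1_inv])

theorem exists_F (hw : w ∈ N[EE y V]) (wx : w * x * w⁻¹ = y) (wy : w * y * w⁻¹ = x⁻¹) :
    ∃ F : Fr G, F.E = EE y V ∧ F.R 19489 x ∧ F.R 33842 y ∧ F.R 12676 w := by
  have h1 : conj w • V = VV y V := by
    have e := h.Ex r
    rw [← h.Ey r]
    generalize EE y V = E at hw e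
    rw [← e, conj_smul_inf, conj_smul_of_norm hw, conj_smul_cent1, wx]
  obtain ⟨t, ht, t1⟩ := r.f4.ex
  obtain ⟨F, h5, h6⟩ := exists_Fr r.f4.card r.f4.sq r.f4.cent r.yV
    (fun e => h.ytV r ht t1 (conj_eq_of_mem_cent e ht).symm) (of_o3 r.ty.1).2 wx wy
    (h.zV r hw wx wy) (h.b9 r wx wy).zz (h1 ▸ h.V_inf r inf_le_right)
    (h1 ▸ inf_le_left.trans (WW_le V))
  exact ⟨F, by rw [h5, h1], h6⟩

end H24

/-- The matrix of `r`. -/
def RR3 : M3 := ((1, 0), (0, 2))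

/-- The matrix of `g`. -/
def GG3 : M3 := ((1, 0), (1, 1))

/-- The configuration. -/
structure S24 (F : Fr G) (V : Subgroup G) (x y s w r g : G) : Prop where
  c : Cf x y s V
  hE : F.E = EE y V
  wx : w * x * w⁻¹ = y
  wy : w * y * w⁻¹ = x⁻¹
  rx : F.R 19489 x
  ry : F.R 33842 y
  rw : F.R 12676 w
  zr : RZ x y (w * w) RR3 r
  rV : r ∈ N[V]
  zg : RZ x y (w * w) GG3 g

theorem H24.exists_S (h : H24 G) : ∃ (F : Fr G) (V : Subgroup G) (x y s w r g : G),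
    S24 F V x y s w r g := by
  obtain ⟨x, y, s, V, c⟩ := h.exCf
  obtain ⟨w, hw, wx, wy⟩ := h.exists_w c
  obtain ⟨F, hF, rx, ry, rw⟩ := h.exists_F c hw wx wy
  have b := h.b9 c wx wy
  obtain ⟨l, hl, lx, ly⟩ := h.ex_r c
  obtain ⟨p, hp, zr⟩ := b.exz (m := RR3) (g := l) ⟨by simpa [ev, RR3] using lx,
    by simpa [ev, RR3, pow_two, sq_three (of_o3 c.ty.1).2] using ly⟩
  obtain ⟨g, gx, gy⟩ := h.pairs c.tx c.yx c.ty c.tx c.xyX (h.txy c)
  obtain ⟨q, -, zg⟩ := b.exz (m := GG3) (g := g) ⟨by simpa [ev, GG3] using gx,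
    by simpa [ev, GG3] using gy⟩
  exact ⟨F, V, x, y, s, w, _, _, c, hF, wx, wy, rx, ry, rw, zr, mul_mem (c.PV hp) hl, zg⟩

end Cfsg.Agent.Ma
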