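import Cfsg.Agent.H9.M24j

/-! The relations between the generators. -/

set_option autoImplicit false

namespace Cfsg.Agent.Ma

open Subgroup Cfsg.Agent.H7 Cfsg.Agent.H4 Cfsg.Agent.Fx4 Cfsg.Agent.H4.Nse
open Cfsg.Agent.H3 hiding orderOf_conj'
open MulAut (conj)
open scoped Pointwise commutatorElement

universe u
variable {G : Type u} [Group G] [Finite G] {L P T K H V U W M S D Q A B E : Subgroup G}
  {x y z g k p s v w q a c u l f r : G} {F : Fr G}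

theorem core3 {n : ℕ} (hD : Nat.card D = 3 * 2 ^ n) (hU : U ≤ D) (pU : IsPGroup 2 U) (hg : g ∈ D)
    (og : orderOf g = 3) (hr : r ∈ U) (e : g * r * g⁻¹ * r = g * g) :
    ∃ T K : Subgroup G, U ≤ T ∧ K ≤ T ∧ T ≤ D ∧ Nat.card T = 2 * Nat.card K ∧ g ∈ N[K] ∧ r ∉ K ∧
      IsPGroup 2 K := by
  obtain ⟨T, h1, h2, h3⟩ : ∃ T : Subgroup G, U ≤ T ∧ T ≤ D ∧ Nat.card T = 2 ^ n := by
    obtain ⟨T, h1, h2⟩ := exists_le_card Nat.prime_two (H := D) (hD ▸ Dvd.intro_left 3 rfl)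
    obtain ⟨c, hc, k⟩ := exists_conj_le (p := 2) (T := T) hU pU (by
      rw [relIndex_eq h1 (n := 3) (by rw [hD, h2])]; norm_num)
    exact ⟨conj c⁻¹ • T, fun a ha => by
      simpa [mul_assoc] using (conj_mem_conj_smul (g := c⁻¹)).mpr (k a ha),
      conj_smul_le_of_mem (inv_mem hc) h1, by rw [card_conj_smul, h2]⟩
  have pT : IsPGroup 2 T := .of_card h3
  have k : ∀ K ≤ T, g ∈ N[K] → r ∉ K := fun K hK hn hr => by
    have h4 : g⁻¹ ∈ T := sq_three (of_o3 og).2 ▸ e ▸ hK (mul_mem (conj_mem_of_norm hn hr) hr)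
    have := og ▸ orderOf_dvd_card_of_mem (inv_mem_iff.mp h4)
    rw [h3] at this
    exact absurd (Nat.prime_three.dvd_of_dvd_pow this) (by norm_num)
  have h4 := conj_smul_le_of_mem hg h2
  have h5 : Nat.card ↥(conj g • T) = 2 ^ n := by rw [card_conj_smul, h3]
  have h6 : ¬ T ≤ conj g • T := fun l => k T le_rfl (mem_norm_of_conj_smul_eq
    (eq_of_le_of_card_eq l (h3.trans h5.symm)).symm) (h1 hr)
  have h7 : Nat.card T = 2 * Nat.card ↥(conj g • T ⊓ T) := by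
    have k1 := card_inf_mul_relIndex (conj g • T) T
    have k2 := relIndex_le_of_le_right (H := conj g • T) h2 (relIndex_ne_zero' _ _)
    rw [relIndex_eq h4 (n := 3) (by rw [hD, h5])] at k2
    have k3 := relIndex_ne_zero' (conj g • T) T
    have k4 : (conj g • T).relIndex T ≠ 1 := fun l => h6 (relIndex_eq_one.mp l)
    have k5 : (conj g • T).relIndex T ≠ 3 := fun l => by
      have := Dvd.intro_left _ (l ▸ k1)
      rw [h3] at this
      exact absurd (Nat.prime_three.dvd_of_dvd_pow this) (by norm_num)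
    rw [show (conj g • T).relIndex T = 2 by omega] at k1
    omega
  have h8 : g ∈ N[conj g • T ⊓ T] := by
    refine (inf_eq_left.mp ((eq_or_eq_of_relIndex_prime (X := D ⊓ N[conj g • T ⊓ T])
      (le_inf h2 fun a ha => mem_norm_of_conj fun b hb =>
        conj_mem_of_index_two inf_le_right h7 ha hb) inf_le_left (by
          rw [relIndex_eq h2 (n := 3) (by rw [hD, h3])]
          norm_num)).resolve_left fun l => h6 ?_) :) hg
    refine (eq_of_le_of_card_eq (le_of_le_of_eq (le_inf h4 fun a ha => mem_norm_of_conj fun b hb =>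
      conj_mem_of_index_two inf_le_left (h5.trans (h3.symm.trans h7)) ha hb) l)
      (h5.trans h3.symm)).ge
  exact ⟨T, _, h1, inf_le_right, h2, h7, h8, k _ inf_le_right h8, pT.to_le inf_le_right⟩

theorem H24.not5 (h : H24 G) (ox : orderOf x = 3) (z1 : z ≠ 1) (z2 : z * z = 1)
    (e : z * x * z⁻¹ = x⁻¹) : ¬ 5 ∣ Nat.card ↥(C₁[z] ⊓ C₁[x]) := fun k => by
  obtain ⟨f, hf, of⟩ := exists_mem_orderOf (by norm_num) k
  obtain ⟨T, h1, h2⟩ := exists_le_card (n := 2) Nat.prime_two (H := C₁[f])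
    (by rw [h.cent5 of]; norm_num)
  have sq := fun g hg => h.sq5 (g := g) (.of_card h2) hg of (Or.inl rfl) (h1 hg)
  have h3 := Set.eq_of_subset_of_ncard_le (s := (T : Set G) \ {1})
    (t := {g | g ∈ C₁[f] ∧ orderOf g = 2}) (fun g hg => ⟨h1 hg.1, o2 hg.2 (sq g hg.1)⟩) (by
      rw [← mo_ncard, h.mo52 of, ncard_sdiff_one, h2]
      rfl)
  have zf := mem_cent1_comm.mp hf.1
  have h4 : z * x * (z * x) = 1 := by
    rw [inv_eq_of_mul_eq_one_right z2] at e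
    rw [← mul_assoc, e, inv_mul_cancel]
  have h5 : z ∈ T := (h3.ge ⟨zf, o2 z1 z2⟩).1
  have h6 : z * x ∈ T := (h3.ge ⟨mul_mem zf (mem_cent1_comm.mp hf.2), o2 (fun k => ne_inv_three ox (by
    rw [← e, k, one_mul, eq_inv_of_mul_eq_one_right k])) h4⟩).1
  exact ne_inv_three ox (eq_inv_of_mul_eq_one_left (sq x ((mul_mem_cancel_left h5).mp h6)))

omit [Finite G] in
theorem c4_mod {m n : ℕ} (h : ∀ j < 4, col m j = col n j) : m % 65536 = n % 65536 := by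
  have h0 := h 0 (by omega)
  have h1 := h 1 (by omega)
  have h2 := h 2 (by omega)
  have h3 := h 3 (by omega)
  simp only [col_eq, Nat.reduceMul, Nat.reducePow] at h0 h1 h2 h3
  omega

set_option maxRecDepth 1000000 in
theorem chkR : allB (fun m => bim (Nat.beq (Nat.mod (am m 19489) 65536) (Nat.mod (am 19489 m) 65536))
    (bim (Nat.beq (Nat.mod (am m m) 65536) (Nat.mod 33825 65536))
      (bim (Nat.beq (Nat.mod (am (am (am m 12676) m) 12676) 65536) (Nat.mod 33825 65536))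
        (Nat.beq m 33841)))) 65536 = true := by decide +kernel

omit [Finite G] in
theorem Fr.R.pow3 {m : ℕ} (hm : F.R m g) (e : ∀ j < 4, col (am (am m m) m) j = col 33825 j) :
    g ^ 3 ∈ C[F.E] := by
  have := (((hm.mul hm).mul hm).congr e).cent Fr.R.one
  rwa [inv_one, one_mul, ← pow_three'] at this

omit [Finite G] in
theorem Fr.R.fpf {m : ℕ} (hm : F.R m g) (e : ∀ v < 16, Ma.app m v < 16 ∧ (Ma.app m v = v → v = 0))
    (ha : a ∈ F.E) (hc : g * a * g⁻¹ = a) : a = 1 := by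
  obtain ⟨v, hv, rfl⟩ := ha
  rw [hm.app] at hc
  rw [(e v hv).2 (F.e_inj (e v hv).1 hv hc), F.e0]

namespace S24

variable (h : H24 G) (t : S24 F V x y s w r g)
include h t

theorem b : B9 (zpowers x ⊔ zpowers y) x y (w * w) := h.b9 t.c t.wx t.wy

theorem e16 : E16 F.E := t.hE ▸ h.e16 t.c

omit h in
theorem x3 : x ^ 3 = 1 := (of_o3 t.c.tx.1).2

omit h in
theorem zw : RZ x y (w * w) W3 w := ⟨R3.W t.wx t.wy t.x3, w_mem w⟩

theorem g3 : g * g * g = 1 :=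
  (t.b h).ez ((t.b h).mz ((t.b h).mz t.zg t.zg) t.zg) RZ.one (by decide)

theorem zgi : RZ x y (w * w) (m3 GG3 GG3) g⁻¹ :=
  eq_inv_of_mul_eq_one_left (t.g3 h) ▸ (t.b h).mz t.zg t.zg

theorem zq : RZ x y (w * w) Q3 (g * w * g⁻¹) :=
  (by decide : m3 (m3 GG3 W3) (m3 GG3 GG3) = Q3) ▸ (t.b h).mz ((t.b h).mz t.zg t.zw) (t.zgi h)

theorem r2 : r * r = 1 := (t.b h).ez ((t.b h).mz t.zr t.zr) RZ.one (by decide)

theorem rwrw : r * w * r * w = 1 :=
  (t.b h).ez ((t.b h).mz ((t.b h).mz ((t.b h).mz t.zr t.zw) t.zr) t.zw) RZ.one (by decide)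

theorem rgrg : r * g * r * g = 1 :=
  (t.b h).ez ((t.b h).mz ((t.b h).mz ((t.b h).mz t.zr t.zg) t.zr) t.zg) RZ.one (by decide)

omit h in
theorem rx' : r * x * r⁻¹ = x := by simpa [ev, RR3] using t.zr.1.1

omit h in
theorem ry' : r * y * r⁻¹ = y⁻¹ := by
  simpa [ev, RR3, pow_two, sq_three (of_o3 t.c.ty.1).2] using t.zr.1.2

omit h in
theorem gx : g * x * g⁻¹ = x := by simpa [ev, GG3] using t.zg.1.1

omit h in
theorem gy : g * y * g⁻¹ = x * y := by simpa [ev, GG3] using t.zg.1.2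

theorem qx : g * w * g⁻¹ * x * (g * w * g⁻¹)⁻¹ = x * y := by
  have := (t.zq h).1.1
  simpa only [ev, Q3, Fin.val_one, pow_one] using this

theorem qwq : g * w * g⁻¹ * w * (g * w * g⁻¹)⁻¹ = w⁻¹ := by
  rw [mul_inv_eq_iff_eq_mul, eq_inv_mul_iff_mul_eq]
  exact (t.b h).ez ((t.b h).mz t.zw ((t.b h).mz (t.zq h) t.zw)) (t.zq h) (by decide)

theorem qq : g * w * g⁻¹ * (g * w * g⁻¹) = w * w :=
  (t.b h).ez ((t.b h).mz (t.zq h) (t.zq h)) ((t.b h).mz t.zw t.zw) (by decide)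

theorem rN : r ∈ N[F.E] := t.hE ▸ h.NV_E t.c t.rV

theorem rr : F.R 33841 r := by
  obtain ⟨m, hm, k⟩ := Fr.exists_R (t.rN h)
  have e := allB_iff.mp chkR m hm
  simp only [bim_iff, Nat.beq_eq] at e
  exact e (c4_mod fun _ => (k.mul t.rx).col_eq (mul_inv_eq_iff_eq_mul.mp t.rx' ▸ t.rx.mul k))
    (c4_mod fun _ => (k.mul k).col_eq (t.r2 h ▸ Fr.R.one))
    (c4_mod fun _ => (((k.mul t.rw).mul k).mul t.rw).col_eq (t.rwrw h ▸ Fr.R.one)) ▸ k

theorem Ex : F.E ⊓ C₁[x] = V := t.hE ▸ h.Ex t.c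

theorem Exy : F.E ⊓ C₁[x * y] = ⊥ := eq_bot_iff_card'.mpr (t.hE ▸ (h.c1 t.c).1)

omit h in
theorem ax : F.a ∈ C₁[x] :=
  mem_cent1_iff.mpr (mul_inv_eq_iff_eq_mul.mp (F.e1 ▸ t.rx.app 1)).symm

omit h in
theorem az : F.a ∈ C₁[w * w] :=
  mem_cent1_iff.mpr (mul_inv_eq_iff_eq_mul.mp (F.e1 ▸ (t.rw.mul t.rw).app 1)).symm

theorem aV : F.a ∈ V := t.Ex h ▸ ⟨F.e1 ▸ F.e_mem 1, t.ax⟩

theorem eq_a (hv : v ∈ V) (v1 : v ≠ 1) (hz : v ∈ C₁[w * w]) : v = F.a := by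
  rw [← t.Ex h] at hv
  obtain ⟨⟨i, hi, rfl⟩, hx⟩ := hv
  have h1 := t.rx.app i
  have h2 := (t.rw.mul t.rw).app i
  rw [← mem_cent1_iff.mp hx, mul_inv_cancel_right] at h1
  rw [← mem_cent1_iff.mp hz, mul_inv_cancel_right] at h2
  have h3 := F.e_inj hi (by interval_cases i <;> decide) h1
  have h4 := F.e_inj hi (by interval_cases i <;> decide) h2
  interval_cases i
  · exact absurd F.e0 v1
  · exact F.e1
  all_goals first | exact absurd h3 (by decide) | exact absurd h4 (by decide)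

theorem gX : g ∈ X3 x := by
  have k : g ∉ zpowers x := fun e => (of_o3 t.c.tx.1).1 (by
    have := t.gy
    rwa [mem_cent1_iff.mp (zpowers_le.mpr (mem_cent1_iff.mpr t.c.xy) e), mul_inv_cancel_right,
      right_eq_mul] at this)
  exact mem_X3.mpr ⟨mem_cent1_iff.mpr (mul_inv_eq_iff_eq_mul.mp t.gx),
    o3 (ne_one_of k) (by rw [pow_three', t.g3 h]), k⟩

theorem rE : r ∉ F.E := fun e => by
  have := (t.rr h).app 2
  rw [conj_eq_of_mem_cent (F.E_comm e) (F.e_mem 2)] at this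
  exact absurd (F.e_inj (by omega) (by decide) this) (by decide)

theorem gV : g ∉ N[V] := fun e => by
  rcases h.eigy t.c e ((t.b h).norm t.zg.1) with k | k <;> rw [t.gy] at k
  · exact (of_o3 t.c.tx.1).1 (mul_eq_right.mp k)
  · refine t.c.hn ?_
    rw [← sq_three (of_o3 t.c.ty.1).2, mul_left_inj] at k
    exact k ▸ mem_zpowers x

theorem z1 : w * w ≠ 1 := fun e => ne_inv_three t.c.tx.1 (by rw [← (t.b h).zx, e]; simp)

theorem arg : (F.a * r * g) ^ 3 = 1 := by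
  have a1 := F.e1 ▸ F.e_ne (v := 1) (by omega) (by omega)
  have aE := F.e1 ▸ F.e_mem 1
  have r1 := ne_one_of (t.rE h)
  have rc : r ∈ C₁[x] := mem_cent1_iff.mpr (mul_inv_eq_iff_eq_mul.mp t.rx')
  have ra : r ∈ C₁[F.a] := mem_cent1_iff.mpr (mul_inv_eq_iff_eq_mul.mp (F.e1 ▸ (t.rr h).app 1))
  obtain ⟨u1, u2⟩ := card_four a1 F.aa r1 (t.r2 h) (fun e => t.rE h (e ▸ aE)) ra
  obtain ⟨gc, og, -⟩ := mem_X3.mp (t.gX h)
  have hU : zpowers F.a ⊔ zpowers r ≤ C₁[w * w] ⊓ C₁[x] := le_P ⟨t.az, t.ax⟩ ⟨t.zr.2, rc⟩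
  have fU : F4 x (zpowers F.a ⊔ zpowers r) := ⟨u1, hU.trans inf_le_right, u2⟩
  obtain ⟨n, hn⟩ : ∃ n, Nat.card ↥(C₁[w * w] ⊓ C₁[x]) = 3 * 2 ^ n := by
    have k1 := t.c.tx.2 ▸ card_dvd_of_le (inf_le_right (a := C₁[w * w]) (b := C₁[x]))
    have k2 := h.not5 t.c.tx.1 (t.z1 h) (t.b h).zz (t.b h).zx
    have k3 : ¬ 9 ∣ Nat.card ↥(C₁[w * w] ⊓ C₁[x]) := fun e =>
      h.not9 (t.z1 h) (t.b h).zz (e.trans (card_dvd_of_le inf_le_left))
    have k4 := og ▸ orderOf_dvd_card_of_mem (A := C₁[w * w] ⊓ C₁[x]) ⟨t.zg.2, gc⟩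
    obtain ⟨n, -, e⟩ := (by decide +kernel : ∀ m ∈ Nat.divisors 1080, ¬ 5 ∣ m → ¬ 9 ∣ m → 3 ∣ m →
      ∃ n < 4, m = 3 * 2 ^ n) _ (Nat.mem_divisors.mpr ⟨k1, by norm_num⟩) k2 k3 k4
    exact ⟨n, e⟩
  obtain ⟨T, K, h1, h2, h3, h4, h5, h6, h7⟩ := core3 hn hU fU.pg ⟨t.zg.2, gc⟩ og (yP _ _) (by
    rw [← eq_inv_of_mul_eq_one_left (t.rgrg h)]
    calc _ = g * (r * r) * g * (r * r) := by group
      _ = _ := by rw [t.r2 h, mul_one, mul_one])
  have h8 := (h2.trans h3).trans inf_le_right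
  have fK : F4 x K := by
    have := h.fcard t.c.tx (t.gX h) h7 h5
    rw [inf_eq_left.mpr h8] at this
    have k := u1 ▸ card_le_of_le' h1
    exact this.resolve_left (by omega)
  have h9 : F.a ∉ K := fun e => by
    rcases h.three4 t.c.tx a1 t.c.f4 (t.aV h) fK e fU (xP _ _) with k | k | k
    · exact t.gV h (k ▸ h5)
    · exact t.rE h (t.Ex h ▸ (k ▸ yP _ _ : r ∈ V)).1
    · exact h6 (k ▸ yP _ _)
  have h10 := mul_mem_of_index_two h2 h4 (h1 (xP _ _)) (h1 (yP _ _)) h9 h6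
  generalize F.a * r = v at h10
  have h11 : (v * g) ^ 3 ∈ K := by
    have := mul_mem (mul_mem h10 (conj_mem_of_norm h5 h10))
      (conj_mem_of_norm h5 (conj_mem_of_norm h5 h10))
    convert this using 1
    calc _ = v * (g * v * g⁻¹) * (g * (g * v * g⁻¹) * g⁻¹) * (g * g * g) := by
          rw [pow_three]; group
      _ = _ := by rw [t.g3 h, mul_one]
  refine h.inv_X t.c.tx.1 (t.gX h) (h8 h11) (mem_cent1_comm.mp ((mul_mem_cancel_left
    (cent_le_cent1 h11 (fK.comm h10))).mp (mem_cent1_iff.mpr ?_))) (fK.sq _ h11)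
  exact ((Commute.refl _).pow_right 3).eq

end S24

end Cfsg.Agent.Ma
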