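import Cfsg.Agent.H9.M24k
import Cfsg.Agent.H9.M24Pres

/-! The remaining relations. -/

set_option autoImplicit false

namespace Cfsg.Agent.Ma

open Subgroup Cfsg.Agent.H7 Cfsg.Agent.H4 Cfsg.Agent.Fx4 Cfsg.Agent.H4.Nse
open Cfsg.Agent.H3 hiding orderOf_conj'
open MulAut (conj)
open scoped Pointwise commutatorElement

universe u
variable {G : Type u} [Group G] [Finite G] {L P T K H V U W M S D Q A B E : Subgroup G}
  {x y z g k p s v w q a c u l f r : G} {F : Fr G}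

namespace S24

variable (h : H24 G) (t : S24 F V x y s w r g)
include h t

theorem zV : w * w ∈ N[V] := h.zV t.c (t.hE ▸ t.rw.norm) t.wx t.wy

theorem zV3 : w * w ∈ N[WW V ⊓ C₁[x * y]] := mem_norm_of_conj_smul_eq (by
  rw [conj_smul_inf, conj_smul_of_norm (WW_norm V (t.zV h)), conj_smul_cent1,
    (t.b h).inverts (mul_mem (xP x y) (yP x y)), cent1_inv])

theorem exists_f : ∃ f ∈ WW V ⊓ C₁[x * y], f ≠ 1 ∧ f * f = 1 ∧ f ∈ C₁[w * w] ∧ F.R 46369 f := by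
  have f4 := (h.card_W t.c).2.2
  have z2 := (t.b h).zz
  have h2 := card_modEq_conj Nat.prime_two (pow_two (w * w) ▸ z2)
    fun _ => conj_mem_of_norm (t.zV3 h)
  obtain ⟨f, hf, f1⟩ := exists_ne_one_of_ne_bot (A := _ ⊓ C₁[w * w]) fun k => by
    rw [k, f4.card, card_bot] at h2
    exact absurd h2 (by decide)
  have f2 := f4.sq f hf.1
  refine ⟨f, hf.1, f1, f2, hf.2, ?_⟩
  have fN : f ∈ N[F.E] := t.hE ▸ h.W_E t.c hf.1.1
  have k : ∀ v, app 19489 v = v → f * F.e v * f⁻¹ = F.e v := fun v e =>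
    conj_eq_of_mem_cent (WW_le V hf.1.1) (t.Ex h ▸ ⟨F.e_mem v, mem_cent1_iff.mpr
      (mul_inv_eq_iff_eq_mul.mp ((t.rx.app v).trans (congrArg F.e e))).symm⟩)
  obtain ⟨i, hi, e2⟩ := conj_mem_of_norm fN (F.e4 ▸ F.e_mem 4)
  obtain ⟨j, hj, e3⟩ := conj_mem_of_norm fN (F.e8 ▸ F.e_mem 8)
  have rf := Fr.R.of_cols (i := 1) (j := 2) (by omega) (by omega) hi hj
    (by rw [← F.e1]; exact k 1 rfl) (by rw [← F.e2]; exact k 2 rfl) e2.symm e3.symm
  have rxy := t.rx.mul t.ry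
  have rz := t.rw.mul t.rw
  rcases chkF i hi j hj _ rfl (fun _ => (rf.mul rf).col_eq (f2 ▸ Fr.R.one))
    (fun _ => (rf.mul rxy).col_eq (mem_cent1_iff.mp hf.1.2 ▸ rxy.mul rf))
    (fun _ => (rf.mul rz).col_eq (mem_cent1_iff.mp hf.2 ▸ rz.mul rf)) with e | e <;> rw [e] at rf
  · have := rf.cent Fr.R.one
    rw [inv_one, one_mul, (t.e16 h).cent] at this
    exact absurd (eq_one_of_mem_inf (t.Exy h) this hf.1.2) f1
  · exact rf

theorem qn : g * w * g⁻¹ ∉ N[F.E] := fun e => by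
  have := card_fix_conj e x
  rw [t.qx h, t.Exy h, t.Ex h, t.c.f4.card, card_bot] at this
  omega

theorem qE (ha : a ∈ F.E) (hn : g * w * g⁻¹ * a * (g * w * g⁻¹)⁻¹ ∈ N[F.E]) : a = 1 := by
  have hP := (t.b h).norm (t.zq h).1
  have h1 := t.qwq h
  have h2 := t.qq h
  have h3 := t.qn h
  generalize g * w * g⁻¹ = q at *
  have zN : q * q ∈ N[F.E] := h2 ▸ (t.rw.mul t.rw).norm
  have h4 : ∀ a, q * a * q⁻¹ ∈ N[F.E] → q * q * a * (q * q)⁻¹ ∈ N[conj q • F.E] := fun a ha => by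
    rwa [← conj_smul_norm, ← conj_conj, conj_mem_conj_smul]
  have k : ∀ g ∈ N[F.E], g ∈ N[conj q • F.E] → g ∈ N[F.E ⊓ N[conj q • F.E]] := fun g h1 h2 =>
    le_norm_inf (X := N[F.E] ⊓ N[conj q • F.E]) inf_le_left (le_norm_norm inf_le_right) ⟨h1, h2⟩
  have PN : zpowers x ⊔ zpowers y ≤ N[conj q • F.E] :=
    conj_smul_of_norm hP ▸ le_norm_smul (le_P t.rx.norm t.ry.norm) q
  have wN : w ∈ N[conj q • F.E] := by
    rw [← conj_smul_norm, ← inv_mem_iff, ← h1]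
    exact conj_mem_conj_smul.mpr t.rw.norm
  rcases irr t.rx t.ry t.rw inf_le_left (k _ t.rx.norm (PN (xP x y)))
    (k _ t.ry.norm (PN (yP x y))) (k _ t.rw.norm wN) with e | e
  · exact conj_eq_one_iff.mp (eq_one_of_mem_inf e (conj_mem_of_norm zN ha) (h4 a hn))
  · have h5 := inf_eq_left.mp e
    have h6 := le_norm_smul h5 q
    rw [conj_smul_smul, conj_smul_of_norm zN] at h6
    have h7 : ∀ a ∈ F.E, q * a * q⁻¹ ∈ F.E → a = 1 := fun a ha k =>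
      by_contra fun a1 => h3 ((t.e16 h).ti ha a1 k)
    have h8 := le_cent_of_inf_eq_bot h6 h5 (inf_eq_bot_of_forall (by
      rintro _ ⟨a, ha, rfl⟩ k
      exact conj_eq_one_iff.mpr (h7 a ha k)))
    rw [(t.e16 h).cent] at h8
    exact h7 a ha (h8 (conj_mem_conj_smul.mpr ha))

set_option synthInstance.maxSize 1000 in
theorem f_eq (hf : f ∈ WW V ⊓ C₁[x * y]) (f1 : f ≠ 1) (fz : f ∈ C₁[w * w]) :
    g * w * g⁻¹ * (g * F.a * g⁻¹) * (g * w * g⁻¹)⁻¹ = f ∨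
      g * w * g⁻¹ * (g⁻¹ * F.a * g) * (g * w * g⁻¹)⁻¹ = f := by
  have b := t.b h
  have a1 := F.e1 ▸ F.e_ne (v := 1) (by omega) (by omega)
  have zq := t.zq h
  have hP := inv_mem (b.norm zq.1)
  have h1 : (g * w * g⁻¹)⁻¹ * (x * y) * (g * w * g⁻¹)⁻¹⁻¹ = x := by rw [← t.qx h]; group
  have h0 := fun a ha hn => t.qE h (a := a) ha hn
  generalize g * w * g⁻¹ = q at *
  have f4 := (h.card_W t.c).2.2.smul q⁻¹
  have h2 : zpowers x ⊔ zpowers y ≤ N[conj q⁻¹ • (WW V ⊓ C₁[x * y])] :=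
    conj_smul_of_norm hP ▸ le_norm_smul (le_norm_inf (t.c.PV.trans (WW_norm V)) (le_norm_cent1
      fun g hg => mem_cent1_iff.mpr (b.comm hg (mul_mem b.hx b.hy)))) q⁻¹
  have h3 := (conj_mem_conj_smul (g := q⁻¹)).mpr hf
  have h4 : q⁻¹ * f * q⁻¹⁻¹ ∈ C₁[w * w] := mul_mem (mul_mem (inv_mem zq.2) fz) (inv_mem (inv_mem zq.2))
  have h5 : q⁻¹ * f * q⁻¹⁻¹ ≠ 1 := by rwa [Ne, conj_eq_one_iff]
  have h6 : q * (q⁻¹ * f * q⁻¹⁻¹) * q⁻¹ = f := by group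
  rw [h1] at f4
  have fN : f ∈ N[F.E] := t.hE ▸ h.W_E t.c hf.1
  generalize conj q⁻¹ • (WW V ⊓ C₁[x * y]) = U, q⁻¹ * f * q⁻¹⁻¹ = v at f4 h2 h3 h4 h5 h6
  obtain ⟨c, hc, e⟩ := h.conj32 t.c.tx (f4.le h3) h5 (f4.sq v h3) t.ax a1 F.aa
  replace e : c * v * c⁻¹ = F.a := e
  have cx := mul_inv_eq_iff_eq_mul.mpr (mem_cent1_iff.mp hc)
  have k1 := f4.smul c
  have k2 := X3_conj t.c.yx c
  have k3 := le_norm_smul h2 c
  rw [cx] at k1 k2
  have k4 := h.uniqV t.c.tx a1 t.c.f4 (t.aV h) t.c.yx t.c.ty t.c.yV k1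
    (e ▸ conj_mem_conj_smul.mpr h3) k2 (t.c.ty.conj c) (k3 (conj_mem_conj_smul.mpr b.hy))
  obtain ⟨d, hd, k5⟩ := h.in_NV t.c.tx.1 t.c.f4 t.c.yx t.c.yV (R := conj c • (zpowers x ⊔ zpowers y))
    (.of_card (n := 2) (by rw [card_conj_smul, b.cP]; rfl)) (le_inf (k4 ▸ k3)
      (conj_smul_le_of_mem hc (pair_le t.c.yx)))
  rw [conj_smul_smul] at k5
  have k6 : d * c ∈ N[zpowers x ⊔ zpowers y] := mem_norm_of_conj fun a ha =>
    k5 (conj_mem_conj_smul.mpr ha)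
  obtain ⟨m, rm⟩ := b.ex k6
  obtain ⟨p, hp, zm⟩ := b.exz rm
  have k7 : p * (d * c) * v * (p * (d * c))⁻¹ = F.a := t.eq_a h (by
    rw [← conj_conj, ← conj_conj, e]
    exact conj_mem_of_norm (t.c.PV hp) (conj_mem_of_norm hd.1 (t.aV h))) (by rwa [Ne, conj_eq_one_iff])
    (mul_mem (mul_mem zm.2 h4) (inv_mem zm.2))
  have k8 : m.1 = (1, 0) := b.ev_inj (by
    rw [← rm.1, mem_cent1_iff.mp (mul_mem hd.2 hc), mul_inv_cancel_right]
    simp [ev])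
  have ra : r * F.a * r⁻¹ = F.a := F.e1 ▸ (t.rr h).app 1
  have k9 : ∀ n, p * (d * c) = n ∨ p * (d * c) = r * n → v = n⁻¹ * F.a * n := fun n e => by
    rcases e with e | e <;> rw [e] at k7
    · rw [← k7]; group
    · rw [← conj_conj] at k7
      rw [← mul_left_cancel (mul_right_cancel (k7.trans ra.symm))]; group
  have k10 : v = 1⁻¹ * F.a * 1 → False := fun e => by
    rw [inv_one, one_mul, mul_one] at e
    exact a1 (h0 _ (F.e1 ▸ F.e_mem 1) (by rwa [← e, h6]))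
  rcases (by decide +kernel : ∀ m : M3, m.1 = (1, 0) → (∀ v, a3 m v = 0 → v = 0) →
    (m = I3 ∨ m = m3 RR3 I3) ∨ (m = m3 GG3 GG3 ∨ m = m3 RR3 (m3 GG3 GG3)) ∨
      (m = GG3 ∨ m = m3 RR3 GG3)) m k8 (b.inj rm) with k | k | k
  · exact (k10 (k9 _ (k.imp (b.ez zm RZ.one) (b.ez zm (b.mz t.zr RZ.one))))).elim
  · rw [← h6, k9 _ (k.imp (b.ez zm (t.zgi h)) (b.ez zm (b.mz t.zr (t.zgi h)))), inv_inv]
    exact Or.inl rfl
  · rw [← h6, k9 _ (k.imp (b.ez zm t.zg) (b.ez zm (b.mz t.zr t.zg)))]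
    exact Or.inr rfl

theorem rel (hf : f ∈ C₁[x * y]) (f2 : f * f = 1) (fz : f ∈ C₁[w * w]) (rf : F.R 46369 f) :
    Rel24 x y w (g * w * g⁻¹) r g f (f * w * f * w * f * w) F.a F.b F.c F.d := by
  have b := t.b h
  have zq := t.zq h
  have ri : ∀ {a c : G}, r * a * r⁻¹ = c → r * a * r = c := fun e => by
    rwa [inv_eq_of_mul_eq_one_right (t.r2 h)] at e
  have fi : ∀ {a c : G}, f * a * f⁻¹ = c → f * a * f = c := fun e => by
    rwa [inv_eq_of_mul_eq_one_right f2] at e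
  have hc := (t.e16 h).cent
  have ru : F.R 38001 (f * w * f * w * f * w) :=
    (((((rf.mul t.rw).mul rf).mul t.rw).mul rf).mul t.rw).congr (by decide)
  have e3 : F.e 3 = F.a * F.b := by rw [← F.e1, ← F.e2, ← F.e_xor]; rfl
  have e5 : F.e 5 = F.a * F.c := by rw [← F.e1, ← F.e4, ← F.e_xor]; rfl
  have e7 : F.e 7 = F.a * F.b * F.c := by rw [← e3, ← F.e4, ← F.e_xor]; rfl
  have e9 : F.e 9 = F.a * F.d := by rw [← F.e1, ← F.e8, ← F.e_xor]; rfl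
  have e11 : F.e 11 = F.a * F.b * F.d := by rw [← e3, ← F.e8, ← F.e_xor]; rfl
  have e12 : F.e 12 = F.c * F.d := by rw [← F.e4, ← F.e8, ← F.e_xor]; rfl
  have ka : ∀ {m g}, F.R m g → g * F.a * g⁻¹ = F.e (app m 1) := fun r => F.e1 ▸ r.app 1
  have kb : ∀ {m g}, F.R m g → g * F.b * g⁻¹ = F.e (app m 2) := fun r => F.e2 ▸ r.app 2
  have kc : ∀ {m g}, F.R m g → g * F.c * g⁻¹ = F.e (app m 4) := fun r => F.e4 ▸ r.app 4
  have kd : ∀ {m g}, F.R m g → g * F.d * g⁻¹ = F.e (app m 8) := fun r => F.e8 ▸ r.app 8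
  have rr := t.rr h
  have wr : w * r ∈ C₁[x * y] := mem_cent1_iff.mpr (mul_inv_eq_iff_eq_mul.mp (by
    rw [← conj_mul, ← conj_conj, ← conj_conj, t.rx', t.ry', ← conj_inv, t.wx, t.wy, inv_inv,
      t.c.xy]))
  have xc : x ∈ C₁[x * y] := mem_cent1_iff.mpr (b.comm b.hx (mul_mem b.hx b.hy))
  refine ⟨t.x3, ?_, t.wx, t.wy, t.c.xy, t.qx h, t.qwq h, t.qq h, t.r2 h, ri t.rx',
    eq_inv_of_mul_eq_one_left (t.rwrw h),
    b.ez (b.mz (b.mz t.zr zq) t.zr) (b.mz zq t.zw) (by decide), by rw [pow_three', t.g3 h], t.gx,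
    t.gy, rfl, b.ez (b.mz (b.mz t.zg zq) (t.zgi h)) (b.mz t.zw zq) (by decide),
    eq_inv_of_mul_eq_one_left (t.rgrg h), t.arg h, f2,
    eq_one_of_mem_inf (t.Exy h) (hc ▸ (rf.mul t.rx).pow3 (by decide)) (pow_mem (mul_mem hf xc) 3),
    eq_one_of_mem_inf (t.Exy h) (hc ▸ (rf.mul (t.rw.mul rr)).pow3 (by decide))
      (pow_mem (mul_mem hf wr) 3), mem_cent1_iff.mp hf, mem_cent1_iff.mp fz, rfl, ?_, ?_,
    F.aa, F.bb, F.cc, F.dd, F.ab, F.ac, F.ad, F.bc, F.bd, F.cd,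
    (ka t.rx).trans F.e1, (kb t.rx).trans F.e2, (kc t.rx).trans e12, (kd t.rx).trans F.e4,
    (ka t.ry).trans F.e2, (kb t.ry).trans e3, (kc t.ry).trans F.e4, (kd t.ry).trans F.e8,
    (ka t.rw).trans F.e4, (kb t.rw).trans F.e8, (kc t.rw).trans F.e1, (kd t.rw).trans e3,
    (ka ru).trans F.e1, (kb ru).trans e7, (kc ru).trans F.e4, (kd ru).trans e9,
    ri ((ka rr).trans F.e1), ri ((kb rr).trans e3), ri ((kc rr).trans F.e4),
    ri ((kd rr).trans F.e8), fi ((ka rf).trans F.e1), fi ((kb rf).trans F.e2),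
    fi ((kc rf).trans e5), fi ((kd rf).trans e11)⟩
  · rw [← b.zz, ← pow_two, ← pow_two, ← pow_mul]
  · have r1 := (ru.mul t.rx).mul t.ry
    generalize f * w * f * w * f * w * x * y = k at r1
    have := ((((((r1.mul r1).mul r1).mul r1).mul r1).congr (by decide)).cent Fr.R.one)
    rw [inv_one, one_mul, hc, show k * k * k * k * k = k ^ 5 by simp only [pow_succ, pow_zero,
      one_mul]] at this
    exact r1.fpf (by decide) this (mul_inv_eq_iff_eq_mul.mpr ((Commute.refl k).pow_right 5).eq)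
  · have r1 := ((t.rw.mul rf).mul t.rw).mul rf
    exact r1.fpf (by decide) (hc ▸ r1.pow3 (by decide))
      (mul_inv_eq_iff_eq_mul.mpr ((Commute.refl _).pow_right 3).eq)

end S24

end Cfsg.Agent.Ma
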