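import Cfsg.Agent.H9.M24l

/-! Groups with the order and the element order statistics of `M₂₄`: uniqueness. -/

set_option autoImplicit false

namespace Cfsg.Agent.Ma

open Subgroup Cfsg.Agent.H7 Cfsg.Agent.H4 Cfsg.Agent.Fx4 Cfsg.Agent.H4.Nse
open Cfsg.Agent.H3 hiding orderOf_conj'
open MulAut (conj)
open scoped Pointwise commutatorElement

universe u
variable {G : Type u} [Group G] [Finite G] {L P T K H V U W M S D Q A B E : Subgroup G}
  {x y z g k p s v w q a c u l f r : G} {F : Fr G}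

/-- The matrix of a word. -/
def wv (gs : List ℕ) : List ℕ → ℕ
  | [] => 33825
  | i :: l => am (gs.getD i 33825) (wv gs l)

omit [Finite G] in
theorem has_wv {gs : List ℕ} (hg : ∀ m ∈ gs, ∃ g ∈ H, F.R m g) (l : List ℕ) :
    ∃ g ∈ H, F.R (wv gs l) g := by
  induction l with
  | nil => exact ⟨1, one_mem H, Fr.R.one⟩
  | cons i l ih =>
    obtain ⟨g, h1, h2⟩ := ih
    obtain ⟨k, h3, h4⟩ : ∃ k ∈ H, F.R (gs.getD i 33825) k := by
      rcases Nat.lt_or_ge i gs.length with e | e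
      · exact hg _ (List.getD_eq_getElem gs _ e ▸ List.getElem_mem e)
      · exact List.getD_eq_default gs _ e ▸ ⟨1, one_mem H, Fr.R.one⟩
    exact ⟨k * g, mul_mem h3 h1, h4.mul h2⟩

theorem lev {gs : List ℕ} (hg : ∀ m ∈ gs, ∃ g ∈ H, F.R m g) (Ws : List (List ℕ)) (fx : List ℕ)
    (v : ℕ) (hA : ∀ g ∈ H, (∀ i ∈ fx, g ∈ C₁[F.e i]) → g ∈ A)
    (h1 : ∀ l ∈ Ws, app (wv gs l) v < 16 ∧ ∀ i ∈ fx, app (wv gs l) i = i)
    (h2 : (Ws.map fun l => app (wv gs l) v).Nodup) :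
    Nat.card ↥(C₁[F.e v] ⊓ A) * Ws.length ≤ Nat.card A := by
  classical
  rw [card_orb A (F.e v)]
  refine Nat.mul_le_mul_left _ ?_
  have h3 : ((Ws.map fun l => app (wv gs l) v).map F.e).Nodup :=
    h2.map_on fun i hi j hj e => by
      obtain ⟨l, hl, rfl⟩ := List.mem_map.mp hi
      obtain ⟨k, hk, rfl⟩ := List.mem_map.mp hj
      exact F.e_inj (h1 l hl).1 (h1 k hk).1 e
  have h4 := List.toFinset_card_of_nodup h3
  rw [List.length_map, List.length_map] at h4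
  rw [← h4, ← Set.ncard_coe_finset]
  refine Set.ncard_le_ncard fun a ha => ?_
  simp only [List.coe_toFinset, List.mem_map, Set.mem_ofPred_eq] at ha
  obtain ⟨_, ⟨l, hl, rfl⟩, rfl⟩ := ha
  obtain ⟨g, k1, k2⟩ := has_wv hg l
  exact ⟨g, hA g k1 fun i hi => mem_cent1_iff.mpr (mul_inv_eq_iff_eq_mul.mp
    ((k2.app i).trans (congrArg F.e ((h1 l hl).2 i hi)))), k2.app v⟩

theorem card_ge (hE : F.E ≤ H) (hg : ∀ m ∈ [19489, 33842, 12676, 33841, 46369], ∃ g ∈ H, F.R m g) :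
    322560 ≤ Nat.card H := by
  have h0 := lev (A := H) hg [[], [1], [1, 1], [2], [4, 2], [1, 4, 2], [0, 4, 2, 1], [2, 1],
    [1, 4, 2, 1], [3, 4, 2, 1], [4, 2, 1], [0, 2], [0, 4, 2], [4, 0, 2], [2, 4, 2, 1]] [] 1
    (fun _ h _ => h) (by decide +kernel) (by decide +kernel)
  have h1 := lev (A := C₁[F.e 1] ⊓ H) hg [[], [3], [0, 4, 2, 1, 4, 3, 4, 2],
    [0, 4, 2, 1, 4, 2, 4, 2], [2, 4, 2, 4, 2], [2, 4, 3, 4, 2], [4, 2, 1, 4, 3, 4, 2],
    [4, 2, 1, 4, 2, 4, 2], [2, 1, 4, 2, 4, 2], [2, 1, 4, 3, 4, 2], [4, 0, 2, 4, 2, 4, 2],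
    [4, 0, 2, 4, 3, 4, 2], [0, 2, 4, 2, 4, 2], [0, 2, 4, 3, 4, 2]] [1] 2
    (fun _ h k => ⟨k 1 (by simp), h⟩) (by decide +kernel) (by decide +kernel)
  have h2 := lev (A := C₁[F.e 2] ⊓ (C₁[F.e 1] ⊓ H)) hg [[], [4], [0, 0, 4, 0], [0, 4, 0, 0], [0, 0],
    [0, 0, 4], [0, 4, 0], [4, 0, 0], [0], [0, 4], [4, 0], [4, 0, 4]] [1, 2] 4
    (fun _ h k => ⟨k 2 (by simp), k 1 (by simp), h⟩) (by decide +kernel) (by decide +kernel)
  have h3 := lev (A := C₁[F.e 4] ⊓ (C₁[F.e 2] ⊓ (C₁[F.e 1] ⊓ H))) hg [[], [4, 3, 4, 3],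
    [1, 4, 3, 4, 1, 3], [3, 1, 4, 3, 4, 1], [3, 2, 2], [4, 3, 4, 2, 2], [1, 4, 3, 4, 2, 0, 2],
    [2, 2, 1, 4, 3, 4, 1]] [1, 2, 4] 8
    (fun _ h k => ⟨k 4 (by simp), k 2 (by simp), k 1 (by simp), h⟩) (by decide +kernel)
    (by decide +kernel)
  have k := fun i => F.E_comm.trans (cent_le_cent1 (F.e_mem i))
  have h4 := F.card_E ▸ card_le_of_le' (le_inf (k 8) (le_inf (k 4) (le_inf (k 2) (le_inf (k 1) hE))))
  simp only [List.length_cons, List.length_nil] at h0 h1 h2 h3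
  omega

namespace S24

variable (h : H24 G) (t : S24 F V x y s w r g)
include h t

theorem gen (rf : F.R 46369 f) : closure {x, w, g, f, F.a, r} = ⊤ := by
  have m : ∀ k ∈ ({x, w, g, f, F.a, r} : Set G), k ∈ closure {x, w, g, f, F.a, r} :=
    fun g hg => subset_closure hg
  generalize closure {x, w, g, f, F.a, r} = K at m
  simp only [Set.mem_insert_iff, Set.mem_singleton_iff, forall_eq_or_imp, forall_eq] at m
  obtain ⟨mx, mw, mg, mf, ma, mr⟩ := m
  have cj : ∀ {a b : G}, a ∈ K → b ∈ K → a * b * a⁻¹ ∈ K := fun ha hb =>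
    mul_mem (mul_mem ha hb) (inv_mem ha)
  have my : y ∈ K := t.wx ▸ cj mw mx
  have m1 : F.e 1 ∈ K := F.e1 ▸ ma
  have m2 : F.e 2 ∈ K := t.ry.app 1 ▸ cj my m1
  have hE : F.E ≤ K := F.E_le ma (F.e2 ▸ m2) (F.e4 ▸ t.rw.app 1 ▸ cj mw m1)
    (F.e8 ▸ t.rw.app 2 ▸ cj mw m2)
  have hN := (t.e16 h).cN
  have h2 : N[F.E] ≤ K := inf_eq_left.mp (Cfsg.Agent.H7.eq_of_le_of_card_le inf_le_left (by
    rw [hN]
    refine card_ge (F := F) (le_inf (le_norm_self _) hE) ?_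
    simp only [List.mem_cons, List.not_mem_nil, or_false, forall_eq_or_imp, forall_eq]
    exact ⟨⟨x, ⟨t.rx.norm, mx⟩, t.rx⟩, ⟨y, ⟨t.ry.norm, my⟩, t.ry⟩, ⟨w, ⟨t.rw.norm, mw⟩, t.rw⟩,
      ⟨r, ⟨t.rN h, mr⟩, t.rr h⟩, f, ⟨rf.norm, mf⟩, rf⟩))
  have h3 := relIndex_le_of_le_right (H := N[F.E]) (conj_smul_le_of_mem (cj mg mw) hE)
    (relIndex_ne_zero' _ _)
  have h4 := card_inf_mul_relIndex N[F.E] (conj (g * w * g⁻¹) • F.E)
  rw [card_conj_smul, F.card_E, inf_eq_bot_of_forall (by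
    rintro _ k ⟨a, ha, rfl⟩
    exact conj_eq_one_iff.mpr (t.qE h ha k)), card_bot] at h4
  have h5 := relIndex_mul_card h2
  have h6 : 27 ∣ Nat.card K := by
    obtain ⟨-, og, -⟩ := mem_X3.mp (t.gX h)
    have h1 : Nat.card (zpowers g) = 3 := by rw [Nat.card_zpowers, og]
    have := card_dvd_of_le (sup_le (le_P mx my) (zpowers_le.mpr mg))
    rwa [card_sup_of_inf_eq_bot (zpowers_le.mpr ((t.b h).norm t.zg.1)) (inf_comm (zpowers g) _ ▸
      (inf_eq_bot_or_le_of_card_prime _ (h1 ▸ Nat.prime_three)).resolve_right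
        fun e => t.gV h (t.c.PV (e (mem_zpowers g)))), t.c.cP, h1] at this
  obtain ⟨e, he, oe⟩ := exists_mem_orderOf (p := 7) (by norm_num) (H := N[F.E])
    (by rw [hN]; norm_num)
  obtain ⟨n1, k1, k2⟩ := sylow_count (by norm_num) h.s7 oe he
  obtain ⟨n2, k3, k4⟩ := sylow_count (by norm_num) h.s7 oe (h2 he)
  have k5 := card_dvd_of_le (inf_le_inf_right N[zpowers e] h2)
  have k6 := h.norm7 oe ▸ card_dvd_of_le (inf_le_right (a := K) (b := N[zpowers e]))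
  have k7 := h.idx K
  rw [hN] at k2 h5
  rw [← index_eq_one]
  generalize Nat.card ↥(N[F.E] ⊓ N[zpowers e]) = a at k2 k5
  generalize Nat.card ↥(K ⊓ N[zpowers e]) = b at k4 k5 k6
  generalize (N[F.E]).relIndex K = n at h3 h5
  generalize K.index = i at k7
  rw [← h5] at k4 k7 h6
  obtain rfl : a = 42 := by
    have := Nat.mem_divisors.mpr ⟨k5.trans k6, by norm_num⟩
    rw [show Nat.divisors 126 = {1, 2, 3, 6, 7, 9, 14, 18, 21, 42, 63, 126} by decide +kernel] at this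
    simp only [Finset.mem_insert, Finset.mem_singleton] at this
    rcases this with rfl | rfl | rfl | rfl | rfl | rfl | rfl | rfl | rfl | rfl | rfl | rfl <;> omega
  have k8 : b = 42 ∨ b = 126 := by
    have := Nat.le_of_dvd (by norm_num) k6
    obtain ⟨j, rfl⟩ := k5
    have : j ≤ 3 := by omega
    interval_cases j <;> omega
  have k9 : i * n = 759 := by nlinarith
  have := Nat.mem_divisors.mpr ⟨Dvd.intro_left i k9, by norm_num⟩
  rw [show Nat.divisors 759 = {1, 3, 11, 23, 33, 69, 253, 759} by decide +kernel] at this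
  simp only [Finset.mem_insert, Finset.mem_singleton] at this
  rcases this with rfl | rfl | rfl | rfl | rfl | rfl | rfl | rfl <;> rcases k8 with rfl | rfl <;> omega

end S24

theorem H24.exists_gen (h : H24 G) : ∃ (F : Fr G) (x y w q r g f u : G),
    Rel24 x y w q r g f u F.a F.b F.c F.d ∧ q * (g⁻¹ * F.a * g) * q⁻¹ = f ∧
    closure {x, w, g, f, F.a, r} = ⊤ ∧ E16 F.E ∧ F.R 19489 x ∧ F.R 33842 y ∧ F.R 12676 w ∧
      F.R 33841 r ∧ F.R 46369 f ∧ u = f * w * f * w * f * w := by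
  obtain ⟨F, V, x, y, s, w, r, g, t⟩ := h.exists_S
  obtain ⟨f, hf, f1, f2, fz, rf⟩ := t.exists_f h
  have rel := t.rel h hf.2 f2 fz rf
  have gen := t.gen h rf
  refine ⟨F, x, y, w, _, r, g, f, _, rel, (t.f_eq h hf f1 fz).resolve_left fun e => ?_, gen,
    t.e16 h, t.rx, t.ry, t.rw, t.rr h, rf, rfl⟩
  have k := fun i => le_norm_self F.E (F.e_mem i)
  have := rel.c0 e N[F.E] t.rx.norm t.ry.norm t.rw.norm (t.rN h) rf.norm
    (((((rf.mul t.rw).mul rf).mul t.rw).mul rf).mul t.rw).norm (F.e1 ▸ k 1) (F.e2 ▸ k 2)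
    (F.e4 ▸ k 4) (F.e8 ▸ k 8)
  rw [gen, card_top, h.card, (t.e16 h).cN] at this
  omega

variable {M : Type*} [Group M]

/-- The product of two frames. -/
def Fr.prod (F : Fr G) (F' : Fr M) : Fr (G × M) :=
  ⟨(F.a, F'.a), (F.b, F'.b), (F.c, F'.c), (F.d, F'.d), Prod.ext F.aa F'.aa, Prod.ext F.bb F'.bb,
    Prod.ext F.cc F'.cc, Prod.ext F.dd F'.dd, Prod.ext F.ab F'.ab, Prod.ext F.ac F'.ac,
    Prod.ext F.ad F'.ad, Prod.ext F.bc F'.bc, Prod.ext F.bd F'.bd, Prod.ext F.cd F'.cd,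
    fun v hv e => F.ind v hv (congrArg Prod.fst e)⟩

omit [Finite G] in
theorem Fr.prod_e (F : Fr G) (F' : Fr M) (v : ℕ) : (F.prod F').e v = (F.e v, F'.e v) := rfl

omit [Finite G] in
theorem Fr.R.prod {F' : Fr M} {m : ℕ} {g' : M} (h : F.R m g) (h' : F'.R m g') :
    (F.prod F').R m (g, g') := fun k hk => Prod.ext (h k hk) (h' k hk)

theorem card_prod [Finite M] {F' : Fr M} (h : C[F'.E] = F'.E) :
    Nat.card N[(F.prod F').E] ≤ 16 * Nat.card N[F.E] := by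
  let φ : N[(F.prod F').E] →* G := (MonoidHom.fst G M).comp (Subgroup.subtype _)
  rw [← φ.ker.card_mul_index, index_ker]
  refine Nat.mul_le_mul ?_ (card_le_of_le' ?_)
  · rw [← F'.card_E]
    refine Nat.card_le_card_of_injective (fun a => (⟨a.1.1.2, ?_⟩ : F'.E)) fun a b e =>
      Subtype.ext (Subtype.ext (Prod.ext (a.2.trans b.2.symm) (congrArg Subtype.val e)))
    rw [← h, mem_cent_iff]
    rintro _ ⟨i, hi, rfl⟩
    obtain ⟨j, hj, e⟩ := conj_mem_of_norm a.1.2 ((F.prod F').e_mem i)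
    have e1 : F.e j = a.1.1.1 * F.e i * a.1.1.1⁻¹ := congrArg Prod.fst e
    have e2 : F'.e j = a.1.1.2 * F'.e i * a.1.1.2⁻¹ := congrArg Prod.snd e
    rw [show a.1.1.1 = 1 from a.2, one_mul, inv_one, mul_one] at e1
    rw [F.e_inj hj hi e1] at e2
    exact eq_mul_inv_iff_mul_eq.mp e2
  · rintro _ ⟨a, rfl⟩
    refine mem_norm_of_conj ?_
    rintro _ ⟨i, -, rfl⟩
    obtain ⟨j, hj, e⟩ := conj_mem_of_norm a.2 ((F.prod F').e_mem i)
    exact ⟨j, hj, congrArg Prod.fst e⟩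

theorem H24.iso [Finite M] (h : H24 G) (h' : H24 M) : Nonempty (G ≃* M) := by
  obtain ⟨F, x, y, w, q, r, g, f, u, t, e1, e, e6, rx, ry, rw, rr, rf, rfl⟩ := h.exists_gen
  obtain ⟨F', x', y', w', q', r', g', f', u', t', e1', e', e6', rx', ry', rw', rr', rf', rfl⟩ :=
    h'.exists_gen
  have k := fun i => le_norm_self (F.prod F').E ((F.prod F').e_mem i)
  have r1 := rw.prod rw'
  have r2 := rf.prod rf'
  refine goursat (n := 16) (h.card.trans h'.card.symm) ?_ ?_ (((t.prod t').c1 (Prod.ext e1 e1')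
    N[(F.prod F').E] (rx.prod rx').norm (ry.prod ry').norm r1.norm (rr.prod rr').norm r2.norm
    (((((r2.mul r1).mul r2).mul r1).mul r2).mul r1).norm ((F.prod F').e1 ▸ k 1 :)
    ((F.prod F').e2 ▸ k 2 :) ((F.prod F').e4 ▸ k 4 :) ((F.prod F').e8 ▸ k 8 :)).trans (by
      have := card_prod (F := F) e6'.cent
      rw [e6.cN] at this
      rw [h'.card]
      omega)) fun K hK h2 => by_contra fun k => ?_
  · rw [MonoidHom.map_closure]
    simpa [Set.image_insert_eq] using e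
  · rw [MonoidHom.map_closure]
    simpa [Set.image_insert_eq] using e'
  · obtain ⟨c, -, oc⟩ := exists_mem_orderOf (p := 23) (by norm_num) (H := (⊤ : Subgroup G))
      (by rw [card_top, h.card]; norm_num)
    have h1 := card_modEq_conj (p := 23) (by norm_num) (oc ▸ pow_orderOf_eq_one c)
      fun a ha => hK.conj_mem a ha c
    have h3 := one_lt_card_of_ne_bot k
    obtain ⟨a, ha, a1⟩ := exists_ne_one_of_ne_bot (A := K ⊓ C₁[c]) fun l => by
      rw [l, card_bot] at h1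
      unfold Nat.ModEq at h1
      omega
    have h4 := (Nat.le_of_dvd (card_pos' K) (orderOf_dvd_card_of_mem ha.1)).trans h2
    have h5 := orderOf_pos a
    have h6 : orderOf a ≠ 1 := by simpa using a1
    refine h.no_comm oc rfl ?_ ?_ ha.2 <;> generalize orderOf a = n at * <;>
      interval_cases n <;> first | decide | omega

end Cfsg.Agent.Ma
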