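import Cfsg.Agent.H9.M24m
import Cfsg.Agent.H9.MaCnt
import Cfsg.Agent.H4.NseSolve2

/-! The hypothesis `H24` from the set of the numbers of elements of each order. -/

set_option autoImplicit false

namespace Cfsg.Agent.Ma

open Cfsg.Agent.H4.Nse

/-- All admissible completions of the partial assignment `acc` without repeated values. -/
def go3 (S : List ℕ) (ex : ℕ → ℕ → Bool) (B : ℕ) :
    List ℕ → List (ℕ × ℕ) → ℕ → List (List (ℕ × ℕ))
  | [], acc, _ => [acc]
  | d :: ds, acc, tot =>
    ((((0 :: S).filter (ex d)).filter (okv B d tot (acc.filter fun p => d % p.1 == 0))).filter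
      fun v => v == 0 || acc.all fun p => v != p.2).flatMap
        fun v => go3 S ex B ds ((d, v) :: acc) (tot + v)

theorem go2_suffix {S : List ℕ} {ex : ℕ → ℕ → Bool} {B : ℕ} {s : List (ℕ × ℕ)} :
    ∀ (ds : List ℕ) (acc : List (ℕ × ℕ)) (tot : ℕ), s ∈ go2 S ex B ds acc tot → acc <:+ s
  | [], acc, _, h => by
    rw [go2, List.mem_singleton] at h
    exact h ▸ List.suffix_refl _
  | d :: ds, acc, tot, h => by
    rw [go2, List.mem_flatMap] at h
    obtain ⟨v, -, h⟩ := h
    exact (List.suffix_cons _ _).trans (go2_suffix ds _ _ h)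

theorem mem_go3 {S : List ℕ} {ex : ℕ → ℕ → Bool} {B : ℕ} {s : List (ℕ × ℕ)}
    (hs : s.Pairwise fun p q => p.2 = 0 ∨ p.2 ≠ q.2) :
    ∀ (ds : List ℕ) (acc : List (ℕ × ℕ)) (tot : ℕ), s ∈ go2 S ex B ds acc tot →
      s ∈ go3 S ex B ds acc tot
  | [], acc, _, h => h
  | d :: ds, acc, tot, h => by
    rw [go2, List.mem_flatMap] at h
    obtain ⟨v, hv, h⟩ := h
    rw [go3, List.mem_flatMap]
    refine ⟨v, List.mem_filter.mpr ⟨hv, ?_⟩, mem_go3 hs ds _ _ h⟩
    have := (List.pairwise_cons.mp (hs.sublist (go2_suffix ds _ _ h).sublist)).1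
    by_cases h0 : v = 0
    · simp [h0]
    · simpa [h0] using this

/-- The complete solutions. -/
def sols3 (S : List ℕ) (ex : ℕ → ℕ → Bool) (L : List ℕ) (N : ℕ) : List (List (ℕ × ℕ)) :=
  ((go3 S ex N L [] 0).filter fun s => (s.map Prod.snd).sum == N).map fun s =>
    s.filter fun p => p.2 != 0

theorem exists_mem_sols3 {G : Type*} [Group G] [Finite G] {S : List ℕ}
    (hS : ∀ n, mo G n ∈ 0 :: S) (hi : ∀ n n', 0 < mo G n → mo G n = mo G n' → n = n')
    {ex : ℕ → ℕ → Bool} (hex : ∀ n, ex n (mo G n) = true) {L : List ℕ}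
    (hs : L.Pairwise fun a b => ¬ b ∣ a) (hm : ∀ e, e ∈ L ↔ e ∣ Nat.card G) :
    ∃ s ∈ sols3 S ex L (Nat.card G), (∀ p ∈ s, mo G p.1 = p.2) ∧
      ∀ g : G, orderOf g ∈ s.map Prod.fst := by
  have hn : L.Nodup := hs.imp fun h (e : _ = _) => h e.symm.dvd
  have h1 := mem_go2 hS hex (B := Nat.card G) L [] (by simpa using hs)
    (fun e he => ⟨(hm e).mp he, fun f hf => by simpa using (hm f).mpr (hf.trans ((hm e).mp he))⟩)
    (by simpa using sum_list_le hn)
  simp only [List.map_nil, List.sum_nil, List.append_nil] at h1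
  replace h1 := mem_go3 (List.pairwise_map.mpr ((List.nodup_reverse.mpr hn).imp fun {a b} k =>
    (Nat.eq_zero_or_pos _).imp_right fun h e => k (hi a b h e))) _ _ _ h1
  refine ⟨_, List.mem_map.mpr ⟨_, List.mem_filter.mpr ⟨h1, ?_⟩, rfl⟩, fun p hp => ?_, fun g => ?_⟩
  · simp only [List.map_map, beq_iff_eq]
    rw [List.map_reverse, List.sum_reverse, ← List.sum_toFinset _ hn]
    exact sum_eq fun g => List.mem_toFinset.mpr ((hm _).mpr (orderOf_dvd_natCard g))
  · obtain ⟨n, -, rfl⟩ := List.mem_map.mp (List.mem_filter.mp hp).1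
    rfl
  · refine List.mem_map.mpr ⟨(orderOf g, mo G (orderOf g)), List.mem_filter.mpr ⟨List.mem_map.mpr
      ⟨_, List.mem_reverse.mpr ((hm _).mpr (orderOf_dvd_natCard g)), rfl⟩, ?_⟩, rfl⟩
    simpa using (mo_pos g).ne'

/-- The values of the counting function. -/
def S24v : List ℕ :=
  [1, 43263, 712448, 4080384, 5100480, 11658240, 12241152, 15301440, 20401920, 21288960, 22256640,
  23316480, 32643072, 34974720, 40803840]

theorem spec24 : (∀ k, mo M24 k ∈ 0 :: S24v) ∧ ∀ c ∈ S24v, 0 < c ∧ ∃ n, mo M24 n = c :=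
  Md.spec_of Md.mo_M24 (by decide +kernel)

/-- The divisors of the order. -/
def D24 : List ℕ :=
  [1, 2, 3, 5, 7, 11, 14, 21, 22, 23, 33, 46, 55, 69, 77, 115, 154, 161, 231, 253, 322, 483, 506,
  759, 1265, 1771, 3542, 5313, 10, 15, 110, 165, 230, 345, 2530, 3795, 35, 70, 105, 385, 770, 805,
  1155, 1610, 2415, 8855, 17710, 26565, 4, 44, 92, 1012, 28, 308, 644, 7084, 8, 56, 88, 184, 616,
  1288, 2024, 14168, 16, 112, 176, 368, 1232, 2576, 4048, 28336, 32, 64, 128, 224, 256, 512, 1024,
  352, 448, 704, 736, 896, 1408, 1472, 1792, 2464, 2816, 2944, 3584, 7168, 4928, 5152, 5632, 5888,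
  8096, 9856, 10304, 11264, 11776, 16192, 19712, 20608, 23552, 32384, 39424, 41216, 56672, 64768,
  78848, 82432, 113344, 129536, 164864, 226688, 259072, 453376, 906752, 1813504, 6, 66, 138, 1518,
  42, 462, 966, 10626, 12, 24, 48, 84, 96, 132, 168, 192, 384, 264, 276, 336, 528, 552, 672, 768,
  1536, 3072, 9, 18, 20, 27, 54, 30, 36, 108, 40, 45, 135, 60, 63, 72, 80, 90, 99, 120, 126, 140,
  144, 160, 180, 189, 198, 207, 210, 216, 220, 240, 252, 270, 280, 288, 297, 315, 320, 330, 360,
  378, 396, 414, 420, 432, 440, 460, 480, 495, 504, 540, 560, 576, 594, 621, 630, 640, 660, 690,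
  693, 720, 756, 792, 828, 840, 864, 880, 920, 924, 945, 960, 990, 1008, 1035, 1056, 1080, 1104,
  1120, 1152, 1188, 1242, 1260, 1280, 1320, 1344, 1380, 1386, 1440, 1449, 1485, 1512, 1540, 1584,
  1656, 1680, 1728, 1760, 1840, 1848, 1890, 1920, 1932, 1980, 2016, 2070, 2079, 2112, 2160, 2208,
  2240, 2277, 2304, 2310, 2376, 2484, 2520, 2560, 2640, 2688, 2760, 2772, 2880, 2898, 2970, 3024,
  3036, 3080, 3105, 3168, 3220, 3312, 3360, 3456, 3465, 3520, 3680, 3696, 3780, 3840, 3864, 3960,
  4032, 4140, 4158, 4224, 4320, 4347, 4416, 4480, 4554, 4608, 4620, 4752, 4830, 4968, 5040, 5060,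
  5120, 5280, 5376, 5520, 5544, 5760, 5796, 5940, 6048, 6072, 6160, 6210, 6336, 6440, 6624, 6720,
  6831, 6912, 6930, 7040, 7245, 7360, 7392, 7560, 7590, 7680, 7728, 7920, 8064, 8280, 8316, 8448,
  8640, 8694, 8832, 8960, 9108, 9216, 9240, 9504, 9660, 9936, 10080, 10120, 10395, 10560, 10752,
  11040, 11088, 11385, 11520, 11592, 11880, 12096, 12144, 12320, 12420, 12672, 12880, 13248,
  13440, 13662, 13824, 13860, 14080, 14490, 14720, 14784, 15120, 15180, 15360, 15456, 15840,
  15939, 16128, 16560, 16632, 16896, 17280, 17388, 17664, 17920, 18216, 18480, 19008, 19320,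
  19872, 20160, 20240, 20790, 21120, 21252, 21504, 21735, 22080, 22176, 22770, 23040, 23184,
  23760, 24192, 24288, 24640, 24840, 25344, 25760, 26496, 26880, 27324, 27648, 27720, 28160,
  28980, 29440, 29568, 30240, 30360, 30912, 31680, 31878, 32256, 33120, 33264, 33792, 34155,
  34560, 34776, 35328, 35420, 35840, 36432, 36960, 38016, 38640, 39744, 40320, 40480, 41580,
  42240, 42504, 43470, 44160, 44352, 45540, 46080, 46368, 47520, 47817, 48384, 48576, 49280,
  49680, 50688, 51520, 52992, 53130, 53760, 54648, 55440, 56320, 57960, 58880, 59136, 60480,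
  60720, 61824, 63360, 63756, 64512, 66240, 66528, 68310, 69120, 69552, 70656, 70840, 72864,
  73920, 76032, 77280, 79488, 79695, 80640, 80960, 83160, 84480, 85008, 86940, 88320, 88704,
  91080, 92736, 95040, 95634, 96768, 97152, 98560, 99360, 101376, 103040, 105984, 106260, 107520,
  109296, 110880, 115920, 117760, 118272, 120960, 121440, 123648, 126720, 127512, 132480, 133056,
  136620, 138240, 139104, 141680, 145728, 147840, 152064, 154560, 158976, 159390, 161280, 161920,
  166320, 168960, 170016, 173880, 176640, 177408, 182160, 185472, 190080, 191268, 193536, 194304,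
  197120, 198720, 206080, 211968, 212520, 218592, 221760, 231840, 236544, 239085, 241920, 242880,
  247296, 253440, 255024, 264960, 266112, 273240, 278208, 283360, 291456, 295680, 304128, 309120,
  317952, 318780, 322560, 323840, 332640, 340032, 347760, 353280, 354816, 364320, 370944, 380160,
  382536, 388608, 394240, 397440, 412160, 425040, 437184, 443520, 463680, 478170, 483840, 485760,
  494592, 506880, 510048, 529920, 532224, 546480, 556416, 566720, 582912, 591360, 618240, 635904,
  637560, 647680, 665280, 680064, 695520, 709632, 728640, 741888, 760320, 765072, 777216, 794880,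
  824320, 850080, 874368, 887040, 927360, 956340, 967680, 971520, 1020096, 1059840, 1064448,
  1092960, 1112832, 1133440, 1165824, 1182720, 1236480, 1275120, 1295360, 1330560, 1360128,
  1391040, 1457280, 1483776, 1520640, 1530144, 1589760, 1700160, 1748736, 1774080, 1854720,
  1912680, 1943040, 2040192, 2128896, 2185920, 2225664, 2266880, 2331648, 2472960, 2550240,
  2661120, 2720256, 2782080, 2914560, 3060288, 3179520, 3400320, 3497472, 3548160, 3709440,
  3825360, 3886080, 4080384, 4371840, 4451328, 4533760, 5100480, 5322240, 5440512, 5564160,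
  5829120, 6120576, 6800640, 6994944, 7418880, 7650720, 8160768, 8743680, 9067520, 10200960,
  10644480, 11128320, 11658240, 12241152, 13601280, 15301440, 16321536, 17487360, 20401920,
  22256640, 24482304, 27202560, 30602880, 34974720, 40803840, 48964608, 61205760, 81607680,
  122411520, 244823040]

/-- The additional filter. -/
def ex24 (n v : ℕ) : Bool :=
  (n % 23 != 0 || n == 23 || v % 967680 == 0) && (n % 11 != 0 || n == 11 || v % 2225664 == 0) &&
    (n % 7 != 0 || n == 7 || v % 1943040 == 0) && (n % 5 != 0 || n == 5 || v % 1020096 == 0)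

set_option maxRecDepth 100000 in
theorem sols24 : sols3 S24v ex24 D24 244823040 =
    [[(12, 40803840), (6, 20401920), (8, 15301440), (4, 5100480), (15, 32643072), (10, 12241152),
      (23, 21288960), (21, 23316480), (14, 34974720), (11, 22256640), (7, 11658240), (5, 4080384),
      (3, 712448), (2, 43263), (1, 1)]] := by
  decide +kernel

theorem D24_pw : D24.Pairwise fun a b => ¬ b ∣ a := by decide +kernel

theorem D24_mem (e : ℕ) : e ∈ D24 ↔ e ∣ 244823040 :=
  ⟨(by decide +kernel : ∀ e ∈ D24, e ∣ 244823040) e,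
    mem_of_dvd_mul (a := 27648) (b := 8855) (by norm_num) (by norm_num) (by decide +kernel)⟩

theorem H24.of_nse {G : Type*} [Group G] [Finite G] (hc : Nat.card G = 244823040)
    (h1 : ∀ n, mo G n ∈ 0 :: S24v) (h2 : ∀ c ∈ S24v, ∃ n, mo G n = c) : H24 G := by
  have f5 : 5 ∣ mo G 1 + mo G 5 := frob (d := 5) (by rw [hc]; norm_num)
  have f7 : 7 ∣ mo G 1 + mo G 7 := frob (d := 7) (by rw [hc]; norm_num)
  have f11 : 11 ∣ mo G 1 + mo G 11 := frob (d := 11) (by rw [hc]; norm_num)
  have f23 : 23 ∣ mo G 1 + mo G 23 := frob (d := 23) (by rw [hc]; norm_num)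
  rw [mo_one] at f5 f7 f11 f23
  have m5 := h1 5
  have m7 := h1 7
  have m11 := h1 11
  have m23 := h1 23
  simp only [S24v, List.mem_cons, List.not_mem_nil, or_false] at m5 m7 m11 m23
  replace m5 : mo G 5 = 4080384 := by omega
  replace m7 : mo G 7 = 11658240 := by omega
  replace m11 : mo G 11 = 22256640 := by omega
  replace m23 : mo G 23 = 21288960 := by omega
  obtain ⟨s, hs, h3, h4⟩ := exists_mem_sols3 h1 (fun n n' => eq_of_mo_eq (S := S24v.toFinset)
    (fun c hc => h2 c (List.mem_toFinset.mp hc)) (by rw [hc]; decide +kernel)) (ex := ex24)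
    (fun n => by
      have a := mo_prime_dvd (G := G) (p := 5) (n := n) (by norm_num) (by rw [hc]; norm_num)
      have b := mo_prime_dvd (G := G) (p := 7) (n := n) (by norm_num) (by rw [hc]; norm_num)
      have c := mo_prime_dvd (G := G) (p := 11) (n := n) (by norm_num) (by rw [hc]; norm_num)
      have d := mo_prime_dvd (G := G) (p := 23) (n := n) (by norm_num) (by rw [hc]; norm_num)
      rw [m5] at a
      rw [m7] at b
      rw [m11] at c
      rw [m23] at d
      simp only [ex24, Bool.and_eq_true, Bool.or_eq_true, bne_iff_ne, beq_iff_eq]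
      refine ⟨⟨⟨?_, ?_⟩, ?_⟩, ?_⟩ <;> omega) (L := D24) D24_pw (by rw [hc]; exact D24_mem)
  rw [hc, sols24, List.mem_singleton] at hs
  subst hs
  simp only [List.mem_cons, List.not_mem_nil, or_false, forall_eq_or_imp, forall_eq] at h3
  obtain ⟨-, -, a8, a4, a15, a10, -, a21, a14, -, -, -, a3, a2, -⟩ := h3
  refine ⟨hc, fun g => ?_, a2, a3, a4, m5, m7, a8, a10, m11, a14, a15, a21, m23⟩
  have := h4 g
  revert this
  generalize orderOf g = n
  simp only [List.map_cons, List.map_nil, List.mem_cons, List.not_mem_nil, or_false]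
  omega

theorem H24_M24 : H24 M24 := H24.of_nse Md.card_M24 spec24.1 fun c hc => (spec24.2 c hc).2

end Cfsg.Agent.Ma
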