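import Cfsg.Agent.H9.O11Core2
import Cfsg.Agent.H9.O11Z5
import Cfsg.Agent.H4.J1F3

/-! The induction for S3403. -/

set_option autoImplicit false

namespace Cfsg.Agent.H9.O11

open Subgroup MulAction Cfsg.Agent.H7
open MulAut (conj)
open scoped Pointwise

universe u

/-- isomorphic to `PSL(2,11)` or `J1` -/
def Iso (Y : Type*) [Group Y] : Prop :=
  Nonempty (Y ≃* Matrix.ProjectiveSpecialLinearGroup (Fin 2) (ZMod 11)) ∨ Cfsg.Spor.IsoJ1 Y

theorem Iso.congr {Y Z : Type*} [Group Y] [Group Z] (h : Iso Y) (e : Z ≃* Y) : Iso Z :=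
  h.imp (·.map e.trans) (·.map e.trans)

variable {G : Type u} [Group G]

theorem Iso.ln {X : Subgroup G} (h : Iso X) : Ln X := h.imp (lr_of_iso (ZMod.card 11)) jf_of_iso

theorem Ln.iso {X : Subgroup G} (h : Ln X) : Iso X :=
  h.imp LR.iso fun ⟨_, _, _, _, _, h⟩ => h.iso

/-- the conjugacy class of `P` -/
def Cl (P : Subgroup G) : Type u := {B : Subgroup G // ∃ g : G, B = conj g • P}

instance (P : Subgroup G) : MulAction G (Cl P) where
  smul g B := ⟨conj g • B.1, let ⟨x, e⟩ := B.2; ⟨g * x, by rw [e, conj_smul_smul]⟩⟩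
  one_smul B := Subtype.ext (conj_one_smul _)
  mul_smul a b B := Subtype.ext (conj_smul_smul a b _).symm

/-- the underlying subgroup -/
def Cl.val (P : Subgroup G) (B : Cl P) : Subgroup G := B.1

/-- the base point -/
def Cl.pt (P : Subgroup G) : Cl P := ⟨P, 1, (conj_one_smul P).symm⟩

theorem geo_of {P : Subgroup G} (hP : Nat.card P = 11)
    (hp : ∀ g : G, conj g • P ≠ P → Iso ↥(P ⊔ conj g • P)) : Geo (Cl.val P) where
  card := fun ⟨_, g, e⟩ => by subst e; exact (H7.card_conj_smul g P).trans hP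
  smul _ _ := rfl
  inj := Subtype.val_injective
  trans := fun ⟨_, a, e⟩ ⟨_, b, e'⟩ => ⟨b * a⁻¹, Subtype.ext (by
    subst e e'
    change conj _ • conj a • P = conj b • P
    rw [conj_smul_smul, inv_mul_cancel_right])⟩
  pair := fun ⟨_, a, e⟩ ⟨_, b, e'⟩ h => by
    subst e e'
    have := ((hp (a⁻¹ * b) fun c => h (Subtype.ext (by
      change conj a • P = conj b • P
      rw [← c, conj_smul_smul, c, mul_inv_cancel_left]))).ln).smul a
    rwa [conj_smul_sup, conj_smul_smul, mul_inv_cancel_left] at this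

theorem map_conj_smul {G' : Type*} [Group G'] (f : G →* G') (g : G) (P : Subgroup G) :
    (conj g • P).map f = conj (f g) • P.map f := by
  ext x
  simp only [mem_map, mem_conj_smul_iff_exists]
  exact ⟨fun ⟨_, ⟨a, ha, e⟩, e'⟩ => ⟨_, ⟨a, ha, rfl⟩, by rw [← e', ← e]; simp⟩,
    fun ⟨_, ⟨a, ha, e⟩, e'⟩ => ⟨_, ⟨a, ha, rfl⟩, by rw [← e', ← e]; simp⟩⟩

/-- restriction of a homomorphism with kernel meeting `X` trivially -/
noncomputable def eqvMap {G' : Type*} [Group G'] (f : G →* G') {X : Subgroup G}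
    (h : ∀ x ∈ X, f x = 1 → x = 1) : X ≃* X.map f :=
  MulEquiv.ofBijective (f.subgroupMap X) ⟨(injective_iff_map_eq_one _).2 fun x e =>
    Subtype.ext (h x x.2 (congrArg Subtype.val e)), f.subgroupMap_surjective X⟩

theorem main_of (fin : ∀ (G : Type u) [Group G] [Finite G] (Ω : Type u) [MulAction G Ω]
    (A : Ω → Subgroup G), ¬ Mn A) (n : ℕ) : ∀ (G : Type u) [Group G] [Finite G] (P : Subgroup G),
    Nat.card G = n → Nat.card P = 11 → ¬ P.Normal → normalClosure (P : Set G) = ⊤ →
    (∀ g : G, conj g • P ≠ P → Iso ↥(P ⊔ conj g • P)) → Iso G := by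
  induction n using Nat.strong_induction_on with | _ n ih => ?_
  intro G _ _ P hn hP hN hg hp
  subst hn
  have hA := geo_of hP hp
  by_contra hG
  have ntop : ¬ Ln (⊤ : Subgroup G) := fun k => hG (k.iso.congr topEquiv.symm)
  obtain ⟨g0, h0⟩ : ∃ g : G, conj g • P ≠ P := by
    by_contra! k
    exact hN (normalizer_eq_top_iff.1 (eq_top_iff.2 fun g _ => mem_norm_of_conj_smul_eq (k g)))
  have ne : ∀ {g : G}, conj g • P ≠ P → Cl.pt P ≠ g • Cl.pt P := fun h c =>
    h (congrArg Subtype.val c).symm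
  refine fin G _ _ ⟨hA, ⟨_, _, ne h0⟩, fun H h => eq_top_iff.2 (hg ▸ (closure_le _).2 fun x hx => ?_),
    ntop, by_contra fun hZ => ?_, fun H hH α β h1 h2 h3 => ?_⟩
  · obtain ⟨a, ha, c, rfl⟩ := by simpa only [Group.mem_conjugatesOfSet_iff, isConj_iff] using hx
    exact h (c • Cl.pt P) (mem_smul_self c ha)
  · let f := QuotientGroup.mk' (center G)
    have hf : ∀ {g : G}, conj g • P ≠ P → ∀ x ∈ P ⊔ conj g • P, f x = 1 → x = 1 :=
      fun h x hx e => hA.eq_one_of_cent (hA.ln (ne h)) le_sup_left hx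
        (center_le_centralizer _ ((QuotientGroup.eq_one_iff x).1 e))
    have cP : Nat.card (P.map f) = 11 := by
      rw [← hP]; exact (Nat.card_congr (eqvMap f fun x hx => hf h0 x (mem_sup_left hx)).toEquiv).symm
    have hp' : ∀ g : G ⧸ center G, conj g • P.map f ≠ P.map f → Iso ↥(P.map f ⊔ conj g • P.map f) := by
      intro g h
      obtain ⟨g, rfl⟩ := QuotientGroup.mk'_surjective _ g
      rw [← map_conj_smul] at h ⊢
      rw [← Subgroup.map_sup]
      have h' : conj g • P ≠ P := fun c => h (by rw [c])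
      exact (hp g h').congr (eqvMap f (hf h')).symm
    have k := ih _ (by
      rw [card_eq_card_quotient_mul_card_subgroup (center G)]
      exact (Nat.lt_mul_iff_one_lt_right Nat.card_pos).2 (one_lt_card_of_ne_bot hZ))
      (G ⧸ center G) (P.map f) rfl cP (fun c => ne h0 (hA.eq_of_cent (α := g0 • Cl.pt P) fun x hx => ?_))
      (by rw [coe_map, ← map_normalClosure _ _ (QuotientGroup.mk'_surjective _), hg,
        map_top_of_surjective _ (QuotientGroup.mk'_surjective _)]) hp'
    · obtain ⟨⟨_, g, rfl⟩, h1, h2⟩ := (geo_of cP hp').exists_pair (α := Cl.pt _)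
        (k.congr topEquiv).ln le_top
      obtain ⟨g, rfl⟩ := QuotientGroup.mk'_surjective _ g
      change P.map f ⊔ conj (f g) • P.map f = ⊤ at h2
      rw [← map_conj_smul, ← Subgroup.map_sup] at h2
      have h' : conj g • P ≠ P := fun c => h1 (Subtype.ext (by
        change conj (f g) • P.map f = P.map f
        rw [← map_conj_smul, c]))
      have hn : (P ⊔ conj g • P).Normal := ⟨fun x hx y => by
        obtain ⟨z, hz, e⟩ := (h2 ▸ mem_top (f y) : f y ∈ (P ⊔ conj g • P).map f)
        obtain ⟨c, hc, rfl⟩ := (QuotientGroup.mk'_eq_mk' _).1 e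
        rw [show z * c * x * (z * c)⁻¹ = z * (c * x * c⁻¹) * z⁻¹ by group,
          ← mem_center_iff.1 hc x, mul_inv_cancel_right]
        exact mul_mem (mul_mem hz hx) (inv_mem hz)⟩
      have e : P ⊔ conj g • P = ⊤ :=
        eq_top_iff.2 (hg ▸ normalClosure_le_normal (fun x hx => mem_sup_left hx))
      exact ntop (e ▸ (hp g h').ln)
    · obtain ⟨a, ha, rfl⟩ := mem_conj_smul_iff_exists.1 hx
      obtain ⟨b, hb, e⟩ := c.conj_mem _ (mem_map_of_mem f ha) (f g0)
      rw [← map_inv, ← map_mul, ← map_mul] at e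
      obtain ⟨z, hz, e⟩ := (QuotientGroup.mk'_eq_mk' _).1 e
      exact e ▸ mul_mem (hA.le_cent (Cl.pt P) hb) (center_le_centralizer _ hz)
  · generalize Cl.val P = A at *
    have l : A α ≤ E A H := le_E h2
    have m : ((A α).subgroupOf (E A H)).map (E A H).subtype = A α := map_subgroupOf_eq_of_le l
    refine ((ih _ (card_lt_of_lt (lt_top_iff_ne_top.2 fun c => hH (top_le_iff.1 (c ▸ E_le)))
      |>.trans_eq card_top) (E A H) ((A α).subgroupOf (E A H)) rfl (by
        rw [← hA.card α]; exact Nat.card_congr (subgroupOfEquivOfLe l).toEquiv) (fun c => ?_) ?_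
      fun g h => ?_)).ln
    · obtain ⟨b, ob, e⟩ := hA.exists_gen β
      have hb : b ∈ A β := e ▸ mem_zpowers b
      exact h1 (hA.eq_of_fix hb (ne_one_of_ord ob) (hA.fix_iff.2
        ((normal_subgroupOf_iff_le_normalizer l).1 c (le_E h3 hb))))
    · refine map_injective (E A H).subtype_injective (le_antisymm (map_mono le_top) ?_)
      rw [← MonoidHom.range_eq_map, range_subtype]
      refine E_le_iff.2 fun γ hγ => ?_
      obtain ⟨x, hx, rfl⟩ : ∃ x ∈ E A H, x • α = γ := by
        by_cases c : α = γ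
        · exact ⟨1, one_mem _, by rw [one_smul, c]⟩
        obtain ⟨x, hx, e⟩ := hA.conj_in (hA.ln c) le_sup_left le_sup_right
        exact ⟨x, sup_le l (le_E hγ) hx, e⟩
      have m2 := map_conj_smul (E A H).subtype ⟨x, hx⟩ ((A α).subgroupOf (E A H))
      rw [m, ← hA.smul] at m2
      exact m2.ge.trans <| map_mono (conj_smul_le_of_norm (by rw [normalizer_eq_top]; trivial) le_normalClosure)
    · have m2 := map_conj_smul (E A H).subtype g ((A α).subgroupOf (E A H))
      rw [m, ← hA.smul] at m2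
      refine (hA.ln (α := α) (β := (g : G) • α) fun c => h (map_injective (E A H).subtype_injective
        (by rw [m2, m]; exact congrArg A c.symm))).iso.congr
        ((equivMapOfInjective _ _ (E A H).subtype_injective).trans (MulEquiv.subgroupCongr ?_))
      rw [Subgroup.map_sup, m, m2]; rfl

end Cfsg.Agent.H9.O11
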