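import Cfsg.Agent.H9.O11Lines

/-! Counting involutions for S3403. -/

set_option autoImplicit false

namespace Cfsg.Agent.H9.O11

open Subgroup MulAction Cfsg.Agent.H7
open MulAut (conj)
open scoped Pointwise

variable {G : Type*} [Group G] {X Y Z : Subgroup G} {Ω : Type*} [MulAction G Ω]
  {A : Ω → Subgroup G} {α β γ δ : Ω} {g x y h u w : G}

theorem ncard_conj (g : G) {S T : Set G} (h : ∀ x, g * x * g⁻¹ ∈ T ↔ x ∈ S) : S.ncard = T.ncard :=
  Set.ncard_congr (fun x _ => g * x * g⁻¹) (fun x hx => (h x).2 hx) (fun a b _ _ e => by simpa using e)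
    fun x hx => ⟨g⁻¹ * x * g, (h _).1 (by simpa [mul_assoc] using hx), by group⟩

theorem conj_smul_pt (g x : G) (α : Ω) : (g * x * g⁻¹) • g • α = g • x • α := by
  rw [mul_smul, mul_smul, inv_smul_smul]

theorem swap_of_sq (h2 : x * x = 1) (e : x • α = β) : x • β = α := by
  rw [← e, ← mul_smul, h2, one_smul]

variable [Finite G]

theorem Geo.on_smul (hA : Geo A) (hY : On A α Y) (g : G) : On A (g • α) (conj g • Y) := by
  obtain ⟨β, h1, rfl⟩ := hY
  exact ⟨g • β, fun k => h1 (smul_left_cancel g k), (hA.smul_sup g α β).symm⟩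

namespace LC

variable (H : LC A)
include H

theorem count_two {U : Set G} (hU : ∀ g : G, ∀ u ∈ U, g * u * g⁻¹ ∈ U) (h1 : α ≠ β) :
    U.ncard = {u | u ∈ U ∧ u • α = α}.ncard +
      (Nat.card Ω - 1) * {u | u ∈ U ∧ u • α = β}.ncard := by
  have := H.geo.finite
  refine count_move α fun γ hγ => ?_
  obtain ⟨g, e1, rfl⟩ := H.trans2 h1.symm hγ
  refine (ncard_conj g fun x => and_congr ⟨fun k => by simpa [mul_assoc] using hU g⁻¹ _ k, hU g x⟩ ?_).symm
  conv_lhs => rw [← e1, conj_smul_pt, smul_left_cancel_iff]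

theorem ncard_swap (h1 : α ≠ β) :
    {x | x ∈ A α ⊔ A β ∧ orderOf x = 2 ∧ x • α = β}.ncard = 5 := by
  have hX := H.lr α β h1
  obtain ⟨h, hh, oh, e1, e2⟩ := H.geo.L_h hX le_sup_left le_sup_right h1
  obtain ⟨w, hw, ow, e3, e4⟩ := H.geo.L_w hX le_sup_left le_sup_right h1
  have wh := H.geo.L_swap hX le_sup_left h1 hh oh e1 e2 hw ow e3 e4
  rw [← oh, ← Nat.card_zpowers, ← SetLike.coe_sort_coe, Nat.card_coe_set_eq]
  refine Set.ncard_congr (fun x _ => w * x) (fun x hx => H.geo.L_stab hX le_sup_left h1 hh oh e1 e2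
    (mul_mem hw hx.1) (by rw [mul_smul, hx.2.2, e4])
    (by rw [mul_smul, swap_of_sq (sq_of_ord hx.2.1) hx.2.2, e3])) (fun a b _ _ e => by simpa using e)
    fun y hy => ?_
  obtain ⟨i, rfl⟩ := exists_pow_of_mem hy
  have e : (w * h ^ i) • α = β := by
    rw [mul_smul, show h ^ i • α = α from pow_mem (show h ∈ stabilizer G α from e1) i, e3]
  refine ⟨w * h ^ i, ⟨mul_mem hw (pow_mem hh i), ord_two ?_ fun c => h1 (by
    rw [← e, c, one_smul]), e⟩, by rw [← mul_assoc, sq_of_ord ow, one_mul]⟩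
  rw [← mul_assoc, show w * h ^ i * w = (w * h * w⁻¹) ^ i by rw [conj_pow, inv_of_ord ow], wh,
    inv_pow, inv_mul_cancel]

/-- an element of order prime to 10 fixing two points centralizes their line -/
theorem cent_of_fix (h1 : α ≠ β) (hc : (orderOf g).Coprime 10) (e1 : g • α = α) (e2 : g • β = β) :
    g ∈ C[A α ⊔ A β] :=
  H.geo.f2' (.inl (H.lr α β h1)) le_sup_left le_sup_right h1 (H.geo.norm_sup e1 e2)
    (mem_of_pow_mem_of_coprime hc (H.geo.pow_ten e1)) e2

theorem fix_prime {p : ℕ} [Fact p.Prime] (og : orderOf g = p) (hc : p.Coprime 10) :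
    Nat.card Ω % p ≤ 1 ∨ Nat.card Ω ≡ 12 [MOD p] := by
  have := H.geo.finite
  have k := ncard_modEq (og ▸ pow_orderOf_eq_one g : g ^ p = 1) (Set.univ : Set Ω).toFinite
    fun _ _ => trivial
  simp only [Set.ncard_univ, Set.mem_univ, true_and] at k
  by_cases c : {s : Ω | g • s = s}.ncard ≤ 1
  · exact .inl (k.le.trans ((Nat.mod_le _ _).trans c))
  obtain ⟨γ, e1, δ, e2, h1⟩ := (Set.one_lt_ncard (Set.toFinite _)).1 (not_le.1 c)
  rw [H.ncard_fixK (mem_lines h1) (H.cent_of_fix h1 (og ▸ hc) e1 e2) fun c =>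
    (Fact.out : p.Prime).ne_one (by rw [← og, c, orderOf_one])] at k
  exact .inr k

end LC

end Cfsg.Agent.H9.O11
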