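import Cfsg.Agent.H9.O11J

/-! The minimal counterexample for S3403. -/

set_option autoImplicit false

namespace Cfsg.Agent.H9.O11

open Subgroup MulAction Cfsg.Agent.H7
open MulAut (conj)
open scoped Pointwise

variable {G : Type*} [Group G] {X Y Z H : Subgroup G} {Ω : Type*} [MulAction G Ω]
  {A : Ω → Subgroup G} {α β γ δ : Ω} {a g x y h u w r : G} {ι : alternatingGroup (Fin 5) →* G}

/-- the subgroup generated by the points in `H` -/
def E (A : Ω → Subgroup G) (H : Subgroup G) : Subgroup G := ⨆ γ, ⨆ (_ : A γ ≤ H), A γ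

theorem le_E (h : A γ ≤ H) : A γ ≤ E A H := le_iSup₂_of_le (f := fun γ (_ : A γ ≤ H) => A γ) γ h le_rfl

theorem E_le_iff : E A H ≤ X ↔ ∀ γ, A γ ≤ H → A γ ≤ X := iSup₂_le_iff

theorem E_le : E A H ≤ H := E_le_iff.2 fun _ h => h

/-- a minimal counterexample -/
structure Mn (A : Ω → Subgroup G) : Prop where
  geo : Geo A
  nt : ∃ α β : Ω, α ≠ β
  gen : ∀ H : Subgroup G, (∀ γ, A γ ≤ H) → H = ⊤
  ntop : ¬ Ln (⊤ : Subgroup G)
  cen : center G = ⊥
  min : ∀ H : Subgroup G, H ≠ ⊤ → ∀ α β, α ≠ β → A α ≤ H → A β ≤ H → Ln (E A H)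

variable [Finite G]

theorem Geo.E_smul (hA : Geo A) (g : G) (H : Subgroup G) : conj g • E A H = E A (conj g • H) := by
  have k : ∀ (g : G) (H : Subgroup G), E A (conj g • H) ≤ conj g • E A H := fun g H =>
    E_le_iff.2 fun γ h => by
      rw [← smul_inv_smul g γ, hA.smul_le_smul] at h ⊢
      exact le_E h
  refine le_antisymm (conj_smul_le_iff_le_inv.2 ?_) (k g H)
  simpa only [conj_inv_smul_smul] using k g⁻¹ (conj g • H)

theorem Geo.le_E_of_ln (hA : Geo A) (hX : Ln X) (hα : A α ≤ X) (h : X ≤ H) : X ≤ E A H := by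
  obtain ⟨β, -, e⟩ := hA.exists_pair hX hα
  exact e ▸ sup_le (le_E (hα.trans h)) (le_E ((e ▸ le_sup_right : A β ≤ X).trans h))

theorem JF.eq_of_le (hX : JF X) (hY : Ln Y) (h : X ≤ Y) : X = Y :=
  eq_of_le_of_card_le h (by rw [hX.card]; rcases hY.card with e | e <;> omega)

theorem LR.eq_of_le (hY : LR Y) (hX : Ln X) (h : X ≤ Y) : X = Y :=
  eq_of_le_of_card_le h (by rw [hY.card]; rcases hX.card with e | e <;> omega)

namespace Mn

variable (M : Mn A)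
include M

theorem second (α : Ω) : ∃ β, β ≠ α := by
  obtain ⟨β, γ, h⟩ := M.nt
  by_cases k : β = α
  · exact ⟨γ, fun e => h (k.trans e.symm)⟩
  · exact ⟨β, k⟩

theorem out (hX : Ln X) : ∃ γ, ¬ A γ ≤ X := by
  by_contra! k
  exact M.ntop (M.gen X k ▸ hX)

theorem cent1_ne_top (h1 : y ≠ 1) : C₁[y] ≠ ⊤ := fun k => h1 (mem_bot.1 (M.cen ▸
  mem_center_iff.2 fun g => mem_cent1_iff.1 (k ▸ mem_top g)))

theorem faith (hg : ∀ γ : Ω, g • γ = γ) : g = 1 := by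
  by_contra k
  refine M.cent1_ne_top k (M.gen _ fun γ b hb => mem_cent1_iff.2 ?_)
  obtain ⟨β, h1⟩ := M.second γ
  have : g * b * g⁻¹ * b⁻¹ = 1 := by_contra fun c => h1 (M.geo.eq_of_fix
    (mul_mem (conj_mem_of_norm (M.geo.fix_iff.1 (hg γ)) hb) (inv_mem hb)) c (by
      rw [mul_smul, mul_smul, mul_smul, hg, inv_smul_eq_iff.2 (hg _).symm, smul_inv_smul]))
  exact (mul_inv_eq_iff_eq_mul.1 (mul_inv_eq_one.1 this)).symm

theorem perf : commutator G = ⊤ := M.gen _ fun γ => by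
  obtain ⟨β, h1⟩ := M.second γ
  obtain ⟨h, hh, oh, e⟩ := M.geo.exists_h (M.geo.ln h1.symm) le_sup_left
  obtain ⟨a, -, ea⟩ := M.geo.exists_gen γ
  have ha : a ∈ A γ := ea ▸ mem_zpowers a
  rw [← M.geo.zp_eq (mul_mem (conj_mem_of_norm (M.geo.fix_iff.1 e) ha) (inv_mem ha)) fun c =>
    M.geo.not_cent (M.geo.ln h1.symm) le_sup_left hh (ne_one_of_ord oh) (by omega) (by
      rw [ea, cent_zpowers, mem_cent1_iff]
      exact mul_inv_eq_iff_eq_mul.1 (mul_inv_eq_one.1 c))]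
  exact zpowers_le_of_mem (comm_mem (mem_top h) (mem_top a))

theorem E1 (hX : Ln X) (hα : A α ≤ X) (hy : y ∈ C[X]) (h1 : y ≠ 1) :
    Ln (E A C₁[y]) ∧ X ≤ E A C₁[y] ∧ y ∈ C[E A C₁[y]] ∧ ∀ γ, y • γ = γ → A γ ≤ E A C₁[y] := by
  have k : X ≤ C₁[y] := le_cent1_iff.2 hy
  obtain ⟨β, h2, hβ⟩ := M.geo.exists_second hX hα
  exact ⟨M.min _ (M.cent1_ne_top h1) α β h2.symm (hα.trans k) (hβ.trans k),
    M.geo.le_E_of_ln hX hα k, le_cent1_iff.1 E_le,
    fun γ e => le_E (le_cent1_iff.2 (M.geo.fp (cent_anti hα hy) e))⟩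

theorem EJ (hX : JF X) (hα : A α ≤ X) (hy : y ∈ C[X]) (h1 : y ≠ 1) : E A C₁[y] = X :=
  let ⟨k1, k2, _⟩ := M.E1 (.inr hX) hα hy h1
  (hX.eq_of_le k1 k2).symm

theorem kfixJ (hX : JF X) (hα : A α ≤ X) (hy : y ∈ C[X]) (h1 : y ≠ 1) (e : y • γ = γ) : A γ ≤ X :=
  M.EJ hX hα hy h1 ▸ (M.E1 (.inr hX) hα hy h1).2.2.2 γ e

theorem normJ (hX : JF X) (hα : A α ≤ X) (hy : y ∈ C[X]) (h1 : y ≠ 1) (hg : g * y * g⁻¹ ∈ C[X]) :
    g ∈ N[X] := mem_norm_of_conj_smul_eq (by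
  have := M.EJ hX hα hg (by simpa [mul_inv_eq_one] using h1)
  rwa [← conj_smul_cent1, ← M.geo.E_smul, M.EJ hX hα hy h1] at this)

theorem odd_K (hX : JF X) (hα : A α ≤ X) : Odd (Nat.card C[X]) := by
  classical
  have hA := M.geo
  by_contra ho
  obtain ⟨u, hu, ou⟩ := exists_orderOf_eq_prime Nat.prime_two
    (even_iff_two_dvd.1 (Nat.not_odd_iff_even.1 ho))
  have u1 := ne_one_of_ord ou
  have u2 := sq_of_ord ou
  have nc : ∀ c, Commute c u → c ∈ N[X] := fun c hc =>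
    M.normJ hX hα hu u1 (by rwa [hc.eq, mul_inv_cancel_right])
  obtain ⟨β, hβ⟩ := M.out (.inr hX)
  have h1 : β ≠ u • β := fun e => hβ (M.kfixJ hX hα hu u1 e.symm)
  have hY := hA.ln h1
  have un := hA.norm_sup' (g := u) (α := β) rfl (by rw [smul_smul, u2, one_smul])
  have nK : u ∉ C[A β ⊔ A (u • β)] := fun c => h1 (hA.fix_of_centX le_sup_left c).symm
  have hb := hA.bot hY le_sup_left
  rcases hY with hY | hY
  swap
  · exact nK (hA.inv_in_K hY le_sup_left un u2 (cent_anti hα hu))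
  generalize A β ⊔ A (u • β) = Y, (le_sup_left : A β ≤ A β ⊔ A (u • β)) = hβY at *
  obtain ⟨z, hz, c, hc, e⟩ := mem_XK.1 (hA.L_outer hY hβY un u2 fun γ hγ e => by
    obtain ⟨b, hb', k, hk, rfl⟩ := hA.f2L hY hγ un (hA.fp (cent_anti hα hu) e)
    have := (split_pow hb (hγ hb') hk (sq (b * k) ▸ u2)).1
    rw [(pow_eq_one_iff_of_coprime (m := 2) (n := 11) (by norm_num)).1 ⟨this, hA.pow11 hb'⟩,
      one_mul] at nK
    exact nK hk)
  have c1 : c = 1 := by_contra fun c1 => hβ (M.kfixJ hX hα (hA.inv_in_K hX hα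
    (nc c (e ▸ (commute_of_mem_cent hc hz).symm.mul_right (Commute.refl c)))
    (sq c ▸ (split_pow hb hz hc (by rw [e, sq, u2])).2) (cent_anti hβY hc)) c1
    (hA.fix_of_centX hβY hc))
  rw [c1, mul_one] at e
  subst e
  obtain ⟨x, hx, ox, s, cs, hs⟩ := hY.seven
  obtain ⟨v, hv, rfl⟩ := hA.L_conj_inv hY hβY hx ox hz ou
  have cs' : (s.image (conj v)).card = 7 := by
    rw [Finset.card_image_of_injective _ (conj v).injective, cs]
  have hs' : ∀ y ∈ s.image (conj v), y ∈ Y ∧ orderOf y = 2 ∧ Commute y (v * x * v⁻¹) := by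
    intro y hy
    obtain ⟨y', hy', rfl⟩ := Finset.mem_image.1 hy
    obtain ⟨k1, k2, k3⟩ := hs y' hy'
    exact ⟨mul_mem (mul_mem hv k1) (inv_mem hv), by rw [MulEquiv.orderOf_eq, k2], k3.symm.map (conj v)⟩
  generalize v * x * v⁻¹ = u, s.image (conj v) = s at *
  have k1 := ncard_class (Y ⊓ N[X]) u
  have k2 : 7 ≤ {v | ∃ x ∈ Y ⊓ N[X], x * u * x⁻¹ = v}.ncard := by
    rw [← cs', ← Set.ncard_coe_finset]
    refine Set.ncard_le_ncard fun y hy => ?_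
    obtain ⟨k1, k2, k3⟩ := hs' y hy
    obtain ⟨q, hq, rfl⟩ := hA.L_conj_inv hY hβY hz ou k1 k2
    exact ⟨q, ⟨hq, M.normJ hX hα hu u1 (hA.inv_in_K hX hα (nc _ k3) (sq_of_ord k2)
      (hA.cent_smul (cent_anti hα hu) q))⟩, rfl⟩
  have k3 : 8 ≤ Nat.card ↥(Y ⊓ N[X] ⊓ C₁[u]) := by
    rw [show 8 = (insert 1 s).card by
      rw [Finset.card_insert_of_notMem fun c => by simpa using (hs' 1 c).2.1, cs'],
      ← Set.ncard_coe_finset, ← SetLike.coe_sort_coe, Nat.card_coe_set_eq]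
    refine Set.ncard_le_ncard fun y hy => ?_
    rcases Finset.mem_insert.1 hy with rfl | hy
    · exact one_mem _
    · exact ⟨⟨(hs' y hy).1, nc _ (hs' y hy).2.2⟩, mem_cent1_iff.2 (hs' y hy).2.2⟩
  have k4 := card_dvd_of_le (inf_le_left.trans inf_le_left : Y ⊓ N[X] ⊓ C₁[u] ≤ Y)
  have k5 := card_dvd_of_le (inf_le_left : Y ⊓ N[X] ≤ Y)
  rw [hY.card] at k4 k5
  have k6 : 10 ≤ Nat.card ↥(Y ⊓ N[X] ⊓ C₁[u]) := by
    by_contra! c
    interval_cases Nat.card ↥(Y ⊓ N[X] ⊓ C₁[u]) <;> omega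
  have k7 : 11 ∣ Nat.card ↥(Y ⊓ N[X]) := by
    by_contra c
    have := Nat.le_of_dvd (by norm_num) (Nat.Coprime.dvd_of_dvd_mul_right
      ((Nat.Prime.coprime_iff_not_dvd f11.out).2 c).symm (show _ ∣ 60 * 11 from k5))
    nlinarith
  obtain ⟨b, hb, ob⟩ := exists_orderOf_eq_prime f11.out k7
  obtain ⟨δ, e⟩ := hA.point_of_order (.inl hY) hβY hb.1 ob
  exact hA.not_cent (.inl hY) (e ▸ zpowers_le_of_mem hb.1) hz u1 (by omega)
    (cent_anti (hA.le_of_norm (.inr hX) hα (e ▸ zpowers_le_of_mem hb.2)) hu)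

theorem inv_mem_J (hX : JF X) (hα : A α ≤ X) (hu : u ∈ N[X]) (u2 : u * u = 1) : u ∈ X := by
  obtain ⟨x, hx, k, hk, rfl⟩ := mem_XK.1 (M.geo.J_mem hX hα hu)
  have := (split_pow (M.geo.bot (.inr hX) hα) hx hk (sq (x * k) ▸ u2)).2
  rwa [(pow_eq_one_iff_of_coprime ((Nat.coprime_two_left).2 (M.odd_K hX hα))).1
    ⟨this, pow_card_eq_one_of_mem hk⟩, mul_one]

end Mn

theorem Geo.not_inv (hA : Geo A) (oh : orderOf h = 5) (e : h • α = α) (h1 : h ∉ C[A α]) {v : G}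
    (hv : v * h * v⁻¹ = h⁻¹) : v • α ≠ α := fun k => by
  have := hA.commute_of_fix e oh h1 k (mem_norm_of_conj_smul_eq (by
    rw [conj_smul_zpowers, hv, zpowers_inv]))
  rw [this.eq, mul_inv_cancel_right, eq_inv_iff_mul_eq_one, ← sq] at hv
  have := orderOf_dvd_of_pow_eq_one hv
  rw [oh] at this
  omega

theorem Geo.not_inv' (hA : Geo A) (oh : orderOf h = 5) (e : h • α = α) (h1 : h ∉ C[A α]) {v c : G}
    (hv : v * h * v⁻¹ = h⁻¹) (hc : Commute c h) : v • α ≠ c • α := fun k =>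
  hA.not_inv oh e h1 (v := c⁻¹ * v) (by
    rw [show c⁻¹ * v * h * (c⁻¹ * v)⁻¹ = c⁻¹ * (v * h * v⁻¹) * c by group, hv,
      hc.inv_inv.eq, inv_mul_cancel_right]) (by rw [mul_smul, k, inv_smul_smul])

omit [Finite G] in
theorem comm_of_inv {v : G} (hw : w * h * w⁻¹ = h⁻¹) (hv : v * h * v⁻¹ = h⁻¹) :
    Commute (w⁻¹ * v) h := mul_inv_eq_iff_eq_mul.1 (by
  calc _ = w⁻¹ * (v * h * v⁻¹) * w := by group
    _ = _ := by rw [hv, ← hw]; group)

theorem Mn.dich (M : Mn A) (oh : orderOf h = 5) (e : h • α = α) (h1 : h ∉ C[A α])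
    (hw : w * h * w⁻¹ = h⁻¹) (hβ : β ≠ α) (e' : h • β = β) :
    (∃ v : G, v * h * v⁻¹ = h⁻¹ ∧ v • α = β) ∨ (JF (A α ⊔ A β) ∧ h ∈ A α ⊔ A β) := by
  have hA := M.geo
  have hZ := hA.ln hβ.symm
  obtain ⟨h', hh', k', hk', rfl⟩ := mem_XK.1 (hA.odd_mem hZ le_sup_left (hA.norm_sup e e')
    (by rw [oh]; decide))
  obtain ⟨p1, p2⟩ := split_pow (hA.bot hZ le_sup_left) hh' hk' (pow5 oh)
  have f1 : h' • α = α := by rwa [mul_smul, hA.fix_of_centX le_sup_left hk'] at e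
  have f2 : h' • β = β := by rwa [mul_smul, hA.fix_of_centX le_sup_right hk'] at e'
  have oh' : orderOf h' = 5 := orderOf_eq_prime p1 fun c => h1 (by
    rw [c, one_mul]; exact cent_anti le_sup_left hk')
  by_cases k1 : k' = 1
  · rw [k1, mul_one]
    rcases hZ with hZ | hZ
    · obtain ⟨v, hv, ov, e1, e2⟩ := hA.L_w hZ le_sup_left le_sup_right hβ.symm
      exact .inl ⟨v, hA.L_swap hZ le_sup_left hβ.symm hh' oh' f1 f2 hv ov e1 e2, e1⟩
    · exact .inr ⟨hZ, hh'⟩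
  left
  have ok' : orderOf k' = 5 := orderOf_eq_prime p2 k1
  have hc := commute_of_mem_cent hk' hh'
  obtain ⟨hZ', le, hk, -⟩ := M.E1 hZ le_sup_left hk' k1
  have hα : A α ≤ E A C₁[k'] := le_sup_left.trans le
  have hβ' : A β ≤ E A C₁[k'] := le_sup_right.trans le
  have hE : ∀ g : G, conj g • E A C₁[k'] = E A C₁[g * k' * g⁻¹] := fun g => by
    rw [hA.E_smul, conj_smul_cent1]
  replace hh' := le hh'
  generalize E A C₁[k'] = Z at *
  have hb := hA.bot hZ' hα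
  have pz : ∀ y : G, orderOf y = 5 → IsPGroup 5 (zpowers y) := fun y oy =>
    IsPGroup.of_card (n := 1) (by rw [Nat.card_zpowers, oy, pow_one])
  obtain ⟨T, hT, sT⟩ := exists_isSylowIn_ge (H := C₁[h' * k'] ⊓ N[Z])
    ((pz h' oh').to_sup_of_normal_right' (pz k' ok') (le_norm_zpowers (zpowers_le_of_mem
      (mem_cent1_iff.2 hc)))) (sup_le (zpowers_le_of_mem ⟨mem_cent1_iff.2
      ((Commute.refl h').mul_right hc), le_norm_self _ hh'⟩) (zpowers_le_of_mem ⟨mem_cent1_iff.2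
      (hc.symm.mul_right (Commute.refl k')), cent_le_norm _ hk⟩))
  have kT : k' ∈ T := hT (mem_sup_right (mem_zpowers _))
  have fT : ∀ y ∈ T, y • β = β := fun y hy => by
    obtain ⟨n, hn⟩ := sT.isPGroup ⟨y, hy⟩
    replace hn : y ^ 5 ^ n = 1 := congrArg Subtype.val hn
    obtain ⟨z, hz, k, hk2, rfl⟩ := mem_XK.1 (hA.odd_mem hZ' hα (sT.le hy).2
      ((Odd.pow (by decide)).of_dvd_nat (orderOf_dvd_of_pow_eq_one hn)))
    have c1 := (split_eq hb (mul_mem hz hh') (mul_mem hh' hz) (mul_mem hk2 hk) (mul_mem hk hk2) (by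
      calc _ = z * k * (h' * k') := by rw [mul_assoc, mul_assoc, ← mul_assoc h', comm_of_mem_cent hk2 hh', mul_assoc]
        _ = _ := by rw [mem_cent1_iff.1 (sT.le hy).1, mul_assoc, mul_assoc, ← mul_assoc k', ← comm_of_mem_cent hk hz, mul_assoc])).1
    rw [mul_smul, hA.fix_of_centX hβ' hk2]
    exact zpowers_le_of_mem (H := stabilizer G β) f2 (hZ'.mem_zpowers (by norm_num) hh' hz oh'
      (split_pow hb hz hk2 hn).1 (cent_le_norm _ (by rw [cent_zpowers]; exact mem_cent1_iff.2 c1)))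
  have nT : N[T] ≤ N[Z] := fun g hg => by
    have k2 := conj_mem_of_norm hg kT
    have k3 := hA.fp (hA.cent_smul (cent_anti hα hk) g) (fT _ k2)
    obtain ⟨b, hb', k, hk2, e2⟩ := hA.f2 hZ' hβ' (sT.le k2).2 k3
    have o5 : (b * k) ^ 5 = 1 := by rw [← e2, conj_pow, p2]; group
    rw [(pow_eq_one_iff_of_coprime (m := 5) (n := 11) (by norm_num)).1
      ⟨(split_pow hb (hβ' hb') hk2 o5).1, hA.pow11 hb'⟩, one_mul] at e2
    refine mem_norm_of_conj_smul_eq (eq_of_le_of_card_le ?_ (card_conj_smul g Z).le).symm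
    rw [hE]
    exact hA.le_E_of_ln hZ' hα (le_cent1_iff.2 (e2 ▸ hk2))
  have sT' : IsSylowIn 5 T C₁[h' * k'] := IsSylowIn.of_norm (sT.mono
    (le_inf (sT.le.trans inf_le_left) (le_norm_self T)) (inf_le_inf_left _ nT))
  have nI : NormalIn C₁[h' * k'] N[zpowers (h' * k')] := by
    rw [← cent_zpowers]; exact ⟨cent_le_norm _, norm_le_norm_cent _⟩
  obtain ⟨c, hc', v, hv, rfl⟩ := (mem_sup_of_norm (inf_le_left.trans nI.2)).1
    ((sT'.frattini nI).ge (mem_norm_of_conj_smul_eq (g := w) (by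
      rw [conj_smul_zpowers, hw, zpowers_inv])))
  have hv' : v * (h' * k') * v⁻¹ = (h' * k')⁻¹ := by
    calc _ = c⁻¹ * (c * v * (h' * k') * (c * v)⁻¹) * c := by group
      _ = _ := by rw [hw, (show Commute c _ from mem_cent1_iff.1 hc').inv_inv.eq, inv_mul_cancel_right]
  have vZ := nT hv.2
  obtain ⟨i1, i2⟩ := split_eq hb (conj_mem_of_norm vZ hh') (inv_mem hh')
    (conj_mem_of_norm (norm_le_norm_cent _ vZ) hk) (inv_mem hk) (by
      rw [← hc.symm.inv_inv.eq, ← mul_inv_rev, ← hv']; group)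
  rcases hZ' with hZ' | hZ'
  · refine ⟨v, hv', (hA.L_fix_two hZ' hα hβ' (hA.smul_le vZ hα) hβ.symm (hA.not_cent (.inl hZ') hα
      hh' (ne_one_of_ord oh') (by omega)) f1 f2 ?_).resolve_left (hA.not_inv oh e h1 hv')⟩
    rw [← inv_smul_eq_iff.1 (show h'⁻¹ • v • α = v • α by
      rw [← i1, mul_smul, mul_smul, inv_smul_smul, f1])]
  · exfalso
    obtain ⟨z, hz, q, hq, rfl⟩ := mem_XK.1 (hA.J_mem hZ' hα vZ)
    have i3 : q * k' * q⁻¹ = k'⁻¹ := by
      rw [← i2, ← conj_eq_of_mem_cent (le_cent_cent _ hz) (mul_mem (mul_mem hq hk) (inv_mem hq))]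
      group
    have i4 : q ∈ C₁[k'] := mem_of_pow_mem_of_coprime (n := 2) (Nat.coprime_two_right.2
      ((M.odd_K hZ' hα).of_dvd_nat (orderOf_dvd_card_of_mem hq)))
      (mem_cent1_iff.2 (by
        calc _ = q * (q * k' * q⁻¹) * q := by rw [sq]; group
          _ = (q * k' * q⁻¹)⁻¹ * q ^ 2 := by rw [i3, sq]; nth_rewrite 2 [← i3]; group
          _ = _ := by rw [i3, inv_inv]))
    rw [mem_cent1_iff.1 i4, mul_inv_cancel_right, eq_inv_iff_mul_eq_one, ← sq] at i3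
    have := orderOf_dvd_of_pow_eq_one i3
    rw [ok'] at this
    omega

end Cfsg.Agent.H9.O11
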