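import Cfsg.Agent.H9.O11Core

/-! The minimal counterexample for S3403: reduction to the final configurations. -/

set_option autoImplicit false

namespace Cfsg.Agent.H9.O11

open Subgroup MulAction Cfsg.Agent.H7
open MulAut (conj)
open scoped Pointwise

variable {G : Type*} [Group G] [Finite G] {X Y Z H : Subgroup G} {Ω : Type*} [MulAction G Ω]
  {A : Ω → Subgroup G} {α β γ δ : Ω} {a g x y h u w r t : G} {ι : alternatingGroup (Fin 5) →* G}

theorem zp_data {y : G} (e : zpowers y = zpowers h) :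
    (∀ c, Commute c y ↔ Commute c h) ∧ ∀ w, w * y * w⁻¹ = y⁻¹ → w * h * w⁻¹ = h⁻¹ := by
  obtain ⟨i, hi⟩ := exists_pow_of_mem (e ▸ mem_zpowers h : h ∈ zpowers y)
  obtain ⟨j, hj⟩ := exists_pow_of_mem (e ▸ mem_zpowers y : y ∈ zpowers h)
  exact ⟨fun c => ⟨fun k => hi ▸ k.pow_right i, fun k => hj ▸ k.pow_right j⟩,
    fun w k => by rw [hi, ← conj_pow, k, inv_pow]⟩

theorem Geo.gen1 (hA : Geo A) (H : JR X a g w r ι) (e : A α = zpowers a) :
    A α ⊔ A (r • α) = X ∧ r • α ≠ α := by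
  have e2 : A α ⊔ A (r • α) = X := by
    rw [hA.smul, e, conj_smul_zpowers, ← H.gen1, zpowers_eq_closure, zpowers_eq_closure,
      ← Subgroup.closure_union]; rfl
  refine ⟨e2, fun k => ?_⟩
  rw [k, sup_idem] at e2
  have := H.card
  rw [← e2, hA.card] at this
  omega

/-- `Z` is the line determined by `h` -/
structure Xh (A : Ω → Subgroup G) (h : G) (α : Ω) (Z : Subgroup G) : Prop where
  ln : Ln Z
  pt : A α ≤ Z
  mem : h ∈ Z
  fix : ∀ γ, h • γ = γ → A γ ≤ Z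
  gen : ∃ β, h • β = β ∧ A α ⊔ A β = Z
  max : ∀ Y, Ln Y → A α ≤ Y → h ∈ Y → Y ≤ Z

namespace Mn

variable (M : Mn A)
include M

theorem dichO (oh : orderOf h = 5) (e : h • α = α) (h1 : h ∉ C[A α]) (hw : w * h * w⁻¹ = h⁻¹)
    {c : G} (hc : Commute c h) (h2 : c • α ≠ α) : JF (A α ⊔ A (c • α)) ∧ h ∈ A α ⊔ A (c • α) :=
  (M.dich oh e h1 hw h2 (by rw [smul_smul, ← hc.eq, mul_smul, e])).resolve_left
    fun ⟨_, hv, k⟩ => M.geo.not_inv' oh e h1 hv hc k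

theorem stepA (oh : orderOf h = 5) (e : h • α = α) (h1 : h ∉ C[A α]) (hw : w * h * w⁻¹ = h⁻¹)
    (ot : orderOf t = 2) (th : Commute t h) (tα : t • α = α) {c : G} (hc : Commute c h)
    (f : t • c • α = c • α) : c • α = α := by
  have hA := M.geo
  by_contra h2
  obtain ⟨hZ, hh⟩ := M.dichO oh e h1 hw hc h2
  have ht := M.inv_mem_J hZ le_sup_left (hA.norm_sup tα f) (sq_of_ord ot)
  obtain ⟨a, g, w, r, ι, H, e1, e2⟩ := hA.jr_at_h hZ le_sup_left hh oh e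
  obtain ⟨z1, z2⟩ := zp_data e2
  have k := hA.inv_unique H.ln le_sup_left ht (pow_mem H.mg 5) ot H.ot tα (hA.t_fix H e1) h1 th
    ((z1 _).1 (Commute.pow_pow_self g 5 2))
  have k2 : g ^ 2 ∈ stabilizer G (c • α) := zpowers_le_of_mem (H := stabilizer G (c • α))
    (show h • c • α = c • α by rw [smul_smul, ← hc.eq, mul_smul, e]) (e2 ▸ mem_zpowers _)
  rcases hA.fix_g H e1 le_sup_right (by
    rw [H.g_eq, mul_smul, (pow_mem k2 3 :), ← k, f]) with k3 | k3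
  · exact h2 k3
  · exact hA.not_inv' oh e h1 (z2 _ H.wh) hc k3.symm

theorem J_unique (oh : orderOf h = 5) (e : h • α = α) (hZ : JF Z) (hY : JF Y) (hα : A α ≤ Z)
    (hα' : A α ≤ Y) (hh : h ∈ Z) (hh' : h ∈ Y) : Z = Y := by
  have hA := M.geo
  have h1 := hA.not_cent (.inr hZ) hα hh (ne_one_of_ord oh) (by omega)
  obtain ⟨a, g, w, r, ι, H, e1, e2⟩ := hA.jr_at_h hZ hα hh oh e
  obtain ⟨a', g', w', r', ι', H', e1', e2'⟩ := hA.jr_at_h hY hα' hh' oh e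
  obtain ⟨z1, z2⟩ := zp_data e2
  obtain ⟨z1', z2'⟩ := zp_data e2'
  have th := (z1 _).1 (Commute.pow_pow_self g 5 2)
  have hw := z2 _ H.wh
  have sA := fun c => M.stepA oh e h1 hw H.ot th (hA.t_fix H e1) (c := c)
  obtain ⟨gY, r1⟩ := hA.gen1 H' e1'
  have rh := (z1' _).1 H'.rh
  have f1 : h • r' • α = r' • α := by rw [smul_smul, ← rh.eq, mul_smul, e]
  have hγ : A (r' • α) ≤ Y := gY ▸ le_sup_right
  obtain ⟨hW, hh2⟩ := M.dichO oh f1 (hA.not_cent (.inr hY) hγ hh' (ne_one_of_ord oh) (by omega))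
    hw th fun k => r1 (sA r' rh k)
  have ht := M.inv_mem_J hW le_sup_left (hA.norm_sup' (g := g ^ 5) rfl (by
    rw [smul_smul, sq_of_ord H.ot, one_smul])) (sq_of_ord H.ot)
  obtain ⟨a2, g2, w2, r2, ι2, H2, e3, e4⟩ := hA.jr_at_h hW le_sup_left hh2 oh f1
  obtain ⟨y1, -⟩ := zp_data e4
  obtain ⟨c, hc, ch, e5⟩ := H2.conj_inv ht H.ot ((y1 _).2 th)
  have k := sA (c * r') (((y1 _).1 ch).mul_left rh) (by
    rw [← e5, mul_smul, mul_smul, mul_smul, inv_smul_smul, hA.t_fix H2 e3])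
  have k4 := hA.smul_le' hc (γ := r' • α) le_sup_left
  rw [← mul_smul, k] at k4
  have k2 : Y = _ := hY.eq_of_le (.inr hW) (gY.ge.trans (sup_le k4 le_sup_left))
  rw [← k2] at ht
  have tt := hA.inv_unique (.inr hY) hα' ht (pow_mem H'.mg 5) H.ot H'.ot (hA.t_fix H e1)
    (hA.t_fix H' e1') h1 th ((z1' _).1 (Commute.pow_pow_self g' 5 2))
  have k3 := sA (w⁻¹ * w') (comm_of_inv hw (z2' _ H'.wh)) (by
    rw [smul_smul, (H.tw.inv_right.mul_right (tt ▸ H'.tw)).eq, mul_smul, hA.t_fix H e1])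
  rw [mul_smul, inv_smul_eq_iff] at k3
  refine hZ.eq_of_le (.inr hY) (H.gen2 ▸ (closure_le _).2 ?_)
  rintro _ (rfl | rfl | rfl)
  · exact hα' (e1 ▸ mem_zpowers _)
  · rw [H.g_eq]
    exact mul_mem ht (pow_mem (zpowers_le_of_mem hh' (e2 ▸ mem_zpowers _)) 3)
  · refine hA.smul_le' H'.mw hα' ?_
    rw [k3, hA.smul, e1]
    exact mem_smul_self _ (mem_zpowers _)

theorem exists_Xh (hX : Ln X) (hα : A α ≤ X) (hh : h ∈ X) (oh : orderOf h = 5) (e : h • α = α) :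
    ∃ Z, Xh A h α Z := by
  have hA := M.geo
  have h1 := hA.not_cent hX hα hh (ne_one_of_ord oh) (by omega)
  have mx : ∀ Z, (∀ γ, h • γ = γ → A γ ≤ Z) → ∀ Y, LR Y → A α ≤ Y → h ∈ Y → Y ≤ Z :=
    fun Z k Y hY h2 h3 => by
      obtain ⟨β, k1, k2, k3⟩ := hA.L_h0 hY h2 h3 oh e
      exact hA.sup_eq hY h2 k2 k1.symm ▸ sup_le (k α e) (k β k3)
  by_cases hJ : ∃ Z, JF Z ∧ A α ≤ Z ∧ h ∈ Z
  · obtain ⟨Z, hZ, hα, hh⟩ := hJ
    obtain ⟨a, g, w, r, ι, H, e1, e2⟩ := hA.jr_at_h hZ hα hh oh e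
    obtain ⟨z1, z2⟩ := zp_data e2
    have hw := z2 _ H.wh
    have k : ∀ β, JF (A α ⊔ A β) ∧ h ∈ A α ⊔ A β → A β ≤ Z := fun β k =>
      M.J_unique oh e k.1 hZ le_sup_left hα k.2 hh ▸ le_sup_right
    have fx : ∀ γ, h • γ = γ → A γ ≤ Z := fun γ f => by
      by_cases c : γ = α
      · exact c ▸ hα
      rcases M.dich oh e h1 hw c f with ⟨v, hv, rfl⟩ | k2
      · rw [← mul_inv_cancel_left w v, mul_smul]
        refine hA.smul_le' H.mw ?_
        by_cases c' : (w⁻¹ * v) • α = α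
        · rwa [c']
        · exact k _ (M.dichO oh e h1 hw (comm_of_inv hw hv) c')
      · exact k γ k2
    exact ⟨Z, .inr hZ, hα, hh, fx, ⟨r • α, by rw [smul_smul, ← ((z1 _).1 H.rh).eq, mul_smul, e],
      (hA.gen1 H e1).1⟩, fun Y hY h2 h3 => hY.elim (fun hY => mx Z fx Y hY h2 h3)
      fun hY => (M.J_unique oh e hY hZ h2 hα h3 hh).le⟩
  have hX := hX.resolve_right fun k => hJ ⟨X, k, hα, hh⟩
  obtain ⟨β, k1, k2, k3⟩ := hA.L_h0 hX hα hh oh e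
  obtain ⟨w, mw, ow, e1, e2⟩ := hA.L_w hX hα k2 k1.symm
  have hw := hA.L_swap hX hα k1.symm hh oh e k3 mw ow e1 e2
  have fx : ∀ γ, h • γ = γ → A γ ≤ X := fun γ f => by
    by_cases c : γ = α
    · exact c ▸ hα
    rcases M.dich oh e h1 hw c f with ⟨v, hv, rfl⟩ | k2
    · rw [← mul_inv_cancel_left w v, mul_smul, (by_contra fun c' => hJ ⟨_, (M.dichO oh e h1 hw
        (comm_of_inv hw hv) c').1, le_sup_left, (M.dichO oh e h1 hw (comm_of_inv hw hv) c').2⟩ :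
        (w⁻¹ * v) • α = α)]
      exact hA.smul_le' mw hα
    · exact absurd ⟨_, k2.1, le_sup_left, k2.2⟩ hJ
  exact ⟨X, .inl hX, hα, hh, fx, ⟨β, k3, hA.sup_eq hX hα k2 k1.symm⟩, fun Y hY h2 h3 =>
    mx X fx Y (hY.resolve_right fun k => hJ ⟨Y, k, h2, h3⟩) h2 h3⟩

end Mn

theorem Xh.smul (hA : Geo A) (H : Xh A h α Z) (c : G) :
    Xh A (c * h * c⁻¹) (c • α) (conj c • Z) where
  ln := H.ln.smul c
  pt := hA.smul_le_smul.2 H.pt
  mem := mem_smul_self c H.mem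
  fix γ f := by
    rw [← smul_inv_smul c γ, hA.smul_le_smul]
    exact H.fix _ (by rwa [mul_smul, mul_smul, ← eq_inv_smul_iff] at f)
  gen := let ⟨β, f, e⟩ := H.gen
    ⟨c • β, by rw [mul_smul, mul_smul, inv_smul_smul, f], by rw [← e, hA.smul_sup]⟩
  max Y hY h1 h2 := le_conj_smul_iff.2 (H.max _ (hY.smul c⁻¹) (by
    rw [le_conj_smul_iff, inv_inv, ← hA.smul]; exact h1) (by
      rw [mem_conj_smul, inv_inv]; exact h2))

theorem Xh.cent (hA : Geo A) (H : Xh A h α Z) (e : h • α = α) (h1 : h ∉ C[A α]) {c : G}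
    (hc : c ∈ C[A α]) (ch : Commute c h) : c ∈ C[Z] := by
  obtain ⟨β, f, e'⟩ := H.gen
  obtain ⟨b, hb, k, hk, rfl⟩ := hA.f2 H.ln H.pt (mem_norm_of_conj_smul_le (by
    rw [← e', hA.smul_sup, e']
    exact sup_le (H.fix _ (by rw [smul_smul, ← ch.eq, mul_smul, e]))
      (H.fix _ (by rw [smul_smul, ← ch.eq, mul_smul, f])))) hc
  rwa [hA.eq_one_of_comm hb h1 (by
    simpa using ch.mul_left (commute_of_mem_cent hk H.mem).symm.inv_left), one_mul]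

namespace Mn

variable (M : Mn A)
include M

theorem p4 {h' : G} {Z' : Subgroup G} (H : Xh A h α Z) (H' : Xh A h' α Z') (oh : orderOf h = 5)
    (oh' : orderOf h' = 5) (e : h • α = α) (e' : h' • α = α) : ∃ c ∈ C[A α], conj c • Z' = Z := by
  have hA := M.geo
  have h1 := hA.not_cent H.ln H.pt H.mem (ne_one_of_ord oh) (by omega)
  have h1' := hA.not_cent H'.ln H'.pt H'.mem (ne_one_of_ord oh') (by omega)
  have pz : ∀ y : G, orderOf y = 5 → IsPGroup 5 (zpowers y) := fun y oy =>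
    IsPGroup.of_card (n := 1) (by rw [Nat.card_zpowers, oy, pow_one])
  have nm : zpowers h' ≤ N[C[A α]] := (zpowers_le_of_mem (hA.fix_iff.1 e')).trans (norm_le_norm_cent _)
  obtain ⟨i, hi⟩ := hA.exists_pow_five e' (pow5 oh') h1' e (by rw [pow5 oh]; exact one_mem _)
  obtain ⟨S, hS, sS⟩ := exists_isSylowIn_ge (H := C[A α] ⊔ zpowers h') (pz h oh) (zpowers_le_of_mem
    ((mul_mem_cancel_left (inv_mem (mem_sup_right (pow_mem (mem_zpowers h') i)))).1 (mem_sup_left hi)))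
  obtain ⟨n, hn, le⟩ := sS.exists_conj_le (pz h' oh') le_sup_right
  obtain ⟨c, hc, d, hd, rfl⟩ := (mem_sup_of_norm nm).1 hn
  rw [← conj_smul_smul, conj_smul_of_mem hd, conj_smul_zpowers] at le
  refine ⟨c, hc, ?_⟩
  have H2 := H'.smul hA c
  have e2 : (c * h' * c⁻¹) • α = α := by
    rw [mul_smul, mul_smul, hA.fix_of_cent (inv_mem hc), e', hA.fix_of_cent hc]
  have o2 : orderOf (c * h' * c⁻¹) = 5 := by rw [orderOf_cj, oh']
  have s2 := le (mem_zpowers _)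
  have s1 := hS (mem_zpowers _)
  rw [hA.fix_of_cent hc] at H2
  generalize c * h' * c⁻¹ = h2, conj c • Z' = Z2 at *
  have h12 := hA.not_cent H2.ln H2.pt H2.mem (ne_one_of_ord o2) (by omega)
  by_cases k : S ⊓ C[A α] = ⊥
  · have m : ∀ {x y : G}, x ∈ S → y ∈ S → orderOf x = 5 → orderOf y = 5 → x • α = α → y • α = α →
        x ∉ C[A α] → y ∈ zpowers x := fun {x y} h1 h2 h3 h4 h5 h6 h7 => by
      obtain ⟨i, hi⟩ := hA.exists_pow_five h5 (pow5 h3) h7 h6 (by rw [pow5 h4]; exact one_mem _)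
      rw [← inv_mul_eq_one.1 (eq_one_of_mem_inf k (mul_mem (inv_mem (pow_mem h1 i)) h2) hi)]
      exact pow_mem (mem_zpowers x) i
    exact le_antisymm (H.max _ H2.ln H2.pt (zpowers_le_of_mem H2.mem (m s2 s1 o2 oh e2 e h12)))
      (H2.max _ H.ln H.pt (zpowers_le_of_mem H.mem (m s1 s2 oh o2 e e2 h1)))
  obtain ⟨z, hz, z1⟩ := exists_ne_one_of_ne_bot (meet_center_nil (nil_of_pgroup sS.isPGroup)
    (NormalIn.inf_of_norm (sS.le.trans (sup_le (le_norm_self _) nm))) k)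
  have c1 := H.cent hA e h1 hz.1.2 (commute_of_mem_cent hz.2.2 s1).symm
  have c2 := H2.cent hA e2 h12 hz.1.2 (commute_of_mem_cent hz.2.2 s2).symm
  obtain ⟨k1, k2, -⟩ := M.E1 H.ln H.pt c1 z1
  have k3 := (M.E1 H2.ln H2.pt c2 z1).2.1
  exact le_antisymm (k3.trans (H.max _ k1 (H.pt.trans k2) (k2 H.mem)))
    (k2.trans (H2.max _ k1 (H2.pt.trans k3) (k3 H2.mem)))

theorem exists_Xh' (hX : Ln X) (hα : A α ≤ X) :
    ∃ h Z, orderOf h = 5 ∧ h • α = α ∧ Xh A h α Z ∧ X ≤ Z := by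
  obtain ⟨h, hh, oh, e⟩ := M.geo.exists_h hX hα
  obtain ⟨Z, H⟩ := M.exists_Xh hX hα hh oh e
  exact ⟨h, Z, oh, e, H, H.max X hX hα hh⟩

theorem lc (hL : ∀ X α, A α ≤ X → ¬ JF X) : LC A := by
  have hA := M.geo
  have lr : ∀ {X α}, A α ≤ X → Ln X → LR X := fun h1 h2 => h2.resolve_right (hL _ _ h1)
  have xh : ∀ {X α h Z}, Ln X → X ≤ Z → Xh A h α Z → X = Z := fun h1 h2 H =>
    (lr H.pt H.ln).eq_of_le h1 h2
  refine ⟨hA, M.perf, fun α β h => lr le_sup_left (hA.ln h), fun α β => ?_, fun g => M.faith,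
    fun α β γ h1 h2 => ?_, fun α β h1 y hy y1 γ e => ?_, fun α β h1 h hh oh e1 e2 γ e3 => ?_⟩
  · by_cases h : α = β
    · obtain ⟨γ, k⟩ := M.second α
      exact ⟨γ, fun c => k (hA.eq_of_pg (hA.isP α) (by simpa [h] using c) le_rfl)⟩
    · exact M.out (hA.ln h)
  · obtain ⟨h, Z, oh, e, H, le⟩ := M.exists_Xh' (hA.ln h1.symm) le_sup_left
    obtain ⟨h', Z', oh', e', H', le'⟩ := M.exists_Xh' (hA.ln h2.symm) le_sup_left
    rw [xh (hA.ln h1.symm) le H, xh (hA.ln h2.symm) le' H']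
    exact M.p4 H' H oh' oh e' e
  · obtain ⟨k1, k2, -, k3⟩ := M.E1 (hA.ln h1) le_sup_left hy y1
    rw [(lr (le_sup_left.trans k2) k1).eq_of_le (hA.ln h1) k2]
    exact k3 γ e
  · obtain ⟨Z, H⟩ := M.exists_Xh (hA.ln h1) le_sup_left hh oh e1
    have := xh (hA.ln h1) (H.max _ (hA.ln h1) le_sup_left hh) H
    exact hA.L_fix_two (lr le_sup_left (hA.ln h1)) le_sup_left le_sup_right (this ▸ H.fix γ e3) h1
      (hA.not_cent (hA.ln h1) le_sup_left hh (ne_one_of_ord oh) (by omega)) e1 e2 e3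

theorem jc (hX : JF X) (hα : A α ≤ X) : JC A X := by
  have hA := M.geo
  have q : ∀ α, A α ≤ X → ∀ Y, Ln Y → A α ≤ Y → ∃ c ∈ C[A α], Y ≤ conj c • X := fun α hα Y hY h1 => by
    obtain ⟨h, Z, oh, e, H, le⟩ := M.exists_Xh' (.inr hX) hα
    obtain ⟨h', Z', oh', e', H', le'⟩ := M.exists_Xh' hY h1
    obtain ⟨c, hc, k⟩ := M.p4 H' H oh' oh e' e
    exact ⟨c, hc, by rw [hX.eq_of_le H.ln le, k]; exact le'⟩
  refine ⟨hA, M.perf, hX, ⟨α, hα⟩, M.out (.inr hX), M.odd_K hX hα, fun β γ h1 => ?_,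
    fun g β γ h1 h2 h3 h4 h5 => ?_, fun g β h1 h2 => ?_, fun y hy y1 γ => M.kfixJ hX hα hy y1,
    fun h hh oh γ e => ?_⟩
  · obtain ⟨g, rfl⟩ := hA.trans α β
    obtain ⟨c, -, le⟩ := q α hα (conj g⁻¹ • (A (g • α) ⊔ A γ)) ((hA.ln h1).smul _) (by
      rw [le_conj_smul_iff, inv_inv, ← hA.smul]; exact le_sup_left)
    rw [conj_smul_le_iff_le_inv, inv_inv, conj_smul_smul] at le
    exact ⟨g * c, le_sup_left.trans le, le_sup_right.trans le⟩
  · obtain ⟨h, hh, oh, e⟩ := hA.exists_h (hA.ln h1) le_sup_left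
    exact mem_norm_of_conj_smul_eq (M.J_unique oh e (hX.smul g) hX h4 h2 (sup_le h4 h5 hh)
      (sup_le h2 h3 hh))
  · obtain ⟨c, hc, le⟩ := q β h1 _ (.inr (hX.smul g)) h2
    exact ⟨c, hc, ((hX.smul g).eq_of_le (.inr (hX.smul c)) le).symm⟩
  · obtain ⟨h0, m0, o0, e0⟩ := hA.exists_h (.inr hX) hα
    obtain ⟨z, hz, k⟩ := Ln.conj_zpowers (.inr hX) (by norm_num) m0 hh o0 oh
    have f : h • z • α = z • α := zpowers_le_of_mem (H := stabilizer G (z • α))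
      (show (z * h0 * z⁻¹) • z • α = z • α by rw [mul_smul, mul_smul, inv_smul_smul, e0])
      (k ▸ mem_zpowers h)
    obtain ⟨Z, H⟩ := M.exists_Xh (.inr hX) (hA.smul_le' hz hα) hh oh f
    exact hX.eq_of_le H.ln (H.max X (.inr hX) (hA.smul_le' hz hα) hh) ▸ H.fix γ e

theorem cases : LC A ∨ ∃ X, JC A X := by
  by_cases k : ∃ X α, A α ≤ X ∧ JF X
  · obtain ⟨X, α, h1, h2⟩ := k
    exact .inr ⟨X, M.jc h2 h1⟩
  · exact .inl (M.lc fun X α h1 h2 => k ⟨X, α, h1, h2⟩)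

end Mn

end Cfsg.Agent.H9.O11
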