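import Cfsg.Agent.H9.O11Cnt
import Cfsg.Agent.H3.O11Tg

/-! S3403: the case of a line with centralizer of even order. -/

set_option autoImplicit false

namespace Cfsg.Agent.H9.O11

open Subgroup MulAction Cfsg.Agent.H7
open MulAut (conj)
open scoped Pointwise

variable {G : Type*} [Group G] {X Y Z : Subgroup G} {Ω : Type*} [MulAction G Ω]
  {A : Ω → Subgroup G} {α β γ δ : Ω} {g x y h k u w : G}

/-- involutions centralizing a line -/
def UU (A : Ω → Subgroup G) : Set G := {u | orderOf u = 2 ∧ ∃ γ Y, On A γ Y ∧ u ∈ C[Y]}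

/-- involutions of a subgroup -/
def Inv (K : Subgroup G) : Set G := {u | u ∈ K ∧ orderOf u = 2}

variable [Finite G]

theorem Geo.UU_conj (hA : Geo A) (g u : G) (hu : u ∈ UU A) : g * u * g⁻¹ ∈ UU A :=
  let ⟨o, _, Y, hY, k⟩ := hu
  ⟨(orderOf_cj g u).trans o, _, _, hA.on_smul hY g, conj_smul_cent g Y ▸ mem_smul_self g k⟩

namespace LC

variable (H : LC A)
include H

theorem inv_card (hY : On A α Y) (hZ : On A γ Z) : (Inv C[Y]).ncard = (Inv C[Z]).ncard := by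
  obtain ⟨c, rfl⟩ := H.lines_tr hY hZ
  exact ncard_conj c fun x => and_congr (by rw [← conj_smul_cent, conj_mem_conj_smul])
    (by rw [orderOf_cj])

theorem U_fix (hu : u ∈ UU A) (e : u • γ = γ) : ∃ Y, On A γ Y ∧ u ∈ C[Y] :=
  let ⟨o, _, Y, hY, k⟩ := hu
  ⟨Y, H.lines_of_le hY (H.lines_kfix hY k (ne_one_of_ord o) e), k⟩

theorem U_cent (hX : On A α X) (hu : u ∈ UU A) (e : u • α = α) (hn : u ∈ N[X]) : u ∈ C[X] :=
  let ⟨_, hY, k⟩ := H.U_fix hu e
  H.cent_of_norm hX (n := 2) (by rw [sq, sq_of_ord hu.1]) (by decide) (cent_anti hY.le k) hn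

theorem f_eq (hX : On A α X) :
    {u | u ∈ UU A ∧ u • α = α}.ncard = (Lines A α).ncard * (Inv C[X]).ncard := by
  rw [← ncard_dc {u | u ∈ UU A ∧ u • α = α}.toFinite (Lines A α).toFinite (fun u Y => u ∈ C[Y])
    (a := 1) (fun u hu => ?_) fun Y hY => ?_, mul_one]
  · obtain ⟨Y, hY, k⟩ := H.U_fix hu.1 hu.2
    exact Set.ncard_eq_one.2 ⟨Y, Set.ext fun Z => ⟨fun hZ =>
      H.lines_eqK hY hZ.1 k (ne_one_of_ord hu.1.1) hZ.2, fun e => e ▸ ⟨hY, k⟩⟩⟩
  · rw [H.inv_card hX hY]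
    exact congrArg _ (Set.ext fun u => ⟨fun k => ⟨k.2, k.1.1.1⟩,
      fun k => ⟨⟨⟨k.2, α, Y, hY, k.1⟩, H.geo.fix_of_centX hY.le k.1⟩, k.1⟩⟩)

theorem U_norm (hX : On A α X) (hu : u ∈ UU A) (hn : u ∈ N[X]) :
    ∃ x ∈ X, ∃ k ∈ C[X], x * k = u ∧ x * x = 1 ∧ k * k = 1 := by
  have m : u ∈ X ⊔ C[X] := by
    by_contra c
    exact c (H.geo.L_outer (H.lines_lr hX) hX.le hn (sq_of_ord hu.1) fun γ h1 h2 =>
      c (mem_sup_right (H.U_cent (H.lines_of_le hX h1) hu h2 hn)))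
  obtain ⟨x, hx, k, hk, e⟩ := mem_XK.1 m
  have := split_pow (H.lines_bot hX) hx hk (n := 2) (by rw [e, sq, sq_of_ord hu.1])
  exact ⟨x, hx, k, hk, e, sq x ▸ this.1, sq k ▸ this.2⟩

theorem U_mul (hX : On A α X) (hw : w ∈ X) (ow : orderOf w = 2) (hx : x ∈ X) (ox : orderOf x = 2)
    (hk : k ∈ C[X]) (h : w * k ∈ UU A) : x * k ∈ UU A := by
  obtain ⟨z, hz, rfl⟩ := H.geo.L_conj_inv (H.lines_lr hX) hX.le hw ow hx ox
  have := H.geo.UU_conj z _ h
  rwa [show z * (w * k) * z⁻¹ = z * w * z⁻¹ * (z * k * z⁻¹) by group,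
    conj_eq_of_mem_cent (le_cent_cent X hz) hk] at this

theorem s_eq (h1 : α ≠ β) (hw : w ∈ A α ⊔ A β) (ow : orderOf w = 2) :
    {u | u ∈ UU A ∧ u • α = β}.ncard =
      {k | k ∈ C[A α ⊔ A β] ∧ k * k = 1 ∧ w * k ∈ UU A}.ncard * 5 := by
  have hX : On A α _ := mem_lines h1
  have sw := H.ncard_swap h1
  have nm : ∀ u ∈ UU A, u • α = β → u ∈ N[A α ⊔ A β] := fun u hu e =>
    H.geo.norm_sup' e (swap_of_sq (sq_of_ord hu.1) e)
  generalize A α ⊔ A β = X at *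
  have fx : ∀ k ∈ C[X], ∀ x : G, (x * k) • α = x • α := fun k hk x => by
    rw [mul_smul, H.geo.fix_of_centX hX.le hk]
  have o2 : ∀ x : G, x * x = 1 → x • α = β → orderOf x = 2 := fun x h2 e =>
    ord_two h2 fun c => h1 (by rw [← e, c, one_smul])
  rw [← ncard_dc {u | u ∈ UU A ∧ u • α = β}.toFinite
    {k | k ∈ C[X] ∧ k * k = 1 ∧ w * k ∈ UU A}.toFinite (fun u k => u * k ∈ X)
    (a := 1) (fun u hu => ?_) fun k hk => ?_, mul_one]
  · obtain ⟨x, hx, k, hk, rfl, x2, k2⟩ := H.U_norm hX hu.1 (nm u hu.1 hu.2)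
    have m : x * k * k ∈ X := by rwa [mul_assoc, k2, mul_one]
    refine Set.ncard_eq_one.2 ⟨k, Set.ext fun l => ⟨fun hl => ?_, fun e => by
      subst e; exact ⟨⟨hk, k2, H.U_mul hX hx (o2 x x2 (fx _ hk x ▸ hu.2)) hw ow hk hu.1⟩, m⟩⟩⟩
    refine (inv_mul_eq_one.1 (H.lines_bot hX _ ?_ (mul_mem (inv_mem hk) hl.1.1))).symm
    simpa [mul_assoc] using mul_mem (inv_mem m) hl.2
  · rw [← sw]
    refine Set.ncard_congr (fun u _ => u * k) (fun u hu => ⟨hu.2, o2 _ ?_ (fx k hk.1 u ▸ hu.1.2),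
      fx k hk.1 u ▸ hu.1.2⟩) (fun a b _ _ e => by simpa using e) fun x hx => ⟨x * k,
        ⟨⟨H.U_mul hX hw ow hx.1 hx.2.1 hk.1 hk.2.2, fx k hk.1 x ▸ hx.2.2⟩, ?_⟩, ?_⟩
    · rw [← mul_assoc, comm_of_mem_cent hk.1 hu.2 |> fun e => show u * k * u * k = u * (u * k * k) by
        rw [e]; group, mul_assoc u k, hk.2.1, mul_one, sq_of_ord hu.1.1.1]
    · simpa only [mul_assoc, hk.2.1, mul_one] using hx.1
    · simp only [mul_assoc, hk.2.1, mul_one]

theorem main_eq (h1 : α ≠ β) (hw : w ∈ A α ⊔ A β) (ow : orderOf w = 2) :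
    (Lines A α).ncard * (Inv C[A α ⊔ A β]).ncard = (Inv C[A α ⊔ A β]).ncard +
      60 * {k | k ∈ C[A α ⊔ A β] ∧ k * k = 1 ∧ w * k ∈ UU A}.ncard := by
  have := H.geo.finite
  have k1 := count_fix H.geo.trans H.geo.UU_conj (φ := 12)
    (fun u ⟨o, _, _, hY, k⟩ => H.ncard_fixK hY k (ne_one_of_ord o)) α
  rw [H.count_two H.geo.UU_conj h1, H.s_eq h1 hw ow, H.f_eq (mem_lines h1), H.card_pts α,
    Nat.add_sub_cancel] at k1
  have k2 := H.one_lt_lines (mem_lines h1)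
  refine Nat.eq_of_mul_eq_mul_left (show 0 < 11 * (Lines A α).ncard by omega) ?_
  linarith

theorem i_le (hX : On A α X) (h11 : ¬ 11 ∣ Nat.card C[X]) :
    (Lines A α).ncard * (Inv C[X]).ncard + 1 ≤ (Lines A α).ncard + (Inv C[X]).ncard := by
  rw [← H.f_eq hX, ← Set.ncard_sdiff_add_ncard_of_subset (show Inv C[X] ⊆ {u | u ∈ UU A ∧ u • α = α}
    from fun u k => ⟨⟨k.2, α, X, hX, k.1⟩, H.geo.fix_of_centX hX.le k.1⟩),
    ← Set.ncard_sdiff_singleton_add_one (show X ∈ Lines A α from hX), add_right_comm]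
  have nn : ∀ u ∈ {u | u ∈ UU A ∧ u • α = α} \ Inv C[X], u ∉ N[X] := fun u hu c =>
    hu.2 ⟨H.U_cent hX hu.1.1 hu.1.2 c, hu.1.1.1⟩
  refine Nat.add_le_add_right (Nat.add_le_add_right (Set.ncard_le_ncard_of_injOn
    (fun u => conj u • X) (fun u hu => And.intro (H.geo.lines_smul hX hu.1.2) fun c =>
      nn u hu (mem_norm_of_conj_smul_eq c)) fun u hu v hv e => ?_) _) _
  have qu : ∀ u ∈ {u | u ∈ UU A ∧ u • α = α}, u ∈ C[A α] := fun u hu =>
    let ⟨_, hY, k⟩ := H.U_fix hu.1 hu.2; cent_anti hY.le k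
  have hn : v⁻¹ * u ∈ N[X] := mem_norm_of_conj_smul_eq (by
    rw [← conj_smul_smul, show conj u • X = conj v • X from e, conj_inv_smul_smul])
  have hq := mul_mem (inv_mem (qu v hv.1)) (qu u hu.1)
  have iv : u⁻¹ * (v⁻¹ * u) * u = (v⁻¹ * u)⁻¹ := by
    rw [mul_assoc, mul_assoc, sq_of_ord hu.1.1.1, mul_one, inv_of_ord hv.1.1.1, mul_inv_rev,
      inv_of_ord hv.1.1.1]
  have hc : v⁻¹ * u ∈ C[X] := by
    obtain ⟨b, hb, k, hk, e⟩ := H.geo.f2 (H.lines_ln hX) hX.le hn hq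
    have m : (v⁻¹ * u) ^ Nat.card C[X] ∈ A α := by
      rw [e, (commute_of_mem_cent hk (hX.le hb)).mul_pow, pow_card_eq_one_of_mem hk, mul_one]
      exact pow_mem hb _
    refine H.cent_of_norm hX (n := Nat.card C[X] * 2) ?_ (fun c => h11
      ((Nat.Coprime.dvd_mul_right (by decide)).1 c)) hq hn
    rw [pow_mul, sq, mul_eq_one_iff_eq_inv, ← inv_pow, ← iv,
      ← conj_eq_of_mem_cent (inv_mem (qu u hu.1)) m, ← conj_pow, inv_inv]
  exact (inv_mul_eq_one.1 (by_contra fun c => nn u hu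
    (H.lines_normK hX hc c (iv ▸ inv_mem hc)))).symm

theorem case121 (hX : On A α X) (hu : u ∈ C[X]) (ou : orderOf u = 2)
    (uniq : ∀ k ∈ C[X], k * k = 1 → k = 1 ∨ k = u)
    (all : ∀ x ∈ X, orderOf x = 2 → ∀ k ∈ C[X], k * k = 1 → x * k ∈ UU A) : 7 ∣ Nat.card G := by
  haveI : Fact (Nat.Prime 2) := ⟨Nat.prime_two⟩
  obtain ⟨V, hV⟩ := exists_isSylowIn (p := 2) X
  have cV : Nat.card V = 4 := by
    rw [hV.hallIn.card_eq, (H.lines_lr hX).card, piPart_singleton Nat.prime_two (by decide)]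
    decide +kernel
  have u1 := ne_one_of_ord ou
  have uV : zpowers u ≤ C[V] := zpowers_le_of_mem (cent_anti hV.le hu)
  have cW : Nat.card ↥(V ⊔ zpowers u) = 8 := by
    rw [card_sup_of_inf_eq_bot (uV.trans (cent_le_norm _)) (inf_eq_bot_of_forall fun x hx h2 =>
      H.lines_bot hX x (hV.le hx) (zpowers_le_of_mem hu h2)), cV, Nat.card_zpowers, ou]
  have mW : ∀ v ∈ V ⊔ zpowers u, v = 1 ∨ v ∈ UU A := fun v hv => by
    obtain ⟨x, hx, k, hk, rfl⟩ := (mem_sup_of_norm (uV.trans (cent_le_norm _))).1 hv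
    have hk' := zpowers_le_of_mem hu hk
    have k2 : k * k = 1 := by
      obtain ⟨i, rfl⟩ := exists_pow_of_mem hk
      rw [← (Commute.refl u).mul_pow, sq_of_ord ou, one_pow]
    by_cases c : x = 1
    · rw [c, one_mul]
      exact (uniq k hk' k2).imp id fun e => by rw [e]; exact ⟨ou, α, X, hX, hu⟩
    refine .inr (all x (hV.le hx) ?_ k hk' k2)
    have o1 := (H.lines_lr hX).ord x (hV.le hx)
    have o2 := cV ▸ orderOf_dvd_card_of_mem hx
    have o3 := mt orderOf_eq_one_iff.1 c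
    revert o1 o2 o3
    generalize orderOf x = n
    simp only [List.mem_cons, List.not_mem_nil, or_false]
    rintro (rfl | rfl | rfl | rfl | rfl | rfl) <;> decide
  have uW : u ∈ V ⊔ zpowers u := mem_sup_right (Subgroup.mem_zpowers u)
  generalize hW : V ⊔ zpowers u = W at *
  have w2 : ∀ v ∈ W, v * v = 1 := fun v hv => (mW v hv).elim (fun e => by rw [e, one_mul])
    fun e => sq_of_ord e.1
  have k := ncard_class N[W] u
  rw [show {v | ∃ x ∈ N[W], x * u * x⁻¹ = v} = (W : Set G) \ {1} from Set.ext fun v => ⟨fun ⟨x, hx, e⟩ =>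
    e ▸ ⟨conj_mem_of_norm hx uW, by simpa using u1⟩, fun hv => ?_⟩,
    Set.ncard_sdiff_singleton_of_mem (show (1 : G) ∈ (W : Set G) from one_mem W),
    ← Nat.card_coe_set_eq, SetLike.coe_sort_coe, cW] at k
  · exact (Dvd.intro _ k).trans (card_subgroup_dvd_card _)
  obtain ⟨ov, γ, Y, hY, hv'⟩ := (mW v hv.1).resolve_left hv.2
  obtain ⟨c, rfl⟩ := H.lines_tr hY hX
  have e : c * v * c⁻¹ = u := (uniq _ (conj_smul_cent c Y ▸ mem_smul_self c hv')
    (sq_of_ord ((orderOf_cj c v).trans ov))).resolve_left (ne_one_of_ord ((orderOf_cj c v).trans ov))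
  have uW' : u ∈ conj c • W := e ▸ mem_smul_self c hv.1
  obtain ⟨y, hy, l⟩ := hV.exists_le_conj (P := conj c • W ⊓ conj c • Y) (isPGroup_of_forall
    fun x hx => ⟨1, by
      obtain ⟨s, hs, rfl⟩ := mem_conj_smul_iff_exists.1 hx.1
      rw [conj_pow, pow_one, sq, w2 s hs, mul_one, mul_inv_cancel]⟩)
    inf_le_right
  have yu : y * u * y⁻¹ = u := conj_eq_of_mem_cent (le_cent_cent _ hy) hu
  have l1 : conj y • V ≤ conj y • W := conj_smul_mono y (hW ▸ le_sup_left)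
  have l2 : u ∈ conj y • W := yu ▸ mem_smul_self y uW
  have l' : conj c • W ≤ conj y • W := fun z hz => by
    obtain ⟨s, hs, rfl⟩ := mem_conj_smul_iff_exists.1 hz
    rcases mW s hs with rfl | hs'
    · simpa using one_mem _
    have cm : Commute v s := by
      have := w2 _ (mul_mem hv.1 hs)
      rw [mul_eq_one_iff_eq_inv, mul_inv_rev, inv_of_ord ov, inv_of_ord hs'.1] at this
      exact this
    obtain ⟨x, hx, k, hk, e', -, k2⟩ := H.U_norm hX (H.geo.UU_conj c s hs')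
      (conj_smul_norm c Y ▸ mem_smul_self c (H.lines_cent hY hv' hv.2 cm))
    have k1 : k ∈ conj c • W ∧ k ∈ conj y • W :=
      (uniq k hk k2).elim (fun e => e ▸ ⟨one_mem _, one_mem _⟩) fun e => e ▸ ⟨uW', l2⟩
    exact e' ▸ mul_mem (l1 (l ⟨(mul_mem_cancel_right k1.1).1 (e' ▸ hz), hx⟩)) k1.2
  refine ⟨(y⁻¹ * c)⁻¹, inv_mem (mem_norm_of_conj_smul_le ?_), ?_⟩
  · rwa [← conj_smul_smul, ← le_conj_smul_iff]
  · rw [show (y⁻¹ * c)⁻¹ * u * (y⁻¹ * c)⁻¹⁻¹ = c⁻¹ * (y * u * y⁻¹) * c by group, yu, ← e]; group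

theorem case61 (h1 : α ≠ β) (hm : (Lines A α).ncard = 61) (h11 : ¬ 11 ∣ Nat.card C[A α ⊔ A β])
    (hu : u ∈ C[A α ⊔ A β]) (ou : orderOf u = 2) : False := by
  haveI : Fact (Nat.Prime 61) := ⟨by norm_num⟩
  have hX : On A α _ := mem_lines h1
  have lr := H.lr α β h1
  have cK : Nat.card C[A α ⊔ A β] ≤ 60 := by
    obtain ⟨Y, hY, hne⟩ := Set.exists_ne_of_one_lt_ncard (H.one_lt_lines hX) (A α ⊔ A β)
    rw [show 60 = 61 - 1 from rfl, ← hm, ← Set.ncard_sdiff_singleton_of_mem (mem_lines h1),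
      ← SetLike.coe_sort_coe, Nat.card_coe_set_eq]
    refine Set.ncard_le_ncard_of_injOn (fun k => conj k • Y) (fun k hk => ⟨H.geo.lines_smul hY
      (H.geo.fix_of_centX hX.le hk), fun c => hne ?_⟩) fun k hk l hl e => ?_
    · rw [conj_smul_eq_iff_eq_inv.1 c, conj_smul_of_norm (inv_mem (cent_le_norm _ hk))]
    · have m := mul_mem (inv_mem hl) hk
      exact (inv_mul_eq_one.1 (by_contra fun c => hne (H.K_line hX m c (pow_card_eq_one_of_mem m)
        h11 hY (mem_norm_of_conj_smul_eq (by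
          rw [← conj_smul_smul, show conj k • Y = conj l • Y from e, conj_inv_smul_smul]))))).symm
  have k0 := card_pos' C[A α ⊔ A β]
  have cQ := H.card_Q hX
  rw [hm] at cQ
  obtain ⟨b, hb, ob⟩ := exists_orderOf_eq_prime (A := C[A α]) (p := 61) Fact.out ⟨_, cQ⟩
  obtain ⟨a, oa, ea⟩ := H.geo.exists_gen α
  have ha : a ∈ A α := ea ▸ Subgroup.mem_zpowers a
  have b61 : b ^ 61 = 1 := ob ▸ pow_orderOf_eq_one b
  have k61 : ∀ k ∈ C[A α ⊔ A β], k ^ 61 = 1 → k = 1 := fun k hk e => by_contra fun c =>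
    absurd (Nat.le_of_dvd k0 (orderOf_eq_prime e c ▸ orderOf_dvd_card_of_mem hk)) (by omega)
  have nb : ∀ g : G, g • α = α → g ∈ N[zpowers b] := by
    letI := MulAction.compHom (Subgroup G) (conj : G →* MulAut G)
    set T := {B : Subgroup G | B ≤ C[A α] ∧ Nat.card B = 61}
    have syl : ∀ B ∈ T, IsSylowIn 61 B C[A α] := fun B hB => ⟨hB.1, isPGroup_of_card_prime hB.2,
      fun c => by
        have := card_mul_relIndex hB.1
        rw [hB.2, cQ, Nat.mul_right_inj (by decide)] at this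
        exact absurd (Nat.le_of_dvd k0 ((Nat.Coprime.dvd_mul_left (by decide)).1 (this ▸ c)))
          (by omega)⟩
    have inv : ∀ g : G, g • α = α → ∀ B ∈ T, conj g • B ∈ T := fun g e B hB =>
      ⟨conj_smul_le_of_norm (norm_le_norm_cent _ (H.geo.fix_iff.1 e)) hB.1,
        (H7.card_conj_smul g B).trans hB.2⟩
    have bT : zpowers b ∈ T := ⟨zpowers_le_of_mem hb, by rw [Nat.card_zpowers, ob]⟩
    have k1 := sub_modEq b61 (inv b (H.geo.fix_of_cent hb))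
    rw [show {Y | Y ∈ T ∧ b ∈ N[Y]} = {zpowers b} from Set.ext fun Y => ⟨fun k =>
      (eq_of_le_of_card_eq ((syl Y k.1).le_of_norm bT.1 (syl _ bT).isPGroup
        (zpowers_le_of_mem k.2)) (bT.2.trans k.1.2.symm)).symm,
      fun k => k ▸ ⟨bT, le_normalizer (Subgroup.mem_zpowers b)⟩⟩, Set.ncard_singleton] at k1
    have k2 := ncard_orbit C[A α] (zpowers b)
    rw [show {B | ∃ x ∈ C[A α], x • zpowers b = B} = T from Set.ext fun B => ⟨fun ⟨x, hx, e⟩ =>
      e ▸ inv x (H.geo.fix_of_cent hx) _ bT, fun k => (syl _ bT).exists_conj (syl _ k)⟩, cQ] at k2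
    obtain ⟨e, he⟩ : 11 * 61 ∣ Nat.card ↥(C[A α] ⊓ stabilizer G (zpowers b)) :=
      Nat.Coprime.mul_dvd_of_dvd_of_dvd (by decide)
        (oa ▸ orderOf_dvd_card_of_mem (mem_inf.2 ⟨H.geo.le_cent α ha, conj_smul_of_cent
          (cent_zpowers b ▸ mem_cent1_iff.2 (comm_of_mem_cent hb ha))⟩))
        (ob ▸ orderOf_dvd_card_of_mem (mem_inf.2 ⟨hb, conj_smul_of_mem (Subgroup.mem_zpowers b)⟩))
    have k3 : T.ncard ≤ 60 := (Nat.le_of_dvd k0 ⟨e, Nat.eq_of_mul_eq_mul_left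
      (show 0 < 11 * 61 by decide) (by rw [he] at k2; linarith)⟩).trans cK
    obtain ⟨B, hB⟩ := Set.ncard_eq_one.1 (show T.ncard = 1 by unfold Nat.ModEq at k1; omega)
    exact fun g e => mem_norm_of_conj_smul_eq
      ((hB ▸ inv g e _ bT : _ ∈ ({B} : Set _)).trans (hB ▸ bT : _ ∈ ({B} : Set _)).symm)
  obtain ⟨h, hh, oh, e1, e2⟩ := H.geo.L_h lr le_sup_left le_sup_right h1
  obtain ⟨w, hw, ow, e3, e4⟩ := H.geo.L_w lr le_sup_left le_sup_right h1
  have uα := H.geo.fix_of_centX le_sup_left hu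
  have ab := commute_of_mem_cent hb ha
  refine tg H.perf (by rw [H.card_pts α, hm]) H.two h1 oa ob ab (H.geo.fix_of_mem ha)
    (H.geo.fix_of_cent hb) (fun i j e => ?_) (fun g e => conj_mem_of_norm (nb g e)
      (Subgroup.mem_zpowers b)) (pow5 oh) e1 e2 (ea ▸ conj_mem_of_norm (H.geo.fix_iff.1 e1) ha)
    (fun c => H.geo.not_cent (.inl lr) le_sup_left hh (ne_one_of_ord oh) (by rw [oh]; decide)
      (by rw [ea, cent_zpowers]; exact mem_cent1_iff.2 c)) uα (H.geo.fix_of_centX le_sup_right hu)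
    ?_ e3 e4 fun g e e' => ?_
  · have m := mul_mem (pow_mem (H.geo.le_cent α ha) i) (pow_mem hb j)
    have m' := H.geo.f2' (.inl lr) le_sup_left le_sup_right h1
      (H.geo.norm_sup (H.geo.fix_of_cent m) e) m e
    by_contra c
    refine h11 (orderOf_eq_prime (k61 _ (pow_mem m' 11) ?_) c ▸ orderOf_dvd_card_of_mem m')
    rw [← pow_mul, (ab.pow_pow i j).mul_pow, ← pow_mul, ← pow_mul, mul_comm i, mul_comm j, pow_mul,
      pow_mul b, pow_mul, mul_comm 11, pow_mul, H.geo.pow11 ha, b61]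
    simp
  · have m := mul_mem (conj_mem_of_norm (nb u uα) (Subgroup.mem_zpowers b)) (Subgroup.mem_zpowers b)
    have m' := pow_card_eq_one_of_mem m
    rw [Nat.card_zpowers, ob] at m'
    refine eq_inv_of_mul_eq_one_left (k61 _ (H.cent_of_norm hX m' (by decide)
      (zpowers_le_of_mem hb m) (H.lines_cent hX hu (ne_one_of_ord ou) ?_)) m')
    obtain ⟨i, hi⟩ := exists_pow_of_mem (conj_mem_of_norm (nb u uα) (Subgroup.mem_zpowers b))
    have c : u * b * u⁻¹ * b = b * (u * b * u⁻¹) := by rw [hi, ← pow_succ, ← pow_succ']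
    change u * _ = _ * u
    conv_rhs => rw [c]
    rw [← mul_assoc, ← mul_assoc, ← mul_assoc, sq_of_ord ou, inv_of_ord ou]
    simp [mul_assoc, sq_of_ord ou]
  · have m : g⁻¹ * w * g * w⁻¹ ∈ A α ⊔ A β :=
      mul_mem (conj_mem_of_norm' (H.geo.norm_sup e e') hw) (inv_mem hw)
    obtain ⟨i, hi⟩ := exists_pow_of_mem (H.geo.L_stab lr le_sup_left h1 hh oh e1 e2 m
      (by rw [mul_smul, mul_smul, mul_smul, inv_of_ord ow, e3, e', e4, inv_smul_eq_iff, e])
      (by rw [mul_smul, mul_smul, mul_smul, inv_of_ord ow, e4, e, e3, inv_smul_eq_iff, e']))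
    exact ⟨i, by rw [← hi]; group⟩

theorem even (h1 : α ≠ β) (ev : Even (Nat.card C[A α ⊔ A β])) : False := by
  have hX : On A α _ := mem_lines h1
  obtain ⟨u, hu, ou⟩ := exists_orderOf_eq_prime Nat.prime_two ev.two_dvd
  obtain ⟨w, hw, ow, -⟩ := H.geo.L_w (H.lr α β h1) le_sup_left le_sup_right h1
  have k1 := H.main_eq h1 hw ow
  have k2 := H.one_lt_lines hX
  have k3 := H.lines_mod5 hX
  haveI : Fact (Nat.Prime 2) := ⟨Nat.prime_two⟩
  have k4 : _ % 2 = 1 := H.lines_modK hX hu ou (by decide)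
  have k5 : 0 < (Inv C[A α ⊔ A β]).ncard := (Set.ncard_pos (Set.toFinite _)).2 ⟨u, hu, ou⟩
  have sub : {k | k ∈ C[A α ⊔ A β] ∧ k * k = 1 ∧ w * k ∈ UU A} ⊆ insert 1 (Inv C[A α ⊔ A β]) :=
    fun k hk => or_iff_not_imp_left.2 fun c => ⟨hk.1, ord_two hk.2.1 c⟩
  have k6 := (Set.ncard_le_ncard sub (Set.toFinite _)).trans (Set.ncard_insert_le _ _)
  have k7 : (Lines A α).ncard ≤ 121 := by nlinarith
  have k8 : (Lines A α).ncard ≠ 121 := fun c => by
    rw [c] at k1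
    obtain ⟨v, hv⟩ := Set.ncard_eq_one.1 (show (Inv C[A α ⊔ A β]).ncard = 1 by omega)
    obtain rfl : u = v := (hv ▸ ⟨hu, ou⟩ : u ∈ ({v} : Set G))
    have uniq : ∀ k ∈ C[A α ⊔ A β], k * k = 1 → k = 1 ∨ k = u := fun k hk k2 =>
      or_iff_not_imp_left.2 fun c => (hv ▸ ⟨hk, ord_two k2 c⟩ : k ∈ ({u} : Set G))
    have e := Set.eq_of_subset_of_ncard_le sub ((Set.ncard_insert_le _ _).trans (by omega))
    haveI : Fact (Nat.Prime 7) := ⟨by norm_num⟩
    obtain ⟨g, og⟩ := exists_prime_orderOf_dvd_card' 7 (H.case121 hX hu ou uniq fun x hx ox k hk k2 =>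
      H.U_mul hX hw ow hx ox hk (e.ge (by rw [hv]; exact uniq k hk k2)).2.2)
    have := H.fix_prime og (by decide)
    rw [H.card_pts α, c] at this
    exact absurd this (by decide)
  by_cases h11 : 11 ∣ Nat.card C[A α ⊔ A β]
  · obtain ⟨k, hk, ok⟩ := exists_orderOf_eq_prime f11.out h11
    have k9 : ∀ {γ δ : Ω}, On A γ (A α ⊔ A β) → (Lines A γ).ncard = 11 → ∀ Y ∈ Lines A γ, k ∈ N[Y] :=
      fun hγ c Y hY => by
        have a1 := H.lines_modEq (ok ▸ pow_orderOf_eq_one k : k ^ 11 = 1) (H.geo.fix_of_centX hγ.le hk)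
        rcases H.bad hγ hk (ne_one_of_ord ok) with a2 | a2
        · rw [c, a2] at a1; exact absurd a1 (by decide)
        · exact ((Set.eq_of_subset_of_ncard_le (fun _ k => k.1) (c.trans a2.symm).le).ge hY).2
    have a1 : _ % 11 = _ % 11 :=
      H.lines_modEq (ok ▸ pow_orderOf_eq_one k : k ^ 11 = 1) (H.geo.fix_of_centX hX.le hk)
    rcases H.bad hX hk (ne_one_of_ord ok) with a2 | a2 <;> rw [a2] at a1
    · rw [show (Lines A α).ncard = 111 by omega] at k1; omega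
    have c : (Lines A α).ncard = 11 := by omega
    obtain ⟨γ, hγ⟩ := H.out α β
    have n1 : α ≠ γ := fun c => hγ (c ▸ le_sup_left)
    have n2 : β ≠ γ := fun c => hγ (c ▸ le_sup_right)
    have m1 := k9 (δ := α) hX c _ (mem_lines n1)
    have m2 := k9 (δ := α) (H.lines_of_le hX le_sup_right) (by
      have := (H.card_pts α).symm.trans (H.card_pts β); omega) _ (mem_lines n2)
    refine hγ (H.lines_kfix hX hk (ne_one_of_ord ok) (by_contra fun c => hγ ?_))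
    have e := (H.line_eq n1 c (H.geo.smul_le m1 le_sup_right) le_sup_right).symm.trans
      (H.line_eq n2 c (H.geo.smul_le m2 le_sup_right) le_sup_right)
    exact H.line_eq n1 h1 le_sup_left (e ▸ le_sup_left) ▸ le_sup_right
  have k9 := H.i_le hX h11
  have i1 : (Inv C[A α ⊔ A β]).ncard = 1 := by nlinarith
  rw [i1] at k1 k6
  exact H.case61 h1 (by omega) h11 hu ou

end LC

end Cfsg.Agent.H9.O11
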