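import Cfsg.Agent.H9.O11J

/-! Lines through a point for S3403. -/

set_option autoImplicit false

namespace Cfsg.Agent.H9.O11

open Subgroup MulAction Cfsg.Agent.H7
open MulAut (conj)
open scoped Pointwise

/-- double counting -/
theorem ncard_dc {I J : Type*} {S : Set I} {T : Set J} (hS : S.Finite) (hT : T.Finite)
    (r : I → J → Prop) {a b : ℕ} (h1 : ∀ s ∈ S, {t | t ∈ T ∧ r s t}.ncard = a)
    (h2 : ∀ t ∈ T, {s | s ∈ S ∧ r s t}.ncard = b) : S.ncard * a = T.ncard * b := by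
  classical
  lift S to Finset I using hS
  lift T to Finset J using hT
  simp only [Set.ncard_coe_finset]
  refine Finset.card_mul_eq_card_mul r (fun s hs => ?_) fun t ht => ?_
  · rw [← h1 s hs, ← Set.ncard_coe_finset]; congr 1; ext; simp [Finset.bipartiteAbove]
  · rw [← h2 t ht, ← Set.ncard_coe_finset]; congr 1; ext; simp [Finset.bipartiteBelow]

variable {G : Type*} [Group G] {X Y Z : Subgroup G} {Ω : Type*} [MulAction G Ω]
  {A : Ω → Subgroup G} {α β γ δ : Ω} {g x y h u w : G}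

/-- `Y` is a line through `α` -/
def On (A : Ω → Subgroup G) (α : Ω) (Y : Subgroup G) : Prop := ∃ β, α ≠ β ∧ A α ⊔ A β = Y

/-- the lines through `α` -/
def Lines (A : Ω → Subgroup G) (α : Ω) : Set (Subgroup G) := {Y | On A α Y}

theorem mem_lines (h1 : α ≠ β) : A α ⊔ A β ∈ Lines A α := ⟨β, h1, rfl⟩

theorem On.le (hY : On A α Y) : A α ≤ Y := let ⟨_, _, e⟩ := hY; e ▸ le_sup_left

variable [Finite G]

theorem Geo.lines_smul (hA : Geo A) (hY : Y ∈ Lines A α) (e : g • α = α) :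
    conj g • Y ∈ Lines A α := by
  obtain ⟨β, h1, rfl⟩ := hY
  exact ⟨g • β, fun k => h1 (smul_left_cancel g (e.trans k)), by rw [hA.smul_sup, e]⟩

theorem Geo.exists_three (hA : Geo A) (hX : Ln X) (hα : A α ≤ X) :
    ∃ h ∈ X, h • α = α ∧ ∀ x ∈ A α, h * x * h⁻¹ = x ^ 3 := by
  obtain ⟨h, hh, oh, e⟩ := hA.exists_h hX hα
  have h1 := hA.not_cent hX hα hh (ne_one_of_ord oh) (by rw [oh]; decide)
  obtain ⟨a, oa, ea⟩ := hA.exists_gen α
  have hn := hA.fix_iff.1 e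
  rw [ea] at h1 hn
  obtain ⟨i, hi⟩ := (by decide : ∀ l : ZMod 11, l ^ 5 = 1 → l ≠ 1 → ∃ i : Fin 5, l ^ i.val = 3)
    (ch a h) (by rw [← ch_pow oa hn, pow5 oh, ch_one oa]) fun k => h1 ((ch_eq_one oa hn).1 k)
  refine ⟨h ^ i.val, pow_mem hh _, pow_mem (show h ∈ stabilizer G α from e) _, fun x hx => ?_⟩
  obtain ⟨j, rfl⟩ := exists_val oa (ea ▸ hx)
  rw [ch_pw oa (pow_mem hn _), ch_pow oa hn, hi, mul_comm, pow_val_mul oa]; rfl

namespace LC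

variable (H : LC A)
include H

theorem lines_lr (hY : Y ∈ Lines A α) : LR Y := let ⟨_, h1, e⟩ := hY; e ▸ H.lr _ _ h1

theorem lines_ln (hY : Y ∈ Lines A α) : Ln Y := .inl (H.lines_lr hY)

theorem lines_bot (hY : Y ∈ Lines A α) : ∀ z ∈ Y, z ∈ C[Y] → z = 1 :=
  H.geo.bot (H.lines_ln hY) hY.le

theorem lines_sup (hY : Y ∈ Lines A α) (h1 : γ ≠ δ) (h2 : A γ ≤ Y) (h3 : A δ ≤ Y) :
    A γ ⊔ A δ = Y := H.geo.sup_eq (H.lines_lr hY) h2 h3 h1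

theorem lines_of_le (hY : Y ∈ Lines A α) (h2 : A γ ≤ Y) : Y ∈ Lines A γ :=
  let ⟨δ, h1, h3⟩ := H.geo.exists_second (H.lines_ln hY) h2
  ⟨δ, h1.symm, H.lines_sup hY h1.symm h2 h3⟩

theorem lines_kfix (hY : Y ∈ Lines A α) (hy : y ∈ C[Y]) (y1 : y ≠ 1) (e : y • γ = γ) :
    A γ ≤ Y := by
  obtain ⟨β, h1, rfl⟩ := hY
  exact H.kfix α β h1 y hy y1 γ e

theorem lines_eqK (hY : Y ∈ Lines A α) (hZ : Z ∈ Lines A γ) (hy : y ∈ C[Y]) (y1 : y ≠ 1)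
    (hy' : y ∈ C[Z]) : Z = Y := by
  obtain ⟨β, h1, rfl⟩ := hY
  obtain ⟨δ, h2, rfl⟩ := hZ
  exact H.eq_of_K h1 h2 hy y1 hy'

theorem lines_normK (hY : Y ∈ Lines A α) (hy : y ∈ C[Y]) (y1 : y ≠ 1)
    (hg : g⁻¹ * y * g ∈ C[Y]) : g ∈ N[Y] := by
  obtain ⟨β, h1, rfl⟩ := hY
  exact H.norm_of_K h1 hy y1 hg

theorem lines_cent (hY : Y ∈ Lines A α) (hy : y ∈ C[Y]) (y1 : y ≠ 1) (hg : Commute y g) :
    g ∈ N[Y] := H.lines_normK hY hy y1 (by rwa [mul_assoc, hg.eq, inv_mul_cancel_left])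

theorem lines_qtr (hY : Y ∈ Lines A α) (hZ : Z ∈ Lines A α) : ∃ c ∈ C[A α], conj c • Y = Z := by
  obtain ⟨β, h1, rfl⟩ := hY
  obtain ⟨δ, h2, rfl⟩ := hZ
  exact H.qtr α β δ h1.symm h2.symm

theorem lines_tr (hY : Y ∈ Lines A α) (hZ : Z ∈ Lines A γ) : ∃ c : G, conj c • Y = Z := by
  obtain ⟨β, h1, rfl⟩ := hY
  obtain ⟨δ, h2, rfl⟩ := hZ
  obtain ⟨c, rfl, rfl⟩ := H.two _ _ _ _ h1 h2
  exact ⟨c, H.geo.smul_sup c α β⟩

/-- an element of `K#` fixes exactly 12 points -/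
theorem ncard_fixK (hY : Y ∈ Lines A α) (hy : y ∈ C[Y]) (y1 : y ≠ 1) :
    {γ : Ω | y • γ = γ}.ncard = 12 := by
  rw [← (H.geo.card_pts_L (H.lines_lr hY) hY.le).1]
  exact congrArg _ (Set.ext fun γ => ⟨H.lines_kfix hY hy y1, fun k => H.geo.fix_of_centX k hy⟩)

theorem ncard_pts {T : Set (Subgroup G)} (hT : T ⊆ Lines A α) :
    {β | α ≠ β ∧ A α ⊔ A β ∈ T}.ncard = 11 * T.ncard := by
  have := H.geo.finite
  rw [mul_comm, ← ncard_dc {β | α ≠ β ∧ A α ⊔ A β ∈ T}.toFinite T.toFinite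
    (fun β Y => A α ⊔ A β = Y) (a := 1) (fun β hβ => ?_) fun Y hY => ?_, mul_one]
  · exact Set.ncard_eq_one.2 ⟨_, Set.ext fun Y => ⟨fun k => k.2.symm, fun k => by subst k; exact ⟨hβ.2, rfl⟩⟩⟩
  · have := (H.geo.card_pts_L (H.lines_lr (hT hY)) (hT hY).le).1
    rw [show 11 = 12 - 1 from rfl, ← this,
      ← Set.ncard_sdiff_singleton_of_mem (show α ∈ {δ | A δ ≤ Y} from (hT hY).le)]
    exact congrArg _ (Set.ext fun β => ⟨fun k => ⟨le_sup_right.trans k.2.le, fun c => k.1.1 c.symm⟩,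
      fun k => have e := H.lines_sup (hT hY) (Ne.symm k.2) (hT hY).le k.1
        ⟨⟨Ne.symm k.2, e ▸ hY⟩, e⟩⟩)

theorem card_pts (α : Ω) : Nat.card Ω = 11 * (Lines A α).ncard + 1 := by
  have := H.geo.finite
  rw [← H.ncard_pts subset_rfl, ← Set.ncard_univ,
    ← Set.ncard_sdiff_singleton_add_one (Set.mem_univ α)]
  congr 2
  exact Set.ext fun β =>
    ⟨fun k => ⟨Ne.symm k.2, mem_lines (Ne.symm k.2)⟩, fun k => ⟨trivial, Ne.symm k.1⟩⟩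

theorem one_lt_lines (hX : X ∈ Lines A α) : 1 < (Lines A α).ncard := by
  obtain ⟨β, h1, rfl⟩ := hX
  obtain ⟨γ, h2⟩ := H.out α β
  exact (Set.one_lt_ncard (Set.toFinite _)).2 ⟨_, mem_lines h1, A α ⊔ A γ,
    mem_lines fun k => h2 (k ▸ le_sup_left), fun k => h2 (k ▸ le_sup_right)⟩

theorem QN_eq (hY : Y ∈ Lines A α) : C[A α] ⊓ N[Y] = A α ⊔ C[Y] :=
  le_antisymm (fun _ k => let ⟨_, hb, _, hk, e⟩ := H.geo.f2 (H.lines_ln hY) hY.le k.2 k.1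
    e ▸ mul_mem_sup hb hk) (sup_le (le_inf (H.geo.le_cent α) (le_norm_of_le hY.le))
      (le_inf (cent_anti hY.le) (cent_le_norm Y)))

theorem card_Q (hY : Y ∈ Lines A α) :
    Nat.card C[A α] = (Lines A α).ncard * (11 * Nat.card C[Y]) := by
  letI := MulAction.compHom (Subgroup G) (conj : G →* MulAut G)
  have k := ncard_orbit C[A α] Y
  rw [show stabilizer G Y = N[Y] from Subgroup.ext fun _ => conj_smul_eq_iff_mem_normalizer,
    H.QN_eq hY, card_sup_of_inf_eq_bot ((cent_anti hY.le).trans (cent_le_norm _))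
      (inf_eq_bot_of_forall fun x hx => H.lines_bot hY x (hY.le hx)), H.geo.card] at k
  rw [← k]
  congr 2
  exact Set.ext fun Z => ⟨fun ⟨x, hx, e⟩ => e ▸ H.geo.lines_smul hY (H.geo.fix_of_cent hx),
    H.lines_qtr hY⟩

omit H in
theorem sub_modEq {p : ℕ} [Fact p.Prime] (hx : x ^ p = 1) {T : Set (Subgroup G)}
    (inv : ∀ Y ∈ T, conj x • Y ∈ T) : T.ncard ≡ {Y | Y ∈ T ∧ x ∈ N[Y]}.ncard [MOD p] := by
  simpa only [conj_smul_eq_iff_mem_normalizer] using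
    ncard_modEq (x := conj x) (by rw [← map_pow, hx, map_one]) T.toFinite inv

theorem lines_modEq {p : ℕ} [Fact p.Prime] (hx : x ^ p = 1) (e : x • α = α) :
    (Lines A α).ncard ≡ {Y | Y ∈ Lines A α ∧ x ∈ N[Y]}.ncard [MOD p] :=
  sub_modEq hx fun _ hY => H.geo.lines_smul hY e

/-- `h` fixes only one line through `α` -/
theorem h_line (h1 : α ≠ β) (hh : h ∈ A α ⊔ A β) (oh : orderOf h = 5) (e1 : h • α = α)
    (e2 : h • β = β) (hY : Y ∈ Lines A α) (hn : h ∈ N[Y]) : Y = A α ⊔ A β := by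
  have := H.geo.finite
  have k := ncard_modEq (pow5 oh) {γ | A γ ≤ Y}.toFinite fun s hs => H.geo.smul_le hn hs
  rw [(H.geo.card_pts_L (H.lines_lr hY) hY.le).1] at k
  refine (H.lines_sup hY h1 hY.le (by_contra fun c => ?_)).symm
  rw [show {s | s ∈ {γ | A γ ≤ Y} ∧ h • s = s} = {α} from Set.ext fun γ => ⟨fun k =>
    (H.hfix α β h1 h hh oh e1 e2 γ k.2).resolve_right fun e => c (e ▸ k.1),
    fun k => k ▸ ⟨hY.le, e1⟩⟩, Set.ncard_singleton] at k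
  exact absurd k (by decide)

theorem lines_mod5 (hX : X ∈ Lines A α) : (Lines A α).ncard % 5 = 1 := by
  obtain ⟨β, h1, rfl⟩ := hX
  obtain ⟨h, hh, oh, e1, e2⟩ := H.geo.L_h (H.lr α β h1) le_sup_left le_sup_right h1
  have k := H.lines_modEq (pow5 oh) e1
  rwa [show {Y | Y ∈ Lines A α ∧ h ∈ N[Y]} = {A α ⊔ A β} from Set.ext fun Y => ⟨fun k =>
    H.h_line h1 hh oh e1 e2 k.1 k.2, fun k => k ▸ ⟨mem_lines h1, le_normalizer hh⟩⟩,
    Set.ncard_singleton] at k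

/-- an `11'`-element of `Q` normalizing a line through `α` centralizes it -/
theorem cent_of_norm (hY : Y ∈ Lines A α) {n : ℕ} (un : u ^ n = 1) (hn : ¬ 11 ∣ n)
    (hu : u ∈ C[A α]) (h : u ∈ N[Y]) : u ∈ C[Y] := by
  obtain ⟨b, hb, k, hk, rfl⟩ := H.geo.f2 (H.lines_ln hY) hY.le h hu
  have e := (split_pow (H.lines_bot hY) (hY.le hb) hk un).1
  rwa [show b = 1 from by_contra fun c => hn (H.geo.ord11 hb c ▸ orderOf_dvd_of_pow_eq_one e),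
    one_mul]

theorem K_line (hX : X ∈ Lines A α) (hu : u ∈ C[X]) (u1 : u ≠ 1) {n : ℕ} (un : u ^ n = 1)
    (hn : ¬ 11 ∣ n) (hY : Y ∈ Lines A α) (h : u ∈ N[Y]) : Y = X :=
  H.lines_eqK hX hY hu u1 (H.cent_of_norm hY un hn (cent_anti hX.le hu) h)

theorem lines_modK (hX : X ∈ Lines A α) (hu : u ∈ C[X]) {p : ℕ} [Fact p.Prime]
    (ou : orderOf u = p) (hp : p ≠ 11) : (Lines A α).ncard ≡ 1 [MOD p] := by
  have up : u ^ p = 1 := ou ▸ pow_orderOf_eq_one u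
  have k := H.lines_modEq up (H.geo.fix_of_centX hX.le hu)
  rwa [show {Y | Y ∈ Lines A α ∧ u ∈ N[Y]} = {X} from Set.ext fun Y => ⟨fun k =>
    H.K_line hX hu (fun c => (Fact.out : p.Prime).ne_one (by rw [← ou, c, orderOf_one])) up
      (fun c => hp ((Nat.prime_dvd_prime_iff_eq f11.out Fact.out).1 c).symm) k.1 k.2,
    fun k => k ▸ ⟨hX, cent_le_norm _ hu⟩⟩, Set.ncard_singleton] at k

/-- an element of `K#` fixes 1 or 11 lines through `α` -/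
theorem bad (hX : X ∈ Lines A α) (hu : u ∈ C[X]) (u1 : u ≠ 1) :
    {Y | Y ∈ Lines A α ∧ u ∈ N[Y]}.ncard = 1 ∨ {Y | Y ∈ Lines A α ∧ u ∈ N[Y]}.ncard = 11 := by
  set J := {b | b ∈ A α ∧ ∃ Y ∈ Lines A α, b * u ∈ C[Y]}
  have ne : ∀ b ∈ A α, b * u ≠ 1 := fun b hb c => u1 (H.lines_bot hX u
    (eq_inv_of_mul_eq_one_right c ▸ inv_mem (hX.le hb)) hu)
  have cd : {Y | Y ∈ Lines A α ∧ u ∈ N[Y]}.ncard = J.ncard := by
    have := ncard_dc {Y | Y ∈ Lines A α ∧ u ∈ N[Y]}.toFinite J.toFinite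
      (fun Y b => b * u ∈ C[Y]) (a := 1) (b := 1) (fun Y hY => ?_) fun b hb => ?_
    · simpa using this
    · obtain ⟨b, hb, k, hk, e⟩ := H.geo.f2 (H.lines_ln hY.1) hY.1.le hY.2 (cent_anti hX.le hu)
      have hk' : b⁻¹ * u ∈ C[Y] := by rwa [e, inv_mul_cancel_left]
      refine Set.ncard_eq_one.2 ⟨b⁻¹, Set.ext fun c => ⟨fun hc => ?_,
        fun hc => hc ▸ ⟨⟨inv_mem hb, Y, hY.1, hk'⟩, hk'⟩⟩⟩
      refine eq_inv_of_mul_eq_one_left (H.lines_bot hY.1 _ (hY.1.le (mul_mem hc.1.1 hb)) ?_)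
      simpa [mul_assoc] using mul_mem hc.2 (inv_mem hk')
    · obtain ⟨hb, Y, hY, hk⟩ := hb
      exact Set.ncard_eq_one.2 ⟨Y, Set.ext fun Z => ⟨fun hZ =>
        H.lines_eqK hY hZ.1.1 hk (ne b hb) hZ.2, fun hZ => hZ ▸ ⟨⟨hY, (mul_mem_cancel_left
          (le_normalizer (hY.le hb))).1 (cent_le_norm _ hk)⟩, hk⟩⟩⟩
  have cl : ∀ b ∈ J, ∀ c ∈ J, (c * b⁻¹) ^ 3 * b ∈ J := fun b ⟨hb, Y, hY, hk⟩ c ⟨hc, Z, hZ, hk'⟩ => by
    obtain ⟨h, hh, e1, e2⟩ := H.geo.exists_three (H.lines_ln hY) hY.le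
    have m := mul_mem hc (inv_mem hb)
    refine ⟨mul_mem (pow_mem m 3) hb, _, H.geo.lines_smul hZ e1, ?_⟩
    rw [← conj_smul_cent, ← e2 _ m, mul_assoc, ← conj_eq_of_mem_cent (le_cent_cent Y hh) hk,
      show h * (c * b⁻¹) * h⁻¹ * (h * (b * u) * h⁻¹) = h * (c * u) * h⁻¹ by group]
    exact mem_smul_self h hk'
  have J1 : (1 : G) ∈ J := ⟨one_mem _, X, hX, by rwa [one_mul]⟩
  rw [cd]
  by_cases c : J ⊆ {1}
  · exact .inl (Set.ncard_eq_one.2 ⟨1, c.antisymm (Set.singleton_subset_iff.2 J1)⟩)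
  obtain ⟨b, hb, b1⟩ := Set.not_subset.1 c
  have ob := H.geo.ord11 hb.1 b1
  have cl' : ∀ i j : ZMod 11, b ^ i.val ∈ J → b ^ j.val ∈ J → b ^ ((j - i) * 3 + i).val ∈ J :=
    fun i j hi hj => by
      have := cl _ hi _ hj
      rwa [pow_val_add ob, pow_val_mul ob, show b ^ (j - i).val = b ^ j.val * (b ^ i.val)⁻¹ by
        rw [eq_mul_inv_iff_mul_eq, ← pow_val_add ob, sub_add_cancel]]
  have h0 : b ^ (0 : ZMod 11).val ∈ J := (pow_zero b).symm ▸ J1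
  have h1 : b ^ (1 : ZMod 11).val ∈ J := (pow_one b).symm ▸ hb
  have h3 := cl' _ _ h0 h1
  have h9 := cl' _ _ h0 h3
  have h5 := cl' _ _ h0 h9
  have h4 := cl' _ _ h0 h5
  have h8 := cl' _ _ h3 h1
  have h2 := cl' _ _ h0 h8
  have h6 := cl' _ _ h0 h2
  have h7 := cl' _ _ h0 h6
  have h10 := cl' _ _ h0 h7
  refine .inr (((congrArg _ (Set.ext fun x => ⟨fun k => k.1, fun k => ?_⟩)).trans
    (Set.ncard_def _)).trans (H.geo.card α))
  obtain ⟨i, rfl⟩ := exists_val ob (H.geo.zp_eq hb.1 b1 ▸ k)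
  fin_cases i <;> assumption

end LC

end Cfsg.Agent.H9.O11
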