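import Cfsg.Agent.H9.O11Cnt
import Cfsg.Agent.H9.O11Z5
import Cfsg.Agent.H3.O11T
import Cfsg.Agent.H8.FT

/-! S3403: the case `N(X) = X × K` with `K` of odd order. -/

set_option autoImplicit false

namespace Cfsg.Agent.H9.O11

open Subgroup MulAction Cfsg.Agent.H7
open MulAut (conj)
open scoped Pointwise

variable {G : Type*} [Group G] {X Y Z S K P : Subgroup G} {Ω : Type*} [MulAction G Ω]
  {A : Ω → Subgroup G} {α β γ δ : Ω} {g x y z h k u w : G} {p : ℕ}

theorem inv_eq_of_odd (ho : Odd (orderOf k)) (e : k * z * k⁻¹ = z⁻¹) : z⁻¹ = z := by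
  have : k ∈ C₁[z] := H7.mem_of_pow_mem_of_coprime (n := 2) (by simpa using ho) (mem_cent1_iff.2 (by
    rw [← mul_inv_eq_iff_eq_mul, show k ^ 2 * z * (k ^ 2)⁻¹ = k * (k * z * k⁻¹) * k⁻¹ by
      rw [sq]; group, e,
      ← conj_inv, e, inv_inv]))
  rw [← e, mem_cent1_iff.1 this, mul_inv_cancel_right]

variable [Finite G]

theorem exists_pow_ord [Fact p.Prime] {n : ℕ} (yp : y ^ p ^ n = 1) (h1 : y ≠ 1) :
    ∃ i : ℕ, orderOf (y ^ i) = p := by
  obtain ⟨x, hx, ox⟩ := exists_orderOf_eq_prime Fact.out (IsPGroup.dvd_card (isPGroup_zpowers yp)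
    (ne_bot_of_mem (Subgroup.mem_zpowers y) h1))
  obtain ⟨i, rfl⟩ := exists_pow_of_mem hx
  exact ⟨i, ox⟩

theorem transfer_ti [Fact p.Prime] (hG : commutator G = ⊤) (hy : y ∈ S) {n : ℕ}
    (yp : y ^ p ^ n = 1) (h : ∀ (i : ℕ) (g : G), orderOf (y ^ i) = p → g⁻¹ * y ^ i * g ∈ S → g ∈ S) :
    y ∈ ⁅S, S⁆ := by
  by_cases y1 : y = 1
  · exact y1 ▸ one_mem _
  obtain ⟨i, hi⟩ := exists_pow_ord yp y1
  have k := ncard_modEq (hi ▸ pow_orderOf_eq_one _ : (y ^ i) ^ p = 1)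
    (Set.univ : Set (G ⧸ S)).toFinite fun _ _ => trivial
  rw [Set.ncard_univ, show {s | s ∈ (Set.univ : Set (G ⧸ S)) ∧ y ^ i • s = s} = {((1 : G) : G ⧸ S)}
    from Set.ext fun q => QuotientGroup.induction_on q fun g => ⟨fun k => QuotientGroup.eq.2 (by
      simpa using h i g hi (Fx4.smul_mk_iff _ _ |>.1 k.2)), fun k => ⟨trivial, by
        rw [show (g : G ⧸ S) = _ from k, Fx4.smul_mk_iff]; simpa using pow_mem hy i⟩⟩,
    Set.ncard_singleton] at k
  refine H7.mem_of_pow_mem_of_coprime (n := S.index) (Nat.Coprime.coprime_dvd_left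
    (orderOf_dvd_of_pow_eq_one yp) (Nat.Coprime.pow_left _ ((Nat.Prime.coprime_iff_not_dvd
      Fact.out).2 fun c => (Fact.out : p.Prime).not_dvd_one ((k.dvd_iff dvd_rfl).1 c))))
    (Fx4.transfer_pow' hG le_rfl hy fun k g hg => ?_)
  by_cases c : y ^ k = 1
  · simp [c]
  obtain ⟨j, hj⟩ := exists_pow_ord (n := n) (by rw [pow_right_comm, yp, one_pow]) c
  have := h (k * j) g (by rwa [pow_mul]) (by
    simpa only [pow_mul, ← inv_inv g ▸ conj_pow (a := g⁻¹), inv_inv] using pow_mem hg j)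
  simpa using comm_mem (inv_mem this) (pow_mem hy k)

theorem le_zpowers_of_self_cent [Fact p.Prime] (ok : orderOf k = p)
    (hc : ∀ c ∈ K, Commute c k → c ∈ zpowers k) (hP : IsPGroup p P) (hPK : P ≤ K) (hk : k ∈ P) :
    P ≤ zpowers k := fun x hx => by
  obtain ⟨z, hz, z1⟩ := exists_ne_one_of_ne_bot (center_ne_bot_of_nil (nil_of_pgroup hP)
    (ne_bot_of_mem hk fun c => (Fact.out : p.Prime).ne_one (by rw [← ok, c, orderOf_one])))
  obtain ⟨i, hi⟩ := exists_pow_of_mem (zpowers_eq_of_card_prime (by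
    rw [Nat.card_zpowers, ok]; exact Fact.out) (hc z (hPK hz.1)
      (commute_of_mem_cent hz.2 hk).symm) z1 ▸ Subgroup.mem_zpowers k : k ∈ zpowers z)
  exact hc x (hPK hx) (hi ▸ (commute_of_mem_cent hz.2 hx).pow_right i)

/-- odd elements commuting with an element of order 3 or 11 in `PSL(2,11)` -/
theorem LR.cent_odd [Fact p.Prime] (hX : LR X) (hp : p = 3 ∨ p = 11) (hz : z ∈ X)
    (oz : orderOf z = p) (hy : y ∈ X) (ho : Odd (orderOf y)) (hc : Commute y z) : y ∈ zpowers z := by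
  refine Ln.mem_zpowers (.inl hX) (n := 1) (by omega) hz hy oz ((pow_one p).symm ▸
    orderOf_dvd_iff_pow_eq_one.1 (by_contra fun c => ?_))
    (cent_le_norm _ (cent_zpowers z ▸ mem_cent1_iff.2 hc))
  have o1 := hX.ord y hy
  have o2 := hX.ord _ (mul_mem hy hz)
  have o3 : ¬ p ∣ orderOf y := by
    revert o1 c; generalize orderOf y = n at ho
    simp only [List.mem_cons, List.not_mem_nil, or_false]
    rcases hp with rfl | rfl <;> rintro c (rfl | rfl | rfl | rfl | rfl | rfl) <;> revert ho c <;> decide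
  rw [hc.orderOf_mul_eq_mul_orderOf_of_coprime (oz ▸ ((Nat.Prime.coprime_iff_not_dvd Fact.out).2
    o3).symm), oz] at o2
  revert o1 o2 c; generalize orderOf y = n at ho
  simp only [List.mem_cons, List.not_mem_nil, or_false]
  rcases hp with rfl | rfl <;> rintro c (rfl | rfl | rfl | rfl | rfl | rfl) <;> revert ho c <;> decide

/-- the hypotheses of the case, for all lines -/
structure L1 (A : Ω → Subgroup G) : Prop extends LC A where
  odd : ∀ {γ Y}, On A γ Y → ∀ k ∈ C[Y], Odd (orderOf k)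
  eps : ∀ {γ Y}, On A γ Y → ∀ g ∈ N[Y], ∃ x ∈ Y, ∃ k ∈ C[Y], x * k = g

namespace L1

variable (H : L1 A)
include H

theorem inv_mem (hY : On A γ Y) (hu : u ∈ N[Y]) (u2 : u * u = 1) : u ∈ Y := by
  obtain ⟨x, hx, k, hk, rfl⟩ := H.eps hY u hu
  have := (split_pow (H.lines_bot hY) hx hk (n := 2) (by rw [sq, u2])).2
  rwa [orderOf_eq_one_iff.1 (Nat.Coprime.eq_one_of_dvd (by simpa using H.odd hY k hk)
    (orderOf_dvd_of_pow_eq_one this)), mul_one]

theorem fix_unique (ou : orderOf u = 2) (e1 : u • γ = γ) (e2 : u • δ = δ) : γ = δ :=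
  by_contra fun c => H.geo.L_fpf (H.lr _ _ c) le_sup_left
    (H.inv_mem (mem_lines c) (H.geo.norm_sup e1 e2) (sq_of_ord ou)) ou e1

theorem odd_stab (α : Ω) : Odd (Nat.card N[A α]) := by
  have := H.geo.finite
  refine Nat.not_even_iff_odd.1 fun c => ?_
  obtain ⟨t, ht, ot⟩ := exists_orderOf_eq_prime Nat.prime_two c.two_dvd
  have et := H.geo.fix_iff.2 ht
  obtain ⟨β, hβ⟩ := not_forall.1 fun k => ne_one_of_ord ot (H.faith t k)
  have h1 : α ≠ β := fun k => hβ (k ▸ et)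
  set U : Set G := {u | orderOf u = 2 ∧ ∃ γ : Ω, u • γ = γ}
  have hU : ∀ g : G, ∀ u ∈ U, g * u * g⁻¹ ∈ U := fun g u ⟨o, γ, e⟩ =>
    ⟨(orderOf_cj g u).trans o, g • γ, by rw [conj_smul_pt, e]⟩
  have k1 := count_fix H.geo.trans hU (φ := 1) (fun u ⟨o, γ, e⟩ => Set.ncard_eq_one.2
    ⟨γ, Set.ext fun δ => ⟨fun k => H.fix_unique o k e, fun k => k ▸ e⟩⟩) α
  rw [H.count_two hU h1, H.card_pts α, Nat.add_sub_cancel] at k1
  have k2 : {u | u ∈ U ∧ u • α = β}.ncard ≤ 5 := H.ncard_swap h1 ▸ Set.ncard_le_ncard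
    (fun u hu => ⟨H.inv_mem (mem_lines h1) (H.geo.norm_sup' hu.2 (swap_of_sq (sq_of_ord hu.1.1) hu.2))
      (sq_of_ord hu.1.1), hu.1.1, hu.2⟩)
  have k3 : 7 ≤ {u | u ∈ U ∧ u • α = α}.ncard := by
    have hY := mem_lines (A := A) (Ne.symm hβ)
    have lr := H.lines_lr hY
    obtain ⟨x, hx, ox, s, cs, hs⟩ := lr.seven
    obtain ⟨z, hz, e⟩ := H.geo.L_conj_inv lr le_sup_left hx ox (H.inv_mem hY
      (H.geo.norm_sup' rfl (swap_of_sq (sq_of_ord ot) rfl)) (sq_of_ord ot)) ot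
    rw [← cs, ← Set.ncard_coe_finset]
    refine Set.ncard_le_ncard_of_injOn (fun y => z * y * z⁻¹) (fun y hy => ?_)
      fun a _ b _ e => by simpa using e
    have o := (orderOf_cj z y).trans (hs y hy).2.1
    have e' : (z * y * z⁻¹) • α = α := H.fix_unique ot (by
      rw [← mul_smul, ← e, ((hs y hy).2.2.conj z).eq, mul_smul, e, et]) et
    exact ⟨⟨o, α, e'⟩, e'⟩
  have k4 := H.one_lt_lines (mem_lines h1)
  nlinarith

/-- an element of prime order of `C(Y)` normalizing another line -/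
theorem split [Fact p.Prime] (hX : On A α X) (hY : On A γ Y) (hne : X ≠ Y) (hy : y ∈ C[Y])
    (oy : orderOf y = p) (hn : y ∈ N[X]) : (p = 3 ∨ p = 11) ∧
      ∃ z ∈ X, ∃ k ∈ C[X], z * k = y ∧ orderOf z = p ∧ orderOf k = p := by
  obtain ⟨z, hz, k, hk, rfl⟩ := H.eps hX y hn
  have lr := H.lines_lr hX
  have y1 : z * k ≠ 1 := fun c => (Fact.out : p.Prime).ne_one (by rw [← oy, c, orderOf_one])
  have sp := split_pow (H.lines_bot hX) hz hk (oy ▸ pow_orderOf_eq_one _ : (z * k) ^ p = 1)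
  have oz : orderOf z = p := orderOf_eq_prime sp.1 fun c =>
    hne (H.lines_eqK hY hX hy y1 (by rwa [c, one_mul]))
  have hp : p = 3 ∨ p = 5 ∨ p = 11 := by
    have o1 := lr.ord z hz
    have o2 := H.odd hY _ hy
    have o3 : p.Prime := Fact.out
    rw [oz] at o1
    rw [oy] at o2
    simp only [List.mem_cons, List.not_mem_nil, or_false] at o1
    rcases o1 with rfl | rfl | rfl | rfl | rfl | rfl <;> revert o2 o3 <;> decide
  have p5 : p ≠ 5 := by
    rintro rfl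
    obtain ⟨β, h1, rfl⟩ := id hX
    obtain ⟨h, hh, oh, e1, e2⟩ := H.geo.L_h lr le_sup_left le_sup_right h1
    obtain ⟨c, hc, e⟩ := Ln.conj_zpowers (.inl lr) (by decide) hh hz oh oz
    have fx : ∀ δ, A δ ≤ A α ⊔ A β → h • δ = δ → A (c • δ) ≤ Y := fun δ h2 h3 =>
      H.lines_kfix hY hy y1 (by
        rw [mul_smul, H.geo.fix_of_centX (H.geo.smul_le' hc h2) hk]
        exact (zpowers_le_of_mem (show c * h * c⁻¹ ∈ stabilizer G (c • δ) by
          rw [mem_stabilizer_iff, conj_smul_pt, h3])) (e ▸ Subgroup.mem_zpowers z))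
    have n : c • α ≠ c • β := fun k => h1 (smul_left_cancel c k)
    exact hne ((H.lines_sup hX n (H.geo.smul_le' hc le_sup_left)
      (H.geo.smul_le' hc le_sup_right)).symm.trans
      (H.lines_sup hY n (fx α le_sup_left e1) (fx β le_sup_right e2)))
  refine ⟨by omega, z, hz, k, hk, rfl, oz, orderOf_eq_prime sp.2 ?_⟩
  rintro rfl
  rw [mul_one] at hy y1
  rcases hp with rfl | rfl | rfl
  · obtain ⟨x, -, e⟩ := lr.real3 z hz oz
    obtain ⟨v, hv, l, hl, e'⟩ := H.eps hY x⁻¹ (H.lines_normK hY hy y1 (by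
      rw [inv_inv, e]; exact Subgroup.inv_mem _ hy))
    have := inv_eq_of_odd (z := z) (H.odd hY _ (Subgroup.inv_mem _ hl)) (by
      rw [← e, ← inv_inv x, ← e', ← conj_eq_of_mem_cent (le_cent_cent Y (Subgroup.inv_mem _ hv)) hy]
      conv_rhs => rw [conj_eq_of_mem_cent (le_cent_cent Y (Subgroup.inv_mem _ hv)) hy]
      group)
    exact absurd (oz ▸ orderOf_dvd_of_pow_eq_one (show z ^ 2 = 1 by
      rw [sq]; exact inv_eq_iff_mul_eq_one.1 this)) (by decide)
  · exact p5 rfl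
  · obtain ⟨δ, e⟩ := H.geo.point_of_order (.inl lr) hX.le hz oz
    obtain ⟨β, h1, rfl⟩ := hY
    have m : z ∈ A δ := e ▸ Subgroup.mem_zpowers z
    exact h1 ((H.geo.eq_of_fix m y1 (H.geo.fix_of_centX le_sup_left hy)).trans
      (H.geo.eq_of_fix m y1 (H.geo.fix_of_centX le_sup_right hy)).symm)

theorem self_cent [Fact p.Prime] (hX : On A α X) (hY : On A γ Y) (hne : X ≠ Y) (hy : y ∈ C[Y])
    (oy : orderOf y = p) (hn : y ∈ N[X]) : (p = 3 ∨ p = 11) ∧
      ∃ k ∈ C[X], orderOf k = p ∧ ∀ c ∈ C[X], Commute c k → c ∈ zpowers k := by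
  obtain ⟨hp, z, hz, k, hk, rfl, -, ok⟩ := H.split hX hY hne hy oy hn
  have y1 : z * k ≠ 1 := fun c => (Fact.out : p.Prime).ne_one (by rw [← oy, c, orderOf_one])
  have nm : ∀ c ∈ C[X], Commute c k → c ∈ N[Y] := fun c hc e =>
    H.lines_cent hY hy y1 ((commute_of_mem_cent hc hz).mul_left e.symm)
  obtain ⟨-, z', hz', k', hk', e, oz, -⟩ := H.split hY hX hne.symm hk ok (nm k hk (.refl k))
  refine ⟨hp, k, hk, ok, fun c hc ck => ?_⟩
  obtain ⟨v, hv, l, hl, rfl⟩ := H.eps hY c (nm c hc ck)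
  have cm : Commute v z' := (split_eq (H.lines_bot hY) (mul_mem hv hz') (mul_mem hz' hv)
    (mul_mem hl hk') (mul_mem hk' hl) (by
      have := ck.eq
      rw [← e] at this
      rw [mul_assoc, ← mul_assoc z', comm_of_mem_cent hl hz', mul_assoc l, ← mul_assoc, this,
        mul_assoc, mul_assoc, ← mul_assoc k', ← comm_of_mem_cent hk' hv, mul_assoc v])).1
  obtain ⟨i, rfl⟩ := exists_pow_of_mem ((H.lines_lr hY).cent_odd hp hz' oz hv ((H.odd hX _ hc).of_dvd_nat
    (orderOf_dvd_of_pow_eq_one (split_pow (H.lines_bot hY) hv hl (pow_orderOf_eq_one _)).1)) cm)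
  have m : (k ^ i)⁻¹ * (z' ^ i * l) ∈ C[Y] := by
    rw [← e, (commute_of_mem_cent hk' hz').mul_pow, mul_inv_rev, mul_assoc, inv_mul_cancel_left]
    exact mul_mem (Subgroup.inv_mem _ (pow_mem hk' i)) hl
  exact inv_mul_eq_one.1 (by_contra fun c => hne (H.lines_eqK hY hX m c
    (mul_mem (Subgroup.inv_mem _ (pow_mem hk i)) hc))) ▸ pow_mem (Subgroup.mem_zpowers k) i

theorem exists_kappa (hX : On A α X) (hK : C[X] ≠ ⊥) : ∃ k ∈ C[X],
    (orderOf k = 3 ∨ orderOf k = 11) ∧ k ∉ ⁅C[X], C[X]⁆ ∧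
      ∀ c ∈ C[X], Commute c k → c ∈ zpowers k := by
  have ho : Odd (Nat.card C[X]) := Nat.not_even_iff_odd.1 fun c => by
    obtain ⟨t, ht, ot⟩ := exists_orderOf_eq_prime Nat.prime_two c.two_dvd
    exact absurd (ot ▸ H.odd hX t ht) (by decide)
  obtain ⟨x, hx, hx'⟩ := SetLike.exists_of_lt (der_lt_of_sol (FT.feitThompson _ ho) hK)
  obtain ⟨p, hp, -, hy'⟩ := by
    simpa only [not_forall, exists_prop] using mt mem_of_forall_constt_mem hx'
  haveI := Fact.mk hp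
  have hy := constt_mem {p} hx
  obtain ⟨n, hn⟩ := (PiNat.singleton_iff hp (orderOf_pos _).ne').1 (piNat_orderOf_constt {p} x)
  generalize constt {p} x = y at hy hy' hn
  have yp : y ^ p ^ n = 1 := hn ▸ pow_orderOf_eq_one y
  obtain ⟨i, g, oi, h1, h2⟩ : ∃ (i : ℕ) (g : G), orderOf (y ^ i) = p ∧ g⁻¹ * y ^ i * g ∈ N[X] ∧
      g ∉ N[X] := by
    by_contra! c
    have := transfer_ti H.perf (cent_le_norm X hy) yp c
    obtain ⟨z, hz, l, hl, rfl⟩ := (mem_sup_of_norm ((der_le _).trans (cent_le_norm X))).1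
      (der_sup_le_of_norm (cent_le_norm X) (der_mono (fun g hg => mem_XK.2 (H.eps hX g hg)) this))
    rw [H.lines_bot hX z hz ((mul_mem_cancel_right (der_le _ hl)).1 hy), one_mul] at hy'
    exact hy' hl
  obtain ⟨h3, k, hk, ok, hc⟩ := H.self_cent hX (H.geo.on_smul hX g⁻¹)
    (fun c => h2 ((inv_mem_iff (x := g)).1 (mem_norm_of_conj_smul_eq c.symm)))
    (conj_smul_cent g⁻¹ X ▸ mem_smul_self g⁻¹ (pow_mem hy i)) ((orderOf_cj _ _).trans oi)
    (by rwa [inv_inv])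
  refine ⟨k, hk, ok ▸ h3, fun c => hy' ?_, hc⟩
  obtain ⟨T, hT, sT⟩ := H7.exists_isSylowIn_ge (isPGroup_zpowers (p := p) (k := 1)
    (by rw [pow_one, ← ok, pow_orderOf_eq_one])) (zpowers_le_of_mem hk)
  obtain ⟨l, hl, e⟩ := sT.exists_le_conj (isPGroup_zpowers yp) (zpowers_le_of_mem hy)
  exact conj_smul_le_of_norm (le_norm_der (le_norm_self _) hl) ((le_zpowers_of_self_cent ok hc
    sT.isPGroup sT.le (hT (Subgroup.mem_zpowers k))).trans (zpowers_le_of_mem c))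
    (e (Subgroup.mem_zpowers y))

theorem false (h1 : α ≠ β) : False := by
  have hX : On A α _ := mem_lines h1
  have lr := H.lr α β h1
  obtain ⟨h, hh, oh, e1, e2⟩ := H.geo.L_h lr le_sup_left le_sup_right h1
  have st : ∀ x ∈ A α ⊔ A β, x • α = α → x • β = β → ∃ i : ℕ, x = h ^ i := fun x hx e3 e4 =>
    exists_pow_of_mem (H.geo.L_stab lr le_sup_left h1 hh oh e1 e2 hx e3 e4)
  by_cases hK : C[A α ⊔ A β] = ⊥
  · have := H.geo.finite
    obtain ⟨w, hw, ow, e3, e4⟩ := H.geo.L_w lr le_sup_left le_sup_right h1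
    obtain ⟨γ, hγ⟩ := H.out α β
    have k1 := z5 h1 H.two (pow5 oh) e1 e2 (H.hfix α β h1 h hh oh e1 e2)
      ⟨γ, fun c => hγ (c ▸ le_sup_left), fun c => hγ (c ▸ le_sup_right)⟩ (fun g e e' => by
        obtain ⟨x, hx, k, hk, rfl⟩ := H.eps hX g (H.geo.norm_sup e e')
        rw [hK, mem_bot] at hk
        subst hk
        rw [mul_one] at e e' ⊢
        exact (st x hx e e').imp fun i hi γ => by rw [hi])
      e3 e4 (H.geo.L_swap lr le_sup_left h1 hh oh e1 e2 hw ow e3 e4)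
    have k2 := H.one_lt_lines hX
    rw [H.card_pts α] at k1
    omega
  obtain ⟨k, hk, ok, hk', hc⟩ := H.exists_kappa hX hK
  have k1 : k ≠ 1 := fun c => hk' (c ▸ one_mem _)
  have pk : (orderOf k).Prime := by rcases ok with e | e <;> rw [e] <;> norm_num
  have t1 : ∀ (g : G) (i : ℕ), g * k * g⁻¹ = k ^ i → k ^ i = k := fun g i e => by
    obtain ⟨x, hx, l, hl, rfl⟩ := H.eps hX g ((inv_mem_iff (x := g)).1 (H.lines_normK hX hk k1
      (by rw [inv_inv, e]; exact pow_mem hk i)))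
    refine mul_inv_eq_one.1 (by_contra fun c => hk' ((zpowers_eq_of_card_prime
      (by rwa [Nat.card_zpowers]) (mul_mem (pow_mem (Subgroup.mem_zpowers k) i) (Subgroup.inv_mem _
        (Subgroup.mem_zpowers k))) c).ge.trans (zpowers_le_of_mem ?_) (Subgroup.mem_zpowers k)))
    rw [← e, show x * l * k * (x * l)⁻¹ = x * (l * k * l⁻¹) * x⁻¹ by group,
      conj_eq_of_mem_cent (le_cent_cent _ hx) (conj_mem_of_norm (le_normalizer hl) hk)]
    exact comm_mem hl hk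
  have cc : ∀ c, Commute c k → ∃ x ∈ A α ⊔ A β, ∃ i : ℕ, x * k ^ i = c := fun c e => by
    obtain ⟨x, hx, l, hl, rfl⟩ := H.eps hX c (H.lines_cent hX hk k1 e.symm)
    obtain ⟨i, rfl⟩ := exists_pow_of_mem (hc l hl (by
      simpa using (commute_of_mem_cent hk hx).inv_left.mul_left e))
    exact ⟨x, hx, i, rfl⟩
  have t2 : Nat.card C₁[k] ∣ 660 * orderOf k := by
    rw [← lr.card, ← Nat.card_zpowers]
    refine (card_dvd_of_le fun c e => ?_).trans
      (card_sup_dvd ((zpowers_le_of_mem hk).trans (cent_le_norm _)))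
    obtain ⟨x, hx, i, rfl⟩ := cc c (mem_cent1_iff.1 e)
    exact mul_mem_sup hx (pow_mem (Subgroup.mem_zpowers k) i)
  rcases ok with ok | ok <;> rw [ok] at t2
  · refine t3 H.perf ok (fun g e => ?_) fun c => absurd (c.trans t2) (by decide)
    have i2 : k⁻¹ = k ^ 2 := inv_eq_of_mul_eq_one_right (by
      rw [← pow_succ']; exact orderOf_dvd_iff_pow_eq_one.1 ok.dvd)
    exact k1 (by simpa [sq] using t1 g 2 (e.trans i2))
  obtain ⟨a, oa, ea⟩ := H.geo.exists_gen α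
  have ha : a ∈ A α := ea ▸ Subgroup.mem_zpowers a
  refine t11 H.perf ok t1 (fun c => absurd (c.trans t2) (by decide)) oa
    (commute_of_mem_cent hk (hX.le ha)) (fun c => ne_one_of_ord oa (H.lines_bot hX a (hX.le ha)
      (zpowers_le_of_mem hk c))) (pow5 oh) (commute_of_mem_cent hk hh) (ea ▸ H.geo.fix_iff.1 e1)
    (ea ▸ H.odd_stab α) (fun P hP h2 g h3 => ea ▸ H.geo.fix_iff.1 (H.geo.eq_of_pg hP
      (by rw [H.geo.smul, ea, conj_smul_zpowers]; exact zpowers_le_of_mem h3)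
      (ea ▸ zpowers_le_of_mem h2))) (fun c h2 h3 => ?_) fun P hP h2 z hz h3 h4 => ?_
  · obtain ⟨x, hx, j, rfl⟩ := cc c h3
    have e : x • α = α := by
      have := H.geo.fix_iff.2 (ea ▸ h2)
      rwa [mul_smul, H.geo.fix_of_centX hX.le (pow_mem hk j)] at this
    obtain ⟨b, hb, e'⟩ := H.geo.L_trans lr le_sup_left le_sup_right (H.geo.smul_le' hx le_sup_right)
      h1.symm fun c => h1 (smul_left_cancel x (e.trans c.symm))
    obtain ⟨l, hl⟩ := st _ (mul_mem (Subgroup.inv_mem _ (hX.le hb)) hx)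
      (by rw [mul_smul, e, H.geo.fix_of_mem (Subgroup.inv_mem _ hb)])
      (by rw [mul_smul, ← e', inv_smul_smul])
    obtain ⟨i, rfl⟩ := exists_pow_of_mem (ea ▸ hb)
    exact ⟨i, j, l, by rw [mul_assoc, ← ((commute_of_mem_cent hk hh).pow_pow l j).eq, ← hl,
      ← mul_assoc, mul_inv_cancel_left]⟩
  · obtain ⟨g, rfl⟩ := isConj_iff.1 h3
    have oz := (orderOf_cj g k).trans ok
    generalize hz' : g * k * g⁻¹ = z at *
    have fx : ∀ δ, h • δ = δ → z • δ = α ∨ z • δ = β := fun δ e =>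
      H.hfix α β h1 h hh oh e1 e2 _ (by rw [← mul_smul, h4.eq, mul_smul, e])
    have hn : z ∈ N[A α ⊔ A β] := mem_norm_of_conj_smul_le (by
      rw [H.geo.smul_sup]
      refine sup_le ?_ ?_ <;> [rcases fx α e1 with e | e; rcases fx β e2 with e | e] <;> simp [e])
    obtain ⟨x, hx, l, hl, rfl⟩ := H.eps hX z hn
    have x1 : x = 1 := by_contra fun c => by
      have ox := orderOf_eq_prime (split_pow (H.lines_bot hX) hx hl
        (oz ▸ pow_orderOf_eq_one _ : (x * l) ^ 11 = 1)).1 c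
      have := orderOf_dvd_card_of_mem (lr.cent_odd (.inr rfl) hx ox hh (by rw [oh]; decide) (by
        simpa using h4.mul_right (commute_of_mem_cent hl hh).inv_right))
      rw [oh, Nat.card_zpowers, ox] at this
      exact absurd this (by decide)
    subst x1
    rw [one_mul] at hz hz' ⊢
    obtain ⟨i, rfl⟩ := exists_pow_of_mem (le_zpowers_of_self_cent ok hc (P := P ⊓ C[A α ⊔ A β])
      hP.to_inf_left inf_le_right ⟨h2, hk⟩ ⟨hz, hl⟩)
    exact t1 g i hz'

end L1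

theorem LC.one (H : LC A) (h1 : α ≠ β) (odd : Odd (Nat.card C[A α ⊔ A β]))
    (eps : N[A α ⊔ A β] ≤ (A α ⊔ A β) ⊔ C[A α ⊔ A β]) : False := by
  refine L1.false ⟨H, fun hY k hk => ?_, fun hY g hg => ?_⟩ h1 <;>
    obtain ⟨c, rfl⟩ := H.lines_tr (mem_lines h1) hY
  · rw [← conj_smul_cent] at hk
    exact odd.of_dvd_nat (H7.card_conj_smul c _ ▸ orderOf_dvd_card_of_mem hk)
  · rw [← conj_smul_norm] at hg
    exact mem_XK.1 (by rw [← conj_smul_cent, ← conj_smul_sup]; exact conj_smul_mono c eps hg)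

end Cfsg.Agent.H9.O11
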