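import Cfsg.Agent.H9.PrimePerm

/-!
Permutations of prime order preserving a uniform partition.
-/

set_option autoImplicit false

namespace Cfsg.Agent.H9

open Equiv Equiv.Perm Finset

theorem perm_exists_equiv_semiconj {X Y : Type*} [Fintype X] [DecidableEq X] [Fintype Y]
    [DecidableEq Y] {r : ℕ} [hr : Fact r.Prime] {σ : Perm X} {τ : Perm Y} (hσ : σ ^ r = 1)
    (hτ : τ ^ r = 1) (hXY : Fintype.card X = Fintype.card Y) (h : #σ.support = #τ.support) :
    ∃ e : X ≃ Y, ∀ x, e (σ x) = τ (e x) := by
  let e₀ : X ≃ Y := Fintype.equivOfCardEq hXY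
  have h1 : (e₀.permCongrHom σ) ^ r = 1 := by rw [← map_pow, hσ, map_one]
  have h2 : #(e₀.permCongrHom σ).support = #σ.support := by
    symm
    refine card_bij (fun x _ => e₀ x) ?_ ?_ ?_
    · intro x hx
      simpa using hx
    · intro x _ y _ hxy
      exact e₀.injective hxy
    · intro y hy
      refine ⟨e₀.symm y, ?_, by simp⟩
      rw [mem_support] at hy ⊢
      intro h
      apply hy
      simp [h]
  obtain ⟨g, hg⟩ := isConj_iff.mp (perm_isConj_of_pow_prime h1 hτ (h2.trans h))
  refine ⟨e₀.trans g, fun x => ?_⟩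
  rw [← hg]
  simp

theorem exists_bounded_sum_eq {ι : Type*} [DecidableEq ι] (s : Finset ι) (A : ℕ) :
    ∀ m : ℕ, m ≤ #s * A → ∃ g : ι → ℕ, (∀ j, g j ≤ A) ∧ ∑ j ∈ s, g j = m := by
  induction s using Finset.induction_on with
  | empty => intro m hm; exact ⟨fun _ => 0, by simp, by simpa using (Nat.le_zero.mp (by simpa using hm)).symm⟩
  | insert i s hi ih =>
    intro m hm
    rw [card_insert_of_notMem hi, add_mul, one_mul] at hm
    obtain ⟨g, hg1, hg2⟩ := ih (m - min m A) (by omega)
    refine ⟨Function.update g i (min m A), fun j => ?_, ?_⟩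
    · by_cases h : j = i
      · subst h; simp
      · rw [Function.update_of_ne h]; exact hg1 j
    · rw [sum_insert hi, Function.update_self, sum_update_of_notMem hi, hg2]
      omega

theorem partition_necessary {X : Type*} [Fintype X] [DecidableEq X] {r a b : ℕ}
    [hr : Fact r.Prime] (ha : 1 ≤ a) {σ : Perm X} (hσ : σ ^ r = 1) (f : X → Fin b)
    (hf : ∀ j, #{x | f x = j} = a) (π : Perm (Fin b)) (hπ : ∀ x, f (σ x) = π (f x)) :
    ∃ t, r * t ≤ b ∧ r * t * a ≤ #σ.support ∧
      #σ.support ≤ r * t * a + (b - r * t) * (r * (a / r)) := by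
  have hpow : ∀ (k : ℕ) x, f ((σ ^ k) x) = (π ^ k) (f x) := by
    intro k
    induction k with
    | zero => simp
    | succ k ih => intro x; rw [pow_succ', pow_succ', Perm.mul_apply, Perm.mul_apply, hπ, ih]
  have hπr : π ^ r = 1 := by
    ext j
    obtain ⟨x, hx⟩ := card_pos.mp (by rw [hf j]; omega : 0 < #{x | f x = j})
    rw [← (mem_filter.mp hx).2, ← hpow, hσ]
    simp
  obtain ⟨t, ht⟩ := (perm_cycleType_eq_replicate hπr).2
  have hsum : #σ.support = ∑ j, #{x ∈ σ.support | f x = j} :=
    card_eq_sum_card_fiberwise (fun x _ => mem_coe.mpr (mem_univ _))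
  rw [← sum_add_sum_compl π.support] at hsum
  have h1 : ∑ j ∈ π.support, #{x ∈ σ.support | f x = j} = r * t * a := by
    rw [← ht, ← smul_eq_mul, ← sum_const]
    apply sum_congr rfl
    intro j hj
    rw [← hf j]
    congr 1
    ext x
    simp only [mem_filter, mem_support, mem_univ, true_and, and_iff_right_iff_imp]
    rintro rfl h
    rw [mem_support, ← hπ, h] at hj
    exact hj rfl
  have h2 : ∑ j ∈ π.supportᶜ, #{x ∈ σ.support | f x = j} ≤ (b - r * t) * (r * (a / r)) := by
    have : #π.supportᶜ = b - r * t := by rw [card_compl, ht]; simp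
    rw [← this, ← smul_eq_mul]
    apply sum_le_card_nsmul
    intro j hj
    rw [mem_compl, notMem_support] at hj
    obtain ⟨c, hc⟩ := perm_dvd_card_inter_support hσ {x | f x = j} (by
      intro x hx
      simp only [mem_filter, mem_univ, true_and] at hx ⊢
      rw [hπ, hx, hj])
    have h3 : ({x ∈ σ.support | f x = j} : Finset X) = ({x | f x = j} : Finset X) ∩ σ.support := by
      ext x
      simp [and_comm]
    have h4 : r * c ≤ a := by
      rw [← hc, ← hf j]
      exact card_le_card inter_subset_left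
    rw [h3, hc]
    apply Nat.mul_le_mul_left
    rw [Nat.le_div_iff_mul_le hr.out.pos, mul_comm]
    exact h4
  refine ⟨t, ?_, by omega, by omega⟩
  rw [← ht]
  simpa using card_le_univ π.support

theorem partition_sufficient {r a b : ℕ} [hr : Fact r.Prime] (t c : ℕ) (ht : r * t ≤ b)
    (hc1 : t * a ≤ c) (hc2 : c ≤ t * a + (b - r * t) * (a / r)) :
    ∃ (τ : Perm (Fin b × Fin a)) (π : Perm (Fin b)), τ ^ r = 1 ∧ #τ.support = c * r ∧
      ∀ x, (τ x).1 = π x.1 := by
  obtain ⟨π, hπ1, hπ2⟩ := perm_exists_pow_prime (α := Fin b) (r := r) t (by simpa [mul_comm] using ht)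
  have hcompl : #π.supportᶜ = b - r * t := by rw [card_compl, hπ2]; simp [mul_comm]
  obtain ⟨g, hg1, hg2⟩ := exists_bounded_sum_eq π.supportᶜ (a / r) (c - t * a)
    (by rw [hcompl]; omega)
  have hρ : ∀ j : Fin b, ∃ ρ : Perm (Fin a), ρ ^ r = 1 ∧ #ρ.support = g j * r := fun j =>
    perm_exists_pow_prime (g j) (by
      simpa using (Nat.le_div_iff_mul_le hr.out.pos).mp (hg1 j))
  choose ρ hρ1 hρ2 using hρ
  let ρ' : Fin b → Perm (Fin a) := fun j => if π j = j then ρ j else 1
  let τ : Perm (Fin b × Fin a) := Equiv.prodShear π ρ'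
  have hτ : ∀ j x, τ (j, x) = (π j, ρ' j x) := fun j x => rfl
  have hρ'π : ∀ j, ρ' (π j) = ρ' j := by
    intro j
    by_cases h : π j = j
    · rw [h]
    · have h' : π (π j) ≠ π j := fun e => h (π.injective e)
      simp [ρ', h, h']
  have hpow : ∀ (k : ℕ) j x, (τ ^ k) (j, x) = ((π ^ k) j, (ρ' j ^ k) x) := by
    intro k
    induction k with
    | zero => simp
    | succ k ih =>
      intro j x
      rw [pow_succ, Perm.mul_apply, hτ, ih, hρ'π, pow_succ, pow_succ]
      rfl
  refine ⟨τ, π, ?_, ?_, fun x => rfl⟩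
  · apply Equiv.ext
    rintro ⟨j, x⟩
    rw [hpow, hπ1]
    have : ρ' j ^ r = 1 := by
      simp only [ρ']
      split_ifs
      · exact hρ1 j
      · exact one_pow r
    rw [this]
    rfl
  · have hsum : #τ.support = ∑ j, #{x ∈ τ.support | x.1 = j} :=
      card_eq_sum_card_fiberwise (fun x _ => mem_coe.mpr (mem_univ _))
    rw [← sum_add_sum_compl π.support] at hsum
    have h1 : ∑ j ∈ π.support, #{x ∈ τ.support | x.1 = j} = t * r * a := by
      rw [← hπ2, ← smul_eq_mul, ← sum_const]
      apply sum_congr rfl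
      intro j hj
      have : ({x ∈ τ.support | x.1 = j} : Finset (Fin b × Fin a)) = {j} ×ˢ univ := by
        ext ⟨i, x⟩
        simp only [mem_filter, mem_support, mem_product, mem_singleton, mem_univ, and_true,
          and_iff_right_iff_imp]
        rintro rfl h
        exact (mem_support.mp hj) (congrArg Prod.fst h)
      rw [this]
      simp
    have h2 : ∑ j ∈ π.supportᶜ, #{x ∈ τ.support | x.1 = j} = (c - t * a) * r := by
      rw [← hg2, sum_mul]
      apply sum_congr rfl
      intro j hj
      rw [mem_compl, notMem_support] at hj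
      have : ({x ∈ τ.support | x.1 = j} : Finset (Fin b × Fin a)) = {j} ×ˢ (ρ j).support := by
        ext ⟨i, x⟩
        simp only [mem_filter, mem_support, mem_product, mem_singleton]
        constructor
        · rintro ⟨h, rfl⟩
          refine ⟨rfl, fun e => h ?_⟩
          rw [hτ]
          simp [ρ', hj, e]
        · rintro ⟨rfl, h⟩
          refine ⟨fun e => h ?_, rfl⟩
          rw [hτ] at e
          simpa [ρ', hj] using e
      rw [this, card_product, hρ2]
      simp
    rw [hsum, h1, h2, Nat.sub_mul, mul_right_comm t r a]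
    have := Nat.mul_le_mul_right r hc1
    omega

theorem partition_arith (r A l B k : ℕ) (hl : l < r) :
    (∀ c, 1 ≤ c → c * r ≤ (r * A + l) * (r * B + k) → ∃ t, t ≤ B ∧ t * (r * A + l) ≤ c ∧
      c ≤ (r * B + k) * A + t * l) ↔ (k * l < r ∧ (B = 0 ∨ l ≤ k * A + 1)) := by
  constructor
  · intro h
    constructor
    · by_contra hk
      rw [not_lt] at hk
      obtain ⟨t, h1, -, h3⟩ := h ((r * B + k) * A + B * l + 1) (by omega) (by nlinarith)
      have := Nat.mul_le_mul_right l h1
      omega
    · by_contra hcon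
      rw [not_or, not_le] at hcon
      obtain ⟨B', rfl⟩ : ∃ B', B = B' + 1 := ⟨B - 1, by omega⟩
      obtain ⟨t, h1, h2, h3⟩ := h ((r * (B' + 1) + k) * A + B' * l + 1) (by omega)
        (by nlinarith [Nat.mul_le_mul_right r (show 1 ≤ l by omega), Nat.zero_le (l * k)])
      rcases h1.lt_or_eq with h1 | rfl
      · have := Nat.mul_le_mul_right l (Nat.lt_succ_iff.mp h1)
        omega
      · nlinarith [hcon.2]
  · rintro ⟨h1, h2⟩ c _ hc
    have hcu : c ≤ (r * B + k) * A + B * l := by
      by_contra hlt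
      rw [not_le] at hlt
      have := Nat.mul_le_mul_right r (Nat.succ_le_of_lt hlt)
      nlinarith
    by_cases hB : B * (r * A + l) ≤ c
    · exact ⟨B, le_rfl, hB, hcu⟩
    · rw [not_le] at hB
      have ha : 0 < r * A + l := by
        rcases Nat.eq_zero_or_pos (r * A + l) with h | h
        · rw [h] at hB; omega
        · exact h
      have hB0 : B ≠ 0 := by rintro rfl; omega
      have h3 := h2.resolve_left hB0
      have ht : c / (r * A + l) < B := (Nat.div_lt_iff_lt_mul ha).mpr hB
      refine ⟨c / (r * A + l), ht.le, Nat.div_mul_le_self _ _, ?_⟩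
      have h4 := Nat.lt_mul_div_succ c ha
      generalize c / (r * A + l) = t at *
      have h5 := Nat.mul_le_mul_right (r * A) (Nat.succ_le_of_lt ht)
      nlinarith

end Cfsg.Agent.H9
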