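import Cfsg.Agent.L0.SyD

/-! S3580: the non-collinear points, first part. -/

set_option autoImplicit false
set_option linter.unusedSectionVars false

namespace Cfsg.Agent.L0.Sy

open Finset Pn
open scoped Pointwise

variable {G : Type} [Group G] [Finite G] {Ω : Type} [Fintype Ω] [DecidableEq Ω] [MulAction G Ω]
  {T : Type} [Fintype T] [DecidableEq T] [MulAction G T]
  {p : ℕ} [hp : Fact p.Prime] {P : Sylow p G} {K X : Subgroup G} {O : Finset Ω}

theorem e9_fib (hP : Prim X O) (hI : Inv X O) (Φ : Ω → T)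
    (hΦ : ∀ h ∈ X, ∀ x ∈ O, Φ (h • x) = h • Φ x) :
    Set.InjOn Φ O ∨ ∀ x ∈ O, ∀ y ∈ O, Φ x = Φ y := by
  by_cases h : ∀ x ∈ O, ∀ y ∈ O, Φ x = Φ y
  · exact Or.inr h
  refine Or.inl fun x hx y hy e => ?_
  have hb : Blk X (O.filter fun z => Φ z = Φ x) := by
    intro g hg u hu hu' v hv
    rw [mem_filter] at hu hu' hv ⊢
    refine ⟨hI g hg v hv.1, ?_⟩
    rw [hΦ g hg v hv.1, hv.2, ← hu.2, ← hΦ g hg u hu.1, hu'.2, hu.2]
  rcases hP _ (filter_subset _ _) hb with h1 | h1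
  · exact card_le_one.mp h1 x (mem_filter.mpr ⟨hx, rfl⟩) y (mem_filter.mpr ⟨hy, e.symm⟩)
  · refine (h fun u hu v hv => ?_).elim
    rw [← h1] at hu hv
    rw [(mem_filter.mp hu).2, (mem_filter.mp hv).2]

theorem e9_trans (hK : K ≤ X) {d : Ω} (Φ : Ω → T)
    (hΦ : ∀ h ∈ X, ∀ x ∈ orb X d, Φ (h • x) = h • Φ x) (hi : Set.InjOn Φ (orb X d)) :
    (orb X d).card = (orb X (Φ d)).card ∧ (fx K (orb X d)).card = (fx K (orb X (Φ d))).card := by
  have e : (orb X d).image Φ = orb X (Φ d) := by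
    ext t
    simp only [mem_image, mem_orb]
    constructor
    · rintro ⟨_, ⟨h, hh, rfl⟩, rfl⟩
      exact ⟨h, hh, (hΦ h hh d (self_mem_orb _ _)).symm⟩
    · rintro ⟨h, hh, rfl⟩
      exact ⟨_, ⟨h, hh, rfl⟩, hΦ h hh d (self_mem_orb _ _)⟩
  have e2 : (fx K (orb X d)).image Φ = fx K (orb X (Φ d)) := by
    rw [← e]
    ext t
    simp only [mem_image, mem_fx]
    constructor
    · rintro ⟨x, ⟨hx, hf⟩, rfl⟩
      exact ⟨⟨x, hx, rfl⟩, fun k hk => by rw [← hΦ k (hK hk) x hx, hf k hk]⟩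
    · rintro ⟨⟨x, hx, rfl⟩, hf⟩
      refine ⟨x, ⟨hx, fun k hk => hi ((orb_orb X d).inv k (hK hk) x hx) hx ?_⟩, rfl⟩
      rw [hΦ k (hK hk) x hx, hf k hk]
  rw [← e2, ← e, card_image_of_injOn hi, card_image_of_injOn (hi.mono (fx_subset _ _))]
  exact ⟨rfl, rfl⟩

theorem e9_inv {c : Ω} : Inv (NN p G c) (EE p K c) := fun g hg x hx => by
  have := EE_smul (p := p) (K := K) g c
  rw [NN_fix hg] at this
  rw [this]
  exact smul_mem_smul_finset hx

theorem e9_II {c x : Ω} {g : G} (hg : g ∈ NN p G c) (h : II p K c x) : II p K c (g • x) := by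
  have := h.smul g
  rwa [NN_fix hg] at this

theorem e9_p3 (hp2 : p ≠ 2) : 3 ≤ p := by
  have := hp.out.two_le
  omega

namespace Geo
variable (h : Geo p (P : Subgroup G) Ω)
include h

theorem E0 {a c d : Ω} (hd : d ∈ EE p (P : Subgroup G) c) (hac : a ≠ c) :
    ∃ e ∈ EE p (P : Subgroup G) c, e ∉ EE p (P : Subgroup G) a := by
  by_contra hc
  push Not at hc
  obtain ⟨g, -, hg⟩ := h.tr.tr c (mem_univ _) a (mem_univ _)
  have e : EE p (P : Subgroup G) c = EE p (P : Subgroup G) a :=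
    eq_of_subset_of_card_le hc (by rw [← hg, EE_smul, card_smul_finset])
  have hb : Blk (⊤ : Subgroup G)
      (univ.filter fun u => EE p (P : Subgroup G) u = EE p (P : Subgroup G) c) := by
    intro g _ x hx hx' y hy
    simp only [mem_filter, mem_univ, true_and] at hx hx' hy ⊢
    rw [EE_smul, hx] at hx'
    rw [EE_smul, hy, hx']
  rcases h.prim _ (subset_univ _) hb with h1 | h1
  · exact hac (card_le_one.mp h1 a (by simp [e]) c (by simp))
  · have : d ∈ univ.filter fun u => EE p (P : Subgroup G) u = EE p (P : Subgroup G) c := by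
      rw [h1]; exact mem_univ _
    rw [← (mem_filter.mp this).2] at hd
    exact (mem_EE.mp hd).1 rfl

theorem E1 (hp2 : p ≠ 2) {c d : Ω} (hc : Fx (P : Subgroup G) c) (hd : d ∈ EE p (P : Subgroup G) c) :
    ∃ e ∈ EE p (P : Subgroup G) c, Fx (P : Subgroup G) e := by
  classical
  by_contra hn
  push Not at hn
  have h3 := e9_p3 hp2
  have hq : (3 : ℚ) ≤ p := by exact_mod_cast h3
  have hdeg : ∀ x, II p (P : Subgroup G) c x → deg p G c x = p + 1 := by
    intro x hx
    obtain ⟨g, g1, g2, -⟩ := hx.ex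
    obtain ⟨m, hm, e⟩ := exists_nrm h.tr g1 hc
    have ha : Fx (P : Subgroup G) (m • g • x) := hm.fx_iff.mpr g2
    have hI : II p (P : Subgroup G) c (m • g • x) := e ▸ (hx.smul g).smul m
    have e1 : deg p G c (m • g • x) = deg p G c x := by
      conv_lhs => rw [← e]
      rw [deg_smul, deg_smul]
    generalize m • g • x = a at ha hI e1
    obtain ⟨hI', e2⟩ := h.symm hI
    rw [← e1, ← e2]
    obtain ⟨z, hz, hz'⟩ := h.E0 hd hI.ne
    have hza : II p (P : Subgroup G) a z := by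
      by_contra h1
      refine hz' (mem_EE.mpr ⟨?_, h1⟩)
      rintro rfl
      exact (mem_EE.mp hz).2 hI
    have hW : orb (UU p G a c) z ⊆ EE p (P : Subgroup G) c :=
      orb_subset (fun u hu => e9_inv u (UU_le c a (by rwa [UU_comm] at hu))) hz
    have hk : ∀ k, Rg p (P : Subgroup G) (orb (UU p G a c) z) k → k = p := fun k hk => by
      have h1 := hk.cnt
      have : mv (P : Subgroup G) (orb (UU p G a c) z) = orb (UU p G a c) z := by
        ext y
        exact ⟨fun hy => (mem_mv.mp hy).1, fun hy => mem_mv.mpr ⟨hy, hn y (hW hy)⟩⟩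
      rw [this] at h1
      exact Nat.eq_of_mul_eq_mul_left (card_pos.mpr ⟨z, self_mem_orb _ _⟩) h1
    by_cases hB : z ∈ Bc p G a c
    · have := hk _ (h.rgU ha hc hI' hB fun hl => hn z hz fun k hk => mem_ln.mp hl k (le_UU ha hc hk))
      have := hI'.deg_ge
      omega
    · have := hk _ (h.rgU' ha hc hI' hza hB)
      have := hza.deg_ge
      omega
  set I := univ.filter fun x => II p (P : Subgroup G) c x with hI
  have hIi : Inv (NN p G c) I := fun g hg x hx =>
    mem_filter.mpr ⟨mem_univ _, e9_II hg (mem_filter.mp hx).2⟩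
  have hR : Rg p (P : Subgroup G) I (p + 1) := by
    refine Rg.of_orbs (Nat.le_succ p) hIi fun x hx => ?_
    have hx' := (mem_filter.mp hx).2
    have := PR hc hx' (le_NN hc) le_rfl (Sy.mvN h.tr h.prim h.mvu hc hx'.ne)
    rwa [show (orb (NN p G c) (ln p G c x)).card = p + 1 from hdeg x hx'] at this
  have hf : p ≤ (fx (P : Subgroup G) I).card := by
    have : fx (P : Subgroup G) univ ⊆ insert c (fx (P : Subgroup G) I) := fun x hx => by
      by_cases e : x = c
      · simp [e]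
      refine mem_insert_of_mem (mem_fx.mpr ⟨mem_filter.mpr ⟨mem_univ _, ?_⟩, (mem_fx.mp hx).2⟩)
      by_contra h1
      exact hn x (mem_EE.mpr ⟨e, h1⟩) (mem_fx.mp hx).2
    have h1 := (card_le_card this).trans (card_insert_le _ _)
    have := h.big
    omega
  have hdj : Disjoint I (EE p (P : Subgroup G) c) :=
    disjoint_left.mpr fun x hx hx' => (mem_EE.mp hx').2 (mem_filter.mp hx).2
  have hg := (h.g1 c hc (I ∪ EE p (P : Subgroup G) c) (fun g hg x hx => by
    rcases mem_union.mp hx with hx | hx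
    · exact mem_union_left _ (hIi g hg x hx)
    · exact mem_union_right _ (e9_inv g hg x hx)) (fun hx => by
    rcases mem_union.mp hx with hx | hx
    · exact (mem_filter.mp hx).2.ne rfl
    · exact (mem_EE.mp hx).1 rfl)).2
  rw [dl, sum_union hdj] at hg
  have h1 := (h.g2 c hc d hd).2.1
  rw [h.E_orb hc hd] at h1
  have h2 := hR.dl
  have h4 : ((mv (P : Subgroup G) I).card : ℚ) * (p + 1) = I.card * p := by exact_mod_cast hR.cnt
  have h5 : ((fx (P : Subgroup G) I).card : ℚ) + (mv (P : Subgroup G) I).card = I.card := by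
    exact_mod_cast card_fx_mv (P : Subgroup G) I
  have h6 : (p : ℚ) ≤ (fx (P : Subgroup G) I).card := by exact_mod_cast hf
  change dl p (P : Subgroup G) I + dl p (P : Subgroup G) (EE p (P : Subgroup G) c) < _ at hg
  push_cast at h2
  have h7 : (I.card : ℚ) = (fx (P : Subgroup G) I).card * (p + 1) := by nlinarith
  have h8 : dl p (P : Subgroup G) I = (fx (P : Subgroup G) I).card * (p - 2) := by
    refine mul_right_cancel₀ (b := (p : ℚ) + 1) (by positivity) ?_
    rw [h2, h7]; ring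
  nlinarith

theorem Efix {c d x : Ω} (hc : Fx (P : Subgroup G) c) (hdF : Fx (P : Subgroup G) d)
    (hd : d ∈ EE p (P : Subgroup G) c) (hx : x ∈ EE p (P : Subgroup G) c) (hl : x ∈ ln p G c d) :
    x = d := by
  have hE := h.E_orb hc hd
  have hP := (h.g2 c hc d hd).1
  rw [hE] at hP
  have hs : ∀ g ∈ NN p G c, ∀ y, ln p G c (g • y) = g • ln p G c y := fun g hg y => by
    rw [← ln_smul, NN_fix hg]
  rcases e9_fib hP e9_inv (ln p G c) (fun g hg y _ => hs g hg y) with h1 | h1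
  · refine h1 hx hd (eq_of_subset_of_card_le (fun z hz => mem_ln.mpr fun u hu => ?_) ?_)
    · refine Op_fix (fun y hy hy' => ?_) u hu
      have h2 := hy.2 c (by simp)
      exact mem_ln.mp hz y (mem_UU hy' h2 (mem_ln.mp hl y (mem_UU hy' h2 (hy.2 d (by simp)))))
    · rw [← hE] at hx
      obtain ⟨g, hg, rfl⟩ := mem_orb.mp hx
      rw [hs g hg, card_smul_finset]
  · obtain ⟨z, hz, hz'⟩ := Sy.mvN h.tr h.prim h.mvu hc (mem_EE.mp hd).1
    rw [hE] at hz
    exact (hz' fun k hk => mem_ln.mp (h1 z hz d hd ▸ right_mem_ln c z) k (le_UU hc hdF hk)).elim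

theorem E2 (hp2 : p ≠ 2) {a c d : Ω} (hc : Fx (P : Subgroup G) c) (hdF : Fx (P : Subgroup G) d)
    (hd : d ∈ EE p (P : Subgroup G) c) (hI : II p (P : Subgroup G) c a) :
    Orb (UU p G c d) (cls p G c a) := by
  classical
  have h3 := e9_p3 hp2
  have hq : (3 : ℚ) ≤ p := by exact_mod_cast h3
  have hC := hI.cyc hc
  have hPV : (P : Subgroup G) ≤ UU p G c d := le_UU hc hdF
  have hinv : Inv (UU p G c d) (cls p G c a) := fun u hu => hC.orb.inv u (UU_le c d hu)
  suffices hs : ∀ l ∈ cls p G c a, ¬ Fx (UU p G c d) l from ⟨hinv, fun x hx y hy =>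
    mem_orb.mp (C2 (X := fixS ⊤ {c, d}) (hPV.trans Op_le) (fun u hu => hinv u (hPV hu)) hinv hC.mvc
      hx hy (hs x hx) (hs y hy))⟩
  intro l hl hf
  obtain ⟨g, hg, rfl⟩ := mem_cls.mp hl
  have hI' : II p (P : Subgroup G) c (g • a) := e9_II hg hI
  generalize g • a = b at hl hf hI'
  generalize cls p G c a = Λ at hC hinv hl
  have hVb : ∀ u ∈ UU p G c d, u • b = b := Op_fix fun y hy hy' =>
    hI'.bt y hy' (hy.2 c (by simp)) (hf y (mem_Op hy hy'))
  have hb : Fx (P : Subgroup G) b := fun k hk => hVb k (hPV hk)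
  have hbd : II p (P : Subgroup G) b d := by
    refine (h.symm ?_).1
    by_contra h1
    refine hI'.ne (h.Efix hdF hc (h.E_symm hd) (mem_EE.mpr ⟨?_, h1⟩) ?_)
    · rintro rfl
      exact (mem_EE.mp hd).2 hI'
    · rw [ln_comm]; exact mem_ln.mpr hVb
  have hE := h.E_orb hc hd
  obtain ⟨hP, -, hg2⟩ := h.g2 c hc d hd
  let Φ : Ω → Finset (Finset Ω) := fun x => fx (UU p G c x) Λ
  have hΦ : ∀ g ∈ NN p G c, ∀ x, Φ (g • x) = g • Φ x := fun g hg x => by
    ext m
    rw [← inv_smul_mem_iff]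
    simp only [Φ, mem_fx]
    have hU : ∀ u, g * u * g⁻¹ ∈ UU p G c (g • x) ↔ u ∈ UU p G c x := fun u => by
      have := UU_smul (p := p) (a := c) (c := x) (g := g) (u := u)
      rwa [NN_fix hg] at this
    constructor
    · rintro ⟨h1, h2⟩
      refine ⟨hC.orb.inv _ (inv_mem hg) _ h1, fun u hu => ?_⟩
      have := h2 _ ((hU u).mpr hu)
      rwa [mul_smul, mul_smul, smul_eq_iff_eq_inv_smul] at this
    · rintro ⟨h1, h2⟩
      refine ⟨by simpa using hC.orb.inv _ hg _ h1, fun u hu => ?_⟩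
      have := h2 (g⁻¹ * u * g) ((hU _).mp (by simpa [mul_assoc] using hu))
      simpa [mul_smul] using this
  have hld : ln p G c b ∈ Φ d := mem_fx.mpr ⟨hl, hf⟩
  have hinj : Set.InjOn Φ (orb (NN p G c) d) := by
    refine (e9_fib hP (orb_orb _ _).inv Φ fun g hg x _ => hΦ g hg x).resolve_right fun h1 => ?_
    obtain ⟨m, hm⟩ : (mv (P : Subgroup G) Λ).Nonempty := card_pos.mp (by rw [hC.mvc]; omega)
    obtain ⟨hm1, hm2⟩ := mem_mv.mp hm
    obtain ⟨g, hg, rfl⟩ := hC.orb.tr _ hl m hm1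
    have : g • ln p G c b ∈ Φ (g • d) := by rw [hΦ g hg]; exact smul_mem_smul_finset hld
    rw [h1 _ (mem_orb.mpr ⟨g, hg, rfl⟩) d (self_mem_orb _ _)] at this
    exact hm2 fun k hk => (mem_fx.mp this).2 k (hPV hk)
  obtain ⟨c1, c2⟩ := e9_trans (le_NN (P := P) hc) Φ (fun g hg x _ => hΦ g hg x) hinj
  have c3 := card_fx_mv (P : Subgroup G) (orb (NN p G c) d)
  have c4 := card_fx_mv (P : Subgroup G) Λ
  have c5 := hC.mvc
  have hlF : Fx (P : Subgroup G) (ln p G c b) := fun k hk => hf k (hPV hk)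
  by_cases h1 : Φ d = {ln p G c b}
  · have e1 : orb (NN p G c) (Φ d) = Λ.image singleton := by
      ext t
      simp only [h1, mem_orb, mem_image, smul_finset_singleton]
      constructor
      · rintro ⟨g, hg, rfl⟩
        exact ⟨_, hC.orb.inv g hg _ hl, rfl⟩
      · rintro ⟨m, hm, rfl⟩
        obtain ⟨g, hg, rfl⟩ := hC.orb.tr _ hl m hm
        exact ⟨g, hg, rfl⟩
    have e2 : fx (P : Subgroup G) (Λ.image (singleton : _ → Finset (Finset Ω))) =
        (fx (P : Subgroup G) Λ).image singleton := by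
      ext t
      simp only [mem_fx, mem_image]
      constructor
      · rintro ⟨⟨m, hm, rfl⟩, h2⟩
        exact ⟨m, ⟨hm, fun k hk => by simpa using h2 k hk⟩, rfl⟩
      · rintro ⟨m, ⟨hm, h2⟩, rfl⟩
        exact ⟨⟨m, hm, rfl⟩, fun k hk => by simp [h2 k hk]⟩
    rw [e1, card_image_of_injective _ singleton_injective] at c1
    rw [e1, e2, card_image_of_injective _ singleton_injective] at c2
    have := hg2 (by omega)
    have : 0 < (fx (P : Subgroup G) Λ).card := card_pos.mpr ⟨_, mem_fx.mpr ⟨hl, hlF⟩⟩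
    omega
  obtain ⟨l2, hl2, hne⟩ : ∃ l2 ∈ Φ d, l2 ≠ ln p G c b := by
    by_contra h2
    push Not at h2
    exact h1 (eq_singleton_iff_unique_mem.mpr ⟨hld, h2⟩)
  obtain ⟨hl2Λ, hl2V⟩ := mem_fx.mp hl2
  have hl2F : Fx (P : Subgroup G) l2 := fun k hk => hl2V k (hPV hk)
  have hC1 := C1 hC hl hlF
  rw [hI'.Op_eq] at hC1
  have hl2' : l2 ∈ Λ \ {ln p G c b} := by simp [hl2Λ, hne]
  have hC2 := C1 hC1 hl2' hl2F
  have hXb : UU p G c b ≤ NN p G b := by rw [UU_comm]; exact UU_le b c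
  have hCb := hbd.cyc hb
  have hsub : orb (UU p G c b) (ln p G b d) ⊆ cls p G b d :=
    orb_subset (fun u hu => hCb.orb.inv u (hXb hu)) (self_mem_orb _ _)
  have hC0 : Cyc p (P : Subgroup G) (UU p G c b) (orb (UU p G c b) (ln p G b d)) := by
    refine ⟨hC1.le, orb_orb _ _, ?_, (card_le_card hsub).trans_lt hCb.lt⟩
    have m1 : Mv (P : Subgroup G) (orb (UU p G c b) (ln p G b d)) := by
      by_contra m1
      have : d ∈ ln p G c b := mem_ln.mpr (Op_fix fun y hy hy' => by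
        refine hbd.bt y hy' (hy.2 b (by simp)) ?_
        by_contra m2
        exact m1 (mv_orb (hC1.le.trans Op_le) (mem_Op hy hy') m2))
      exact (mem_EE.mp hd).2 (h.line1 hI' this (mem_EE.mp hd).1).1
    obtain ⟨z, hz, hz'⟩ := m1
    refine le_antisymm ?_ (Nat.le_of_dvd (card_pos.mpr ⟨z, mem_mv.mpr ⟨hz, hz'⟩⟩)
      (dvd_card_mv fun u hu => (orb_orb _ _).inv u (hC1.le hu)))
    exact le_of_le_of_eq
      (card_le_card fun y hy => mem_mv.mpr ⟨hsub (mem_mv.mp hy).1, (mem_mv.mp hy).2⟩) hCb.mvc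
  have hmv1 : Mv (P : Subgroup G) (Λ \ {ln p G c b}) := by
    obtain ⟨m, hm⟩ : (mv (P : Subgroup G) (Λ \ {ln p G c b})).Nonempty :=
      card_pos.mp (by rw [hC1.mvc]; omega)
    exact ⟨m, mem_mv.mp hm⟩
  have hV : ∀ y ∈ UU p G c b, pe p y → y • ln p G b d = ln p G b d → y ∈ UU p G c d :=
    fun y hy hy' e => mem_UU hy' (UU_fix hy).1 (hbd.bt y hy' (UU_fix hy).2 e)
  have h4 := C3 hC0 hC1.orb hmv1 (self_mem_orb _ _)
    (fun k hk => by rw [← ln_smul, hb k hk, hdF k hk]) hl2'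
    (Op_fix fun y hy hy' => hl2V y (hV y hy.1 hy' (hy.2 _ (by simp))))
  have h5 : Op p (fixS (UU p G c b) {l2}) ≤ UU p G c d :=
    Op_le_of fun y hy hy' => hV y hy.1 hy' (h4 y (mem_Op hy hy'))
  have e0 : Φ d = {ln p G c b, l2} := by
    refine Subset.antisymm (fun m hm => ?_) (by simp [insert_subset_iff, hld, hl2])
    by_contra h6
    simp only [mem_insert, mem_singleton, not_or] at h6
    obtain ⟨hm1, hm2⟩ := mem_fx.mp hm
    have hm3 : m ∈ (Λ \ {ln p G c b}) \ {l2} := by simp [hm1, h6]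
    have : mv (P : Subgroup G) ((Λ \ {ln p G c b}) \ {l2}) ⊆ {m} := fun z hz => by
      obtain ⟨u, hu, rfl⟩ := hC2.orb.tr m hm3 z (mem_mv.mp hz).1
      simp [hm2 u (h5 hu)]
    have := card_le_card this
    rw [hC2.mvc, card_singleton] at this
    omega
  have e1 : powersetCard 2 Λ ⊆ orb (NN p G c) (Φ d) := fun t ht => by
    obtain ⟨ht1, ht2⟩ := mem_powersetCard.mp ht
    obtain ⟨u, v, huv, rfl⟩ := card_eq_two.mp ht2
    obtain ⟨g, hg, rfl⟩ := hC.orb.tr _ hl u (ht1 (by simp))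
    have hv : g⁻¹ • v ∈ Λ \ {ln p G c b} := by
      refine mem_sdiff.mpr ⟨hC.orb.inv _ (inv_mem hg) _ (ht1 (by simp)), fun e => huv ?_⟩
      rw [← mem_singleton.mp e, smul_inv_smul]
    obtain ⟨w, hw, e⟩ := hC1.orb.tr _ hl2' _ hv
    refine mem_orb.mpr ⟨g * w, mul_mem hg (UU_le c b hw), ?_⟩
    have : w • ln p G c b = ln p G c b := by rw [← ln_smul, (UU_fix hw).1, (UU_fix hw).2]
    rw [e0, smul_finset_insert, smul_finset_singleton, mul_smul, mul_smul, this, e, smul_inv_smul]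
  have e2 : fx (P : Subgroup G) (orb (NN p G c) (Φ d)) ⊆ powersetCard 2 (fx (P : Subgroup G) Λ) :=
    fun t ht => by
    obtain ⟨ht1, ht2⟩ := mem_fx.mp ht
    obtain ⟨g, hg, rfl⟩ := mem_orb.mp ht1
    have hc2 : (g • Φ d).card = 2 := by rw [card_smul_finset, e0, card_pair hne.symm]
    refine mem_powersetCard.mpr ⟨fun m hm => mem_fx.mpr ⟨?_, ?_⟩, hc2⟩
    · obtain ⟨z, hz, rfl⟩ := mem_smul_finset.mp hm
      exact hC.orb.inv g hg z (mem_fx.mp hz).1
    · by_contra h6
      have h7 : orb (P : Subgroup G) m ⊆ g • Φ d := fun z hz => by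
        obtain ⟨k, hk, rfl⟩ := mem_orb.mp hz
        rw [← ht2 k hk]
        exact smul_mem_smul_finset hm
      have := Nat.le_of_dvd (card_pos.mpr ⟨m, self_mem_orb _ _⟩) (dvd_card_orb h6)
      have := card_le_card h7
      omega
  have d1 := card_le_card e1
  have d2 := card_le_card e2
  rw [card_powersetCard, ← c1] at d1
  rw [card_powersetCard, ← c2] at d2
  have d3 := (h.g1 c hc _ (orb_orb (NN p G c) d).inv (by rw [hE]; simp)).2
  have d4 := dl_ge (p := p) (K := (P : Subgroup G)) (orb (NN p G c) d)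
  have d5 := hC.lt
  have d6 : 0 < (fx (P : Subgroup G) Λ).card := card_pos.mpr ⟨_, mem_fx.mpr ⟨hl, hlF⟩⟩
  generalize (fx (P : Subgroup G) Λ).card = φ at *
  generalize (fx (P : Subgroup G) (orb (NN p G c) d)).card = f at *
  generalize (mv (P : Subgroup G) (orb (NN p G c) d)).card = μ at *
  rw [← c3, ← c4, c5] at d1
  have q1 : ((φ + p).choose 2 : ℚ) ≤ f + μ := by exact_mod_cast d1
  have q2 : (f : ℚ) ≤ (φ.choose 2 : ℚ) := by exact_mod_cast d2
  rw [Nat.cast_choose_two] at q1 q2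
  push_cast at q1
  have q3 : (φ : ℚ) + 1 ≤ p := by exact_mod_cast (by omega : φ + 1 ≤ p)
  have q4 : (1 : ℚ) ≤ φ := by exact_mod_cast d6
  have q5 : (p : ℚ) * (p + 2 * φ - 1) / 2 ≤ μ := by nlinarith
  have q6 : (p + 2 * φ - 1) / 2 * ((p : ℚ) - 1) ≤ μ * (((p : ℚ) - 1) / p) := by
    have : (p + 2 * φ - 1) / 2 * ((p : ℚ) - 1) = (p * (p + 2 * φ - 1) / 2) * (((p : ℚ) - 1) / p) := by
      field_simp
    rw [this]
    exact mul_le_mul_of_nonneg_right q5 (div_nonneg (by linarith) (by linarith))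
  nlinarith

end Geo

end Cfsg.Agent.L0.Sy
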