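import Cfsg.Agent.H9.SyE
import Cfsg.Agent.H5.SyTA

/-! S3580: the non-collinear points, second part. -/

set_option autoImplicit false
set_option linter.unusedSectionVars false

namespace Cfsg.Agent.L0.Sy

open Finset Pn
open scoped Pointwise

variable {G : Type} [Group G] [Finite G] {Ω : Type} [Fintype Ω] [DecidableEq Ω] [MulAction G Ω]
  {p : ℕ} [hp : Fact p.Prime] {P : Sylow p G} {K X : Subgroup G} {O W : Finset Ω}

theorem f9_EE {c d : Ω} (g : G) : g • d ∈ EE p K (g • c) ↔ d ∈ EE p K c := by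
  rw [EE_smul, smul_mem_smul_finset_iff]

theorem f9_Bc {a c d : Ω} (g : G) : g • d ∈ Bc p G (g • a) (g • c) ↔ d ∈ Bc p G a c := by
  rw [Bc_smul, smul_mem_smul_finset_iff]

theorem f9_ln {a c d : Ω} (g : G) : g • d ∈ ln p G (g • a) (g • c) ↔ d ∈ ln p G a c := by
  rw [ln_smul, smul_mem_smul_finset_iff]

theorem f9_Binv {a c d : Ω} {g : G} (hg : g ∈ NN p G a) (hd : d ∈ Bc p G a c) : g • d ∈ Bc p G a c := by
  obtain ⟨m, hm, hd⟩ := mem_Bc.mp hd
  exact mem_Bc.mpr ⟨g • m, (orb_orb _ _).inv g hg m hm, smul_mem_smul_finset hd⟩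

theorem f9_lB {a c d : Ω} (hd : d ∈ ln p G a c) : d ∈ Bc p G a c :=
  mem_Bc.mpr ⟨_, self_mem_orb _ _, hd⟩

theorem f9_nl {a c d : Ω} (hl : d ∉ ln p G a c) : d ≠ a := by
  rintro rfl; exact hl (left_mem_ln _ _)

theorem f9_nr {a c d : Ω} (hl : d ∉ ln p G a c) : d ≠ c := by
  rintro rfl; exact hl (right_mem_ln _ _)

theorem f9_cls {a c c' : Ω} (e : ln p G a c = ln p G a c') : cls p G a c = cls p G a c' := by
  rw [cls, cls, e]

theorem f9_BcE {a c c' : Ω} (e : ln p G a c = ln p G a c') : Bc p G a c = Bc p G a c' := by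
  rw [Bc, Bc, f9_cls e]

theorem f9_lnfix {a c : Ω} {u : G} (ha : u • a = a) (hc : u • c = c) : u • ln p G a c = ln p G a c := by
  rw [← ln_smul, ha, hc]

theorem f9_le {a c : Ω} : UU p G a c ≤ NN p G c := by rw [UU_comm]; exact UU_le c a

theorem f9_fx {k : ℕ} (h : Rg p K W k) (hk : p < k) (hW : W.Nonempty) : ∃ x ∈ W, Fx K x := by
  by_contra hn
  push Not at hn
  have h1 := h.cnt
  have : mv K W = W := by
    ext y
    exact ⟨fun hy => (mem_mv.mp hy).1, fun hy => mem_mv.mpr ⟨hy, hn y hy⟩⟩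
  rw [this] at h1
  have := Nat.eq_of_mul_eq_mul_left (card_pos.mpr hW) h1
  omega

theorem f9_nofix {Λ : Finset Ω} (h : Cyc p K X Λ) {m : Ω} (hm : m ∈ Λ) (hf : ∀ u ∈ X, u • m = m) :
    False := by
  have : mv K Λ ⊆ {m} := fun z hz => by
    obtain ⟨u, hu, rfl⟩ := h.orb.tr m hm z (mem_mv.mp hz).1
    simp [hf u hu]
  have h1 := card_le_card this
  rw [h.mvc, card_singleton] at h1
  have := hp.out.two_le
  omega

namespace Geo
variable (h : Geo p (P : Subgroup G) Ω) (hp2 : p ≠ 2)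
include h

theorem exF : ∃ c : Ω, Fx (P : Subgroup G) c := by
  obtain ⟨c, hc⟩ : (fx (P : Subgroup G) (univ : Finset Ω)).Nonempty :=
    card_pos.mp (by have := h.big; omega)
  exact ⟨c, (mem_fx.mp hc).2⟩

theorem Ene {c d : Ω} (hd : d ∈ EE p (P : Subgroup G) c) (u : Ω) : ∃ e, e ∈ EE p (P : Subgroup G) u := by
  obtain ⟨g, -, rfl⟩ := h.tr.tr c (mem_univ _) u (mem_univ _)
  exact ⟨_, (f9_EE g).mpr hd⟩

theorem E0' {a c d : Ω} (hd : d ∈ EE p (P : Subgroup G) c) (hI : II p (P : Subgroup G) a c) :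
    ∃ e ∈ EE p (P : Subgroup G) c, II p (P : Subgroup G) a e := by
  obtain ⟨z, hz, hz'⟩ := h.E0 hd hI.ne.symm
  refine ⟨z, hz, ?_⟩
  by_contra h1
  refine hz' (mem_EE.mpr ⟨?_, h1⟩)
  rintro rfl
  exact (mem_EE.mp hz).2 (h.symm hI).1

theorem nl {a c d : Ω} (hd : d ∈ EE p (P : Subgroup G) c) (hI : II p (P : Subgroup G) a c) :
    d ∉ ln p G a c := fun hl =>
  (mem_EE.mp hd).2 (h.line1 (h.symm hI).1 (by rwa [ln_comm]) (mem_EE.mp hd).1).1

include hp2

theorem Epair {c d : Ω} (hd : d ∈ EE p (P : Subgroup G) c) :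
    ∃ g : G, Fx (P : Subgroup G) (g • c) ∧ Fx (P : Subgroup G) (g • d) := by
  obtain ⟨c0, hc⟩ := h.exF
  obtain ⟨g, -, rfl⟩ := h.tr.tr c (mem_univ _) c0 (mem_univ _)
  have h1 := (f9_EE g).mpr hd
  obtain ⟨e, he, he'⟩ := h.E1 hp2 hc h1
  rw [← h.E_orb hc h1] at he
  obtain ⟨n, hn, rfl⟩ := mem_orb.mp he
  exact ⟨n * g, by rwa [mul_smul, NN_fix hn], by rwa [mul_smul]⟩

theorem E2' {a c d : Ω} (hd : d ∈ EE p (P : Subgroup G) c) (hI : II p (P : Subgroup G) c a)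
    {m : Finset Ω} (hm : m ∈ cls p G c a) : ∃ u ∈ UU p G c d, u • ln p G c a = m := by
  obtain ⟨g, h1, h2⟩ := h.Epair hp2 hd
  obtain ⟨u, hu, e⟩ := (h.E2 hp2 h1 h2 ((f9_EE g).mpr hd) (hI.smul g)).tr _ (self_mem_orb _ _) (g • m)
    (by rw [cls_smul]; exact smul_mem_smul_finset hm)
  refine ⟨g⁻¹ * u * g, (UU_smul (g := g)).mp (by simpa [mul_assoc] using hu), ?_⟩
  rw [mul_smul, mul_smul, ← ln_smul, e, inv_smul_smul]

theorem Emv {a c d : Ω} (hd : d ∈ EE p (P : Subgroup G) c) (hI : II p (P : Subgroup G) c a) :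
    ∃ u ∈ UU p G c d, u • a ≠ a := by
  by_contra hn
  push Not at hn
  have : cls p G c a ⊆ {ln p G c a} := fun m hm => by
    obtain ⟨u, hu, rfl⟩ := h.E2' hp2 hd hI hm
    rw [f9_lnfix (UU_fix hu).1 (hn u hu), mem_singleton]
  have h1 := card_le_card this
  have h2 := hI.deg_ge
  have := hp.out.two_le
  rw [card_singleton] at h1
  unfold deg at h2
  omega

theorem E3s {a c x y : Ω} (hc : Fx (P : Subgroup G) c) (hI : II p (P : Subgroup G) c a)
    (hx : x ∈ EE p (P : Subgroup G) c) (hy : y ∈ EE p (P : Subgroup G) c) :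
    ∃ s ∈ NN p G c, s • ln p G c a = ln p G c a ∧ s • x = y := by
  have hy' := hy
  rw [← h.E_orb hc hx] at hy'
  obtain ⟨g, hg, e⟩ := mem_orb.mp hy'
  obtain ⟨u, hu, e'⟩ := h.E2' hp2 hy hI (m := g • ln p G c a) (mem_orb.mpr ⟨g, hg, rfl⟩)
  refine ⟨u⁻¹ * g, mul_mem (inv_mem (UU_le c y hu)) hg, ?_, ?_⟩
  · rw [mul_smul, ← e', inv_smul_smul]
  · rw [mul_smul, e, inv_smul_eq_iff, (UU_fix hu).2]

theorem E3r {a c d : Ω} {k : ℕ} (ha : Fx (P : Subgroup G) a) (hc : Fx (P : Subgroup G) c)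
    (hI : II p (P : Subgroup G) c a) (hd : d ∈ EE p (P : Subgroup G) c)
    (hR : Rg p (P : Subgroup G) (orb (UU p G c a) d) k) :
    Rg p (P : Subgroup G) (EE p (P : Subgroup G) c) k := by
  refine Rg.of_orbs hR.le (fun u hu => e9_inv u (UU_le c a hu)) fun y hy => ?_
  obtain ⟨s, hs, e1, rfl⟩ := h.E3s hp2 hc hI hd hy
  set Y := fixS (NN p G c) {ln p G c a} with hY
  have hU : Op p Y = UU p G c a := hI.Op_eq
  have hsY : s ∈ Y := ⟨hs, by simpa using e1⟩
  have hPY : (P : Subgroup G) ≤ Y := (le_UU hc ha).trans (hU ▸ Op_le)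
  obtain ⟨u, hu, m, hm, rfl⟩ := frat hPY (s := s) fun k hk => mul_mem (mul_mem hsY (hPY hk)) (inv_mem hsY)
  have hmY : m ∈ Y := by simpa using mul_mem (inv_mem (Op_le hu)) hsY
  have hN : ∀ g ∈ Y, ∀ v ∈ UU p G c a, g * v * g⁻¹ ∈ UU p G c a := fun g hg v hv => by
    rw [← hU] at hv ⊢
    exact Op_conj (fun y hy => mul_mem (mul_mem hg hy) (inv_mem hg)) hv
  have e : orb (UU p G c a) ((u * m) • d) = m • orb (UU p G c a) d := by
    rw [orb_eq (x := m • d) (mem_orb.mpr ⟨u, hU ▸ hu, (mul_smul _ _ _).symm⟩)]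
    ext z
    simp only [mem_orb, mem_smul_finset]
    constructor
    · rintro ⟨v, hv, rfl⟩
      exact ⟨_, ⟨_, hN m⁻¹ (inv_mem hmY) v hv, rfl⟩, by simp [mul_smul]⟩
    · rintro ⟨_, ⟨v, hv, rfl⟩, rfl⟩
      exact ⟨_, hN m hmY v hv, by simp [mul_smul]⟩
  rw [e]
  exact hm.rg hR

theorem E3c {a c d : Ω} (ha : Fx (P : Subgroup G) a) (hc : Fx (P : Subgroup G) c)
    (hI : II p (P : Subgroup G) a c) (hd : d ∈ EE p (P : Subgroup G) c) (hI' : II p (P : Subgroup G) a d) :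
    (d ∈ Bc p G a c ∧ Rg p (P : Subgroup G) (EE p (P : Subgroup G) c) (deg p G a c - 1)) ∨
      (d ∉ Bc p G a c ∧ Rg p (P : Subgroup G) (EE p (P : Subgroup G) c) (deg p G a d)) := by
  by_cases hB : d ∈ Bc p G a c
  · exact Or.inl ⟨hB, h.E3r hp2 ha hc (h.symm hI).1 hd
      (by rw [UU_comm]; exact h.rgU ha hc hI hB (h.nl hd hI))⟩
  · exact Or.inr ⟨hB, h.E3r hp2 ha hc (h.symm hI).1 hd
      (by rw [UU_comm]; exact h.rgU' ha hc hI hI' hB)⟩

theorem E3k {c d : Ω} (hd : d ∈ EE p (P : Subgroup G) c) :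
    ∃ k, ∀ u : Ω, Fx (P : Subgroup G) u → Rg p (P : Subgroup G) (EE p (P : Subgroup G) u) k := by
  obtain ⟨a, b, hI⟩ := h.g3
  obtain ⟨g, h1, h2, -⟩ := hI.ex
  obtain ⟨e, he⟩ := h.Ene hd (g • b)
  obtain ⟨z, hz, hz'⟩ := h.E0' he (hI.smul g)
  obtain ⟨k, hk⟩ : ∃ k, Rg p (P : Subgroup G) (EE p (P : Subgroup G) (g • b)) k := by
    rcases h.E3c hp2 h1 h2 (hI.smul g) hz hz' with h3 | h3 <;> exact ⟨_, h3.2⟩
  refine ⟨k, fun u hu => ?_⟩
  obtain ⟨m, hm, rfl⟩ := exists_nrm h.tr h2 hu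
  rw [EE_smul]
  exact hm.rg hk

theorem E4 {a c d : Ω} (hd : d ∈ EE p (P : Subgroup G) c) (h1 : II p (P : Subgroup G) c a)
    (h2 : II p (P : Subgroup G) d a) : deg p G c a = deg p G d a := by
  obtain ⟨g, hc, hdF⟩ := h.Epair hp2 hd
  rw [← deg_smul g c, ← deg_smul g d]
  replace hd := (f9_EE g).mpr hd
  replace h1 := h1.smul g
  replace h2 := h2.smul g
  generalize g • c = c at *
  generalize g • d = d at *
  generalize g • a = a at *
  have key : ∀ c d : Ω, Fx (P : Subgroup G) c → Fx (P : Subgroup G) d → d ∈ EE p (P : Subgroup G) c →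
      II p (P : Subgroup G) c a → Rg p (P : Subgroup G) (orb (UU p G c d) a) (deg p G c a) := by
    intro c d hc hdF hd h1
    obtain ⟨u, hu, hm⟩ := h.Emv hp2 hd h1
    have := PR hc h1 (le_UU hc hdF) (UU_le c d) (mv_orb ((le_UU hc hdF).trans Op_le) hu hm)
    have e : orb (UU p G c d) (ln p G c a) = cls p G c a := Subset.antisymm
      (orb_subset (fun u hu => (orb_orb _ _).inv u (UU_le c d hu)) (self_mem_orb _ _))
      fun m hm => mem_orb.mpr (h.E2' hp2 hd h1 hm)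
    rwa [e] at this
  have k2 := key d c hdF hc (h.E_symm hd) h2
  rw [UU_comm] at k2
  exact (key c d hc hdF hd h1).uniq k2 ⟨a, self_mem_orb _ _⟩

theorem ker {a c d : Ω} (hd : d ∈ EE p (P : Subgroup G) c) (h1 : II p (P : Subgroup G) c a)
    (h2 : II p (P : Subgroup G) d a) {y : G} (hy : pe p y) (hc : y • c = c) (hd' : y • d = d)
    (hK : ∀ m ∈ cls p G c a, y • m = m) : ∀ m ∈ cls p G d a, y • m = m := by
  intro m hm
  obtain ⟨u, hu, rfl⟩ := h.E2' hp2 (h.E_symm hd) h2 hm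
  rw [← ln_smul, (UU_fix hu).1]
  refine f9_lnfix hd' ((e9_II (f9_le hu) h1).bt y hy hc (hK _ (mem_cls.mpr ⟨u, f9_le hu, rfl⟩)))

variable {k : ℕ}
  (hk : ∀ u : Ω, Fx (P : Subgroup G) u → Rg p (P : Subgroup G) (EE p (P : Subgroup G) u) k)
include hk

theorem E3g {a c d : Ω} (hI : II p (P : Subgroup G) a c) (hd : d ∈ EE p (P : Subgroup G) c)
    (hI' : II p (P : Subgroup G) a d) :
    (d ∈ Bc p G a c ∧ deg p G a c = k + 1) ∨ (d ∉ Bc p G a c ∧ deg p G a d = k) := by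
  obtain ⟨g, h1, h2, -⟩ := hI.ex
  have hd' := (f9_EE g).mpr hd
  rcases h.E3c hp2 h1 h2 (hI.smul g) hd' (hI'.smul g) with ⟨h3, h4⟩ | ⟨h3, h4⟩
  · have := h4.uniq (hk _ h2) ⟨_, hd'⟩
    have h5 := hI.deg_ge
    rw [deg_smul] at this
    exact Or.inl ⟨(f9_Bc g).mp h3, by omega⟩
  · have := h4.uniq (hk _ h2) ⟨_, hd'⟩
    rw [deg_smul] at this
    exact Or.inr ⟨fun h5 => h3 ((f9_Bc g).mpr h5), this⟩

theorem kgt {c d : Ω} (hc : Fx (P : Subgroup G) c) (hd : d ∈ EE p (P : Subgroup G) c) :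
    p < k ∧ (EE p (P : Subgroup G) c).card ≠ k := by
  obtain ⟨e, he, he'⟩ := h.E1 hp2 hc hd
  have h1 := (hk c hc).cnt
  have h2 := card_fx_mv (P : Subgroup G) (EE p (P : Subgroup G) c)
  have h3 : 0 < (fx (P : Subgroup G) (EE p (P : Subgroup G) c)).card :=
    card_pos.mpr ⟨e, mem_fx.mpr ⟨he, he'⟩⟩
  have h4 : p < k := by
    refine lt_of_le_of_ne (hk c hc).le fun e => ?_
    rw [← e] at h1
    have := Nat.eq_of_mul_eq_mul_right hp.out.pos h1
    omega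
  refine ⟨h4, fun e => ?_⟩
  rw [e, mul_comm] at h1
  have h5 := (h.g2 c hc d hd).2.2
  rw [h.E_orb hc hd] at h5
  have := h5 (Nat.eq_of_mul_eq_mul_left (by omega) h1)
  omega

variable {c0 d0 : Ω} (h0 : d0 ∈ EE p (P : Subgroup G) c0)
include h0

theorem degs {a c : Ω} (hI : II p (P : Subgroup G) a c) : deg p G a c = k ∨ deg p G a c = k + 1 := by
  obtain ⟨e, he⟩ := h.Ene h0 c
  obtain ⟨d, hd, hI'⟩ := h.E0' he hI
  rcases h.E3g hp2 hk hI hd hI' with h1 | h1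
  · exact Or.inr h1.2
  · left
    rw [← (h.symm hI).2, h.E4 hp2 hd (h.symm hI).1 (h.symm hI').1, (h.symm hI').2, h1.2]

theorem E5 {a c : Ω} (hI : II p (P : Subgroup G) a c) (hd : deg p G a c = k) : False := by
  have hM : ∀ a c : Ω, II p (P : Subgroup G) a c → deg p G a c = k → Mn p (P : Subgroup G) a c :=
    fun a c h1 h2 => ⟨h1, fun u v h3 => by have := h.degs hp2 hk h0 h3; omega⟩
  have hsub : ∀ a c : Ω, II p (P : Subgroup G) a c → deg p G a c = k → Bc p G a c ⊆ Bc p G c a := by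
    intro a c h1 h2 d hd
    obtain ⟨g, ha, hc, -⟩ := h1.ex
    rw [← f9_Bc g] at hd ⊢
    rw [← deg_smul g] at h2
    replace h1 := h1.smul g
    generalize g • c = c at *
    generalize g • d = d at *
    generalize g • a = a at *
    by_cases hl : d ∈ ln p G a c
    · exact f9_lB (by rwa [ln_comm])
    have h3 := (h.of_mem_Bc h1 hd (f9_nl hl)).1
    have h4 : II p (P : Subgroup G) c d := by
      by_contra h4
      rcases h.E3g hp2 hk h1 (mem_EE.mpr ⟨f9_nr hl, h4⟩) h3 with h5 | h5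
      · omega
      · exact h5.1 hd
    by_contra h5
    have r1 := h.rgU ha hc h1 hd hl
    have r2 := h.rgU' hc ha (h.symm h1).1 h4 h5
    rw [UU_comm] at r2
    have := r1.uniq r2 ⟨d, self_mem_orb _ _⟩
    have := h.degs hp2 hk h0 h4
    have := h1.deg_ge
    omega
  have hS : ∀ a c : Ω, Mn p (P : Subgroup G) a c → Bc p G a c = Bc p G c a := fun u v hm => by
    have h1 : deg p G u v = k := by
      have := hm.2 a c hI
      have := h.degs hp2 hk h0 hm.1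
      omega
    exact Subset.antisymm (hsub u v hm.1 h1) (hsub v u (h.symm hm.1).1 ((h.symm hm.1).2.trans h1))
  obtain ⟨e, he⟩ := h.Ene h0 c
  obtain ⟨d, hE, hI'⟩ := h.E0' he hI
  have h1 : deg p G a d = k := by
    rcases h.E3g hp2 hk hI hE hI' with h1 | h1
    · omega
    · exact h1.2
  obtain ⟨u, hu, hm⟩ := h.Emv hp2 hE (h.symm hI).1
  have b1 := (h.D1 hS (hM c a (h.symm hI).1 ((h.symm hI).2.trans hd)) (f9_lB (right_mem_ln c a))
    (f9_Binv (UU_le c d hu) (f9_lB (right_mem_ln c a))) hm.symm).2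
  have b2 := (h.D1 hS (hM d a (h.symm hI').1 ((h.symm hI').2.trans h1)) (f9_lB (right_mem_ln d a))
    (f9_Binv (f9_le hu) (f9_lB (right_mem_ln d a))) hm.symm).2
  have : d ∈ Bc p G c a := by rw [← b1, b2]; exact f9_lB (left_mem_ln d a)
  exact (mem_EE.mp hE).2 (h.of_mem_Bc (h.symm hI).1 this (mem_EE.mp hE).1).1

theorem deg1 {a c : Ω} (hI : II p (P : Subgroup G) a c) : deg p G a c = k + 1 :=
  (h.degs hp2 hk h0 hI).resolve_left (h.E5 hp2 hk h0 hI)

theorem E6v {a c : Ω} (ha : Fx (P : Subgroup G) a) (hc : Fx (P : Subgroup G) c)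
    (hI : II p (P : Subgroup G) a c) : ∃ d, ∃ V : Subgroup G, Fx (P : Subgroup G) d ∧
      d ∈ Bc p G a c ∧ d ∉ ln p G a c ∧ Cyc p (P : Subgroup G) V (cls p G c a \ {ln p G c a}) ∧
      V ≤ UU p G a d ∧ V ≤ UU p G a c := by
  obtain ⟨e, he⟩ := h.Ene h0 c
  obtain ⟨z, hz, hI'⟩ := h.E0' he hI
  have hB : z ∈ Bc p G a c := by
    rcases h.E3g hp2 hk hI hz hI' with h1 | h1
    · exact h1.1
    · have := h.deg1 hp2 hk h0 hI'
      omega
  obtain ⟨d, hd, hdF⟩ := f9_fx (h.rgU ha hc hI hB (h.nl hz hI))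
    (by rw [h.deg1 hp2 hk h0 hI]; exact (h.kgt hp2 hk hc he).1) ⟨z, self_mem_orb _ _⟩
  obtain ⟨u, hu, rfl⟩ := mem_orb.mp hd
  have hE : u • z ∈ EE p (P : Subgroup G) c := e9_inv u (f9_le hu) z hz
  have hI2 := (h.symm hI).1
  have hC := hI2.cyc hc
  have hC' : Cyc p (P : Subgroup G) (UU p G c (u • z)) (cls p G c a) :=
    ⟨le_UU hc hdF, h.E2 hp2 hc hdF hE hI2, hC.mvc, hC.lt⟩
  have hy : ∀ y ∈ fixS (UU p G c (u • z)) {ln p G c a}, pe p y → y • a = a := fun y hy hy' =>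
    hI2.bt y hy' (UU_fix hy.1).1 (hy.2 _ (by simp))
  exact ⟨u • z, _, hdF, f9_Binv (UU_le a c hu) hB, h.nl hE hI,
    C1 hC' (self_mem_orb _ _) (fun k hk => f9_lnfix (hc k hk) (ha k hk)),
    Op_le_of fun y h1 h2 => mem_UU h2 (hy y h1 h2) (UU_fix h1.1).2,
    Op_le_of fun y h1 h2 => mem_UU h2 (hy y h1 h2) (UU_fix h1.1).1⟩

theorem E6i {a c e : Ω} (hI : II p (P : Subgroup G) a c) (he : e ∈ Bc p G a c) (hl : e ∉ ln p G a c) :
    e ∈ EE p (P : Subgroup G) c := by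
  obtain ⟨g, ha, hc, -⟩ := hI.ex
  rw [← f9_Bc g] at he
  rw [← f9_ln g] at hl
  rw [← f9_EE g]
  replace hI := hI.smul g
  generalize g • c = c at *
  generalize g • e = e at *
  generalize g • a = a at *
  obtain ⟨d, V, -, hB, hdl, hC, hV1, hV2⟩ := h.E6v hp2 hk h0 ha hc hI
  refine mem_EE.mpr ⟨f9_nr hl, fun hI' => ?_⟩
  have h1 : ln p G a e ∈ orb (UU p G a c) (ln p G a d) := by
    rw [h.trU hI hB hdl]
    refine mem_sdiff.mpr ⟨(h.of_mem_Bc hI he (f9_nl hl)).2.2, fun e' => hl ?_⟩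
    rw [← mem_singleton.mp e']
    exact right_mem_ln a e
  obtain ⟨u, hu, e1⟩ := mem_orb.mp h1
  have hu' := inv_mem hu
  have h2 : u⁻¹ • e ∈ ln p G a d := by
    rw [inv_smul_mem_iff, e1]; exact right_mem_ln a e
  have h3 := e9_II (f9_le hu') hI'
  have h4 := f9_Binv (UU_le a c hu') he
  have h5 : u⁻¹ • e ∉ ln p G a c := by
    rwa [inv_smul_mem_iff, f9_lnfix (UU_fix hu).1 (UU_fix hu).2]
  generalize u⁻¹ • e = e at h2 h3 h4 h5
  have h6 : e ∈ Bc p G c a := by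
    by_contra h6
    have r1 := h.rgU ha hc hI h4 h5
    have r2 := h.rgU' hc ha (h.symm hI).1 h3 h6
    rw [UU_comm] at r2
    have := r1.uniq r2 ⟨e, self_mem_orb _ _⟩
    have := h.deg1 hp2 hk h0 hI
    have := h.deg1 hp2 hk h0 h3
    omega
  refine f9_nofix hC (m := ln p G c e) (mem_sdiff.mpr ⟨(h.of_mem_Bc (h.symm hI).1 h6 h3.ne).2.2,
    fun e' => h5 ?_⟩) fun v hv => f9_lnfix (UU_fix (hV2 hv)).2 (mem_ln.mp h2 v (hV1 hv))
  rw [ln_comm, ← mem_singleton.mp e']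
  exact right_mem_ln c e

theorem E6ii {a c : Ω} (hc : Fx (P : Subgroup G) c) (hI : II p (P : Subgroup G) c a) :
    3 ≤ (ln p G c a).card ∧ 4 * k ≤ (EE p (P : Subgroup G) c).card := by
  have hS : ∀ b ∈ ln p G c a, b ≠ c → II p (P : Subgroup G) b c ∧ ln p G b c = ln p G c a ∧
      Bc p G b c \ ln p G c a ⊆ EE p (P : Subgroup G) c ∧
      (Bc p G b c \ ln p G c a).card = ((ln p G c a).card - 1) * k := fun b hb hbc => by
    obtain ⟨h1, -, h2⟩ := h.line2 hI hb (left_mem_ln c a) hbc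
    refine ⟨h1, h2, fun x hx => h.E6i hp2 hk h0 h1 (mem_sdiff.mp hx).1 (by rw [h2]; exact (mem_sdiff.mp hx).2), ?_⟩
    have := (h.card_Bc h1).2
    rwa [h2, h.deg1 hp2 hk h0 h1, Nat.add_sub_cancel] at this
  obtain ⟨e, he⟩ := h.Ene h0 c
  obtain ⟨k1, k2⟩ := h.kgt hp2 hk hc he
  obtain ⟨a1, a2, a3, a4⟩ := hS a (right_mem_ln c a) hI.ne
  have hpair : ({c, a} : Finset Ω) ⊆ ln p G c a := by
    simp [insert_subset_iff, left_mem_ln, right_mem_ln]
  have h2 := card_le_card hpair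
  rw [card_pair hI.ne.symm] at h2
  have h3 : 3 ≤ (ln p G c a).card := by
    by_contra h3
    have e2 : (ln p G c a).card = 2 := by omega
    have e3 : ({c, a} : Finset Ω) = ln p G c a :=
      eq_of_subset_of_card_le hpair (by rw [card_pair hI.ne.symm, e2])
    rw [e2] at a4
    obtain ⟨d, hd⟩ : (Bc p G a c \ ln p G c a).Nonempty := card_pos.mp (by omega)
    refine k2 (le_antisymm ?_ (by have := card_le_card a3; omega))
    refine le_of_le_of_eq (card_le_card (t := Bc p G a c \ ln p G c a) fun y hy => ?_) (by omega)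
    obtain ⟨s, hs, e1, rfl⟩ := h.E3s hp2 hc hI (a3 hd) hy
    have hsa : s • a = a := by
      have : s • a ∈ ({c, a} : Finset Ω) := by
        rw [e3, ← e1]; exact smul_mem_smul_finset (right_mem_ln c a)
      rcases mem_insert.mp this with e4 | e4
      · rw [← NN_fix hs] at e4
        exact (hI.ne (smul_left_cancel s e4)).elim
      · exact mem_singleton.mp e4
    refine mem_sdiff.mpr ⟨?_, ?_⟩
    · have := (f9_Bc s).mpr (mem_sdiff.mp hd).1
      rwa [hsa, NN_fix hs] at this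
    · rw [← e1, smul_mem_smul_finset_iff]
      exact (mem_sdiff.mp hd).2
  refine ⟨h3, ?_⟩
  obtain ⟨b, hb, hb'⟩ := exists_mem_notMem_of_card_lt_card
    (s := ({c, a} : Finset Ω)) (t := ln p G c a) (by rw [card_pair hI.ne.symm]; omega)
  simp only [mem_insert, mem_singleton, not_or] at hb'
  obtain ⟨b1, b2, b3, b4⟩ := hS b hb hb'.1
  have hdj : Disjoint (Bc p G a c \ ln p G c a) (Bc p G b c \ ln p G c a) := by
    refine disjoint_left.mpr fun x hx hx' => ?_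
    obtain ⟨h4, -, h5⟩ := h.line2 hI (right_mem_ln c a) hb (Ne.symm hb'.2)
    have := h.E6i hp2 hk h0 h4 (e := x) (by rw [← f9_BcE (a2.trans h5.symm)]; exact (mem_sdiff.mp hx).1)
      (by rw [h5]; exact (mem_sdiff.mp hx).2)
    exact (mem_EE.mp this).2 (h.of_mem_Bc b1 (mem_sdiff.mp hx').1 (mem_EE.mp this).1).1
  have h6 := card_le_card (union_subset a3 b3)
  rw [card_union_of_disjoint hdj, a4, b4] at h6
  have : 2 * k ≤ ((ln p G c a).card - 1) * k := Nat.mul_le_mul_right _ (by omega)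
  omega

theorem E6iii {a c : Ω} (hc : Fx (P : Subgroup G) c) (hI : II p (P : Subgroup G) c a) : p + 3 ≤ k := by
  obtain ⟨h1, h2⟩ := h.E6ii hp2 hk h0 hc hI
  obtain ⟨e, he⟩ := h.Ene h0 c
  have k1 := (h.kgt hp2 hk hc he).1
  have hd := h.deg1 hp2 hk h0 hI
  have k2 := hI.lt
  obtain ⟨r1, r2⟩ := h.Bc_rg hc hI
  have c1 := (h.card_Bc hI).1
  have hdj : Disjoint (Bc p G c a \ {c}) (EE p (P : Subgroup G) c) := disjoint_left.mpr fun x hx hx' =>
    (mem_EE.mp hx').2 (h.of_mem_Bc hI (mem_sdiff.mp hx).1 (mem_EE.mp hx').1).1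
  have hg := (h.g1 c hc (Bc p G c a \ {c} ∪ EE p (P : Subgroup G) c) (fun g hg x hx => by
    rcases mem_union.mp hx with hx | hx
    · exact mem_union_left _ (r2 g hg x hx)
    · exact mem_union_right _ (e9_inv g hg x hx)) (by simp)).2
  rw [dl, sum_union hdj] at hg
  change dl p (P : Subgroup G) (Bc p G c a \ {c}) + dl p (P : Subgroup G) (EE p (P : Subgroup G) c) < _
    at hg
  have d1 := r1.dl
  have d2 := (hk c hc).dl
  rw [hd] at d1 c1 k2
  obtain ⟨l, hl⟩ : ∃ l, (ln p G c a).card = l + 3 := ⟨_, (Nat.sub_add_cancel h1).symm⟩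
  rw [c1, hl, show l + 3 - 1 = l + 2 from rfl] at d1
  push_cast at d1
  have q1 : (k : ℚ) + 2 ≤ 2 * p := by exact_mod_cast k2
  have q2 : (p : ℚ) < k := by exact_mod_cast k1
  have q3 : 4 * (k : ℚ) ≤ (EE p (P : Subgroup G) c).card := by exact_mod_cast h2
  have q4 : (0 : ℚ) < k := lt_of_le_of_lt (Nat.cast_nonneg p) q2
  have q5 : dl p (P : Subgroup G) (Bc p G c a \ {c}) = (l + 2) * (2 * p - 2 - k) := by
    refine mul_right_cancel₀ (b := (k : ℚ) + 1) (by positivity) ?_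
    rw [d1]; ring
  have q6 : 4 * (2 * (p : ℚ) - 1 - k) ≤ dl p (P : Subgroup G) (EE p (P : Subgroup G) c) := by
    refine le_of_mul_le_mul_right ?_ q4
    rw [d2]
    nlinarith
  have q7 : (0 : ℚ) ≤ l * (2 * p - 2 - k) := mul_nonneg (Nat.cast_nonneg l) (by linarith)
  have q8 : 5 * (p : ℚ) < 3 * k + 3 := by nlinarith
  have q9 : 5 * p < 3 * k + 3 := by exact_mod_cast q8
  have h3 := e9_p3 hp2
  have h4 : p ≠ 4 := fun e => by have := hp.out; rw [e] at this; exact absurd this (by decide)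
  omega

theorem E6iv {a c : Ω} (ha : Fx (P : Subgroup G) a) (hc : Fx (P : Subgroup G) c)
    (hI : II p (P : Subgroup G) a c) {y : G} (hy : y ∈ (P : Subgroup G))
    (hK : ∀ m ∈ cls p G a c, y • m = m) : ∀ m ∈ cls p G c a, y • m = m := by
  have h1 := (h.E6ii hp2 hk h0 ha hI).1
  have k1 := h.E6iii hp2 hk h0 ha hI
  obtain ⟨b, hb, hb'⟩ := exists_mem_notMem_of_card_lt_card
    (s := ({a, c} : Finset Ω)) (t := ln p G a c) (by rw [card_pair hI.ne.symm]; omega)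
  simp only [mem_insert, mem_singleton, not_or] at hb'
  have hbF : Fx (P : Subgroup G) b := fun u hu => mem_ln.mp hb u (le_UU ha hc hu)
  obtain ⟨i1, -, l1⟩ := h.line2 hI hb (left_mem_ln a c) hb'.1
  obtain ⟨i2, -, l2⟩ := h.line2 hI hb (right_mem_ln a c) hb'.2
  have hC := i1.cyc hbF
  obtain ⟨m, hm, hm'⟩ := exists_mem_notMem_of_card_lt_card
    (s := {ln p G a c}) (t := fx (P : Subgroup G) (cls p G b a)) (by
      have h2 := card_fx_mv (P : Subgroup G) (cls p G b a)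
      have h3 := h.deg1 hp2 hk h0 i1
      have h4 := hC.mvc
      unfold deg at h3
      rw [card_singleton]
      omega)
  obtain ⟨hm1, hm2⟩ := mem_fx.mp hm
  obtain ⟨g, hg, rfl⟩ := mem_cls.mp hm1
  have i3 := e9_II hg i1
  have hB : g • a ∈ Bc p G b a := f9_Binv hg (f9_lB (right_mem_ln b a))
  generalize g • a = z at *
  have hz : y • z = z := i3.bt y (pe_of_mem hy) (hbF y hy) (hm2 y hy)
  have hl : z ∉ ln p G b a := fun hl =>
    hm' (mem_singleton.mpr ((h.line1 i1 hl i3.ne).2.2.trans l1))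
  have e1 := h.E6i hp2 hk h0 i1 hB hl
  have e2 := h.E6i hp2 hk h0 i2 (e := z) (by rwa [← f9_BcE (l1.trans l2.symm)]) (by rwa [l2, ← l1])
  have s1 := h.ker hp2 e1 (h.symm i1).1 (h.symm i3).1 (pe_of_mem hy) (ha y hy) hz
    (by rwa [f9_cls (c' := c) (by rw [ln_comm, l1])])
  have s2 := h.ker hp2 (h.E_symm e2) (h.symm i3).1 (h.symm i2).1 (pe_of_mem hy) hz (hc y hy) s1
  rwa [f9_cls (c' := a) (by rw [ln_comm, l2, ln_comm])] at s2

omit hk h0 in
theorem Efin {c d : Ω} (hd : d ∈ EE p (P : Subgroup G) c) : False := by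
  obtain ⟨k, hk⟩ := h.E3k hp2 hd
  obtain ⟨a0, b0, hI⟩ := h.g3
  obtain ⟨g, ha, hb, -⟩ := hI.ex
  replace hI := hI.smul g
  generalize g • a0 = a at *
  generalize g • b0 = b at *
  obtain ⟨z, V, hz, hB, hl, hC, hV1, hV2⟩ := h.E6v hp2 hk hd ha hb hI
  have k1 := h.E6iii hp2 hk hd ha hI
  have d1 := h.deg1 hp2 hk hd hI
  have d2 := h.deg1 hp2 hk hd (h.symm hI).1
  unfold deg at d1 d2
  have c1 : (cls p G b a \ {ln p G b a}).card = k := by
    have : {ln p G b a} ⊆ cls p G b a := singleton_subset_iff.mpr (self_mem_orb _ _)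
    rw [card_sdiff_of_subset this, d2, card_singleton, Nat.add_sub_cancel]
  have hne : ln p G a b ≠ ln p G a z := fun e => hl (by rw [e]; exact right_mem_ln a z)
  have hsub : ({ln p G a b, ln p G a z} : Finset (Finset Ω)) ⊆ cls p G a b := by
    rw [insert_subset_iff, singleton_subset_iff]
    exact ⟨self_mem_orb _ _, (h.of_mem_Bc hI hB (f9_nl hl)).2.2⟩
  refine TA (A0 := cls p G a b \ {ln p G a b, ln p G a z}) hC (by omega) ?_ ?_ ?_
  · refine Inv.sdiff (fun u hu => (orb_orb _ _).inv u (UU_le a b (hV2 hu))) fun u hu m hm => ?_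
    rcases mem_insert.mp hm with rfl | hm
    · rw [f9_lnfix (UU_fix (hV2 hu)).1 (UU_fix (hV2 hu)).2]; exact hm
    · rw [mem_singleton.mp hm, f9_lnfix (UU_fix (hV1 hu)).1 (UU_fix (hV1 hu)).2]; simp
  · rw [card_sdiff_of_subset hsub, card_pair hne]
    omega
  · intro y hy hK m hm
    refine h.E6iv hp2 hk hd ha hb hI hy (fun m hm => ?_) m (mem_sdiff.mp hm).1
    by_cases h1 : m ∈ ({ln p G a b, ln p G a z} : Finset (Finset Ω))
    · rcases mem_insert.mp h1 with rfl | h1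
      · exact f9_lnfix (ha y hy) (hb y hy)
      · rw [mem_singleton.mp h1]; exact f9_lnfix (ha y hy) (hz y hy)
    · exact hK m (mem_sdiff.mpr ⟨hm, h1⟩)

end Geo

end Cfsg.Agent.L0.Sy
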