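import Mathlib
import Cfsg.Agent.L0.PnD

/-! S3580, reduction to a Sylow subgroup of prime order: group-theoretic helpers. -/

set_option autoImplicit false

namespace Cfsg.Agent.H9.SyR

open Pointwise

/-- the core statement (Sylow `p`-subgroup of order `p`) -/
def Core (p : ℕ) : Prop :=
  ∀ (G : Type) [Group G] [Finite G] (Ω : Type) [Fintype Ω] [DecidableEq Ω] [MulAction G Ω] (g : G),
    orderOf g = p → ¬ p ^ 2 ∣ Nat.card G → (∀ x y : Ω, ∃ h : G, h • x = y) → (∃ x : Ω, g • x ≠ x) →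
      (2 * p - 1) * (Finset.univ.filter fun x : Ω => g • x = x).card ≤ (p - 1) * Fintype.card Ω

variable {G : Type*} [Group G] {p : ℕ}

theorem mem_smul_syl {P : Sylow p G} {g x : G} : x ∈ g • P ↔ g⁻¹ * x * g ∈ P := by
  change x ∈ ((g • P : Sylow p G) : Subgroup G) ↔ g⁻¹ * x * g ∈ (P : Subgroup G)
  rw [Sylow.coe_subgroup_smul, Subgroup.mem_pointwise_smul_iff_inv_smul_mem]
  simp

variable [Finite G] [Fact p.Prime]

theorem syl_conj {L : Subgroup G} {P R : Sylow p G} (h1 : (P : Subgroup G) ≤ L)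
    (h2 : (R : Subgroup G) ≤ L) : ∃ w ∈ L, w • P = R := by
  obtain ⟨w, hw⟩ := MulAction.exists_smul_eq L (P.subtype h1) (R.subtype h2)
  rw [Sylow.smul_subtype] at hw
  exact ⟨w, w.2, Sylow.subtype_injective hw⟩

theorem syl_le {L Q : Subgroup G} {P : Sylow p G} (h1 : (P : Subgroup G) ≤ L) (hQ : IsPGroup p Q)
    (h2 : Q ≤ L) : ∃ w ∈ L, Q ≤ ((w • P : Sylow p G) : Subgroup G) := by
  have h3 : IsPGroup p (Q.subgroupOf L) := hQ.comap_subtype
  obtain ⟨R, hR⟩ := h3.exists_le_sylow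
  obtain ⟨w, hw⟩ := MulAction.exists_smul_eq L (P.subtype h1) R
  rw [Sylow.smul_subtype] at hw
  refine ⟨w, w.2, fun x hx => ?_⟩
  have : (⟨x, h2 hx⟩ : L) ∈ (R : Subgroup L) := hR (by simpa [Subgroup.mem_subgroupOf] using hx)
  rw [← hw] at this
  exact this

theorem norm_of_idx {P Q : Subgroup G} (hP : IsPGroup p P) (hQ : Q ≤ P) (h : Q.relIndex P = p) :
    P ≤ Subgroup.normalizer (Q : Set G) := by
  have hp : p.Prime := Fact.out
  obtain ⟨k, hk⟩ := IsPGroup.iff_card.mp hP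
  have hd : p ∣ Nat.card P := h ▸ Subgroup.index_dvd_card (Q.subgroupOf P)
  have hk0 : k ≠ 0 := by
    rintro rfl
    rw [hk, pow_zero] at hd
    exact hp.one_lt.ne' (Nat.dvd_one.mp hd)
  have : (Q.subgroupOf P).Normal :=
    Subgroup.normal_of_index_eq_minFac_card (by rw [hk, hp.pow_minFac hk0]; exact h)
  exact (Subgroup.normal_subgroupOf_iff_le_normalizer hQ).mp this

/-- the permutation representation on `Fin n` -/
noncomputable def rep (G : Type*) [Group G] {Ω : Type*} [MulAction G Ω] {n : ℕ} (e : Ω ≃ Fin n) :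
    G →* Equiv.Perm (Fin n) :=
  (Equiv.permCongrHom e).toMonoidHom.comp (MulAction.toPermHom G Ω)

omit [Finite G] in
theorem rep_apply {Ω : Type*} [MulAction G Ω] {n : ℕ} (e : Ω ≃ Fin n) (g : G) (i : Fin n) :
    rep G e g i = e (g • e.symm i) := by
  simp [rep]

theorem core2 (hc : Core p) {Θ : Type*} [Finite Θ] [MulAction G Θ]
    (ht : ∀ x y : Θ, ∃ h : G, h • x = y) (Q : Subgroup G) (hQ : ∀ q ∈ Q, ∀ x : Θ, q • x = x)
    (hi : ¬ p ^ 2 ∣ Q.index) {g : G} (hg : g ^ p ∈ Q) (hm : ∃ x : Θ, g • x ≠ x) :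
    (2 * p - 1) * Nat.card {x : Θ // g • x = x} ≤ (p - 1) * Nat.card Θ := by
  classical
  have hp : p.Prime := Fact.out
  let e : Θ ≃ Fin (Nat.card Θ) := Finite.equivFin Θ
  let φ := rep G e
  have hk : Q ≤ φ.ker := fun q hq => by
    rw [MonoidHom.mem_ker]; ext i; simp [φ, rep_apply, hQ q hq]
  obtain ⟨x, hx⟩ := hm
  let g' : φ.range := ⟨φ g, g, rfl⟩
  have hsm : ∀ (h : φ.range) (i : Fin (Nat.card Θ)), h • i = (h : Equiv.Perm _) i := fun _ _ => rfl
  have hx' : g' • e x ≠ e x := by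
    rw [hsm]; simpa [g', φ, rep_apply] using hx
  have h1 := hc φ.range (Fin (Nat.card Θ)) g' ?_ ?_ ?_ ⟨_, hx'⟩
  · rw [Fintype.card_fin] at h1
    convert h1 using 2
    rw [← Fintype.card_subtype, ← Nat.card_eq_fintype_card]
    refine Nat.card_congr (e.subtypeEquiv fun y => ?_)
    rw [hsm]; simp [g', φ, rep_apply]
  · refine orderOf_eq_prime ?_ ?_
    · apply Subtype.ext
      have := hk hg
      rw [MonoidHom.mem_ker, map_pow] at this
      simpa [g'] using this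
    · rintro h; rw [h] at hx'; exact hx' (one_smul _ _)
  · rw [← Subgroup.index_ker]
    exact fun h => hi (h.trans (Subgroup.index_dvd_of_le hk))
  · intro i j
    obtain ⟨h, hh⟩ := ht (e.symm i) (e.symm j)
    exact ⟨⟨φ h, h, rfl⟩, by rw [hsm]; simp [φ, rep_apply, hh]⟩

/-- S3399 for a Sylow subgroup -/
theorem half {Ω : Type*} [Finite Ω] [MulAction G Ω] (ht : ∀ x y : Ω, ∃ h : G, h • x = y)
    (P : Sylow p G) (hm : ∃ u ∈ P, ∃ x : Ω, u • x ≠ x) :
    2 * Nat.card {x : Ω // ∀ u ∈ P, u • x = x} + 1 ≤ Nat.card Ω := by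
  classical
  let e : Ω ≃ Fin (Nat.card Ω) := Finite.equivFin Ω
  let φ := rep G e
  have h1 := L0.Pn.main (Nat.card Ω) φ.range ?_ ((P : Subgroup G).map φ) (Subgroup.map_le_range _ _) ?_ ?_
  · convert h1 using 3
    refine Nat.card_congr (e.subtypeEquiv fun y => ?_)
    constructor
    · rintro h _ ⟨u, hu, rfl⟩
      simp [φ, rep_apply, h u hu]
    · intro h u hu
      have := h _ ⟨u, hu, rfl⟩
      simpa [φ, rep_apply] using this
  · intro i j
    obtain ⟨h, hh⟩ := ht (e.symm i) (e.symm j)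
    exact ⟨φ h, ⟨h, rfl⟩, by simp [φ, rep_apply, hh]⟩
  · obtain ⟨u, hu, x, hx⟩ := hm
    intro h
    have : φ u ∈ (P : Subgroup G).map φ := ⟨u, hu, rfl⟩
    rw [h, Subgroup.mem_bot] at this
    have h2 : φ u (e x) = e x := by rw [this]; rfl
    exact hx (by simpa [φ, rep_apply] using h2)
  · rintro _ ⟨g, rfl⟩
    have key : ∀ w : G, ((P : Subgroup G).map φ).map (MulAut.conj (φ w)).toMonoidHom =
        ((w • P : Sylow p G) : Subgroup G).map φ := by
      intro w
      ext z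
      constructor
      · rintro ⟨_, ⟨u, hu, rfl⟩, rfl⟩
        exact ⟨w * u * w⁻¹, mem_smul_syl.mpr (by simpa [mul_assoc] using hu), by simp⟩
      · rintro ⟨u, hu, rfl⟩
        exact ⟨_, ⟨_, mem_smul_syl.mp hu, rfl⟩, by simp [mul_assoc]⟩
    obtain ⟨w, hw, e1⟩ := syl_conj (L := (P : Subgroup G) ⊔ ((g • P : Sylow p G) : Subgroup G))
      (P := P) (R := g • P) le_sup_left le_sup_right
    refine ⟨φ w, ?_, by rw [key, key, e1]⟩
    rw [key, ← Subgroup.map_sup]
    exact ⟨w, hw, rfl⟩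

end Cfsg.Agent.H9.SyR
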